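import Cfsg.Statements.S3732
import Cfsg.Agent.H1.PlaneMain

set_option autoImplicit false
open Cfsg

namespace Cfsg.Agent.S3732

/-- The Ostrom–Wagner Theorem. Let Π be a finite projective plane (points P, lines L) whose collineation group is 2-transitive on points: for any two ordered pairs of distinct points there is a permutation of the points, together with a compatible permutation of the lines preserving incidence, carrying the first pair to the second. Then Π is Desarguesian: there is a finite field F and a bijection from P onto the points of the projective plane over F (the 1-dimensional subspaces of F³) under which the lines of Π correspond exactly to the 2-dimensional subspaces of F³. -/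
theorem result
    {P L : Type*} [Membership P L] [Fintype P] [Fintype L] [Configuration.ProjectivePlane P L]
    (h2t : ∀ p₁ p₂ q₁ q₂ : P, p₁ ≠ p₂ → q₁ ≠ q₂ →
      ∃ (σ : Equiv.Perm P) (τ : Equiv.Perm L), (∀ (p : P) (l : L), σ p ∈ τ l ↔ p ∈ l) ∧ σ p₁ = q₁ ∧ σ p₂ = q₂) :
    ∃ (F : Type) (_ : Field F) (_ : Fintype F) (φ : P ≃ Projectivization F (Fin 3 → F)),
      (∀ l : L, ∃ W : Submodule F (Fin 3 → F), Module.finrank F W = 2 ∧
          ∀ p : P, p ∈ l ↔ (φ p).submodule ≤ W) ∧
      (∀ W : Submodule F (Fin 3 → F), Module.finrank F W = 2 →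
          ∃ l : L, ∀ p : P, p ∈ l ↔ (φ p).submodule ≤ W) := by
  let G : Subgroup (Equiv.Perm P × Equiv.Perm L) :=
    { carrier := {g | ∀ (p : P) (l : L), g.1 p ∈ g.2 l ↔ p ∈ l}
      one_mem' := fun _ _ => Iff.rfl
      mul_mem' := fun {a b} ha hb p l => (ha _ _).trans (hb p l)
      inv_mem' := fun {a} ha p l => by
        rw [← ha]
        simp }
  let _ : MulAction G P := MulAction.compHom P ((MonoidHom.fst _ _).comp G.subtype)
  let _ : MulAction G L := MulAction.compHom L ((MonoidHom.snd _ _).comp G.subtype)
  obtain ⟨p₀, -, -, l₀, -⟩ := Configuration.ProjectivePlane.exists_config (P := P) (L := L)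
  have fl : ∀ g : G, (∀ p : P, g • p = p) → ∀ l : L, g • l = l := by
    intro g hg l
    obtain ⟨a, b, hab⟩ := (Finite.one_lt_card_iff_nontrivial (α := {p : P // p ∈ l})).1
      (lt_trans one_lt_two (Configuration.ProjectivePlane.two_lt_pointCount P l))
    have h1 : ∀ p : P, p ∈ l → p ∈ g • l := fun p hp => by
      have := (g.2 p l).2 hp
      rwa [show g.1.1 p = p from hg p] at this
    exact (Configuration.Nondegenerate.eq_or_eq (h1 a a.2) (h1 b b.2) a.2 b.2).resolve_left
      fun e => hab (Subtype.ext e)
  have fp : ∀ g : G, (∀ l : L, g • l = l) → ∀ p : P, g • p = p := by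
    intro g hg p
    obtain ⟨a, b, hab⟩ := (Finite.one_lt_card_iff_nontrivial (α := {l : L // p ∈ l})).1
      (lt_trans one_lt_two (Configuration.ProjectivePlane.two_lt_lineCount L p))
    have h1 : ∀ l : L, p ∈ l → g • p ∈ l := fun l hp => by
      have := (g.2 p l).2 hp
      rwa [show g.1.2 l = l from hg l] at this
    exact (Configuration.Nondegenerate.eq_or_eq (h1 a a.2) a.2 (h1 b b.2) b.2).resolve_right
      fun e => hab (Subtype.ext e)
  let π : CfsgH1.Pl G P L :=
    { I := fun p l => p ∈ l
      n := Configuration.ProjectivePlane.order P L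
      join := fun p q h => ⟨_, Configuration.HasLines.mkLine_ax h⟩
      meet := fun p q h => ⟨_, Configuration.HasPoints.mkPoint_ax h⟩
      uniq := Configuration.Nondegenerate.eq_or_eq
      card_pts := fun l => Configuration.ProjectivePlane.pointCount_eq P l
      card_lns := fun p => Configuration.ProjectivePlane.lineCount_eq L p
      two_le := Configuration.ProjectivePlane.one_lt_order P L
      neP := ⟨p₀⟩
      neL := ⟨l₀⟩
      act := fun g p l => g.2 p l
      faithP := fun g hg => Subtype.ext (Prod.ext (Equiv.ext hg) (Equiv.ext (fl g hg)))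
      faithL := fun g hg => Subtype.ext (Prod.ext (Equiv.ext (fp g hg)) (Equiv.ext hg)) }
  refine π.ostrom_wagner fun {a b c d} hab hcd => ?_
  obtain ⟨σ, τ, h1, h2, h3⟩ := h2t a b c d hab hcd
  exact ⟨⟨(σ, τ), h1⟩, h2, h3⟩

end Cfsg.Agent.S3732
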