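import Cfsg.Statements.S3329
import Cfsg.Agent.H7.Loc5

set_option autoImplicit false
open Cfsg

namespace Cfsg.Agent.S3329

open Subgroup CfsgH5 CfsgH6 CfsgFT CfsgH8 CfsgH7 CfsgH7.F5 CfsgH7.A8c

/-- A 3-local characterization of the alternating group of degree 8. Let G be a finite group whose Sylow 3-subgroup D is elementary abelian of order 9, generated by y and z, and suppose: (i) C_G(D) = D and N_G(D)/D is dihedral of order 8; (ii) D is normal in C_G(y), C_G(y) has order 18, D is normal in N_G(⟨y⟩) and N_G(⟨y⟩)/D is elementary abelian of order 4; (iii) C_G(z) is isomorphic to the direct product of a cyclic group of order 3 and the alternating group of degree 5, and N_G(⟨z⟩) is isomorphic to the subgroup of index 2 of Sym(3) × Sym(5) consisting of the pairs of permutations whose signs agree. Then G is isomorphic to the alternating group of degree 8. -/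
theorem result {G : Type*} [Group G] [Finite G]
    (P : Sylow 3 G) (D : Subgroup G) (hDP : D = P) (y z : G) (hgen : Subgroup.closure {y, z} = D)
    (hcomm : IsMulCommutative D) (hcard : Nat.card D = 9) (hexp : ∀ a ∈ D, a ^ 3 = 1)
    (hC : Subgroup.centralizer (D : Set G) = D)
    (eN : Subgroup.normalizer (D : Set G) ⧸ D.subgroupOf (Subgroup.normalizer (D : Set G)) ≃* DihedralGroup 4)
    (hyn : (D.subgroupOf (Subgroup.centralizer ({y} : Set G))).Normal)
    (hycard : Nat.card (Subgroup.centralizer ({y} : Set G)) = 18)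
    (Ny : Subgroup G) (hNy : Ny = Subgroup.normalizer (Subgroup.zpowers y : Set G))
    (hyN : D ≤ Ny) [hyNn : (D.subgroupOf Ny).Normal]
    (hyNcard : Nat.card (Ny ⧸ D.subgroupOf Ny) = 4) (hyNexp : ∀ g : Ny ⧸ D.subgroupOf Ny, g ^ 2 = 1)
    (eC : Subgroup.centralizer ({z} : Set G) ≃* Multiplicative (ZMod 3) × alternatingGroup (Fin 5))
    (eL : Subgroup.normalizer (Subgroup.zpowers z : Set G) ≃*
      (((Equiv.Perm.sign).comp (MonoidHom.fst (Equiv.Perm (Fin 3)) (Equiv.Perm (Fin 5)))) *
        ((Equiv.Perm.sign).comp (MonoidHom.snd (Equiv.Perm (Fin 3)) (Equiv.Perm (Fin 5))))).ker) :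
    Nonempty (G ≃* alternatingGroup (Fin 8)) := by
  have := Fact.mk Nat.prime_three
  have hS : SylIn 3 D ⊤ := hDP ▸ sylIn_top_of_sylow P
  have hzD : z ∈ D := hgen ▸ subset_closure (by simp)
  have hyD : y ∈ D := hgen ▸ subset_closure (by simp)
  have hz : Nat.card (C1 z) = 180 := by
    rw [C1, Nat.card_congr eC.toEquiv, Nat.card_prod, card_A5]; simp
  have z1 : z ≠ 1 := fun e => by
    have h1 : C1 y ≤ C D := by
      rw [← hgen, e]
      exact fun g hg => mem_centralizer_iff.mpr fun x hx => by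
        have : closure {y, (1 : G)} ≤ C1 g := by
          rw [closure_le]; rintro _ (rfl | rfl)
          exacts [mem_C1.mpr (mem_C1.mp hg).symm, one_mem _]
        exact mem_C1.mp (this hx)
    have h2 := card_le_of_le h1
    rw [show C D = D from hC, hcard, show Nat.card (C1 y) = 18 from hycard] at h2
    omega
  let l : L0 →* G := (N (zpowers z)).subtype.comp eL.symm.toMonoidHom
  have hl : Function.Injective l := Subtype.val_injective.comp eL.symm.injective
  have hr : l.range = N (zpowers z) := by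
    refine le_antisymm (fun g ⟨x, e⟩ => e ▸ (eL.symm x).2) fun g hg => ⟨eL ⟨g, hg⟩, ?_⟩
    exact congrArg Subtype.val (eL.symm_apply_apply ⟨g, hg⟩)
  obtain ⟨x, hx⟩ := hr.ge (le_N _ (mem_zpowers z))
  have x3 : x ^ 3 = 1 := hl (by rw [map_pow, hx, hexp z hzD, map_one])
  have x2 : x.1.2 = 1 := by
    refine norm_five _ (congrArg (fun t : L0 => t.1.2) x3) ?_
    let f : L0 := ⟨(1, finRotate 5), by rw [mem_L0]; decide +kernel⟩
    have h1 := conj_mem_of_mem_N (hr.le ⟨f, rfl⟩) (mem_zpowers z)
    rw [← hx, ← map_inv, ← map_mul, ← map_mul, hx] at h1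
    rcases mem_zpowers_three (hexp z hzD) h1 with e | e | e
    · exact Or.inl (congrArg (fun t : L0 => t.1.2) (hl (e.trans (map_one l).symm)))
    · exact Or.inr (Or.inl (congrArg (fun t : L0 => t.1.2) (hl (e.trans hx.symm))))
    · exact Or.inr (Or.inr (congrArg (fun t : L0 => t.1.2)
        (hl (e.trans (by rw [← hx, map_inv])))))
  have hzz : zpowers (l ζ0) = zpowers z := by
    rcases cube_S3 _ (congrArg (fun t : L0 => t.1.1) x3) with e | e | e
    · exact absurd (by rw [← hx, show x = 1 from Subtype.ext (Prod.ext e x2), map_one]) z1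
    · rw [← hx, show x = ζ0 from Subtype.ext (Prod.ext e x2)]
    · rw [← hx, show x = ζ0⁻¹ from Subtype.ext (Prod.ext e x2), map_inv, zpowers_inv]
  have hb : B9 (l ζ0) (l ω0) := b9_map hl (by decide +kernel) (by decide +kernel)
    (by decide +kernel) (by decide +kernel) (by decide +kernel) (by decide +kernel)
    (by decide +kernel)
  obtain ⟨c, -, hc⟩ := hS.exists_le_cj le_top hb.isPGroup
  have hc' : D9 (l ζ0) (l ω0) = cj c D := eq_of_le_of_card_eq hc (by rw [card_cj, hb.card, hcard])
  have hq : ∀ g : N D, eN g = 1 ↔ g.1 ∈ D := fun g => by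
    rw [MulEquiv.map_eq_one_iff, QuotientGroup.eq_one_iff, mem_subgroupOf]
  refine Hyp.main (l := l) ⟨hl, by rw [hr, hzz], hc' ▸ hS.cj_mem (mem_top c), by
    rw [hc', ← cj_C, show C D = D from hC], ?_, fun g hg => ?_,
    ⟨_, hc' ▸ conj_mem_cj.mpr hyD, by rw [card_C1_conj]; exact hycard⟩,
    by rw [← C_zpowers, hzz, C_zpowers, hz]⟩
  · obtain ⟨q, hq1⟩ := eN.surjective (DihedralGroup.r 1)
    obtain ⟨n, rfl⟩ := QuotientGroup.mk_surjective q
    refine ⟨c * n * c⁻¹, by rw [hc', ← cj_N]; exact conj_mem_cj.mpr n.2, fun e => ?_⟩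
    rw [hc', conj_mul, conj_mem_cj] at e
    have h1 := (hq (n * n)).mpr e
    rw [QuotientGroup.mk_mul, map_mul, hq1] at h1
    exact absurd h1 (by decide)
  · rw [hc', ← cj_N, mem_cj] at hg
    have h1 := (hq (⟨_, hg⟩ ^ 4)).mp (by
      rw [QuotientGroup.mk_pow, map_pow]
      exact (by decide : ∀ a : DihedralGroup 4, a ^ 4 = 1) _)
    rw [hc', mem_cj]
    change (c⁻¹ * g * c) ^ 4 ∈ D at h1
    convert h1 using 1
    simp only [pow_succ]; group

end Cfsg.Agent.S3329
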