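import Cfsg.Statements.S3330
import Cfsg.Agent.H7.Loc10

set_option autoImplicit false
open Cfsg

namespace Cfsg.Agent.S3330

open Subgroup CfsgH5 CfsgH6 CfsgFT CfsgH8 CfsgH7 CfsgH7.F5 CfsgH7.S8c

/-- A 3-local characterization of the symmetric group of degree 8, with one exceptional configuration. Let G be a finite group whose Sylow 3-subgroup D is elementary abelian of order 9, generated by y and z, and suppose: (i) C_G(D) has order 18, N_G(D)/D is isomorphic to the direct product of a dihedral group of order 8 and a group of order 2, and N_G(D)/C_G(D) is dihedral of order 8; (ii) D is normal in C_G(y), C_G(y) has order 36 with every square lying in D, D is normal in N_G(⟨y⟩), and N_G(⟨y⟩) has order 72 with every square lying in D; (iii) C_G(z) is isomorphic to the direct product of a cyclic group of order 3 and Sym(5), and N_G(⟨z⟩) is isomorphic to Sym(3) × Sym(5). Then either G is isomorphic to the symmetric group of degree 8, or the generalized Fitting subgroup of G is a minimal normal subgroup isomorphic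 to Alt(5) × Alt(5) of index 4 with every square of G lying in it. -/
theorem result {G : Type*} [Group G] [Finite G]
    (P : Sylow 3 G) (D : Subgroup G) (hDP : D = P) (y z : G) (hgen : Subgroup.closure {y, z} = D)
    (hcomm : IsMulCommutative D) (hcard : Nat.card D = 9) (hexp : ∀ a ∈ D, a ^ 3 = 1)
    (hC : Nat.card (Subgroup.centralizer (D : Set G)) = 18)
    (eN : Subgroup.normalizer (D : Set G) ⧸ D.subgroupOf (Subgroup.normalizer (D : Set G)) ≃* DihedralGroup 4 × Multiplicative (ZMod 2))
    [hcn : ((Subgroup.centralizer (D : Set G)).subgroupOf (Subgroup.normalizer (D : Set G))).Normal]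
    (eNC : Subgroup.normalizer (D : Set G) ⧸ (Subgroup.centralizer (D : Set G)).subgroupOf (Subgroup.normalizer (D : Set G)) ≃* DihedralGroup 4)
    (hyn : (D.subgroupOf (Subgroup.centralizer ({y} : Set G))).Normal)
    (hycard : Nat.card (Subgroup.centralizer ({y} : Set G)) = 36)
    (hysq : ∀ g ∈ Subgroup.centralizer ({y} : Set G), g ^ 2 ∈ D)
    (Ny : Subgroup G) (hNy : Ny = Subgroup.normalizer (Subgroup.zpowers y : Set G))
    (hyNn : (D.subgroupOf Ny).Normal) (hyNcard : Nat.card Ny = 72) (hyNsq : ∀ g ∈ Ny, g ^ 2 ∈ D)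
    (eC : Subgroup.centralizer ({z} : Set G) ≃* Multiplicative (ZMod 3) × Equiv.Perm (Fin 5))
    (eL : Subgroup.normalizer (Subgroup.zpowers z : Set G) ≃* Equiv.Perm (Fin 3) × Equiv.Perm (Fin 5)) :
    Nonempty (G ≃* Equiv.Perm (Fin 8)) ∨
      ∃ N : Subgroup G, N.Normal ∧ Cfsg.generalizedFittingSubgroup G = N ∧
        Nonempty (N ≃* alternatingGroup (Fin 5) × alternatingGroup (Fin 5)) ∧
        (∀ K : Subgroup G, K.Normal → K ≤ N → K = ⊥ ∨ K = N) ∧
        N.index = 4 ∧ ∀ g : G, g ^ 2 ∈ N := by
  have := Fact.mk Nat.prime_three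
  have hS : SylIn 3 D ⊤ := hDP ▸ sylIn_top_of_sylow P
  have hzD : z ∈ D := hgen ▸ subset_closure (by simp)
  have hyD : y ∈ D := hgen ▸ subset_closure (by simp)
  have hab : ∀ a ∈ D, D ≤ C1 a := fun a ha b hb => mem_C1.mpr
    (congrArg Subtype.val (hcomm.is_comm.comm ⟨b, hb⟩ ⟨a, ha⟩))
  have hz : Nat.card (C1 z) = 360 := by
    rw [C1, Nat.card_congr eC.toEquiv, Nat.card_prod, Nat.card_perm]; simp; rfl
  have z1 : z ≠ 1 := fun e => by
    have h1 : C1 y ≤ C D := by
      rw [← hgen, e]
      exact fun g hg => mem_centralizer_iff.mpr fun x hx => by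
        have : closure {y, (1 : G)} ≤ C1 g := by
          rw [closure_le]; rintro _ (rfl | rfl)
          exacts [mem_C1.mpr (mem_C1.mp hg).symm, one_mem _]
        exact mem_C1.mp (this hx)
    have h2 := card_le_of_le h1
    rw [show Nat.card (C D) = 18 from hC, show Nat.card (C1 y) = 36 from hycard] at h2
    omega
  let l : S3 × S5 →* G := (N (zpowers z)).subtype.comp eL.symm.toMonoidHom
  have hl : Function.Injective l := Subtype.val_injective.comp eL.symm.injective
  have hr : l.range = N (zpowers z) := by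
    refine le_antisymm (fun g ⟨x, e⟩ => e ▸ (eL.symm x).2) fun g hg => ⟨eL ⟨g, hg⟩, ?_⟩
    exact congrArg Subtype.val (eL.symm_apply_apply ⟨g, hg⟩)
  obtain ⟨x, hx⟩ := hr.ge (le_N _ (mem_zpowers z))
  have x3 : x ^ 3 = 1 := hl (by rw [map_pow, hx, hexp z hzD, map_one])
  have x2 : x.2 = 1 := by
    refine norm_five _ (congrArg Prod.snd x3) ?_
    let f : S3 × S5 := (1, finRotate 5)
    have h1 := conj_mem_of_mem_N (hr.le ⟨f, rfl⟩) (mem_zpowers z)
    rw [← hx, ← map_inv, ← map_mul, ← map_mul, hx] at h1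
    rcases mem_zpowers_three (hexp z hzD) h1 with e | e | e
    · exact Or.inl (congrArg Prod.snd (hl (e.trans (map_one l).symm)))
    · exact Or.inr (Or.inl (congrArg Prod.snd (hl (e.trans hx.symm))))
    · exact Or.inr (Or.inr (congrArg Prod.snd (hl (e.trans (by rw [← hx, map_inv])))))
  have hzz : zpowers (l z0) = zpowers z := by
    rcases cube_S3 _ (congrArg Prod.fst x3) with e | e | e
    · exact absurd (by rw [← hx, show x = 1 from Prod.ext e x2, map_one]) z1
    · rw [← hx, show x = z0 from Prod.ext e x2]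
    · rw [← hx, show x = z0⁻¹ from Prod.ext e x2, map_inv, zpowers_inv]
  have hb : B9 (l z0) (l w0) := b9_map hl (by decide +kernel) (by decide +kernel)
    (by decide +kernel) (by decide +kernel) (by decide +kernel) (by decide +kernel)
    (by decide +kernel)
  obtain ⟨c, -, hc⟩ := hS.exists_le_cj le_top hb.isPGroup
  have hc' : D9 (l z0) (l w0) = cj c D := eq_of_le_of_card_eq hc (by rw [card_cj, hb.card, hcard])
  have hyp : Hyp l := by
    refine ⟨hl, by rw [hr, hzz], hc' ▸ hS.cj_mem (mem_top c), by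
      rw [hc', ← cj_C, card_cj]; exact hC, ?_, ⟨_, hc' ▸ conj_mem_cj.mpr hyD,
        by rw [card_C1_conj]; exact hycard, ?_, ?_⟩, by rw [← C_zpowers, hzz, C_zpowers, hz]⟩
    · rw [hc', ← cj_N, ← cj_C]
      refine ⟨(eNC.toMonoidHom.comp (QuotientGroup.mk' _)).comp (cjEquiv c (N D)).symm.toMonoidHom,
        (eNC.surjective.comp (QuotientGroup.mk'_surjective _)).comp (cjEquiv c (N D)).symm.surjective,
        fun g => ?_⟩
      obtain ⟨g, rfl⟩ := (cjEquiv c _).surjective g
      rw [MonoidHom.comp_apply, MulEquiv.coe_toMonoidHom, MulEquiv.symm_apply_apply,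
        MonoidHom.comp_apply, MulEquiv.coe_toMonoidHom, MulEquiv.map_eq_one_iff,
        QuotientGroup.mk'_apply, QuotientGroup.eq_one_iff, mem_subgroupOf]
      exact conj_mem_cj.symm
    · rw [hc', ← cj_N, ← cj_C1]
      exact cj_mono fun g hg => mem_N_of_conj fun d hd =>
        hyn.conj_mem ⟨d, hab y hyD hd⟩ hd ⟨g, hg⟩
    · rw [hc', ← cj_C1]
      intro g hg
      have h1 := hysq _ (mem_cj.mp hg)
      rw [mem_cj]
      convert h1 using 1
      rw [pow_two]; group
  obtain ⟨σ, ε, h⟩ := hyp.exists_cfg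
  fin_cases ε
  exacts [Or.inl h.caseT, Or.inr h.caseE]

end Cfsg.Agent.S3330
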