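import Cfsg.Statements.S3335
import Cfsg.Agent.H9.CoxeterSn

set_option autoImplicit false
open Cfsg

namespace CfsgH9.AltPres

open Equiv

/-- The relations of the presentation. -/
def rels (k : ℕ) : Set (FreeGroup (Fin k)) :=
  ({g : FreeGroup (Fin k) | ∃ i : Fin k, i.val = 0 ∧ g = FreeGroup.of i ^ 3} ∪
       {g | ∃ i : Fin k, 1 ≤ i.val ∧ g = FreeGroup.of i ^ 2} ∪
       {g | ∃ i j : Fin k, j.val = i.val + 1 ∧ g = (FreeGroup.of i * FreeGroup.of j) ^ 3} ∪
       {g | ∃ i j : Fin k, i.val + 1 < j.val ∧ g = (FreeGroup.of i * FreeGroup.of j) ^ 2})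

theorem rels_of {k : ℕ} {H : Type*} [Group H] (f : Fin k → H)
    (h1 : ∀ i : Fin k, i.val = 0 → f i ^ 3 = 1) (h2 : ∀ i : Fin k, 1 ≤ i.val → f i ^ 2 = 1)
    (h3 : ∀ i j : Fin k, j.val = i.val + 1 → (f i * f j) ^ 3 = 1)
    (h4 : ∀ i j : Fin k, i.val + 1 < j.val → (f i * f j) ^ 2 = 1) :
    ∀ r ∈ rels k, FreeGroup.lift f r = 1 := by
  rintro r (((⟨i, hi, rfl⟩ | ⟨i, hi, rfl⟩) | ⟨i, j, hij, rfl⟩) | ⟨i, j, hij, rfl⟩)
  · simpa using h1 i hi
  · simpa using h2 i hi
  · simpa using h3 i j hij
  · simpa using h4 i j hij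

abbrev P (k : ℕ) := PresentedGroup (rels k)

abbrev x {k : ℕ} (i : Fin k) : P k := PresentedGroup.of i

theorem x1 {k : ℕ} (i : Fin k) (hi : i.val = 0) : x i ^ 3 = 1 := by
  have := PresentedGroup.one_of_mem (rels := rels k) (x := FreeGroup.of i ^ 3)
    (Or.inl (Or.inl (Or.inl ⟨i, hi, rfl⟩)))
  rwa [map_pow] at this

theorem x2 {k : ℕ} (i : Fin k) (hi : 1 ≤ i.val) : x i ^ 2 = 1 := by
  have := PresentedGroup.one_of_mem (rels := rels k) (x := FreeGroup.of i ^ 2)
    (Or.inl (Or.inl (Or.inr ⟨i, hi, rfl⟩)))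
  rwa [map_pow] at this

theorem x3 {k : ℕ} (i j : Fin k) (hij : j.val = i.val + 1) : (x i * x j) ^ 3 = 1 := by
  have := PresentedGroup.one_of_mem (rels := rels k) (x := (FreeGroup.of i * FreeGroup.of j) ^ 3)
    (Or.inl (Or.inr ⟨i, j, hij, rfl⟩))
  rwa [map_pow, map_mul] at this

theorem x4 {k : ℕ} (i j : Fin k) (hij : i.val + 1 < j.val) : (x i * x j) ^ 2 = 1 := by
  have := PresentedGroup.one_of_mem (rels := rels k) (x := (FreeGroup.of i * FreeGroup.of j) ^ 2)
    (Or.inr ⟨i, j, hij, rfl⟩)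
  rwa [map_pow, map_mul] at this

theorem x_inv {k : ℕ} (i : Fin k) (hi : 1 ≤ i.val) : (x i)⁻¹ = x i :=
  inv_eq_of_mul_eq_one_left (by rw [← pow_two]; exact x2 i hi)

theorem inv_mul_pow_aux {H : Type*} [Group H] (a b : H) (hb : b⁻¹ = b) (m : ℕ)
    (h : (a * b) ^ m = 1) : (a⁻¹ * b⁻¹) ^ m = 1 := by
  have h1 : (a⁻¹ * b⁻¹) = b * (a * b)⁻¹ * b⁻¹ := by
    rw [mul_inv_rev, hb]
    have : b * b = 1 := by nth_rewrite 1 [← hb]; exact inv_mul_cancel b
    rw [← mul_assoc, this, one_mul]
  rw [h1, conj_pow, inv_pow, h]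
  simp

/-- The automorphism inverting all generators. -/
def sig (k : ℕ) : P k →* P k :=
  PresentedGroup.toGroup (f := fun i => (x i)⁻¹) (rels_of _
    (fun i hi => by rw [inv_pow, x1 i hi, inv_one])
    (fun i hi => by rw [inv_pow, x2 i hi, inv_one])
    (fun i j hij => inv_mul_pow_aux _ _ (x_inv j (by omega)) _ (x3 i j hij))
    (fun i j hij => inv_mul_pow_aux _ _ (x_inv j (by omega)) _ (x4 i j hij)))

theorem sig_x {k : ℕ} (i : Fin k) : sig k (x i) = (x i)⁻¹ := PresentedGroup.toGroup.of _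

theorem sig_sig {k : ℕ} (g : P k) : sig k (sig k g) = g := by
  have : (sig k).comp (sig k) = MonoidHom.id _ := by
    apply PresentedGroup.ext
    intro i
    simp [sig_x]
  exact DFunLike.congr_fun this g

def sigE (k : ℕ) : MulAut (P k) :=
  { toFun := sig k, invFun := sig k, left_inv := sig_sig, right_inv := sig_sig,
    map_mul' := map_mul _ }

theorem sigE_mul_self (k : ℕ) : sigE k * sigE k = 1 := by
  ext g; exact sig_sig g

def act (k : ℕ) : ℤˣ →* MulAut (P k) where
  toFun u := if u = 1 then 1 else sigE k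
  map_one' := by simp
  map_mul' u v := by
    rcases Int.units_eq_one_or u with rfl | rfl <;> rcases Int.units_eq_one_or v with rfl | rfl <;>
      simp [sigE_mul_self]

theorem act_neg (k : ℕ) (g : P k) : act k (-1) g = sig k g := by
  have : act k (-1) = sigE k := by simp [act]
  rw [this]; rfl

abbrev Q (k : ℕ) := P k ⋊[act k] ℤˣ

def t (k : ℕ) : Q k := SemidirectProduct.inr (-1)

def y {k : ℕ} (g : P k) : Q k := SemidirectProduct.inl g

theorem t_mul_t (k : ℕ) : t k * t k = 1 := by
  unfold t; rw [← map_mul]; simp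

theorem y_mul {k : ℕ} (a b : P k) : y (a * b) = y a * y b := map_mul _ _ _

theorem y_one {k : ℕ} : y (1 : P k) = 1 := map_one _

theorem y_t {k : ℕ} (a : P k) : y a * t k = t k * y (sig k a) := by
  unfold y t
  ext
  · simp [act_neg, sig_sig]
  · simp

/-- Coxeter generators of the semidirect product. -/
def s (k : ℕ) : ℕ → Q k
  | 0 => t k
  | i + 1 => if h : i < k then t k * y (x ⟨i, h⟩) else 1

theorem s_succ {k i : ℕ} (h : i < k) : s k (i + 1) = t k * y (x ⟨i, h⟩) := dif_pos h

theorem tyty {k : ℕ} (a b : P k) : t k * y a * (t k * y b) = y (sig k a * b) := by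
  rw [mul_assoc, ← mul_assoc (y a), y_t, ← mul_assoc, ← mul_assoc, t_mul_t, one_mul, y_mul]

theorem braid_of_pow {H : Type*} [Group H] {a b : H} (ha : a * a = 1) (hb : b * b = 1)
    (h : (a * b) ^ 3 = 1) : a * b * a = b * a * b := by
  have h1 : a⁻¹ = a := inv_eq_of_mul_eq_one_left ha
  have h2 : b⁻¹ = b := inv_eq_of_mul_eq_one_left hb
  have : a * b * a = (b * a * b)⁻¹ := by
    rw [eq_inv_iff_mul_eq_one, ← h, pow_succ, pow_two]; simp only [mul_assoc]
  rw [this, mul_inv_rev, mul_inv_rev, h1, h2, mul_assoc]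

theorem comm_of_pow {H : Type*} [Group H] {a b : H} (ha : a * a = 1) (hb : b * b = 1)
    (h : (a * b) ^ 2 = 1) : a * b = b * a := by
  have h1 : a⁻¹ = a := inv_eq_of_mul_eq_one_left ha
  have h2 : b⁻¹ = b := inv_eq_of_mul_eq_one_left hb
  have : a * b = (a * b)⁻¹ := by
    rw [eq_inv_iff_mul_eq_one, ← h, pow_two]
  rw [this, mul_inv_rev, h1, h2]

theorem y_pow {k : ℕ} (a : P k) (m : ℕ) : y (a ^ m) = y a ^ m := map_pow _ _ _

theorem coxRel_s (k : ℕ) : CoxRel (s k) (k + 1) := by
  have hsq : ∀ i, i < k + 1 → s k i * s k i = 1 := by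
    intro i hi
    rcases i with _ | i
    · exact t_mul_t k
    · rw [s_succ (by omega : i < k), tyty, sig_x, inv_mul_cancel, y_one]
  have h0 : ∀ a : P k, s k 0 * (t k * y a) = y a := by
    intro a
    change t k * _ = _
    rw [← mul_assoc, t_mul_t, one_mul]
  refine ⟨hsq, fun i hi => ?_, fun i j hij hj => ?_⟩
  · apply braid_of_pow (hsq _ (by omega)) (hsq _ hi)
    rcases i with _ | i
    · rw [s_succ (by omega : 0 < k), h0, ← y_pow, x1 _ rfl, y_one]
    · rw [s_succ (by omega : i < k), s_succ (by omega : i + 1 < k), tyty, sig_x, ← y_pow]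
      have h := inv_mul_pow_aux _ _ (x_inv (⟨i + 1, by omega⟩ : Fin k) (by simp)) _
        (x3 (⟨i, by omega⟩ : Fin k) ⟨i + 1, by omega⟩ rfl)
      rw [x_inv (⟨i + 1, by omega⟩ : Fin k) (by simp)] at h
      rw [h, y_one]
  · apply comm_of_pow (hsq _ (by omega)) (hsq _ hj)
    obtain ⟨j, rfl⟩ : ∃ j', j = j' + 1 := ⟨j - 1, by omega⟩
    rcases i with _ | i
    · rw [s_succ (by omega : j < k), h0, ← y_pow, x2 _ (by simp; omega), y_one]
    · rw [s_succ (by omega : i < k), s_succ (by omega : j < k), tyty, sig_x, ← y_pow]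
      have h := inv_mul_pow_aux _ _ (x_inv (⟨j, by omega⟩ : Fin k) (by simp; omega)) _
        (x4 (⟨i, by omega⟩ : Fin k) ⟨j, by omega⟩ (by simp; omega))
      rw [x_inv (⟨j, by omega⟩ : Fin k) (by simp; omega)] at h
      rw [h, y_one]

theorem finite_card_P (k : ℕ) :
    Finite (P k) ∧ Nat.card (P k) ≤ Nat.card (alternatingGroup (Fin (k + 2))) := by
  obtain ⟨Φ, hΦ⟩ := (coxRel_s k).exists_hom
  let f : alternatingGroup (Fin (k + 2)) → P k := fun a => (Φ a).left
  have hf : Function.Surjective f := by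
    intro g
    have : ∃ a : alternatingGroup (Fin (k + 2)), Φ a = y g := by
      have hg : g ∈ Subgroup.closure (Set.range (PresentedGroup.of : Fin k → P k)) := by
        rw [PresentedGroup.closure_range_of]; trivial
      induction hg using Subgroup.closure_induction with
      | mem g hg =>
        obtain ⟨i, rfl⟩ := hg
        refine ⟨⟨adjSwap (k + 1) 0 * adjSwap (k + 1) (i + 1), ?_⟩, ?_⟩
        · rw [Perm.mem_alternatingGroup, map_mul, adjSwap_of_lt (by omega),
            adjSwap_of_lt (by have := i.2; omega), Perm.sign_swap (by simp),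
            Perm.sign_swap (by simp)]
          simp
        · simp only [map_mul]
          rw [hΦ 0 (by omega), hΦ (i + 1) (by have := i.2; omega), s_succ i.2]
          change t k * _ = _
          rw [← mul_assoc, t_mul_t, one_mul]
      | one => exact ⟨1, by simp [y_one]⟩
      | mul a b _ _ ha hb =>
        obtain ⟨a', ha'⟩ := ha
        obtain ⟨b', hb'⟩ := hb
        exact ⟨a' * b', by simp [ha', hb', y_mul]⟩
      | inv a _ ha =>
        obtain ⟨a', ha'⟩ := ha
        refine ⟨a'⁻¹, ?_⟩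
        simp only [InvMemClass.coe_inv, map_inv, ha']
        exact (map_inv _ _).symm
    obtain ⟨a, ha⟩ := this
    refine ⟨a, ?_⟩
    simp only [f, ha, y, SemidirectProduct.left_inl]
  exact ⟨Finite.of_surjective f hf, Nat.card_le_card_of_surjective f hf⟩

/-- The map to the symmetric group. -/
def toSym (k : ℕ) : P k →* Perm (Fin (k + 2)) :=
  PresentedGroup.toGroup (f := fun i : Fin k => adjSwap (k + 1) 0 * adjSwap (k + 1) (i + 1)) (by
    have hA := coxRel_adjSwap (k + 1)
    have hc : ∀ j, 1 ≤ j → j < k → Commute (adjSwap (k + 1) 0) (adjSwap (k + 1) (j + 1)) :=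
      fun j h1 h2 => hA.comm 0 (j + 1) (by omega) (by omega)
    have h0 := hA.sq 0 (by omega)
    have key : ∀ i j, 1 ≤ j → j < k → adjSwap (k + 1) 0 * adjSwap (k + 1) (i + 1) *
        (adjSwap (k + 1) 0 * adjSwap (k + 1) (j + 1)) = adjSwap (k + 1) 0 *
          (adjSwap (k + 1) (i + 1) * adjSwap (k + 1) (j + 1)) * (adjSwap (k + 1) 0)⁻¹ := by
      intro i j h1 h2
      rw [(hc j h1 h2).eq, inv_eq_of_mul_eq_one_left h0]
      simp only [mul_assoc]
    have hb : ∀ i, i + 1 < k + 1 →
        (adjSwap (k + 1) i * adjSwap (k + 1) (i + 1)) ^ 3 = 1 := by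
      intro i hi
      have h1 := hA.braid i hi
      have h2 := hA.sq i (by omega)
      have h3 := hA.sq (i + 1) hi
      calc (adjSwap (k + 1) i * adjSwap (k + 1) (i + 1)) ^ 3
          = (adjSwap (k + 1) i * adjSwap (k + 1) (i + 1) * adjSwap (k + 1) i) *
            (adjSwap (k + 1) (i + 1) * adjSwap (k + 1) i * adjSwap (k + 1) (i + 1)) := by
            rw [pow_succ, pow_two]; simp only [mul_assoc]
        _ = 1 := by
          rw [← h1]
          calc _ = adjSwap (k + 1) i * (adjSwap (k + 1) (i + 1) *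
              (adjSwap (k + 1) i * adjSwap (k + 1) i) * adjSwap (k + 1) (i + 1)) *
              adjSwap (k + 1) i := by simp only [mul_assoc]
            _ = 1 := by rw [h2, mul_one, h3, mul_one, h2]
    have hcm : ∀ i j, i + 1 < j → j < k + 1 →
        (adjSwap (k + 1) i * adjSwap (k + 1) j) ^ 2 = 1 := by
      intro i j hij hj
      have hcc : Commute (adjSwap (k + 1) i) (adjSwap (k + 1) j) := hA.comm i j hij hj
      rw [hcc.mul_pow, pow_two, pow_two, hA.sq i (by omega), hA.sq j hj, one_mul]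
    apply rels_of
    · intro i hi
      rw [hi]
      exact hb 0 (by have := i.2; omega)
    · intro i hi
      exact hcm 0 (i + 1) (by omega) (by have := i.2; omega)
    · intro i j hij
      rw [key i j (by omega) j.2, conj_pow, hij, hb (i + 1) (by have := j.2; omega)]
      simp
    · intro i j hij
      rw [key i j (by omega) j.2, conj_pow, hcm (i + 1) (j + 1) (by omega) (by have := j.2; omega)]
      simp)

theorem toSym_x {k : ℕ} (i : Fin k) :
    toSym k (x i) = adjSwap (k + 1) 0 * adjSwap (k + 1) (i + 1) := PresentedGroup.toGroup.of _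

theorem sign_adjSwap {k i : ℕ} (hi : i < k) : Perm.sign (adjSwap k i) = -1 := by
  rw [adjSwap_of_lt hi, Perm.sign_swap (by simp)]

theorem range_toSym (k : ℕ) : (toSym k).range = alternatingGroup (Fin (k + 2)) := by
  have hA := coxRel_adjSwap (k + 1)
  have hle : (toSym k).range ≤ alternatingGroup (Fin (k + 2)) := by
    rw [MonoidHom.range_eq_map, ← PresentedGroup.closure_range_of, MonoidHom.map_closure,
      Subgroup.closure_le]
    rintro _ ⟨_, ⟨i, rfl⟩, rfl⟩
    rw [toSym_x, SetLike.mem_coe, Perm.mem_alternatingGroup, map_mul, sign_adjSwap (by omega),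
      sign_adjSwap (by have := i.2; omega)]
    simp
  refine le_antisymm hle fun a ha => ?_
  have h0 : ∀ i, i < k + 1 → adjSwap (k + 1) 0 * adjSwap (k + 1) i ∈ (toSym k).range := by
    intro i hi
    rcases i with _ | i
    · rw [hA.sq 0 hi]; exact one_mem _
    · exact ⟨x ⟨i, by omega⟩, toSym_x _⟩
  have key : ∀ g : Perm (Fin (k + 2)),
      g ∈ (toSym k).range ∨ adjSwap (k + 1) 0 * g ∈ (toSym k).range := by
    intro g
    have hg : g ∈ Submonoid.closure (adjSwap (k + 1) '' {i | i < k + 1}) := by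
      rw [mclosure_adjSwap]; trivial
    induction hg using Submonoid.closure_induction_left with
    | one => exact Or.inl (one_mem _)
    | mul_left u hu g _ ih =>
      obtain ⟨i, hi, rfl⟩ := hu
      rcases ih with ih | ih
      · right
        rw [← mul_assoc]
        exact mul_mem (h0 i hi) ih
      · left
        have := mul_mem (inv_mem (h0 i hi)) ih
        rwa [mul_inv_rev, mul_assoc, inv_mul_cancel_left,
          inv_eq_of_mul_eq_one_left (hA.sq i hi)] at this
  rcases key a with h | h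
  · exact h
  · exfalso
    have h1 := hle h
    rw [Perm.mem_alternatingGroup] at ha h1
    rw [map_mul, ha, sign_adjSwap (by omega)] at h1
    simp at h1

theorem main (k : ℕ) : Nonempty (P k ≃* alternatingGroup (Fin (k + 2))) := by
  obtain ⟨hfin, hcard⟩ := finite_card_P k
  let p : P k →* alternatingGroup (Fin (k + 2)) :=
    (toSym k).codRestrict _ (fun g => range_toSym k ▸ ⟨g, rfl⟩)
  have hsurj : Function.Surjective p := by
    rintro ⟨a, ha⟩
    rw [← range_toSym] at ha
    obtain ⟨g, rfl⟩ := ha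
    exact ⟨g, rfl⟩
  exact ⟨MulEquiv.ofBijective p (hsurj.bijective_of_nat_card_le hcard)⟩

end CfsgH9.AltPres

namespace Cfsg.Agent.S3335

/-- A presentation of the alternating group of degree n ≥ 3 on generators x_1, …, x_{n−2} (indexed here by 0, …, n−3): the first generator cubes to 1, every other generator squares to 1, the product of two consecutive generators has order dividing 3, and the product of two generators at distance at least 2 has order dividing 2. The group so presented is isomorphic to the alternating group of degree n. -/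
theorem result (n : ℕ) (hn : 3 ≤ n) :
    Nonempty (PresentedGroup
      ({g : FreeGroup (Fin (n - 2)) | ∃ i : Fin (n - 2), i.val = 0 ∧ g = FreeGroup.of i ^ 3} ∪
       {g | ∃ i : Fin (n - 2), 1 ≤ i.val ∧ g = FreeGroup.of i ^ 2} ∪
       {g | ∃ i j : Fin (n - 2), j.val = i.val + 1 ∧ g = (FreeGroup.of i * FreeGroup.of j) ^ 3} ∪
       {g | ∃ i j : Fin (n - 2), i.val + 1 < j.val ∧ g = (FreeGroup.of i * FreeGroup.of j) ^ 2})
      ≃* alternatingGroup (Fin n)) := by
  obtain ⟨k, rfl⟩ : ∃ k, n = k + 2 := ⟨n - 2, by omega⟩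
  exact CfsgH9.AltPres.main k

end Cfsg.Agent.S3335
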