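import Cfsg.Statements.S3341
import Cfsg.Agent.H8.CC9

set_option autoImplicit false
open Cfsg

namespace Cfsg.Agent.S3341

/-- Let G be a finite simple group whose Sylow 3-subgroup S is elementary abelian of order 9, such that G has more than one conjugacy class of elements of order 3 and C_G(s) = S for every non-identity s in S. Then G is isomorphic to the alternating group of degree 6. -/
theorem result {G : Type*} [Group G] [Finite G] [IsSimpleGroup G]
    (P : Sylow 3 G) (S : Subgroup G) (hSP : S = P) (hcomm : IsMulCommutative S) (hexp : ∀ a ∈ S, a ^ 3 = 1)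
    (hcard : Nat.card S = 9)
    (hclasses : ∃ a b : G, orderOf a = 3 ∧ orderOf b = 3 ∧ ∀ g : G, g * a * g⁻¹ ≠ b)
    (hcent : ∀ s ∈ S, s ≠ 1 → Subgroup.centralizer ({s} : Set G) = S) :
    Nonempty (G ≃* alternatingGroup (Fin 6)) := by
  have h : CfsgH8.CC9 S := ⟨hcard, hexp, hcent⟩
  obtain ⟨a, b, ha, hb, hab⟩ := hclasses
  obtain ⟨g, hg⟩ := h.exists_conj_mem (s := a) (ha ▸ pow_orderOf_eq_one a)
  obtain ⟨g', hg'⟩ := h.exists_conj_mem (s := b) (hb ▸ pow_orderOf_eq_one b)
  have ha1 : a ≠ 1 := by rintro rfl; simp at ha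
  have hb1 : b ≠ 1 := by rintro rfl; simp at hb
  refine (h.normal_or_alt6 hg hg' (by simpa using ha1) (by simpa using hb1) fun e => ?_).resolve_left
    fun hn => ?_
  · obtain ⟨c, hc⟩ := isConj_iff.mp (((isConj_iff.mpr ⟨g, rfl⟩).trans e).trans
      (isConj_iff.mpr ⟨g', rfl⟩).symm)
    exact hab c hc
  · obtain ⟨x, hx, y, hy, hx1, hxy⟩ := h.exists_two
    rcases hn.eq_bot_or_eq_top with e | e
    · exact hx1 (Subgroup.mem_bot.mp (e ▸ hx))
    · have : (Subgroup.zpowers x).Normal := ⟨fun n hn g => by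
        rwa [h.comm (a := g) (b := n) (e ▸ Subgroup.mem_top g) (e ▸ Subgroup.mem_top n), mul_inv_cancel_right]⟩
      rcases this.eq_bot_or_eq_top with e' | e'
      · exact hx1 (Subgroup.zpowers_eq_bot.mp e')
      · exact hxy (e' ▸ Subgroup.mem_top y)

end Cfsg.Agent.S3341
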