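import Cfsg.Statements.S3347
import Cfsg.Agent.H6.ST3

set_option autoImplicit false
open Cfsg

namespace Cfsg.Agent.S3347

/-- Let G be a finite group, p an odd prime, and P an abelian, non-cyclic Sylow p-subgroup of G with [N_G(P) : C_G(P)] = 2. Then either O^p(G) is a proper subgroup of G, or G has p-length 1 (G = O_{p',p,p'}(G)). -/
theorem result {G : Type*} [Group G] [Finite G]
    (p : ℕ) [Fact p.Prime] (hp : p ≠ 2) (P : Sylow p G) (hab : IsMulCommutative (P : Subgroup G)) (hnc : ¬ IsCyclic (P : Subgroup G))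
    (hidx : ((Subgroup.centralizer ((P : Subgroup G) : Set G)).subgroupOf (Subgroup.normalizer ((P : Subgroup G) : Set G))).index = 2) :
    Cfsg.pResidual p G ≠ ⊤ ∨ Cfsg.PLengthLE p 1 G := by
  open CfsgSZ CfsgFT CfsgH6 CfsgH5 Subgroup in
  have hpp : p.Prime := Fact.out
  refine or_iff_not_imp_left.mpr fun h => ?_
  push Not at h
  have hS := sylIn_top_of_sylow P
  have hA : Ab (P : Subgroup G) := fun x hx y hy =>
    congrArg Subtype.val (hab.is_comm.comm ⟨y, hy⟩ ⟨x, hx⟩)
  have h1 : (P : Subgroup G) ≤ D ⊤ := hS.le_D hpp fun hd => by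
    obtain ⟨L, -, h2, h3⟩ := exists_normalIn_relIndex_eq_of_D hpp hd
    have h4 : pResidual p G ≤ L := (closure_le L).mpr fun g hg =>
      ((piE_compl_single hpp).mpr hg).mem_of_relIndex (mem_top g) h2.nrm (by
        rw [h3, compl_compl]
        intro q hq hd
        exact (Nat.prime_dvd_prime_iff_eq hq hpp).mp hd)
    rw [h, top_le_iff] at h4
    rw [h4, relIndex_self] at h3
    exact hpp.one_lt.ne h3
  have h2 := (hS.dp_of_ab hpp hA).inf
  rw [inf_eq_left.mpr h1, ← inf_assoc, inf_idem, top_inf_eq] at h2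
  have h3 : ∀ n ∈ N (P : Subgroup G), n ∉ C (P : Subgroup G) → ∀ x ∈ (P : Subgroup G),
      n * x * n⁻¹ = x⁻¹ := by
    intro n hn hn' x hx
    have hx' : n * x * n⁻¹ ∈ (P : Subgroup G) := (mem_normalizer_iff.mp hn x).mp hx
    have key : ∀ m ∈ N (P : Subgroup G), m ∉ C (P : Subgroup G) → m * n ∈ C (P : Subgroup G) :=
      fun m hm hm' => (mul_mem_iff_of_index_two hidx (a := ⟨m, hm⟩) (b := ⟨n, hn⟩)).mpr
        (iff_of_false hm' hn')
    have h4 : x * (n * x * n⁻¹) ∈ (P : Subgroup G) ⊓ C (N (P : Subgroup G)) := by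
      refine ⟨mul_mem hx hx', fun m hm => mem_centralizer_singleton_iff.mp ?_⟩
      have e1 : ∀ c ∈ C (P : Subgroup G), c ∈ C1 (x * (n * x * n⁻¹)) := fun c hc =>
        mem_centralizer_singleton_iff.mpr (hc _ (mul_mem hx hx')).symm
      by_cases hm' : m ∈ C (P : Subgroup G)
      · exact e1 m hm'
      refine (mul_mem_cancel_right (?_ : n ∈ C1 _)).mp (e1 _ (key m hm hm'))
      rw [mem_centralizer_singleton_iff]
      calc n * (x * (n * x * n⁻¹)) = n * x * n⁻¹ * (n * n * x) * n⁻¹ := by group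
        _ = n * x * n⁻¹ * x * n := by rw [← key n hn hn' x hx]; group
        _ = _ := by rw [hA hx _ hx']
    rw [h2, mem_bot] at h4
    exact eq_inv_of_mul_eq_one_right h4
  have hI : Inv2 p (P : Subgroup G) := by
    refine ⟨hp, hS, hA, fun n hn => ?_, ?_⟩
    · by_cases hn' : n ∈ C (P : Subgroup G)
      · exact Or.inl fun x hx => mul_inv_eq_iff_eq_mul.mpr (hn' x hx).symm
      · exact Or.inr (h3 n hn hn')
    · by_contra hn
      have : (C (P : Subgroup G)).subgroupOf (N (P : Subgroup G)) = ⊤ := eq_top_iff.mpr fun n _ => by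
        by_contra hn'
        exact hn ⟨n, h3 n n.2 hn'⟩
      rw [this, index_top] at hidx
      omega
  exact pLengthLE_one hS (nrm_top_iff.mp (normalIn_Opi _ _).nrm) (not_dvd_card_Opc hpp _)
    (hI.normal_sup hnc)

end Cfsg.Agent.S3347
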