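import Cfsg.Statements.S3349
import Cfsg.Agent.H8.StabChainAut

set_option autoImplicit false
open Cfsg

namespace Cfsg.Agent.S3349

/-- Let Q be a finite extraspecial p-group and α an automorphism of Q fixing every element of some maximal abelian subgroup of Q. Then the order of α is a power of p. -/
theorem result {Q : Type*} [Group Q] [Finite Q]
    (p : ℕ) [Fact p.Prime] (hQ : Cfsg.IsExtraspecial p Q) (α : MulAut Q)
    (A : Subgroup Q) (hA : IsMulCommutative A) (hmax : ∀ B : Subgroup Q, A ≤ B → IsMulCommutative B → B = A)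
    (hfix : ∀ a ∈ A, α a = a) :
    ∃ k : ℕ, orderOf α = p ^ k := by
  obtain ⟨⟨hp, -, hcomm⟩, -⟩ := hQ
  obtain ⟨N, hN⟩ := CfsgH8.IsPGroup.exists_pow_eq_one' hp
  -- the centralizer of `A` is `A`
  have hcent : ∀ x : Q, (∀ a ∈ A, a * x = x * a) → x ∈ A := by
    intro x hx
    have hle : A ≤ Subgroup.closure (insert x (A : Set Q)) := fun a ha =>
      Subgroup.subset_closure (Set.mem_insert_of_mem _ ha)
    have hc : IsMulCommutative (Subgroup.closure (insert x (A : Set Q))) := by
      apply Subgroup.isMulCommutative_closure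
      rintro a (rfl | ha) b (rfl | hb)
      · rfl
      · exact (hx b hb).symm
      · exact hx a ha
      · exact setLike_mul_comm ha hb
    rw [← hmax _ hle hc]
    exact Subgroup.subset_closure (Set.mem_insert _ _)
  have hnorm : ∀ x : Q, ∀ a ∈ A, x * a * x⁻¹ ∈ A := by
    intro x a ha
    have h1 : x * a * x⁻¹ * a⁻¹ ∈ Subgroup.center Q := by
      rw [← hcomm]
      exact Subgroup.commutator_mem_commutator (Subgroup.mem_top x) (Subgroup.mem_top a)
    have h2 : x * a * x⁻¹ * a⁻¹ ∈ A := hcent _ fun b _ => Subgroup.mem_center_iff.mp h1 b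
    simpa using A.mul_mem h2 ha
  have hmove : ∀ x : Q, x⁻¹ * α x ∈ A := by
    intro x
    apply hcent
    intro a ha
    have h1 := hfix _ (hnorm x a ha)
    rw [map_mul, map_mul, map_inv, hfix a ha] at h1
    calc a * (x⁻¹ * α x) = x⁻¹ * (x * a * x⁻¹) * α x := by group
      _ = x⁻¹ * (α x * a * (α x)⁻¹) * α x := by rw [h1]
      _ = x⁻¹ * α x * a := by group
  have : α ^ (p ^ N) = 1 := by
    ext x
    rw [CfsgH8.aut_pow_apply_of_fix α A hfix x (hmove x), hN]
    simp
  obtain ⟨k, -, hk⟩ := (Nat.dvd_prime_pow (Fact.out : p.Prime)).mp (orderOf_dvd_of_pow_eq_one this)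
  exact ⟨k, hk⟩

end Cfsg.Agent.S3349
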