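import Cfsg.Statements.S3365
import Cfsg.Agent.H2.FxK
import Cfsg.Agent.H2.FxL

set_option autoImplicit false
open Cfsg

namespace Cfsg.Agent.S3365

/-- Finite simple groups acting with fixity 4. Let G be a finite non-abelian simple group acting faithfully and transitively on a finite set so that every non-identity element fixes at most 4 points and some non-identity element fixes exactly 4 (fixity 4). Let P be a Sylow 3-subgroup, S a Sylow 2-subgroup, f the largest number of fixed points of an involution of G, and a a point. Then one of the following holds: (1) f ≥ 1 and G has a strongly embedded subgroup; (2) 1 ≤ f ≤ 3 and S is dihedral or semidihedral; (3) f = 4 and G has sectional 2-rank at most 4; (4) the point stabilizer G_a has odd order divisible by 3 and either G has a strongly 3-embedded subgroup (a proper subgroup H of order divisible by 3 such that H ∩ gHg⁻¹ has order prime to 3 for every element g outside H), or |P| = 3 and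 a Sylow 2-subgroup of N_G(P) has order at most 4, or P is elementary abelian of order 9, or P is extraspecial of order 27 and exponent 3, or P is isomorphic to a Sylow 3-subgroup of Sym(9) (the wreath product C₃ ≀ C₃); (5) G_a has order prime to 6. -/
theorem result {G Ω : Type*} [Group G] [Finite G] [IsSimpleGroup G] (hna : ¬ IsMulCommutative G)
    [MulAction G Ω] [FaithfulSMul G Ω] [Finite Ω] (htrans : MulAction.IsPretransitive G Ω)
    (hfix : ∀ g : G, g ≠ 1 → Nat.card (MulAction.fixedBy Ω g) ≤ 4)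
    (hfix4 : ∃ g : G, g ≠ 1 ∧ Nat.card (MulAction.fixedBy Ω g) = 4)
    (P : Sylow 3 G) (S : Sylow 2 G) (f : ℕ)
    (hf : ∀ g : G, orderOf g = 2 → Nat.card (MulAction.fixedBy Ω g) ≤ f)
    (hf' : ∃ g : G, orderOf g = 2 ∧ Nat.card (MulAction.fixedBy Ω g) = f) (a : Ω) :
    (1 ≤ f ∧ ∃ H : Subgroup G, Cfsg.IsStronglyEmbedded H) ∨
    (1 ≤ f ∧ f ≤ 3 ∧ ((∃ n : ℕ, Nonempty ((S : Subgroup G) ≃* DihedralGroup n)) ∨ Cfsg.IsQuasiDihedral (S : Subgroup G))) ∨
    (f = 4 ∧ Cfsg.SectionalPRankLE 2 4 G) ∨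
    (Odd (Nat.card (MulAction.stabilizer G a)) ∧ 3 ∣ Nat.card (MulAction.stabilizer G a) ∧
      ((∃ H : Subgroup G, H ≠ ⊤ ∧ 3 ∣ Nat.card H ∧ ∀ g : G, g ∉ H → ¬ 3 ∣ Nat.card ↥(H ⊓ H.map (MulAut.conj g).toMonoidHom)) ∨
       (Nat.card P = 3 ∧ ∀ T : Sylow 2 (Subgroup.normalizer ((P : Subgroup G) : Set G)), Nat.card T ≤ 4) ∨
       (Nat.card P = 9 ∧ ∀ x ∈ (P : Subgroup G), x ^ 3 = 1) ∨
       (Nat.card P = 27 ∧ Cfsg.IsExtraspecial 3 (P : Subgroup G) ∧ ∀ x ∈ (P : Subgroup G), x ^ 3 = 1) ∨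
       (∃ T : Sylow 3 (Equiv.Perm (Fin 9)), Nonempty ((P : Subgroup G) ≃* (T : Subgroup (Equiv.Perm (Fin 9))))))) ∨
    (Nat.card (MulAction.stabilizer G a)).Coprime 6 := by
  open Subgroup CfsgH5 CfsgH6 CfsgFT CfsgH2.Fx MulAction in
  haveI : Fact (Nat.Prime 2) := ⟨Nat.prime_two⟩
  haveI : Fact (Nat.Prime 3) := ⟨Nat.prime_three⟩
  have hG : _root_.commutator G = ⊤ := by
    refine (IsSimpleGroup.eq_bot_or_eq_top_of_normal (_root_.commutator G) inferInstance).resolve_left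
      fun e => hna ⟨⟨fun a b => ?_⟩⟩
    have := e.le (cm_mem a b)
    rwa [mem_bot, mul_inv_eq_one, mul_inv_eq_iff_eq_mul] at this
  have se : ∀ H : Subgroup G, SEp 2 H → ∃ H : Subgroup G, Cfsg.IsStronglyEmbedded H :=
    fun H h => ⟨H, h.1, even_iff_two_dvd.mpr h.2.1, fun g hg =>
      Nat.not_even_iff_odd.mp fun c => h.2.2 g hg (even_iff_two_dvd.mp c)⟩
  by_cases h2 : 2 ∣ Nat.card (stabilizer G a)
  · obtain ⟨v, hv, ov⟩ := exists_mem_orderOf_eq Nat.prime_two h2
    have f1 : 1 ≤ f := le_trans (Nat.card_pos_iff.mpr ⟨⟨⟨a, hv⟩⟩, inferInstance⟩) (hf v ov)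
    obtain ⟨t, ot, rfl⟩ := hf'
    have t1 : t ≠ 1 := fun e => by simp [e] at ot
    have ne := MM_ne (Ω := Ω) t1 (Set.nonempty_coe_sort.mp (Nat.card_pos_iff.mp f1).1)
    have ht : t ∈ KK G (fixedBy Ω t) := mem_KK'.mpr le_rfl
    rcases (hfix t t1).lt_or_eq with c | c
    · rcases le3 hG (ln_of_max Nat.prime_two hf) (Nat.lt_succ_iff.mp c) ne ht ot
        (sylIn_top_of_sylow S) with h | h
      · exact Or.inl ⟨f1, se _ h⟩
      · exact Or.inr (Or.inl ⟨f1, Nat.lt_succ_iff.mp c, h⟩)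
    · rcases f4 hG hfix c ne ht ot with h | h
      · exact Or.inl ⟨f1, se _ h⟩
      · exact Or.inr (Or.inr (Or.inl ⟨c, h⟩))
  right; right; right
  by_cases h3 : 3 ∣ Nat.card (stabilizer G a)
  swap
  · exact Or.inr (Nat.Coprime.mul_right (Nat.prime_two.coprime_iff_not_dvd.mpr h2).symm
      (Nat.prime_three.coprime_iff_not_dvd.mpr h3).symm)
  have o := Nat.not_even_iff_odd.mp fun c => h2 (even_iff_two_dvd.mp c)
  refine Or.inl ⟨o, h3, ?_⟩
  obtain ⟨v, hv, ov⟩ := exists_mem_orderOf_eq Nat.prime_three h3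
  obtain ⟨u, ou, hu⟩ := Set.exists_max_image {g : G | orderOf g = 3}
    (fun g => Nat.card (fixedBy Ω g)) (Set.toFinite _) ⟨v, ov⟩
  replace ou : orderOf u = 3 := ou
  have u1 : u ≠ 1 := fun e => by simp [e] at ou
  have ne := MM_ne (Ω := Ω) u1 (Set.nonempty_coe_sort.mp (Nat.card_pos_iff.mp
    (lt_of_lt_of_le (Nat.card_pos_iff.mpr ⟨⟨⟨a, hv⟩⟩, inferInstance⟩) (hu v ov))).1)
  rcases p3 hG (ln_of_max Nat.prime_three hu) (hfix u u1) ne (mem_KK'.mpr le_rfl) ou
    (fun g y e => by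
      obtain ⟨c, rfl⟩ := exists_smul_eq G a y
      rw [← orderOf_conj' c⁻¹ g]
      refine o.of_dvd_nat (orderOf_dvd_card' ?_)
      rw [mem_stabilizer_iff, inv_inv, mul_smul, mul_smul, e, inv_smul_smul])
    (sylIn_top_of_sylow P) with h | h
  · exact Or.inl ⟨_, h⟩
  · exact Or.inr (Or.inr (Or.inl h))

end Cfsg.Agent.S3365
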