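import Cfsg.Statements.S3376
import Cfsg.Agent.H8.PGroupCyclicNormal

set_option autoImplicit false
open Cfsg

namespace Cfsg.Agent.S3376

theorem cycleType_eq (σ : Equiv.Perm (Fin 9)) (h3 : σ ^ 3 = 1) (hf : ∀ x, σ x ≠ x) :
    σ.cycleType = Multiset.replicate 3 3 := by
  have : Fact (Nat.Prime 3) := ⟨Nat.prime_three⟩
  have h1 := Equiv.Perm.cycleType_of_pow_prime_eq_one h3
  have h2 := σ.sum_cycleType
  have h4 : σ.support = Finset.univ := by
    ext x
    simp [hf x]
  rw [h4, h1, Multiset.sum_replicate] at h2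
  simp only [smul_eq_mul, Finset.card_univ, Fintype.card_fin] at h2
  rw [h1]
  congr 1
  omega


/-- Let G be a group of order 162 = 3⁴·2 with Sylow 3-subgroup S and Sylow 2-subgroup T, having an elementary abelian normal subgroup J of order 27, such that Z = Z(S) has order 3, Z centralizes T, and C_S(T) ≠ S. Then G is isomorphic to the centralizer in Sym(9) of a product of three disjoint 3-cycles. -/
theorem result {G : Type*} [Group G] [Finite G] (hG : Nat.card G = 162)
    (S : Sylow 3 G) (T : Sylow 2 G) (J : Subgroup G) [hJn : J.Normal] (hJcomm : IsMulCommutative J)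
    (hJexp : ∀ a ∈ J, a ^ 3 = 1) (hJcard : Nat.card J = 27)
    (Z : Subgroup G) (hZ : Z = (S : Subgroup G) ⊓ Subgroup.centralizer ((S : Subgroup G) : Set G)) (hZcard : Nat.card Z = 3)
    (hZT : Z ≤ Subgroup.centralizer ((T : Subgroup G) : Set G))
    (hST : (S : Subgroup G) ⊓ Subgroup.centralizer ((T : Subgroup G) : Set G) ≠ S) :
    Nonempty (G ≃* Subgroup.centralizer ({Equiv.swap (0 : Fin 9) 1 * Equiv.swap 1 2 * Equiv.swap 3 4 * Equiv.swap 4 5 * Equiv.swap 6 7 * Equiv.swap 7 8} : Set (Equiv.Perm (Fin 9)))) := by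
  have hf3 : Nat.factorization 162 3 = 4 := by
    rw [show (162 : ℕ) = 3 ^ 4 * 2 by norm_num, Nat.factorization_mul (by norm_num) (by norm_num),
      Nat.Prime.factorization_pow Nat.prime_three, Nat.Prime.factorization Nat.prime_two]
    simp
  have hf2 : Nat.factorization 162 2 = 1 := by
    rw [show (162 : ℕ) = 3 ^ 4 * 2 by norm_num, Nat.factorization_mul (by norm_num) (by norm_num),
      Nat.Prime.factorization_pow Nat.prime_three, Nat.Prime.factorization Nat.prime_two]
    simp
  have hS : Nat.card S = 81 := by rw [S.card_eq_multiplicity, hG, hf3]; rfl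
  have hT : Nat.card T = 2 := by rw [T.card_eq_multiplicity, hG, hf2]; rfl
  have hSi : (S : Subgroup G).index = 2 := by
    have := (S : Subgroup G).card_mul_index
    have h2 : Nat.card (S : Subgroup G) = 81 := hS
    rw [hG, h2] at this
    omega
  have hSn : (S : Subgroup G).Normal := Subgroup.normal_of_index_eq_two hSi
  obtain ⟨⟨t, htT⟩, ht1', htu⟩ := (Nat.card_eq_two_iff' (1 : (T : Subgroup G))).mp hT
  have ht1 : t ≠ 1 := fun h => ht1' (Subtype.ext h)
  have hTm : ∀ x ∈ (T : Subgroup G), x = 1 ∨ x = t := fun x hx => by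
    by_cases h : x = 1
    · exact Or.inl h
    · exact Or.inr (congrArg Subtype.val (htu ⟨x, hx⟩ fun h' => h (congrArg Subtype.val h')))
  have htt : t * t = 1 := by
    rcases hTm _ (mul_mem htT htT) with h | h
    · exact h
    · exact absurd (mul_eq_left.mp h) ht1
  have hinvS : ∀ x ∈ (S : Subgroup G), x * x = 1 → x = 1 := by
    intro x hx hxx
    have h1 : orderOf x ∣ 2 := orderOf_dvd_of_pow_eq_one (by rw [pow_two, hxx])
    have h2 : orderOf x ∣ 81 := hS ▸ Subgroup.orderOf_dvd_natCard _ hx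
    exact orderOf_eq_one_iff.mp (Nat.eq_one_of_dvd_coprimes (by norm_num) h1 h2)
  have htS : t ∉ (S : Subgroup G) := fun h => ht1 (hinvS t h htt)
  have hJp : IsPGroup 3 J := IsPGroup.of_card (n := 3) hJcard
  have hJS : J ≤ S := hJp.le_sylow_of_normal S
  have hcentral : ∀ z ∈ Z, z ∈ Subgroup.center G := by
    intro z hz
    have h1 : ∀ s ∈ (S : Subgroup G), s * z = z * s := (hZ ▸ hz).2
    have h2 : t * z = z * t := hZT hz t htT
    rw [Subgroup.mem_center_iff]
    intro g
    by_cases hg : g ∈ (S : Subgroup G)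
    · exact h1 g hg
    · have h3 := h1 (g * t) (by rw [Subgroup.mul_mem_iff_of_index_two hSi]; tauto)
      rw [mul_assoc, h2, ← mul_assoc, ← mul_assoc] at h3
      exact mul_right_cancel h3
  have hmeet : ∀ N : Subgroup G, N.Normal → N ⊓ S ≠ ⊥ → Z ≤ N := by
    intro N hN hne
    have : (N.subgroupOf S).Normal := hN.subgroupOf _
    obtain ⟨z, hz, hz1, hzc⟩ := CfsgH8.exists_mem_center_of_normal S.isPGroup' (N.subgroupOf S)
      (by rwa [Ne, Subgroup.subgroupOf_eq_bot, disjoint_iff])
    have hzZ : (z : G) ∈ Z := by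
      rw [hZ]
      exact ⟨z.2, fun s hs => congrArg Subtype.val (Subgroup.mem_center_iff.mp hzc ⟨s, hs⟩)⟩
    intro y hy
    obtain ⟨k, hk⟩ := mem_zpowers_of_prime_card hZcard (g := ⟨z, hzZ⟩) (g' := ⟨y, hy⟩)
      (fun h => hz1 (Subtype.ext (show (z : G) = 1 from congrArg Subtype.val h)))
    have hk' : (z : G) ^ k = y := congrArg Subtype.val hk
    rw [← hk']
    exact zpow_mem hz k
  have hZJ : Z ≤ J := hmeet J hJn (by
    rw [inf_eq_left.mpr hJS]
    intro h
    rw [h] at hJcard
    simp at hJcard)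
  obtain ⟨⟨z, hzZ⟩, hz1'⟩ := (Subgroup.ne_bot_iff_exists_ne_one (H := Z)).mp (by
    intro h
    rw [h] at hZcard
    simp at hZcard)
  have hz1 : z ≠ 1 := fun h => hz1' (Subtype.ext h)
  have hzJ := hZJ hzZ
  have hzc := hcentral z hzZ
  have hz3 : z ^ 3 = 1 := hJexp z hzJ
  -- a `t`-invariant character of `J` not vanishing on `z`
  obtain ⟨φ, hφ⟩ : ∃ φ : J →* ℂˣ, φ ⟨z, hzJ⟩ ≠ 1 := by
    letI : CommGroup J := { (inferInstance : Group J) with mul_comm := mul_comm' }
    have : NeZero (Monoid.exponent J) := ⟨Monoid.exponent_ne_zero_of_finite⟩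
    exact CommGroup.exists_apply_ne_one_of_hasEnoughRootsOfUnity J ℂ
      (fun h => hz1 (congrArg Subtype.val h))
  let ψ : J →* ℂˣ := φ * φ.comp (MulAut.conjNormal t).toMonoidHom
  have hψ : ∀ x : J, ψ x = φ x * φ (MulAut.conjNormal t x) := fun x => rfl
  have hJ3 : ∀ x : J, x ^ 3 = 1 := fun x => Subtype.ext (hJexp x x.2)
  have hψz : ψ ⟨z, hzJ⟩ ≠ 1 := by
    have h1 : MulAut.conjNormal t ⟨z, hzJ⟩ = ⟨z, hzJ⟩ := by
      apply Subtype.ext
      rw [MulAut.conjNormal_apply, Subgroup.mem_center_iff.mp hzc t, mul_inv_cancel_right]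
    rw [hψ, h1]
    intro h
    apply hφ
    have h3 : φ ⟨z, hzJ⟩ ^ 3 = 1 := by rw [← map_pow, hJ3, map_one]
    rwa [pow_succ, pow_two, h, one_mul] at h3
  have hψt : ∀ x : J, ψ (MulAut.conjNormal t x) = ψ x := by
    intro x
    rw [hψ, hψ, ← MulAut.mul_apply, ← map_mul MulAut.conjNormal, htt, map_one, MulAut.one_apply, mul_comm]
  have hWcard : Nat.card ψ.ker = 9 := by
    have h1 : ψ.range ≤ rootsOfUnity 3 ℂ := by
      rintro _ ⟨x, rfl⟩
      rw [mem_rootsOfUnity, ← map_pow, hJ3, map_one]
    have h2 := (Subgroup.card_le_of_le h1).trans (card_rootsOfUnity ℂ 3)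
    have h3 := ψ.ker.card_mul_index
    rw [Subgroup.index_ker, hJcard] at h3
    have h4 : Nat.card ψ.range ≠ 1 := by
      rw [Ne, Subgroup.card_eq_one]
      intro h
      have : ψ ⟨z, hzJ⟩ ∈ ψ.range := ⟨_, rfl⟩
      rw [h] at this
      exact hψz this
    have h5 : Nat.card ψ.range = 0 ∨ Nat.card ψ.range = 2 ∨ Nat.card ψ.range = 3 := by omega
    rcases h5 with h | h | h <;> rw [h] at h3 <;> omega
  let W : Subgroup G := ψ.ker.map J.subtype
  have hWJ : W ≤ J := Subgroup.map_subtype_le _
  have hW9 : Nat.card W = 9 := by rw [Subgroup.card_subtype, hWcard]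
  have hzW : z ∉ W := by
    rintro ⟨x, hx, hxz⟩
    apply hψz
    rw [← show x = ⟨z, hzJ⟩ from Subtype.ext hxz]
    exact hx
  have hWt : ∀ w ∈ W, t * w * t ∈ W := by
    rintro _ ⟨x, hx, rfl⟩
    refine ⟨MulAut.conjNormal t x, (hψt x).trans hx, ?_⟩
    rw [Subgroup.coe_subtype, MulAut.conjNormal_apply, inv_eq_of_mul_eq_one_right htt]
  let K : Subgroup G :=
    { carrier := {g | g ∈ W ∨ g * t ∈ W}
      mul_mem' := by
        rintro a b (ha | ha) (hb | hb)
        · exact Or.inl (mul_mem ha hb)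
        · exact Or.inr (by rw [mul_assoc]; exact mul_mem ha hb)
        · right
          have : a * b * t = a * t * (t * b * t) := by
            rw [show a * t * (t * b * t) = a * (t * t) * b * t by group, htt, mul_one]
          rw [this]
          exact mul_mem ha (hWt b hb)
        · left
          have : a * b = a * t * (t * (b * t) * t) := by
            rw [show a * t * (t * (b * t) * t) = a * (t * t) * b * (t * t) by group, htt, mul_one,
              mul_one]
          rw [this]
          exact mul_mem ha (hWt _ hb)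
      one_mem' := Or.inl (one_mem _)
      inv_mem' := by
        rintro a (ha | ha)
        · exact Or.inl (inv_mem ha)
        · right
          have : a⁻¹ * t = t * (a * t)⁻¹ * t := by group
          rw [this]
          exact hWt _ (inv_mem ha) }
  have hzK : z ∉ K := by
    rintro (h | h)
    · exact hzW h
    · exact htS (by simpa using mul_mem (inv_mem (hJS hzJ)) (hJS (hWJ h)))
  have hKidx : K.index ∣ 9 := by
    have h1 : 9 ∣ Nat.card K := hW9 ▸ Subgroup.card_dvd_of_le (fun x hx => Or.inl hx)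
    have h2 : 2 ∣ Nat.card K := by
      rw [← orderOf_eq_prime (p := 2) (by rw [pow_two, htt]) ht1]
      exact Subgroup.orderOf_dvd_natCard _ (Or.inr (by rw [htt]; exact one_mem _))
    obtain ⟨c, hc⟩ := Nat.Coprime.mul_dvd_of_dvd_of_dvd (by norm_num) h1 h2
    have h3 := K.card_mul_index
    rw [hG, hc] at h3
    exact ⟨c, by nlinarith⟩
  have hcore : K.normalCore = ⊥ := by
    have h1 : K.normalCore ⊓ S = ⊥ := by
      by_contra h
      exact hzK (K.normalCore_le (hmeet _ inferInstance h hzZ))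
    rw [eq_bot_iff]
    intro n hn
    by_contra hn1
    have hnS : n ∉ (S : Subgroup G) := fun h => hn1 (h1 ▸ Subgroup.mem_inf.mpr ⟨hn, h⟩)
    have hnn : n * n = 1 := by
      have : n * n ∈ K.normalCore ⊓ S := ⟨mul_mem hn hn, by
        show n * n ∈ (S : Subgroup G)
        rw [Subgroup.mul_mem_iff_of_index_two hSi]⟩
      rwa [h1] at this
    have hcomm : ∀ s ∈ (S : Subgroup G), s * n = n * s := fun s hs =>
      (Subgroup.commute_of_normal_of_disjoint _ _ inferInstance hSn (disjoint_iff.mpr h1)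
        n s hn hs).symm
    have hnc : n ∈ Subgroup.center G := by
      rw [Subgroup.mem_center_iff]
      intro g
      by_cases hg : g ∈ (S : Subgroup G)
      · exact hcomm g hg
      · have h3 := hcomm (g * n) (by rw [Subgroup.mul_mem_iff_of_index_two hSi]; tauto)
        rw [← mul_assoc] at h3
        exact mul_right_cancel h3
    have := CfsgH8.normal_zpowers_of_mem_center hnc
    have h2 : IsPGroup 2 (Subgroup.zpowers n) := IsPGroup.of_card (n := 1) (by
      rw [Nat.card_zpowers, orderOf_eq_prime (p := 2) (by rw [pow_two, hnn]) hn1, pow_one])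
    have h3 := (hTm n (h2.le_sylow_of_normal T (Subgroup.mem_zpowers n))).resolve_left hn1
    apply hST
    rw [inf_eq_left]
    intro s hs x hx
    rcases hTm x hx with rfl | rfl
    · simp
    · rw [← h3]; exact (hcomm s hs).symm
  have hinj : Function.Injective (MulAction.toPermHom G (G ⧸ K)) := by
    rw [← MonoidHom.ker_eq_bot_iff, ← Subgroup.normalCore_eq_ker, hcore]
  have hK9 : Nat.card (G ⧸ K) = 9 := by
    have h1 := Subgroup.card_dvd_of_injective _ hinj
    rw [hG, Nat.card_perm] at h1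
    have h2 : Nat.card (G ⧸ K) ∣ 3 ^ 2 := hKidx
    obtain ⟨i, hi, h3⟩ := (Nat.dvd_prime_pow Nat.prime_three).mp h2
    rw [h3] at h1 ⊢
    interval_cases i
    · norm_num at h1
    · norm_num [Nat.factorial] at h1
    · rfl
  let e : G ⧸ K ≃ Fin 9 := Finite.equivFinOfCardEq hK9
  let f0 : G →* Equiv.Perm (Fin 9) :=
    e.permCongrHom.toMonoidHom.comp (MulAction.toPermHom G (G ⧸ K))
  have hf0 : Function.Injective f0 := e.permCongrHom.injective.comp hinj
  have hct1 := cycleType_eq (f0 z) (by rw [← map_pow, hz3, map_one]) (by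
    intro x hx
    have h1 : z • e.symm x = e.symm x := by
      rw [Equiv.eq_symm_apply]; exact hx
    obtain ⟨g, hg⟩ := QuotientGroup.mk_surjective (e.symm x)
    rw [← hg, MulAction.Quotient.smul_mk, QuotientGroup.eq, smul_eq_mul,
      ← Subgroup.mem_center_iff.mp hzc g, mul_inv_rev, inv_mul_cancel_right, inv_mem_iff] at h1
    exact hzK h1)
  set c : Equiv.Perm (Fin 9) := Equiv.swap (0 : Fin 9) 1 * Equiv.swap 1 2 * Equiv.swap 3 4 *
    Equiv.swap 4 5 * Equiv.swap 6 7 * Equiv.swap 7 8 with hc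
  have hct2 := cycleType_eq c (by rw [hc]; decide) (by rw [hc]; decide)
  obtain ⟨τ, hτ⟩ := isConj_iff.mp (Equiv.Perm.isConj_iff_cycleType_eq.mpr (hct1.trans hct2.symm))
  let f : G →* Equiv.Perm (Fin 9) := (MulAut.conj τ).toMonoidHom.comp f0
  have hf : Function.Injective f := (MulAut.conj τ).injective.comp hf0
  have hfz : f z = c := hτ
  have hmem : ∀ g, f g ∈ Subgroup.centralizer {c} := by
    intro g
    rw [Subgroup.mem_centralizer_singleton_iff, ← hfz, ← map_mul, ← map_mul,
      Subgroup.mem_center_iff.mp hzc g]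
  refine ⟨MulEquiv.ofBijective (f.codRestrict _ hmem) ?_⟩
  rw [Nat.bijective_iff_injective_and_card]
  refine ⟨fun a b h => hf (congrArg Subtype.val h), ?_⟩
  rw [hG, Equiv.Perm.nat_card_centralizer, hct2]
  decide

end Cfsg.Agent.S3376
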