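import Cfsg.Statements.S3389
import Cfsg.Agent.H5.Fixity
import Cfsg.Agent.H4.Prim

set_option autoImplicit false
open Cfsg

namespace Cfsg.Agent.S3389

/-- Let G be a finite group acting faithfully and transitively on a finite set Ω with fixity k ≥ 1: every non-identity element fixes at most k points and some non-identity element fixes exactly k points. Then |Z(G)| divides k; if k = 2 then |G| is even; and for every prime p > k dividing |G| and every point α, either p does not divide |G_α| or G_α contains a Sylow p-subgroup of G. -/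
theorem result {G : Type*} [Group G] [Finite G] {Ω : Type*} [Fintype Ω] [MulAction G Ω] [FaithfulSMul G Ω]
    (htr : MulAction.IsPretransitive G Ω) (k : ℕ) (hk : 1 ≤ k)
    (hfix : ∀ g : G, g ≠ 1 → Nat.card (MulAction.fixedBy Ω g) ≤ k) (hex : ∃ g : G, g ≠ 1 ∧ Nat.card (MulAction.fixedBy Ω g) = k) :
    Nat.card (Subgroup.center G) ∣ k ∧ (k = 2 → 2 ∣ Nat.card G) ∧
      ∀ (p : ℕ), p.Prime → k < p → p ∣ Nat.card G → ∀ α : Ω,
        ¬ p ∣ Nat.card (MulAction.stabilizer G α) ∨ ¬ p ∣ (MulAction.stabilizer G α).index := by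
  classical
  open MulAction in
  obtain ⟨g, hg1, hgk⟩ := hex
  refine ⟨?_, ?_, ?_⟩
  · have hS : ∀ z : Subgroup.center G, ∀ x ∈ MulAction.fixedBy Ω g, z • x ∈ MulAction.fixedBy Ω g := by
      intro z x hx
      change g • ((z : G) • x) = (z : G) • x
      rw [← mul_smul, Subgroup.mem_center_iff.mp z.2 g, mul_smul, MulAction.mem_fixedBy.mp hx]
    have := CfsgH6.dvd_ncard_of_dvd_index_stabilizer (G := Subgroup.center G)
      (Nat.card (Subgroup.center G)) (MulAction.fixedBy Ω g) hS (by
        intro x _
        have : MulAction.stabilizer (Subgroup.center G) x = ⊥ := by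
          rw [eq_bot_iff]
          intro z hz
          rw [Subgroup.mem_bot]
          apply Subtype.ext
          haveI : MulAction.IsPretransitive (⊤ : Subgroup G) Ω :=
            ⟨fun a b => by
              obtain ⟨u, hu⟩ := htr.exists_smul_eq a b
              exact ⟨⟨u, trivial⟩, hu⟩⟩
          exact CfsgH4.eq_one_of_centralizes_transitive (Ω := Ω) ⊤
            (fun n _ => Subgroup.mem_center_iff.mp z.2 n) hz
        rw [this, Subgroup.index_bot])
    rw [← hgk]
    exact this
  · rintro rfl
    have h3 := CfsgH5.noThree_of_card_le hfix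
    obtain ⟨a, b, hab, hset⟩ := Set.ncard_eq_two.mp (show (MulAction.fixedBy Ω g).ncard = 2 from hgk)
    have ha : g • a = a := by
      have : a ∈ MulAction.fixedBy Ω g := by rw [hset]; simp
      exact this
    have hb : g • b = b := by
      have : b ∈ MulAction.fixedBy Ω g := by rw [hset]; simp
      exact this
    obtain ⟨u, hu1, hu2⟩ := h3.exists_swap hab.symm hg1 ha hb
    by_contra hodd
    have hpow : ∀ n : ℕ, (u ^ (2 * n)) • a = a := by
      intro n
      induction n with
      | zero => simp
      | succ n ih => rw [mul_add, pow_add, mul_smul, mul_one, pow_two, mul_smul, hu1, hu2, ih]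
    obtain ⟨m, hm⟩ : Odd (Nat.card G) := by
      rw [← Nat.not_even_iff_odd, even_iff_two_dvd]; exact hodd
    have h1 : u ^ (2 * m + 1) = 1 := by rw [← hm]; exact pow_card_eq_one'
    have h2 : (u ^ (2 * m + 1)) • a = b := by rw [pow_succ', mul_smul, hpow, hu1]
    rw [h1, one_smul] at h2
    exact hab h2
  · intro p hp hkp _ α
    haveI := Fact.mk hp
    by_contra hcon
    push Not at hcon
    obtain ⟨h1, h2⟩ := hcon
    set H := MulAction.stabilizer G α with hH
    obtain ⟨P⟩ : Nonempty (Sylow p H) := inferInstance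
    let P' : Subgroup G := (P : Subgroup H).map H.subtype
    have hP' : IsPGroup p P' := P.isPGroup'.map _
    obtain ⟨S, hS⟩ := hP'.exists_le_sylow
    have hP'H : P' ≤ H := Subgroup.map_subtype_le _
    have hne : P' ≠ ⊥ := by
      intro e
      have e2 : (P : Subgroup H) = ⊥ := by
        rwa [Subgroup.map_eq_bot_iff_of_injective _ H.subtype_injective] at e
      exact P.ne_bot_of_dvd_card h1 e2
    have hSH : (S : Subgroup G) ⊓ H = P' := by
      have h3 : IsPGroup p ((S : Subgroup G).subgroupOf H) := S.isPGroup'.comap_subtype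
      have h4 : (P : Subgroup H) ≤ (S : Subgroup G).subgroupOf H := by
        intro x hx
        exact hS ⟨x, hx, rfl⟩
      have h5 := P.is_maximal' h3 h4
      rw [← Subgroup.subgroupOf_map_subtype, h5]
    have hlt : P'.subgroupOf S < ⊤ := by
      rw [lt_top_iff_ne_top, Ne, Subgroup.subgroupOf_eq_top]
      intro hle
      have : (S : Subgroup G) ≤ H := hle.trans hP'H
      exact S.not_dvd_index (h2.trans (Subgroup.index_dvd_of_le this))
    haveI : Group.IsNilpotent S := S.isPGroup'.isNilpotent
    have hnc := normalizerCondition_of_isNilpotent (G := S) _ hlt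
    obtain ⟨x, hxN, hxP⟩ := SetLike.exists_of_lt hnc
    obtain ⟨y, hyP, hy1⟩ := (Subgroup.bot_or_exists_ne_one P').resolve_left hne
    -- the orbit of `α` under `zpowers x`
    have hxH : (x : G) ∉ H := by
      intro h
      apply hxP
      rw [Subgroup.mem_subgroupOf, ← hSH]
      exact ⟨x.2, h⟩
    let Z : Subgroup G := Subgroup.zpowers (x : G)
    have hZ : IsPGroup p Z := S.isPGroup'.to_le (Subgroup.zpowers_le.mpr x.2)
    obtain ⟨j, hj⟩ := hZ.card_orbit α
    have hsub : MulAction.orbit Z α ⊆ MulAction.fixedBy Ω y := by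
      rintro _ ⟨⟨_, ⟨n, rfl⟩⟩, rfl⟩
      change y • ((x : G) ^ n • α) = (x : G) ^ n • α
      have hn : (x ^ n)⁻¹ ∈ Subgroup.normalizer ((P'.subgroupOf S : Subgroup S) : Set S) :=
        inv_mem (zpow_mem hxN n)
      rw [Subgroup.mem_normalizer_iff] at hn
      have h6 := (hn ⟨y, hS hyP⟩).mp hyP
      rw [Subgroup.mem_subgroupOf] at h6
      have h7 := hP'H h6
      rw [MulAction.mem_stabilizer_iff] at h7
      simp only [Subgroup.coe_mul, Subgroup.coe_inv, inv_inv, SubgroupClass.coe_zpow, mul_smul,
        inv_smul_eq_iff] at h7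
      exact h7
    have h8 : Nat.card (MulAction.orbit Z α) ≤ k :=
      (Set.ncard_le_ncard hsub (Set.toFinite _)).trans (hfix y hy1)
    have h9 : j ≠ 0 := by
      rintro rfl
      rw [pow_zero, Nat.card_eq_one_iff_unique] at hj
      apply hxH
      have := hj.1.elim (⟨(⟨x, Subgroup.mem_zpowers _⟩ : Z) • α, MulAction.mem_orbit _ _⟩ :
        MulAction.orbit Z α) ⟨α, MulAction.mem_orbit_self α⟩
      exact congrArg Subtype.val this
    have h10 : p ≤ p ^ j := Nat.le_self_pow h9 p
    omega

end Cfsg.Agent.S3389
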