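import Cfsg.Statements.S3390
import Cfsg.Agent.H5.Fixity
import Cfsg.Agent.H5.Suzuki2
import Cfsg.Agent.H4.Prim

set_option autoImplicit false
open Cfsg

namespace Cfsg.Agent.S3390

open MulAction in
theorem card_centralizer_le {P Ω : Type*} [Group P] [Finite P] [Finite Ω] [MulAction P Ω]
    (u : P) (ω : Ω) (hu : u • ω = ω) (h2 : Nat.card (fixedBy Ω u) ≤ 2)
    (hst : ∀ c : P, c • ω = ω → c = 1 ∨ c = u) :
    Nat.card (Subgroup.centralizer ({u} : Set P)) ≤ 4 := by
  set C := Subgroup.centralizer ({u} : Set P) with hC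
  have h1 : Nat.card (orbit C ω) * Nat.card (stabilizer C ω) = Nat.card C := by
    rw [← Nat.card_prod]
    exact Nat.card_congr (orbitProdStabilizerEquivGroup C ω)
  have h3 : Nat.card (orbit C ω) ≤ 2 := by
    refine le_trans (Set.ncard_le_ncard (t := fixedBy Ω u) ?_ (Set.toFinite _)) h2
    rintro _ ⟨⟨c, hc⟩, rfl⟩
    change u • c • ω = c • ω
    rw [← mul_smul, ← Subgroup.mem_centralizer_singleton_iff.mp hc, mul_smul, hu]
  have h4 : Nat.card (stabilizer C ω) ≤ 2 := by
    let f : stabilizer C ω → ({1, u} : Set P) := fun c => ⟨c.1.1, hst _ c.2⟩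
    have hf : Function.Injective f := by
      intro a b hab
      have h : (f a).1 = (f b).1 := congrArg Subtype.val hab
      exact Subtype.ext (Subtype.ext h)
    refine (Nat.card_le_card_of_injective f hf).trans ?_
    exact (Set.ncard_insert_le _ _).trans (by simp)
  rw [← h1]
  exact Nat.mul_le_mul h3 h4

/-- The sign character of a subgroup of index two. -/
noncomputable def signHom {P : Type*} [Group P] (T : Subgroup P) (hT : T.index = 2) : P →* ℤˣ := by
  classical
  exact
  { toFun := fun s => if s ∈ T then 1 else -1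
    map_one' := by simp
    map_mul' := by
      intro a b
      have := Subgroup.mul_mem_iff_of_index_two hT (a := a) (b := b)
      by_cases ha : a ∈ T <;> by_cases hb : b ∈ T <;> simp_all }

theorem signHom_of_mem {P : Type*} [Group P] {T : Subgroup P} (hT : T.index = 2) {s : P}
    (hs : s ∈ T) : signHom T hT s = 1 := by
  simp [signHom, hs]

theorem signHom_of_notMem {P : Type*} [Group P] {T : Subgroup P} (hT : T.index = 2) {s : P}
    (hs : s ∉ T) : signHom T hT s = -1 := by
  simp [signHom, hs]

/-- Let G be a finite group acting faithfully and transitively on a finite set Ω with fixity 2 (every non-identity element fixes at most two points, and some fixes exactly two). Let α ∈ Ω and S a Sylow 2-subgroup of G. Then one of the following holds: the stabilizer S_α of α in S is trivial; S is dihedral or semidihedral and either |S_α| = 2 or |S : S_α| = 2; |S| ≥ 4, S has exactly one orbit of size 2 on Ω, every other S-orbit is regular, and G has a normal subgroup of index 2 or of index |S| which is a Frobenius group; or S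 ≤ G_α. -/
theorem result {G : Type*} [Group G] [Finite G] {Ω : Type*} [Fintype Ω] [MulAction G Ω] [FaithfulSMul G Ω] (htr : MulAction.IsPretransitive G Ω)
    (hfix : ∀ g : G, g ≠ 1 → Nat.card (MulAction.fixedBy Ω g) ≤ 2) (hex : ∃ g : G, g ≠ 1 ∧ Nat.card (MulAction.fixedBy Ω g) = 2) (α : Ω) (S : Sylow 2 G) :
    (S : Subgroup G) ⊓ MulAction.stabilizer G α = ⊥ ∨
    (((∃ n : ℕ, Nonempty (↥(S : Subgroup G) ≃* DihedralGroup n)) ∨ Cfsg.IsQuasiDihedral ↥(S : Subgroup G)) ∧
       (Nat.card ↥((S : Subgroup G) ⊓ MulAction.stabilizer G α) = 2 ∨ ((S : Subgroup G) ⊓ MulAction.stabilizer G α).relIndex (S : Subgroup G) = 2)) ∨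
    (4 ≤ Nat.card (S : Subgroup G) ∧
       (∃ ω : Ω, Nat.card (MulAction.orbit ↥(S : Subgroup G) ω) = 2 ∧
          ∀ ω' : Ω, ω' ∉ MulAction.orbit ↥(S : Subgroup G) ω → Nat.card (MulAction.orbit ↥(S : Subgroup G) ω') = Nat.card (S : Subgroup G)) ∧
       ∃ N : Subgroup G, N.Normal ∧ (N.index = 2 ∨ N.index = Nat.card (S : Subgroup G)) ∧ (∃ H : Subgroup ↥N, Cfsg.IsFrobeniusComplement H)) ∨
    (S : Subgroup G) ≤ MulAction.stabilizer G α := by
  classical
  have h3 := CfsgH5.noThree_of_card_le hfix
  set P : Subgroup G := (S : Subgroup G) with hP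
  by_cases hbot : P ⊓ MulAction.stabilizer G α = ⊥
  · exact Or.inl hbot
  by_cases hle : P ≤ MulAction.stabilizer G α
  · exact Or.inr (Or.inr (Or.inr hle))
  right
  set T : Subgroup P := MulAction.stabilizer P α with hT
  have hTeq : (P ⊓ MulAction.stabilizer G α).subgroupOf P = T := by
    ext s
    simp [Subgroup.mem_subgroupOf, hT, Subgroup.smul_def]
  have hcardT : Nat.card ↥(P ⊓ MulAction.stabilizer G α) = Nat.card T := by
    rw [← hTeq]
    exact (Nat.card_congr (Subgroup.subgroupOfEquivOfLe inf_le_left).toEquiv).symm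
  have hrel : (P ⊓ MulAction.stabilizer G α).relIndex P = T.index := by
    rw [← hTeq]; rfl
  rw [hcardT, hrel]
  have hPp : IsPGroup 2 P := S.isPGroup'
  have h3P : ∀ (g : P) (a b c : Ω), a ≠ b → a ≠ c → b ≠ c → g • a = a → g • b = b → g • c = c →
      g = 1 := fun g a b c hab hac hbc ha hb hc => Subtype.ext (h3 g a b c hab hac hbc ha hb hc)
  have hfixP : ∀ g : P, g ≠ 1 → Nat.card (MulAction.fixedBy Ω g) ≤ 2 :=
    fun g hg => hfix g (fun e => hg (Subtype.ext e))
  obtain ⟨y, hyT, hy1⟩ : ∃ y : P, y • α = α ∧ y ≠ 1 := by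
    obtain ⟨y, hy, hy1⟩ := (Subgroup.bot_or_exists_ne_one _).resolve_left hbot
    exact ⟨⟨y, hy.1⟩, hy.2, fun e => hy1 (congrArg Subtype.val e)⟩
  have hTlt : T < ⊤ := by
    rw [lt_top_iff_ne_top]
    intro e
    apply hle
    intro s hs
    have : (⟨s, hs⟩ : P) ∈ T := e ▸ Subgroup.mem_top _
    exact this
  have : Group.IsNilpotent P := hPp.isNilpotent
  obtain ⟨x, hxN, hxT⟩ := SetLike.exists_of_lt
    (Group.normalizerCondition_of_isNilpotent (G := P) T hTlt)
  set β := x • α with hβ
  have hβα : β ≠ α := hxT
  have hTβ : ∀ t : P, t • α = α → t • β = β := by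
    intro t ht
    have := (Subgroup.mem_normalizer_iff.mp (inv_mem hxN) t).mp ht
    rw [hT, MulAction.mem_stabilizer_iff, inv_inv, mul_smul, mul_smul, inv_smul_eq_iff] at this
    exact this
  have hyfix : ∀ ω : Ω, y • ω = ω → ω = α ∨ ω = β := by
    intro ω hω
    by_contra h
    push Not at h
    exact hy1 (h3P y α β ω hβα.symm h.1.symm h.2.symm hyT (hTβ y hyT) hω)
  have hxβ : x • β = α := by
    have h1 : y • x • β = x • β := by
      have := hTβ _ ((Subgroup.mem_normalizer_iff.mp (inv_mem hxN) y).mp hyT)
      rw [inv_inv, mul_smul, mul_smul, inv_smul_eq_iff] at this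
      exact this
    rcases hyfix _ h1 with h | h
    · exact h
    · exact absurd (smul_left_cancel x (h.trans hβ)) hβα
  have hswap : ∀ s : P, s • α = β → s • β = α := by
    intro s hs
    have := hTβ (x⁻¹ * s) (by rw [mul_smul, hs, hβ, inv_smul_smul])
    rw [mul_smul, inv_smul_eq_iff] at this
    rw [this, hxβ]
  let D : Subgroup P :=
    { carrier := {s | s • α = α ∨ s • α = β}
      one_mem' := by simp
      mul_mem' := by
        rintro a b (ha | ha) (hb | hb) <;> simp only [Set.mem_setOf_eq, mul_smul, hb]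
        · exact Or.inl ha
        · exact Or.inr (hTβ a ha)
        · exact Or.inr ha
        · exact Or.inl (hswap a ha)
      inv_mem' := by
        rintro a (ha | ha)
        · exact Or.inl (inv_smul_eq_iff.mpr ha.symm)
        · exact Or.inr (inv_smul_eq_iff.mpr (hswap a ha).symm) }
  by_cases hD : D = ⊤
  swap
  · left
    obtain ⟨g, hgN, hgD⟩ := SetLike.exists_of_lt
      (Group.normalizerCondition_of_isNilpotent (G := P) D (lt_top_iff_ne_top.mpr hD))
    have hg1 : g • α ≠ α := fun e => hgD (Or.inl e)
    have hg2 : g • α ≠ β := fun e => hgD (Or.inr e)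
    have hconj : ∀ t : P, t • α = α → (g * t * g⁻¹) • α = α → t = 1 := by
      intro t ht h
      have := h3P (g * t * g⁻¹) α β (g • α) hβα.symm hg1.symm hg2.symm h (hTβ _ h)
        (by rw [mul_smul, mul_smul, inv_smul_smul, ht])
      calc t = g⁻¹ * (g * t * g⁻¹) * g := by group
        _ = 1 := by rw [this]; group
    have hconj2 : ∀ t : P, t • α = α → t ≠ 1 → (g * t * g⁻¹) • α = β := by
      intro t ht h1
      exact ((Subgroup.mem_normalizer_iff.mp hgN t).mp (Or.inl ht)).resolve_left
        (fun h => h1 (hconj t ht h))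
    have hT2 : ∀ t : P, t • α = α → t = 1 ∨ t = y := by
      intro t ht
      by_cases h1 : t = 1
      · exact Or.inl h1
      right
      have := hconj (y⁻¹ * t) (by rw [mul_smul, ht, inv_smul_eq_iff, hyT]) (by
        have e : g * (y⁻¹ * t) * g⁻¹ = (g * y * g⁻¹)⁻¹ * (g * t * g⁻¹) := by group
        rw [e, mul_smul, hconj2 t ht h1, inv_smul_eq_iff, hconj2 y hyT hy1])
      exact (inv_mul_eq_one.mp this).symm
    have hyy : y * y = 1 := by
      rcases hT2 (y * y) (by rw [mul_smul, hyT, hyT]) with h | h
      · exact h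
      · exact absurd (by simpa using h) hy1
    refine ⟨CfsgH5.dihedral_or_quasiDihedral hPp y hyy hy1 ?_
      (card_centralizer_le y α hyT (hfixP y hy1) hT2), Or.inl ?_⟩
    · intro s hs
      have hsy : y • s • α = s • α := by
        rw [← mul_smul, ← hs, mul_assoc, mul_smul, hs, hyT]
      set w := g * y * g⁻¹ with hw
      have hww : w * w = 1 := by
        calc w * w = g * (y * y) * g⁻¹ := by rw [hw]; group
          _ = 1 := by rw [hyy]; group
      have hwα : w • α = β := hconj2 y hyT hy1
      rcases hyfix _ hsy with h | h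
      · rcases hT2 s h with rfl | rfl
        · exact hy1 (by simpa using hs.symm)
        · exact hy1 (hs.symm.trans hyy)
      · rcases hT2 (w * s) (by rw [mul_smul, h, hswap w hwα]) with h' | h'
        · have : s = w := by
            rw [← one_mul s, ← hww, mul_assoc, h', mul_one]
          rw [this, hww] at hs
          exact hy1 hs.symm
        · have e : s = w * y := by
            rw [← h', ← mul_assoc, hww, one_mul]
          have e2 : w * y * w = y := by
            rcases hT2 (w * y * w) (by rw [mul_smul, mul_smul, hwα, hTβ y hyT, hswap w hwα])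
              with h'' | h''
            · exfalso
              apply hy1
              calc y = (w * w) * y * (w * w) := by rw [hww]; group
                _ = w * (w * y * w) * w := by group
                _ = 1 := by rw [h'', mul_one, hww]
            · exact h''
          apply hy1
          rw [← hs, e, ← mul_assoc, e2, hyy]
    · rw [Nat.card_eq_two_iff' (1 : T)]
      refine ⟨⟨y, hyT⟩, fun e => hy1 (congrArg Subtype.val e), ?_⟩
      rintro ⟨t, ht⟩ h1
      exact Subtype.ext ((hT2 t ht).resolve_left (fun e => h1 (Subtype.ext e)))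
  have hall : ∀ s : P, s • α = α ∨ s • α = β := fun s => (show s ∈ D from hD ▸ Subgroup.mem_top s)
  have horb : MulAction.orbit P α = {α, β} := by
    ext ω
    constructor
    · rintro ⟨s, rfl⟩
      exact hall s
    · rintro (rfl | rfl)
      · exact MulAction.mem_orbit_self _
      · exact MulAction.mem_orbit _ _
  have hcorb : Nat.card (MulAction.orbit P α) = 2 := by
    rw [horb]
    exact Set.ncard_pair hβα.symm
  have hidx : T.index = 2 := by
    rw [hT, MulAction.index_stabilizer]
    exact hcorb
  by_cases hex2 : ∃ (u : P) (ω : Ω), u ≠ 1 ∧ ω ≠ α ∧ ω ≠ β ∧ u • ω = ω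
  · left
    obtain ⟨u, ω, hu1, hω1, hω2, hu⟩ := hex2
    have key : ∀ c : P, c • α = α → c • ω = ω → c = 1 := fun c h1 h2 =>
      h3P c α β ω hβα.symm hω1.symm hω2.symm h1 (hTβ c h1) h2
    have huα : u • α = β := (hall u).resolve_left (fun h => hu1 (key u h hu))
    have hsq : ∀ s : P, (s * s) • α = α := by
      intro s
      rcases hall s with h | h
      · rw [mul_smul, h, h]
      · rw [mul_smul, h, hswap s h]
    refine ⟨CfsgH5.dihedral_or_quasiDihedral hPp u (key _ (hsq u) (by rw [mul_smul, hu, hu])) hu1 ?_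
      (card_centralizer_le u ω hu (hfixP u hu1) ?_), Or.inr hidx⟩
    · intro s hs
      have := hsq s
      rw [hs, huα] at this
      exact hβα this
    · intro c hc
      rcases hall c with h | h
      · exact Or.inl (key c h hc)
      · right
        have := key (u⁻¹ * c) (by rw [mul_smul, h, inv_smul_eq_iff, huα])
          (by rw [mul_smul, hc, inv_smul_eq_iff, hu])
        exact (inv_mul_eq_one.mp this).symm
  push Not at hex2
  right; left
  have h4 : 4 ≤ Nat.card P := by
    have h1 := T.index_mul_card
    have : Nontrivial T := ⟨⟨y, hyT⟩, 1, fun e => hy1 (congrArg Subtype.val e)⟩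
    have h2 : 1 < Nat.card T := Finite.one_lt_card
    rw [hidx] at h1
    omega
  refine ⟨h4, ⟨α, hcorb, ?_⟩, ?_⟩
  · intro ω hω
    rw [horb] at hω
    simp only [Set.mem_insert_iff, Set.mem_singleton_iff, not_or] at hω
    have : MulAction.stabilizer P ω = ⊥ := by
      rw [eq_bot_iff]
      intro u hu
      by_contra h1
      exact hex2 u ω h1 hω.1 hω.2 hu
    have h5 := MulAction.index_stabilizer P ω
    rw [this, Subgroup.index_bot] at h5
    exact h5.symm
  have hmemT : ∀ (w : P) (ω : Ω), w • ω = ω → w ∈ T := by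
    intro w ω hw
    by_contra hn
    have hwα : w • α = β := (hall w).resolve_left hn
    have hw1 : w ≠ 1 := by rintro rfl; exact hn (one_mem _)
    refine hex2 w ω hw1 ?_ ?_ hw
    · rintro rfl; exact hn hw
    · intro e
      rw [e, hswap w hwα] at hw
      exact hβα hw.symm
  let χ : G →* ℤˣ := MonoidHom.transfer (signHom T hidx)
  have hχ1 : ∀ (g : G) (ω : Ω), g • ω = ω → χ g = 1 := by
    intro g ω hg
    have := Fintype.ofFinite (Quotient (MulAction.orbitRel (Subgroup.zpowers g) (G ⧸ P)))
    rw [MonoidHom.transfer_eq_prod_quotient_orbitRel_zpowers_quot]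
    apply Finset.prod_eq_one
    intro q _
    apply signHom_of_mem
    apply hmemT _ (q.out.out⁻¹ • ω)
    have hk : ∀ k : ℕ, g ^ k • ω = ω := fun k => pow_mem (MulAction.mem_stabilizer_iff.mpr hg) k
    simp only [Subgroup.mk_smul, mul_smul, smul_inv_smul, hk]
  have hχx : χ x = -1 := by
    have := Fintype.ofFinite (Quotient (MulAction.orbitRel (Subgroup.zpowers (x : G)) (G ⧸ P)))
    rw [MonoidHom.transfer_eq_prod_quotient_orbitRel_zpowers_quot]
    have hodd : Odd P.index := by
      rw [← Nat.not_even_iff_odd, even_iff_two_dvd]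
      exact S.not_dvd_index
    rw [← hodd.neg_one_pow, Subgroup.index_eq_sum_minimalPeriod P (x : G),
      ← Finset.prod_pow_eq_pow_sum]
    apply Finset.prod_congr rfl
    intro q _
    set k := Function.minimalPeriod ((x : G) • ·) q.out with hk
    have e1 : signHom T hidx (x ^ k) = (-1) ^ k := by rw [map_pow, signHom_of_notMem hidx hxT]
    rw [← e1]
    by_cases hxk : x ^ k ∈ T
    · rw [signHom_of_mem hidx hxk]
      apply signHom_of_mem
      apply hmemT _ (q.out.out⁻¹ • α)
      have hk' : (x : G) ^ k • α = α := hxk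
      simp only [Subgroup.mk_smul, mul_smul, smul_inv_smul]
      rw [hk']
    · rw [signHom_of_notMem hidx hxk]
      apply signHom_of_notMem
      intro h
      apply hxk
      apply hmemT _ (q.out.out • α)
      rw [hT, MulAction.mem_stabilizer_iff] at h
      simp only [Subgroup.mk_smul, mul_smul, inv_smul_eq_iff] at h
      exact h
  have hNidx : χ.ker.index = 2 := by
    rw [Subgroup.index_ker]
    have : χ.range = ⊤ := by
      rw [eq_top_iff]
      intro u _
      rcases Int.units_eq_one_or u with rfl | rfl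
      · exact one_mem _
      · exact ⟨x, hχx⟩
    rw [this, Subgroup.card_top]
    simp
  refine ⟨χ.ker, inferInstance, Or.inl hNidx, (MulAction.stabilizer G α).subgroupOf χ.ker, ?_, ?_, ?_⟩
  · intro e
    have : (⟨y, hχ1 y α hyT⟩ : χ.ker) ∈ (MulAction.stabilizer G α).subgroupOf χ.ker := hyT
    rw [e, Subgroup.mem_bot] at this
    have h' : (y : G) = 1 := congrArg Subtype.val this
    exact hy1 (Subtype.ext h')
  · intro e
    rw [Subgroup.subgroupOf_eq_top] at e
    have := CfsgH4.normal_eq_bot_of_le_stabilizer _ e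
    rw [this, Subgroup.index_bot] at hNidx
    have := Subgroup.card_le_card_group P
    omega
  · intro n hn
    rw [eq_bot_iff]
    rintro h ⟨h1, h2⟩
    rw [Subgroup.mem_bot]
    by_contra hh
    have h1' : (h : G) • α = α := h1
    have h2' : (h : G) • ((n : G) • α) = (n : G) • α := by
      have h2'' := SetLike.mem_coe.mp h2
      rw [Subgroup.mem_toSubmonoid, Subgroup.mem_pointwise_smul_iff_inv_smul_mem, Subgroup.mem_subgroupOf,
        MulAction.mem_stabilizer_iff] at h2''
      simp only [MulAut.smul_def, MulAut.conj_inv_apply, Subgroup.coe_mul, Subgroup.coe_inv,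
        mul_smul, inv_smul_eq_iff] at h2''
      exact h2''
    obtain ⟨k, hk1, hk2⟩ := h3.exists_smul_eq (α := α) (β := β) (γ := (n : G) • α) hβα hn
      (x := y) (fun e => hy1 (Subtype.ext e)) hyT (hTβ y hyT) (y := h)
      (fun e => hh (Subtype.ext e)) h1' h2'
    have e1 := hχ1 ((n : G)⁻¹ * k * x) α (by
      rw [mul_smul, mul_smul, inv_smul_eq_iff, ← hk2]; rfl)
    have e2 : χ n = 1 := n.2
    rw [map_mul, map_mul, map_inv, e2, hχ1 k α hk1, hχx] at e1
    simp at e1

end Cfsg.Agent.S3390
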