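import Cfsg.Statements.S3391
import Cfsg.Agent.H2.SzFixity
import Cfsg.Agent.H2.SzIso

set_option autoImplicit false
open Cfsg

namespace Cfsg.Agent.S3391

/-- Let q = 2^{2m+1} ≥ 8 and let G be isomorphic to the Suzuki group Sz(q). If G acts faithfully and transitively on a finite set Ω with fixity 2 (every non-identity element fixes at most two points, and some fixes exactly two), then either |Ω| = q² + 1 and the action is 2-transitive, or |Ω| = q²(q² + 1) and the point stabilizers have order q − 1. -/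
theorem result {G : Type*} [Group G] [Finite G] (F : Type) [Field F] [Fintype F] (m : ℕ) (hm : 1 ≤ m) (hF : Fintype.card F = 2 ^ (2 * m + 1))
    (e : G ≃* ↥(Cfsg.Lie.Sz F (2 ^ (m + 1)))) {Ω : Type*} [Fintype Ω] [MulAction G Ω] [FaithfulSMul G Ω] (htr : MulAction.IsPretransitive G Ω)
    (hfix : ∀ g : G, g ≠ 1 → Nat.card (MulAction.fixedBy Ω g) ≤ 2) (hex : ∃ g : G, g ≠ 1 ∧ Nat.card (MulAction.fixedBy Ω g) = 2) :
    (Fintype.card Ω = Fintype.card F ^ 2 + 1 ∧ MulAction.IsMultiplyPretransitive G Ω 2) ∨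
    (Fintype.card Ω = Fintype.card F ^ 2 * (Fintype.card F ^ 2 + 1) ∧ ∀ α : Ω, Nat.card (MulAction.stabilizer G α) = Fintype.card F - 1) := by
  have := CfsgH2.szField_of_card hm hF
  let φ : Cfsg.Sz F m ≃* G := (CfsgH2.szEquivLie F m).trans e.symm
  letI : MulAction (Cfsg.Sz F m) Ω := MulAction.compHom Ω φ.toMonoidHom
  have hsmul : ∀ (g : Cfsg.Sz F m) (a : Ω), g • a = φ g • a := fun _ _ => rfl
  have htr' : MulAction.IsPretransitive (Cfsg.Sz F m) Ω := ⟨fun a b => by
    obtain ⟨g, hg⟩ := htr.exists_smul_eq a b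
    exact ⟨φ.symm g, by rw [hsmul, φ.apply_symm_apply, hg]⟩⟩
  have hfb : ∀ g : Cfsg.Sz F m, MulAction.fixedBy Ω g = MulAction.fixedBy Ω (φ g) := fun _ => rfl
  have key := CfsgH2.fixity_two (F := F) (m := m) (Ω := Ω)
    (by rw [Nat.card_eq_fintype_card, hF])
    (fun g hg => by
      rw [hfb]
      exact hfix _ (by simpa using hg))
    (by
      obtain ⟨g, hg1, hg⟩ := hex
      exact ⟨φ.symm g, by simpa using hg1, by rw [hfb, φ.apply_symm_apply, hg]⟩)
  rw [Nat.card_eq_fintype_card (α := F), Nat.card_eq_fintype_card (α := Ω)] at key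
  rcases key with ⟨h1, h2⟩ | ⟨h1, h2⟩
  · refine Or.inl ⟨h1, ?_⟩
    rw [MulAction.is_two_pretransitive_iff] at h2 ⊢
    intro a b c d hab hcd
    obtain ⟨g, hg1, hg2⟩ := h2 hab hcd
    exact ⟨φ g, hg1, hg2⟩
  · refine Or.inr ⟨h1, fun α => ?_⟩
    rw [← h2 α]
    refine Nat.card_congr ⟨fun g => ⟨φ.symm g, ?_⟩, fun g => ⟨φ g, g.2⟩, fun g => by simp,
      fun g => by simp⟩
    rw [MulAction.mem_stabilizer_iff, hsmul, φ.apply_symm_apply]
    exact g.2

end Cfsg.Agent.S3391
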