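import Cfsg.Statements.S3396
import Cfsg.Agent.H6.CITHyp
import Cfsg.Agent.L.ZassTI

set_option autoImplicit false
open Cfsg

namespace Cfsg.Agent.S3396

/-- Let G be a finite group whose order has at least three distinct prime divisors, and suppose every nonidentity element of G has order a power of 2 or a prime other than 5. Then G is isomorphic to PSL₂(7) (here F is any field with 7 elements). In particular a finite group whose set of element orders is {1, 2, 3, 4, 7} is PSL₂(7). -/
theorem result {G : Type*} [Group G] [Finite G]
    {F : Type*} [Field F] [Fintype F] (hF : Fintype.card F = 7)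
    (h3 : 3 ≤ (Nat.card G).primeFactors.card)
    (hord : ∀ g : G, g ≠ 1 → (∃ k : ℕ, orderOf g = 2 ^ k) ∨ ((orderOf g).Prime ∧ orderOf g ≠ 5)) :
    Nonempty (G ≃* Matrix.ProjectiveSpecialLinearGroup (Fin 2) F) := by
  exact CfsgH6.eppo_class CfsgL.hypTI CfsgH6.hypC3 CfsgH6.hypC4 hF h3 hord
end Cfsg.Agent.S3396
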