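import Cfsg.Statements.S3399
import Cfsg.Agent.H8.PronH

set_option autoImplicit false
open Cfsg

namespace Cfsg.Agent.S3399

/-- Let G be a transitive permutation group of finite degree n and K a nontrivial subgroup of G that is pronormal in G (K and gKg⁻¹ are conjugate inside ⟨K, gKg⁻¹⟩ for every g ∈ G). If K fixes exactly f points, then f ≤ (n − 1)/2, that is, 2f + 1 ≤ n. -/
theorem result (n : ℕ) (G : Subgroup (Equiv.Perm (Fin n)))
    (htrans : ∀ a b : Fin n, ∃ g ∈ G, g a = b)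
    (K : Subgroup (Equiv.Perm (Fin n))) (hKG : K ≤ G) (hK : K ≠ ⊥)
    (hpro : ∀ g ∈ G, ∃ w ∈ K ⊔ K.map (MulAut.conj g).toMonoidHom,
      K.map (MulAut.conj w).toMonoidHom = K.map (MulAut.conj g).toMonoidHom) :
    2 * Nat.card {a : Fin n // ∀ k ∈ K, k a = a} + 1 ≤ n := by
  have hF : CfsgH8.Pron.Fk (K.subgroupOf G) (Fin n) = {a : Fin n | ∀ k ∈ K, k a = a} := by
    ext a
    exact ⟨fun h k hk => h ⟨k, hKG hk⟩ hk, fun h k hk => h k hk⟩
  have := CfsgH8.Pron.main (G := G) (Ω := Fin n) (K := K.subgroupOf G) (fun g L h1 h2 => by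
      obtain ⟨w, hw, e⟩ := hpro g g.2
      have hle : K ⊔ K.map (MulAut.conj (g : Equiv.Perm (Fin n))).toMonoidHom ≤ L.map G.subtype := by
        refine sup_le (fun k hk => ⟨⟨k, hKG hk⟩, h1 hk, rfl⟩) ?_
        rintro _ ⟨k, hk, rfl⟩
        exact ⟨_, h2 ⟨k, hKG hk⟩ hk, rfl⟩
      obtain ⟨w, hw', rfl⟩ := hle hw
      refine ⟨w, hw', fun x => ?_⟩
      have key : ∀ u y : Equiv.Perm (Fin n),
          y ∈ K.map (MulAut.conj u).toMonoidHom ↔ u⁻¹ * y * u ∈ K := fun u y => by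
        constructor
        · rintro ⟨k, hk, rfl⟩
          simpa [mul_assoc] using hk
        · intro h
          exact ⟨_, h, by simp [mul_assoc]⟩
      have := (key w x).symm.trans ((e ▸ Iff.rfl : _ ↔ _).trans (key g x))
      exact this)
    (CfsgH8.Pron.tb _) (fun a b => let ⟨g, hg, e⟩ := htrans a b; ⟨⟨g, hg⟩, e⟩) (fun h => hK (by
      rw [eq_bot_iff]
      intro k hk
      rw [Subgroup.mem_bot]
      ext a
      exact congrArg Fin.val ((hF ▸ h ▸ Set.mem_univ a : a ∈ {a : Fin n | ∀ k ∈ K, k a = a}) k hk)))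
  rw [hF, Nat.card_eq_fintype_card, Fintype.card_fin] at this
  exact this

end Cfsg.Agent.S3399
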