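import Cfsg.Statements.S3403
import Cfsg.Agent.H3.JFin

set_option autoImplicit false
open Cfsg

namespace Cfsg.Agent.S3403

/-- Let G be a finite group and P a non-normal subgroup of order 11 whose conjugates generate G, such that any two distinct conjugates of P generate a subgroup isomorphic to PSL(2, 11) or to the first Janko group. Then G itself is isomorphic to PSL(2, 11) or to the first Janko group. -/
theorem result {G : Type*} [Group G] [Finite G] {F : Type*} [Field F] [Fintype F] (hF : Fintype.card F = 11)
    (P : Subgroup G) (hP : Nat.card ↥P = 11) (hPn : ¬ P.Normal) (hgen : Subgroup.normalClosure (P : Set G) = ⊤)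
    (hpair : ∀ g : G, P.map (MulAut.conj g).toMonoidHom ≠ P →
      Nonempty (↥(P ⊔ P.map (MulAut.conj g).toMonoidHom) ≃* Matrix.ProjectiveSpecialLinearGroup (Fin 2) F) ∨
        Cfsg.Spor.IsoJ1 ↥(P ⊔ P.map (MulAut.conj g).toMonoidHom)) :
    Nonempty (G ≃* Matrix.ProjectiveSpecialLinearGroup (Fin 2) F) ∨ Cfsg.Spor.IsoJ1 G := by
  exact CfsgJ.final CfsgJ.noGeo hF P hP hPn hgen hpair

end Cfsg.Agent.S3403
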