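import Cfsg.Statements.S3406
import Cfsg.Agent.H6.OC5

set_option autoImplicit false
open Cfsg

namespace Cfsg.Agent.S3406

/-- A non-abelian finite simple group on whose elements the full automorphism group has at most five orbits is isomorphic to the alternating group of degree 5 or 6, to PSL(2, 7) or to PSL(2, 8). -/
theorem result {G : Type*} [Group G] [Finite G] [IsSimpleGroup G] (hG : ¬ IsMulCommutative G)
    (h5 : Nat.card (MulAction.orbitRel.Quotient (MulAut G) G) ≤ 5) :
    Nonempty (G ≃* ↥(alternatingGroup (Fin 5))) ∨ Nonempty (G ≃* ↥(alternatingGroup (Fin 6))) ∨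
      (∃ (F : Type) (_ : Field F) (_ : Fintype F), (Fintype.card F = 7 ∨ Fintype.card F = 8) ∧
        Nonempty (G ≃* Matrix.ProjectiveSpecialLinearGroup (Fin 2) F)) := by
  open CfsgH6 in
  have hns : ¬ Group.IsSolvable G := fun h => hG ⟨⟨IsSimpleGroup.comm_iff_isSolvable.2 h⟩⟩
  have six : ∀ a b c d e : ℕ, CfsgH6.Ord G a → CfsgH6.Ord G b → CfsgH6.Ord G c → CfsgH6.Ord G d →
      CfsgH6.Ord G e → [1, a, b, c, d, e].Nodup → False := fun a b c d e h1 h2 h3 h4 h6 hn => by
    have := (six_le_orbits (G := G) (s := [1, a, b, c, d, e].toFinset) (by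
      simp only [List.mem_toFinset, List.mem_cons, List.not_mem_nil, or_false]
      rintro n (rfl | rfl | rfl | rfl | rfl | rfl)
      exacts [⟨1, orderOf_one⟩, h1, h2, h3, h4, h6])).trans h5
    rw [List.toFinset_card_of_nodup hn] at this
    simp at this
  have d2 := CfsgSZ.two_dvd_of_not_solvable hns
  have o2 := ord_of_prime Nat.prime_two d2
  have hC : OneC G := fun d e a b c1 c2 c3 c4 => by
    by_contra c
    obtain ⟨p, p1, p2, p3⟩ : ∃ p : ℕ, p.Prime ∧ p ∣ Nat.card G ∧ p ≠ 2 := by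
      by_contra f
      push Not at f
      exact hns (CfsgL.burnside_pq Nat.prime_two Nat.prime_two fun r r1 r2 => .inl (f r r1 r2))
    obtain ⟨q, q1, q2, q3⟩ : ∃ q : ℕ, q.Prime ∧ q ∣ Nat.card G ∧ ¬ (q = 2 ∨ q = p) := by
      by_contra f
      push Not at f
      exact hns (CfsgL.burnside_pq Nat.prime_two p1 f)
    have e1 : ∀ {x y : ℕ}, x.Prime → ¬ y.Prime → x ≠ y := fun a b e => b (e ▸ a)
    have := p1.one_lt
    have := q1.one_lt
    refine six 2 p q d e o2 (ord_of_prime p1 p2) (ord_of_prime q1 q2) a b ?_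
    have := e1 Nat.prime_two c2; have := e1 Nat.prime_two c4; have := e1 p1 c2; have := e1 p1 c4
    have := e1 q1 c2; have := e1 q1 c4
    simp; omega
  rcases hC.classify hns with ⟨F, _, _, h, ⟨e⟩⟩ | h | ⟨F, _, _, h, ⟨e⟩⟩
  · obtain ⟨p, _, n, hp, hq⟩ := FiniteField.card' F
    have op : CfsgH6.Ord G p := exists_orderOf_of_equiv e (by
      change p ∈ Set.range _
      rw [CfsgH7.spec_psl2 p]; exact .inl dvd_rfl)
    have ep : ∀ l : ℕ, l.Prime → l ∣ Fintype.card F → CfsgH6.Ord G l := fun l a b => by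
      rwa [(Nat.prime_dvd_prime_iff_eq a hp).1 (a.dvd_of_dvd_pow (hq ▸ b))]
    have od : Odd (Fintype.card F) → CfsgH6.Ord G ((Fintype.card F - 1) / 2) ∧
        CfsgH6.Ord G ((Fintype.card F + 1) / 2) := fun o =>
      (psl2_orders_odd F o).imp (exists_orderOf_of_equiv e) (exists_orderOf_of_equiv e)
    have ev : ∀ n, Fintype.card F = 2 ^ n → CfsgH6.Ord G (Fintype.card F - 1) ∧
        CfsgH6.Ord G (Fintype.card F + 1) := fun n o =>
      have := charP_of_card Nat.prime_two o
      (psl2_orders_even F).imp (exists_orderOf_of_equiv e) (exists_orderOf_of_equiv e)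
    rcases h with h | (h | h | h | h | h | h | h) | ⟨n, r, s, a1, a2, a3, a4, h⟩ |
      ⟨n, r, a1, a2, a3, h⟩
    · exact .inl ((psl2_four_equiv h).map e.trans)
    · exact .inl ((psl2_five_equiv h).map e.trans)
    · exact .inr (.inr ⟨F, _, _, .inl h, ⟨e⟩⟩)
    · exact .inr (.inr ⟨F, _, _, .inr h, ⟨e⟩⟩)
    · exact .inr (.inl ((psl2_nine_equiv h).map e.trans))
    · rw [h] at od ep
      obtain ⟨a, b⟩ := od (by decide)
      exact (six 2 3 5 6 11 o2 (b.dvd (by decide)) a b (ep _ (by norm_num) dvd_rfl) (by decide)).elim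
    · rw [h] at od ep
      obtain ⟨a, b⟩ := od (by decide)
      exact (six 2 3 6 7 13 o2 (a.dvd (by decide)) a b (ep _ (by norm_num) dvd_rfl) (by decide)).elim
    · rw [h] at ev
      obtain ⟨a, b⟩ := ev 4 rfl
      exact (six 2 3 5 15 17 o2 (a.dvd (by decide)) (a.dvd (by decide)) a b (by decide)).elim
    · have n0 : 3 ∣ 3 ^ n := dvd_pow_self 3 (by rintro rfl; omega)
      have := a2.two_le
      have : 3 ^ n ≠ 7 ∧ 3 ^ n ≠ 11 := by omega
      rw [h] at od ep
      obtain ⟨a, b⟩ := od (Nat.odd_iff.2 (by omega))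
      rw [show (3 ^ n + 1) / 2 = 2 * s by omega] at b
      refine (six 2 3 s _ _ o2 (ep 3 Nat.prime_three n0) (b.dvd (Dvd.intro_left _ rfl)) a b ?_).elim
      simp; omega
    · by_cases r3 : r = 3
      · exact .inr (.inr ⟨F, _, _, .inr (by omega), ⟨e⟩⟩)
      have := a2.two_le
      have n0 : 2 ∣ 2 ^ n := dvd_pow_self 2 (by rintro rfl; omega)
      obtain ⟨a, b⟩ := ev n h
      rw [h] at a b
      rw [a3] at b
      refine (six 2 3 r _ _ o2 (b.dvd (Dvd.intro _ rfl)) (b.dvd (Dvd.intro_left _ rfl)) a b ?_).elim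
      simp; omega
  · obtain ⟨a, b⟩ := ord_psl34 h
    exact (six 2 3 4 5 7 o2 (ord_of_prime (by norm_num) (Dvd.dvd.trans (by norm_num) b)) a
      (ord_of_prime (by norm_num) (Dvd.dvd.trans (by norm_num) b))
      (ord_of_prime (by norm_num) (Dvd.dvd.trans (by norm_num) b)) (by decide)).elim
  · obtain ⟨a, b, c, d⟩ := ord_Sz F (m := 1) le_rfl h e
    exact (six 2 4 5 7 13 o2 a c (ord_of_prime (by norm_num) d) b (by decide)).elim

end Cfsg.Agent.S3406
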