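import Cfsg.Statements.S3410
import Cfsg.Agent.H1.ONan
import Cfsg.Agent.H1.PSLSimple

set_option autoImplicit false
open Cfsg

namespace Cfsg.Agent.S3410

/-- Let a finite group G act faithfully and 2-transitively on a finite set X, and let N be an abelian normal subgroup of the stabilizer of a point x which is not semiregular on the remaining points (some non-identity element of N fixes a second point). Then the generalized Fitting subgroup of G is isomorphic to PSL_n(F) for some n ≥ 3 and some finite field F. -/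
theorem result {G X : Type*} [Group G] [Finite G] [Fintype X]
    [MulAction G X] [FaithfulSMul G X] (h2 : MulAction.IsMultiplyPretransitive G X 2) (x : X)
    (N : Subgroup G) (hNle : N ≤ MulAction.stabilizer G x)
    (hNnormal : ∀ g ∈ MulAction.stabilizer G x, ∀ n ∈ N, g * n * g⁻¹ ∈ N) (hNab : IsMulCommutative N)
    (hnsr : ∃ n ∈ N, n ≠ 1 ∧ ∃ y : X, y ≠ x ∧ n • y = y) :
    ∃ (F : Type) (_ : Field F) (_ : Fintype F) (n : ℕ), 3 ≤ n ∧
      Nonempty (↥(Cfsg.generalizedFittingSubgroup G) ≃* Matrix.ProjectiveSpecialLinearGroup (Fin n) F) := by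
  classical
  obtain ⟨n, hn, hn1, y, hyx, hny⟩ := hnsr
  have : Nontrivial X := ⟨y, x, hyx⟩
  have h1 : MulAction.IsPretransitive G X := MulAction.isPretransitive_of_is_two_pretransitive
  rw [MulAction.is_two_pretransitive_iff] at h2
  have hcomm : ∀ a ∈ N, ∀ b ∈ N, Commute a b := fun a ha b hb =>
    congrArg Subtype.val (hNab.is_comm.comm ⟨a, ha⟩ ⟨b, hb⟩)
  obtain ⟨p, hp, k, hk⟩ := Nat.exists_prime_and_dvd (mt orderOf_eq_one_iff.1 hn1)
  have hk0 : k ≠ 0 := by
    rintro rfl
    exact (orderOf_pos n).ne' (by simpa using hk)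
  have hm1 : n ^ k ≠ 1 := pow_ne_one_of_lt_orderOf hk0 (by
    rw [hk]
    exact lt_mul_of_one_lt_left (Nat.pos_of_ne_zero hk0) hp.one_lt)
  have hmp : (n ^ k) ^ p = 1 := by rw [← pow_mul, mul_comm, ← hk, pow_orderOf_eq_one]
  have hcomm' : ∀ u a b : G, u⁻¹ * a * u ∈ N → u⁻¹ * b * u ∈ N → Commute a b := by
    intro u a b ha hb
    have := (hcomm _ ha _ hb).conj u
    simpa [mul_assoc] using this
  choose c hc using fun z => MulAction.exists_smul_eq G x z
  let M : X → Subgroup G := fun z =>
    { carrier := {a | (c z)⁻¹ * a * c z ∈ N ∧ a ^ p = 1}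
      one_mem' := by simp
      mul_mem' := fun {a b} ha hb => ⟨by simpa [mul_assoc] using mul_mem ha.1 hb.1, by
        rw [(hcomm' _ _ _ ha.1 hb.1).mul_pow, ha.2, hb.2, mul_one]⟩
      inv_mem' := fun {a} ha => ⟨by simpa [mul_assoc] using inv_mem ha.1, by simp [ha.2]⟩ }
  have memM : ∀ (g : G) a, a ∈ M (g • x) ↔ g⁻¹ * a * g ∈ N ∧ a ^ p = 1 := by
    intro g a
    refine and_congr_left fun _ => ⟨fun h => ?_, fun h => ?_⟩
    · have := hNnormal (g⁻¹ * c (g • x)) (by simp [mul_smul, hc]) _ h
      simpa [mul_assoc] using this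
    · have := hNnormal ((c (g • x))⁻¹ * g) (by simp [mul_smul, inv_smul_eq_iff, hc]) _ h
      simpa [mul_assoc] using this
  let O : CfsgH1.ONanFam G X :=
    { N := M
      p := p
      prime := hp
      two := h2
      conj := fun g z a ha => by
        obtain ⟨u, rfl⟩ := MulAction.exists_smul_eq G x z
        rw [memM] at ha
        rw [← mul_smul, memM]
        exact ⟨by simpa [mul_assoc] using ha.1, by simp [ha.2]⟩
      fix := fun {z a} ha => by
        obtain ⟨u, rfl⟩ := MulAction.exists_smul_eq G x z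
        have := hNle ((memM u a).1 ha).1
        rwa [MulAction.mem_stabilizer_iff, mul_smul, mul_smul, inv_smul_eq_iff] at this
      comm := fun {z a b} ha hb => hcomm' _ _ _ ha.1 hb.1
      pow := fun ha => ha.2
      ex := fun {u v} huv => by
        obtain ⟨g, rfl, rfl⟩ := h2 hyx.symm huv
        refine ⟨g * n ^ k * g⁻¹, (memM _ _).2 ⟨by simpa [mul_assoc] using pow_mem hn k, ?_⟩,
          by simpa using hm1, ?_⟩
        · rw [conj_pow, hmp]; simp
        · rw [mul_smul, inv_smul_smul, mul_smul]
          congr 1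
          exact pow_mem (show n ∈ MulAction.stabilizer G y from hny) k }
  obtain ⟨m, F, _, _, hm, -, K, hK, ⟨e⟩, hC⟩ := O.psl
  have hcard : 3 ≤ Fintype.card (Fin (m + 1)) := by simp; omega
  have := CfsgH1.isSimpleGroup_psl (F := F) hcard
  have : IsSimpleGroup K := e.isSimpleGroup
  have hp : commutator K = ⊤ := by
    have : Group.IsPerfect (Matrix.ProjectiveSpecialLinearGroup (Fin (m + 1)) F) :=
      ⟨CfsgH1.commutator_psl_eq_top hcard⟩
    exact (Group.IsPerfect.ofSurjective (f := e.symm.toMonoidHom) e.symm.surjective).commutator_eq_top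
  exact ⟨F, inferInstance, inferInstance, m + 1, by omega,
    ⟨(MulEquiv.subgroupCongr (CfsgH1.generalizedFitting_eq K hp hC)).trans e⟩⟩

end Cfsg.Agent.S3410
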