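import Cfsg.Statements.S3488
import Cfsg.Agent.H7.ASL2
import Cfsg.Agent.H7.SpecAlt

set_option autoImplicit false
open Cfsg

namespace Cfsg.Agent.S3488

/-- Let F be the field with four elements. The affine group F² ⋊ SL(2,F), realised as the subgroup of SL(3,F) of matrices with last row (0, 0, 1), has exactly the same set of element orders as the alternating group of degree 6 (namely {1, 2, 3, 4, 5}); so the alternating group of degree 6 is not determined by its element orders. -/
theorem result {F : Type*} [Field F] [Fintype F] (hF : Fintype.card F = 4) :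
    Set.range (orderOf : Subgroup.closure {M : Matrix.SpecialLinearGroup (Fin 3) F |
        (M : Matrix (Fin 3) (Fin 3) F) 2 0 = 0 ∧ (M : Matrix (Fin 3) (Fin 3) F) 2 1 = 0 ∧ (M : Matrix (Fin 3) (Fin 3) F) 2 2 = 1} → ℕ) =
      Set.range (orderOf : alternatingGroup (Fin 6) → ℕ) := by
  have : Fact (Nat.Prime 2) := ⟨Nat.prime_two⟩
  have : CharP F 2 := charP_of_card_eq_prime_pow (f := 2) (by rw [hF]; norm_num)
  rw [CfsgH7.asl2ToSL3_range, ← CfsgH7.spec_congr (MonoidHom.ofInjective (CfsgH7.asl2ToSL3_injective F)),
    CfsgH7.spec_asl2_char_two, CfsgH7.spec_psl2 2, CfsgH7.spec_alt6, hF]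
  ext d
  simp only [Set.mem_ofPred_eq]
  norm_num
  constructor
  · rintro (h | h | h | h)
    · exact Or.inl h
    · exact Or.inl (h.trans (by norm_num))
    · tauto
    · tauto
  · tauto

end Cfsg.Agent.S3488
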