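import Cfsg.Statements.S3493
import Cfsg.Agent.H6.CentMax
import Cfsg.Agent.H4.Prim

set_option autoImplicit false
open Cfsg

namespace Cfsg.Agent.S3493

open MulAction Subgroup in
theorem situationS {G : Type*} [Group G] [Finite G] {Ω : Type*} [MulAction G Ω] [FaithfulSMul G Ω]
    (α : Ω) (hep : ∀ ω : Ω, stabilizer (stabilizer G α) ω = ⊤ ∨ IsCoatom (stabilizer (stabilizer G α) ω))
    (T : Subgroup G) (hs : IsSimpleGroup T) (hna : ¬ IsMulCommutative T)
    (hT : ∀ ω : Ω, ∃ t ∈ T, t • α = ω)
    (hC : IsPretransitive (centralizer (T : Set G)) Ω)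
    (hdich : ∀ g : G, (∀ t ∈ T, g * t * g⁻¹ ∈ T) ∨ (∀ t ∈ T, ∀ s ∈ T, Commute (g * t * g⁻¹) s)) :
    False := by
  have hbij : Function.Bijective (fun t : T => (t : G) • α) := by
    constructor
    · intro a b hab
      have h1 : ((b : G)⁻¹ * a) = 1 := by
        apply CfsgH4.eq_one_of_centralizes_transitive (Ω := Ω) (centralizer (T : Set G)) (a := α)
        · intro n hn
          exact (mem_centralizer_iff.mp hn _ (T.mul_mem (T.inv_mem b.2) a.2)).symm
        · rw [mul_smul, inv_smul_eq_iff]; exact hab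
      rw [inv_mul_eq_one] at h1
      exact Subtype.ext h1.symm
    · intro ω
      obtain ⟨t, ht, h⟩ := hT ω
      exact ⟨⟨t, ht⟩, h⟩
  let e : T ≃ Ω := Equiv.ofBijective _ hbij
  have he : ∀ t : T, e t = (t : G) • α := fun t => rfl
  let _i : MulAction (stabilizer G α) T :=
    { smul := fun h t => e.symm (h • e t)
      one_smul := fun t => by
        change e.symm ((1 : stabilizer G α) • e t) = t
        simp
      mul_smul := fun a b t => by
        change e.symm ((a * b) • e t) = e.symm (a • e (e.symm (b • e t)))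
        simp [mul_smul] }
  have hsm : ∀ (h : stabilizer G α) (t : T), e (h • t) = (h : G) • e t := fun h t =>
    e.apply_symm_apply _
  have hsm' : ∀ (h : stabilizer G α) (t : T), ((h • t : T) : G) • α = ((h : G) * t * (h : G)⁻¹) • α := by
    intro h t
    rw [← he, hsm, he, mul_smul, mul_smul, (show (h : G)⁻¹ • α = α from (stabilizer G α).inv_mem h.2)]
  apply CfsgH6.no_simple_of_maximal_stabilizers (T := T) (H := stabilizer G α) hna
  · intro h
    rcases hdich h with h1 | h1
    · left
      have : ∀ t : T, h • t = ⟨_, h1 t t.2⟩ := fun t => hbij.1 (hsm' h t)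
      intro a b
      rw [this, this, this]
      apply Subtype.ext
      simp
    · right
      intro a b
      apply hbij.1
      change ((h • (a * b) : T) : G) • α = ((h • b * h • a : T) : G) • α
      rw [hsm', coe_mul, coe_mul, mul_smul ((h • b : T) : G), hsm', ← mul_smul, ← (h1 a a.2 _ (h • b).2).eq,
        mul_smul _ ((h • b : T) : G), hsm', ← mul_smul]
      congr 1
      group
  · intro t
    obtain ⟨c, hc⟩ := hC.exists_smul_eq ((t : G) • α) α
    have hc' : (c : G) • (t : G) • α = α := hc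
    refine ⟨⟨c * t, by rw [mem_stabilizer_iff, mul_smul, hc']⟩, fun s => hbij.1 ?_⟩
    change _ = ((t * s * t⁻¹ : T) : G) • α
    simp only
    rw [hsm']
    congr 1
    have := mem_centralizer_iff.mp c.2 _ (t * s * t⁻¹).2
    simp only [coe_mul, coe_inv] at this ⊢
    rw [mul_inv_rev, ← mul_assoc, mul_inv_eq_iff_eq_mul, this]
    group
  · intro x
    have : stabilizer (stabilizer G α) x = stabilizer (stabilizer G α) (e x) := by
      ext h
      rw [mem_stabilizer_iff, mem_stabilizer_iff, ← e.apply_eq_iff_eq, hsm]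
      rfl
    rw [this]
    exact hep _

/-- An extremely primitive permutation group is of affine type or almost simple. Let a finite group G act faithfully and primitively on a finite set Ω with at least two points, in such a way that every point stabilizer acts primitively on each of its own orbits in Ω (an orbit of size one counts as primitive). Then either G has a non-trivial abelian normal subgroup whose elements other than the identity fix no point (affine type), or G has a non-abelian simple normal subgroup with trivial centralizer (almost simple). -/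
theorem result {G : Type*} [Group G] [Finite G] {Ω : Type*} [Fintype Ω] [MulAction G Ω] [FaithfulSMul G Ω] (hΩ : 2 ≤ Fintype.card Ω) (hprim : MulAction.IsPreprimitive G Ω) (hep : ∀ (α : Ω) (ω : Ω), MulAction.IsPreprimitive (MulAction.stabilizer G α) (MulAction.orbit (MulAction.stabilizer G α) ω)) :
    (∃ N : Subgroup G, N.Normal ∧ N ≠ ⊥ ∧ IsMulCommutative N ∧ ∀ ω : Ω, MulAction.stabilizer N ω = ⊥) ∨ (∃ T : Subgroup G, T.Normal ∧ IsSimpleGroup T ∧ ¬ IsMulCommutative T ∧ Subgroup.centralizer (T : Set G) = ⊥) := by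
  classical
  open MulAction Subgroup in
  have hnt : Nontrivial Ω := Fintype.one_lt_card_iff_nontrivial.mp hΩ
  obtain ⟨α, β, hαβ⟩ := exists_pair_ne Ω
  have hep' : ∀ ω : Ω, stabilizer (stabilizer G α) ω = ⊤ ∨ IsCoatom (stabilizer (stabilizer G α) ω) := by
    intro ω
    have h1 := hep α ω
    have h2 : stabilizer (stabilizer G α) (⟨ω, mem_orbit_self ω⟩ : orbit (stabilizer G α) ω) =
        stabilizer (stabilizer G α) ω := by
      ext h
      simp only [mem_stabilizer_iff]
      exact ⟨fun h => congrArg Subtype.val h, fun h => Subtype.ext h⟩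
    rcases subsingleton_or_nontrivial (orbit (stabilizer G α) ω) with h | h
    · left
      rw [← h2, eq_top_iff]
      exact fun g _ => Subsingleton.elim _ _
    · right
      rw [← h2]
      exact IsPreprimitive.isCoatom_stabilizer_of_isPreprimitive _ _
  have htop : (⊤ : Subgroup G) ≠ ⊥ := by
    intro h
    obtain ⟨g, h1⟩ := exists_smul_eq G α β
    have : g = 1 := Subgroup.mem_bot.mp (h ▸ Subgroup.mem_top g)
    rw [this, one_smul] at h1
    exact hαβ h1
  obtain ⟨N, ⟨hN1, hN2⟩, hNmin⟩ := (wellFounded_lt (α := Subgroup G)).has_min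
    {M | M.Normal ∧ M ≠ ⊥} ⟨⊤, inferInstance, htop⟩
  have hNmin' : ∀ M : Subgroup G, M.Normal → M ≠ ⊥ → M ≤ N → M = N := fun M h1 h2 h3 =>
    h3.eq_of_not_lt (hNmin M ⟨h1, h2⟩)
  have hNt : IsPretransitive N Ω := CfsgH4.normal_isPretransitive hprim N hN2
  by_cases hab : IsMulCommutative N
  · left
    refine ⟨N, hN1, hN2, hab, fun ω => ?_⟩
    rw [eq_bot_iff]
    intro n hn
    rw [mem_bot]
    exact Subtype.ext (CfsgH4.eq_one_of_centralizes_transitive (Ω := Ω) N
      (fun m hm => congrArg Subtype.val (hab.is_comm.comm ⟨m, hm⟩ n)) hn)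
  right
  obtain ⟨T, ⟨hT1, hT2, hT3⟩, hTmin⟩ := (wellFounded_lt (α := Subgroup G)).has_min
    {T | T ≤ N ∧ T ≠ ⊥ ∧ ∀ n ∈ N, ∀ t ∈ T, n * t * n⁻¹ ∈ T} ⟨N, le_rfl, hN2, fun n _ t ht => hN1.conj_mem t ht n⟩
  have hTmin' : ∀ M : Subgroup G, M ≠ ⊥ → (∀ n ∈ N, ∀ t ∈ M, n * t * n⁻¹ ∈ M) → M ≤ T → M = T :=
    fun M h1 h2 h3 => h3.eq_of_not_lt (hTmin M ⟨h3.trans hT1, h1, h2⟩)
  have hdich : ∀ g : G, (∀ t ∈ T, g * t * g⁻¹ ∈ T) ∨ (∀ t ∈ T, ∀ s ∈ T, Commute (g * t * g⁻¹) s) := by
    intro g
    set T' := T.map (MulAut.conj g).toMonoidHom with hT'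
    have hmem : ∀ x, x ∈ T' ↔ g⁻¹ * x * g ∈ T := by
      intro x
      constructor
      · rintro ⟨t, ht, rfl⟩
        simpa [mul_assoc] using ht
      · intro h
        exact ⟨_, h, by simp [mul_assoc]⟩
    have hT'n : ∀ n ∈ N, ∀ t ∈ T', n * t * n⁻¹ ∈ T' := by
      intro n hn t ht
      rw [hmem] at ht ⊢
      have := hT3 _ (hN1.conj_mem' n hn g) _ ht
      simpa [mul_assoc] using this
    by_cases h : T' ⊓ T = ⊥
    · right
      intro t ht s hs
      have ha : g * t * g⁻¹ ∈ T' := ⟨t, ht, rfl⟩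
      have haN : g * t * g⁻¹ ∈ N := hN1.conj_mem t (hT1 ht) g
      rw [← commutatorElement_eq_one_iff_commute, ← mem_bot, ← h, commutatorElement_def]
      refine ⟨?_, T.mul_mem (hT3 _ haN s hs) (T.inv_mem hs)⟩
      have := T'.mul_mem ha (hT'n s (hT1 hs) _ (T'.inv_mem ha))
      change _ ∈ T'
      simpa only [mul_assoc] using this
    · left
      have h1 := hTmin' (T' ⊓ T) h (fun n hn t ht => ⟨hT'n n hn t ht.1, hT3 n hn t ht.2⟩) inf_le_right
      have h2 : T ≤ T' := inf_eq_right.mp h1
      have h3 : T = T' := eq_of_le_of_card_ge h2 (card_map_of_injective (MulAut.conj g).injective).le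
      intro t ht
      rw [h3]
      exact ⟨t, ht, rfl⟩
  have hNcl : normalClosure (T : Set G) = N := by
    apply hNmin' _ inferInstance
    · exact fun h => hT2 (eq_bot_iff.mpr (h ▸ le_normalClosure))
    · exact normalClosure_le_normal hT1
  have hNle : ∀ K : Subgroup G, (∀ g : G, ∀ t ∈ T, g * t * g⁻¹ ∈ K) → N ≤ K := by
    intro K hK
    rw [← hNcl, normalClosure, closure_le]
    intro x hx
    obtain ⟨t, ht, hc⟩ := Group.mem_conjugatesOfSet_iff.mp hx
    obtain ⟨g, rfl⟩ := isConj_iff.mp hc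
    exact hK g t ht
  have hTna : ¬ IsMulCommutative T := by
    intro h
    apply hab
    have h1 : N ≤ centralizer (T : Set G) := by
      apply hNle
      intro g t ht s hs
      rcases hdich g with h2 | h2
      · exact congrArg Subtype.val (h.is_comm.comm ⟨s, hs⟩ ⟨_, h2 t ht⟩)
      · exact (h2 t ht s hs).eq.symm
    have h2 : N ≤ centralizer (N : Set G) := by
      apply hNle
      intro g t ht
      exact (inferInstance : (centralizer (N : Set G)).Normal).conj_mem t (le_centralizer_iff.mp h1 ht) g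
    exact ⟨⟨fun a b => Subtype.ext (h2 b.2 a a.2)⟩⟩
  have hTs : IsSimpleGroup T := by
    have : Nontrivial T := (nontrivial_iff_ne_bot T).mpr hT2
    refine ⟨fun K hK => ?_⟩
    by_cases h : K = ⊥
    · exact Or.inl h
    right
    have h1 : K.map T.subtype = T := by
      apply hTmin' _ (by rwa [Ne, map_eq_bot_iff_of_injective _ T.subtype_injective]) _ (map_subtype_le K)
      have : N ≤ normalizer ((K.map T.subtype : Subgroup G) : Set G) := by
        apply hNle
        intro g t ht
        apply mem_normalizer_fintype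
        rintro _ ⟨k, hk, rfl⟩
        rcases hdich g with h2 | h2
        · exact ⟨_, hK.conj_mem k hk ⟨_, h2 t ht⟩, rfl⟩
        · refine ⟨k, hk, ?_⟩
          rw [coe_subtype, (h2 t ht _ k.2).eq, mul_inv_cancel_right]
      intro n hn t ht
      exact (mem_normalizer_iff.mp (this hn) t).mp ht
    rw [eq_top_iff]
    intro x _
    obtain ⟨y, hy, h2⟩ := h1.ge x.2
    rwa [← Subtype.ext h2]
  have hZT : ∀ t ∈ T, (∀ s ∈ T, Commute t s) → t = 1 := by
    intro t ht h
    have : (⟨t, ht⟩ : T) ∈ center T := mem_center_iff.mpr (fun s => Subtype.ext (h s s.2).eq.symm)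
    rw [CfsgH6.center_eq_bot_of_simple hTna, mem_bot] at this
    exact congrArg Subtype.val this
  have hdec : ∀ g : G, ∃ n ∈ N, n⁻¹ * g ∈ stabilizer G α := by
    intro g
    obtain ⟨n, hn, h⟩ := CfsgH4.exists_mem_smul_eq N α (g • α)
    exact ⟨n, hn, by rw [mem_stabilizer_iff, mul_smul, ← h, inv_smul_smul]⟩
  by_cases hI : ∀ h ∈ stabilizer G α, ∀ t ∈ T, h * t * h⁻¹ ∈ T
  · have hTn : T.Normal := ⟨fun t ht g => by
      obtain ⟨n, hn, h⟩ := hdec g
      have := hT3 n hn _ (hI _ h t ht)
      simpa [mul_assoc] using this⟩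
    refine ⟨T, hTn, hTs, hTna, ?_⟩
    by_contra hC
    have hTt : IsPretransitive T Ω := CfsgH4.normal_isPretransitive hprim T hT2
    exact situationS α hep' T hTs hTna (fun ω => CfsgH4.exists_mem_smul_eq T α ω)
      (CfsgH4.normal_isPretransitive hprim _ hC) hdich
  exfalso
  push Not at hI
  obtain ⟨h0, hh0, t0, ht0, hh0t⟩ := hI
  by_cases hreg : N ⊓ stabilizer G α = ⊥
  · have hcent : ∀ t ∈ T, t ≠ 1 → ∀ h ∈ stabilizer G α, (∀ s ∈ T, h * s * h⁻¹ ∈ T) → h * t * h⁻¹ = t := by
      intro t ht ht1 h hh hhT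
      have hst : ∀ h : stabilizer G α, h ∈ stabilizer (stabilizer G α) (t • α) ↔ h * t * (h : G)⁻¹ = t := by
        intro h
        rw [mem_stabilizer_iff]
        change (h : G) • t • α = t • α ↔ _
        have h1 : (h : G)⁻¹ • α = α := (stabilizer G α).inv_mem h.2
        constructor
        · intro h2
          have : t⁻¹ * (h * t * (h : G)⁻¹) ∈ N ⊓ stabilizer G α := by
            refine ⟨N.mul_mem (N.inv_mem (hT1 ht)) (hN1.conj_mem _ (hT1 ht) _), ?_⟩
            change _ • α = α
            rw [mul_smul, mul_smul, mul_smul, h1, h2, inv_smul_smul]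
          rw [hreg, mem_bot, inv_mul_eq_one] at this
          exact this.symm
        · intro h2
          conv_rhs => rw [← h2]
          rw [mul_smul, mul_smul, h1]
      have hle : stabilizer (stabilizer G α) (t • α) ≤ (normalizer (T : Set G)).subgroupOf (stabilizer G α) := by
        intro k hk
        rw [hst] at hk
        rw [mem_subgroupOf]
        apply mem_normalizer_fintype
        rcases hdich k with h2 | h2
        · exact h2
        · exact absurd (hZT t ht (fun s hs => hk ▸ h2 t ht s hs)) ht1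
      have hne : (normalizer (T : Set G)).subgroupOf (stabilizer G α) ≠ ⊤ := by
        intro h2
        have : (⟨h0, hh0⟩ : stabilizer G α) ∈ (normalizer (T : Set G)).subgroupOf (stabilizer G α) :=
          h2 ▸ mem_top _
        exact hh0t ((mem_normalizer_iff.mp (mem_subgroupOf.mp this) t0).mp ht0)
      have hco := (hep' (t • α)).resolve_left (fun h2 => hne (eq_top_iff.mpr (h2 ▸ hle)))
      have heq := (hco.le_iff.mp hle).resolve_left hne
      apply (hst ⟨h, hh⟩).mp
      rw [← heq, mem_subgroupOf]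
      exact mem_normalizer_fintype hhT
    obtain ⟨⟨t, ht⟩, ht1⟩ := ne_bot_iff_exists_ne_one.mp hT2
    have ht1' : t ≠ 1 := fun h => ht1 (Subtype.ext h)
    set A := closure {x | ∃ h ∈ stabilizer G α, x = h * t * h⁻¹} with hA
    have hAN : A ≤ N := by
      rw [hA, closure_le]
      rintro _ ⟨h, -, rfl⟩
      exact hN1.conj_mem _ (hT1 ht) _
    have hAC : A ≤ centralizer {t} := by
      rw [hA, closure_le]
      rintro _ ⟨h, hh, rfl⟩
      rw [SetLike.mem_coe, mem_centralizer_singleton_iff]
      rcases hdich h with h2 | h2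
      · rw [hcent t ht ht1' h hh h2]
      · exact (h2 t ht t ht).eq
    have hAn : ∀ h ∈ stabilizer G α, ∀ a ∈ A, h * a * h⁻¹ ∈ A := by
      intro h hh a ha
      induction ha using closure_induction with
      | mem x hx =>
        obtain ⟨k, hk, rfl⟩ := hx
        exact subset_closure ⟨h * k, (stabilizer G α).mul_mem hh hk, by group⟩
      | one => simp
      | mul x y _ _ hx hy => simpa [mul_assoc] using A.mul_mem hx hy
      | inv x _ hx => simpa [mul_assoc] using A.inv_mem hx
    have htA : t ∈ A := subset_closure ⟨1, one_mem _, by simp⟩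
    have hco : IsCoatom (stabilizer G α) := IsPreprimitive.isCoatom_stabilizer_of_isPreprimitive _ _
    have hle : stabilizer G α ≤ CfsgH4.setStab (orbit A α) := by
      rintro h hh _ ⟨a, rfl⟩
      refine ⟨⟨_, hAn h hh a a.2⟩, ?_⟩
      change (h * a * h⁻¹) • α = h • (a : G) • α
      rw [mul_smul, mul_smul, (show h⁻¹ • α = α from (stabilizer G α).inv_mem hh)]
    have htop' : (CfsgH4.setStab (orbit A α) : Subgroup G) = ⊤ := by
      rcases hco.le_iff.mp hle with h | h
      · exact h
      · exfalso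
        apply ht1'
        rw [← mem_bot, ← hreg]
        refine ⟨hT1 ht, ?_⟩
        rw [← h]
        rintro _ ⟨a, rfl⟩
        exact ⟨⟨t, htA⟩ * a, mul_smul _ _ _⟩
    apply ht1'
    apply hZT t ht
    intro s hs
    obtain ⟨a, ha⟩ := (htop' ▸ mem_top s : s ∈ CfsgH4.setStab (orbit A α)) α (mem_orbit_self α)
    have h1 : (a : G)⁻¹ * s ∈ N ⊓ stabilizer G α := by
      refine ⟨N.mul_mem (N.inv_mem (hAN a.2)) (hT1 hs), ?_⟩
      change _ • α = α
      rw [mul_smul, inv_smul_eq_iff]
      exact ha.symm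
    rw [hreg, mem_bot, inv_mul_eq_one] at h1
    exact (mem_centralizer_singleton_iff.mp (hAC (h1 ▸ a.2))).symm
  · have h1 : ∀ h ∈ stabilizer G α, ∀ t ∈ T, ∃ s ∈ T, (h * t * h⁻¹) • α = s • α := by
      intro h hh t ht
      obtain ⟨m, hm, hm2⟩ := CfsgH4.extremely_primitive_normal_transitive hprim hep (α := α) _ hreg inf_le_right
        (fun g hg k hk => ⟨hN1.conj_mem _ hk.1 _,
          (stabilizer G α).mul_mem ((stabilizer G α).mul_mem hg hk.2) ((stabilizer G α).inv_mem hg)⟩)
        (t • α) h hh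
      refine ⟨m * t * m⁻¹, hT3 m hm.1 t ht, ?_⟩
      rw [mul_smul, mul_smul, mul_smul, mul_smul, (show h⁻¹ • α = α from (stabilizer G α).inv_mem hh),
        (show m⁻¹ • α = α from (stabilizer G α).inv_mem hm.2), hm2]
    have h2 : N ≤ CfsgH4.setStab (orbit T α) := by
      apply hNle
      rintro g t ht _ ⟨s, rfl⟩
      obtain ⟨n, hn, hh⟩ := hdec g
      obtain ⟨r, hr, hr2⟩ := h1 _ hh _ (hT3 _ (hN1.conj_mem' n hn g) t ht)
      have e : n⁻¹ * g * (g⁻¹ * n * g * t * (g⁻¹ * n * g)⁻¹) * (n⁻¹ * g)⁻¹ = g * t * g⁻¹ := by group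
      rw [e] at hr2
      refine ⟨⟨_, T.mul_mem (hT3 _ (hN1.conj_mem t (hT1 ht) g) s s.2) hr⟩, ?_⟩
      change (g * t * g⁻¹ * s * (g * t * g⁻¹)⁻¹ * r) • α = (g * t * g⁻¹) • (s : G) • α
      rw [mul_smul, ← hr2, ← mul_smul, ← mul_smul]
      congr 1
      group
    have hT : ∀ ω : Ω, ∃ t ∈ T, t • α = ω := by
      intro ω
      obtain ⟨n, hn, rfl⟩ := CfsgH4.exists_mem_smul_eq N α ω
      obtain ⟨s, hs⟩ := h2 hn α (mem_orbit_self α)
      exact ⟨s, s.2, hs⟩
    have hC : ∀ ω : Ω, ∃ c ∈ centralizer (T : Set G), c • α = ω := by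
      intro ω
      obtain ⟨t, ht, h⟩ := hT (h0⁻¹ • ω)
      refine ⟨h0 * t * h0⁻¹, ?_, ?_⟩
      · intro s hs
        exact ((hdich h0).resolve_left (fun h => hh0t (h t0 ht0)) t ht s hs).eq.symm
      · rw [mul_smul, mul_smul, (show h0⁻¹ • α = α from (stabilizer G α).inv_mem hh0), h, smul_inv_smul]
    refine situationS α hep' T hTs hTna hT (CfsgH4.isPretransitive_of_forall_exists _ (fun a b => ?_)) hdich
    obtain ⟨c, hc, rfl⟩ := hC a
    obtain ⟨d, hd, rfl⟩ := hC b
    exact ⟨d * c⁻¹, mul_mem hd (inv_mem hc), by rw [mul_smul, inv_smul_smul]⟩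

end Cfsg.Agent.S3493
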