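import Cfsg.Statements.S3495
import Cfsg.Agent.H4.Prim

set_option autoImplicit false
open Cfsg

namespace Cfsg.Agent.S3495

/-- Let a finite group G act faithfully and primitively on a finite set Ω with non-trivial point stabilizers, each acting primitively on every one of its orbits (an extremely primitive group), and suppose G has an elementary abelian normal p-subgroup N acting regularly on Ω (affine type). Then every non-trivial subgroup M of a point stabilizer G_α that is normal in G_α has the same orbits on Ω as G_α, and normalizes no subgroup of N other than 1 and N. -/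
theorem result {G : Type*} [Group G] [Finite G] {Ω : Type*} [Fintype Ω] [MulAction G Ω] [FaithfulSMul G Ω] (hprim : MulAction.IsPreprimitive G Ω) (hH : ∀ α : Ω, MulAction.stabilizer G α ≠ ⊥) (hep : ∀ (α : Ω) (ω : Ω), MulAction.IsPreprimitive (MulAction.stabilizer G α) (MulAction.orbit (MulAction.stabilizer G α) ω))
    (N : Subgroup G) [N.Normal] (hNc : IsMulCommutative N) (p : ℕ) (hp : p.Prime) (hNp : ∀ n ∈ N, n ^ p = 1)
    (hNtr : MulAction.IsPretransitive N Ω) (hNreg : ∀ ω : Ω, MulAction.stabilizer N ω = ⊥) (α : Ω) (M : Subgroup G) (hM : M ≠ ⊥) (hMle : M ≤ MulAction.stabilizer G α)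
    (hMn : MulAction.stabilizer G α ≤ Subgroup.normalizer (M : Set G)) :
    (∀ ω : Ω, MulAction.orbit M ω = MulAction.orbit (MulAction.stabilizer G α) ω) ∧
    (∀ L : Subgroup G, L ≤ N → M ≤ Subgroup.normalizer (L : Set G) → L = ⊥ ∨ L = N) := by
  have hMn' : ∀ g : G, g • α = α → ∀ k ∈ M, g * k * g⁻¹ ∈ M := fun g hg k hk =>
    (Subgroup.mem_normalizer_iff.1 (hMn hg) k).1 hk
  have key := CfsgH4.extremely_primitive_normal_transitive hprim hep M hM hMle hMn'
  have hreg : ∀ n ∈ N, n • α = α → n = 1 := by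
    intro n hn h
    have : (⟨n, hn⟩ : N) ∈ MulAction.stabilizer N α := h
    rw [hNreg α, Subgroup.mem_bot] at this
    exact congrArg Subtype.val this
  constructor
  · intro ω
    apply Set.Subset.antisymm
    · rintro _ ⟨m, rfl⟩
      exact ⟨⟨m.1, hMle m.2⟩, rfl⟩
    · rintro _ ⟨g, rfl⟩
      obtain ⟨m, hm, hmω⟩ := key ω g.1 g.2
      exact ⟨⟨m, hm⟩, hmω⟩
  · intro L hL hML
    have hnorm : ∀ g : G, g • α = α → ∀ l ∈ L, g * l * g⁻¹ ∈ L := by
      intro g hg l hl
      obtain ⟨m, hm, hmω⟩ := key (l • α) g hg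
      have hl' : m * l * m⁻¹ ∈ L := (Subgroup.mem_normalizer_iff.1 (hML hm) l).1 hl
      have hmα : m⁻¹ • α = α := hMle (M.inv_mem hm)
      have hgα : g⁻¹ • α = α := by rw [inv_smul_eq_iff, hg]
      have h1 : (m * l * m⁻¹)⁻¹ * (g * l * g⁻¹) = 1 := by
        apply hreg _ (N.mul_mem (N.inv_mem (hL hl')) (‹N.Normal›.conj_mem l (hL hl) g))
        rw [mul_smul, inv_smul_eq_iff, mul_smul, mul_smul, mul_smul, mul_smul, hmα, hgα, hmω]
      rw [inv_mul_eq_one] at h1
      exact h1 ▸ hl'
    by_cases hLb : L = ⊥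
    · exact Or.inl hLb
    right
    -- the orbit of α under L is a block containing two points
    obtain ⟨l, hl, hl1⟩ : ∃ l ∈ L, l ≠ 1 := by
      by_contra hcon
      push Not at hcon
      exact hLb (eq_bot_iff.2 (fun x hx => Subgroup.mem_bot.2 (hcon x hx)))
    have hlα : l • α ≠ α := fun h => hl1 (hreg l (hL hl) h)
    let A : Set Ω := {x | ∃ l ∈ L, l • α = x}
    have hA : A = Set.univ := by
      apply CfsgH4.eq_univ_of_invariant_two hprim hlα.symm (hH α) (A := A)
        ⟨α, 1, L.one_mem, by simp⟩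
      · rintro g hg _ ⟨l', hl', rfl⟩
        refine ⟨g * l' * g⁻¹, hnorm g hg l' hl', ?_⟩
        have hgα : g⁻¹ • α = α := by rw [inv_smul_eq_iff, hg]
        rw [mul_smul, mul_smul, hgα]
      · rintro g hg _ ⟨l', hl', rfl⟩
        have hg' : (l⁻¹ * g * l) • α = α := by
          rw [mul_smul, mul_smul, hg, inv_smul_smul]
        have hgα : (l⁻¹ * g * l)⁻¹ • α = α := by rw [inv_smul_eq_iff, hg']
        refine ⟨l * ((l⁻¹ * g * l) * (l⁻¹ * l') * (l⁻¹ * g * l)⁻¹),
          L.mul_mem hl (hnorm _ hg' _ (L.mul_mem (L.inv_mem hl) hl')), ?_⟩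
        rw [mul_smul, mul_smul, hgα, ← mul_smul, ← mul_smul]
        congr 1
        group
    apply le_antisymm hL
    intro n hn
    have : n • α ∈ A := hA ▸ Set.mem_univ _
    obtain ⟨l', hl', h⟩ := this
    have h1 : l'⁻¹ * n = 1 := by
      apply hreg _ (N.mul_mem (N.inv_mem (hL hl')) hn)
      rw [mul_smul, ← h, inv_smul_smul]
    rw [inv_mul_eq_one] at h1
    exact h1 ▸ hl'

end Cfsg.Agent.S3495
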