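import Cfsg.Statements.S3496
import Cfsg.Agent.H4.ElemAb
import Cfsg.Agent.H4.Singer
import Cfsg.Agent.S3495

set_option autoImplicit false
open Cfsg

namespace Cfsg.Agent.S3496

/-- The soluble extremely primitive groups. Let a finite solvable group G act faithfully and primitively on a finite set Ω with p ^ d points (p prime), with non-trivial point stabilizers each acting primitively on every one of its orbits. Then there is a prime q such that every orbit of a point stabilizer G_α other than {α} has exactly q points, q divides p ^ d − 1 but no p ^ i − 1 with 0 < i < d, and G_α has a normal subgroup T of order q with G_α generated by T and one further element and the order of G_α dividing q·d (so G_α is cyclic of order q, or an extension of T by a cyclic group of order dividing d). -/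
theorem result {G : Type*} [Group G] [Finite G] {Ω : Type*} [Fintype Ω] [MulAction G Ω] [FaithfulSMul G Ω] [Group.IsSolvable G] (p d : ℕ) (hp : p.Prime) (hcard : Fintype.card Ω = p ^ d)
    (hprim : MulAction.IsPreprimitive G Ω) (hH : ∀ α : Ω, MulAction.stabilizer G α ≠ ⊥) (hep : ∀ (α : Ω) (ω : Ω), MulAction.IsPreprimitive (MulAction.stabilizer G α) (MulAction.orbit (MulAction.stabilizer G α) ω)) (α : Ω) :
    ∃ q : ℕ, q.Prime ∧ (∀ ω : Ω, ω ≠ α → Nat.card (MulAction.orbit (MulAction.stabilizer G α) ω) = q) ∧
      q ∣ p ^ d - 1 ∧ (∀ i : ℕ, 0 < i → i < d → ¬ q ∣ p ^ i - 1) ∧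
      ∃ T : Subgroup G, T ≤ MulAction.stabilizer G α ∧ MulAction.stabilizer G α ≤ Subgroup.normalizer (T : Set G) ∧ Nat.card T = q ∧
        (∃ h : G, MulAction.stabilizer G α = T ⊔ Subgroup.zpowers h) ∧ Nat.card (MulAction.stabilizer G α) ∣ q * d := by
  open MulAction CfsgH4 in
  have := Fact.mk hp
  obtain ⟨ω₀, hω₀⟩ := exists_ne_of_ne_bot (hH α) α
  have : Nonempty Ω := ⟨α⟩
  have hG : (⊤ : Subgroup G) ≠ ⊥ := fun h => hH α (le_bot_iff.1 (h ▸ le_top))
  obtain ⟨N, hN, -⟩ := exists_isMinNormal_le (⊤ : Subgroup G) inferInstance hG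
  have hNn := hN.1
  have hNc := hN.comm_of_solvable
  have hNt := normal_isPretransitive hprim N hN.2.1
  have hNcard : Nat.card N = p ^ d := by
    rw [card_eq_of_comm_transitive (Ω := Ω) N hNc, Nat.card_eq_fintype_card, hcard]
  have hNp : ∀ x ∈ N, x ^ p = 1 := by
    obtain ⟨r, hr, hrN⟩ := hN.exists_prime_pow_eq_one hNc
    obtain ⟨x, hx, hx1⟩ : ∃ x ∈ N, x ≠ 1 := by
      by_contra h
      push Not at h
      exact hN.2.1 (eq_bot_iff.2 (fun x hx => h x hx))
    have := Fact.mk hr
    have h1 : orderOf x = r := orderOf_eq_prime (hrN x hx) hx1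
    have h2 : orderOf x ∣ Nat.card N := N.orderOf_dvd_natCard hx
    rw [h1, hNcard] at h2
    rw [← (Nat.prime_dvd_prime_iff_eq hr hp).1 (hr.dvd_of_dvd_pow h2)]
    exact hrN
  have hNreg : ∀ n ∈ N, ∀ ω : Ω, n • ω = ω → n = 1 := fun n hn ω h =>
    eq_one_of_centralizes_transitive (Ω := Ω) N (fun m hm => hNc m hm n hn) h
  obtain ⟨d', e, ρ, hd', hadd, hρ⟩ := exists_linearization N hNc p hNp
  have he1 : e 1 = 0 := by
    have := hadd 1 1
    rw [mul_one] at this
    exact left_eq_add.1 this
  -- the minimal normal subgroup of the stabilizer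
  have hH' : (⊤ : Subgroup (stabilizer G α)) ≠ ⊥ := by
    have : Nontrivial (stabilizer G α) := (Subgroup.nontrivial_iff_ne_bot _).2 (hH α)
    exact top_ne_bot
  obtain ⟨T, hT, -⟩ := exists_isMinNormal_le (⊤ : Subgroup (stabilizer G α)) inferInstance hH'
  have hTn := hT.1
  have hTc := hT.comm_of_solvable
  obtain ⟨q, hq, hqT⟩ := hT.exists_prime_pow_eq_one hTc
  have hT'ne : T.map (stabilizer G α).subtype ≠ ⊥ := by
    rw [Ne, Subgroup.map_eq_bot_iff_of_injective _ (Subgroup.subtype_injective _)]
    exact hT.2.1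
  have hT'n : stabilizer G α ≤
      Subgroup.normalizer ((T.map (stabilizer G α).subtype : Subgroup G) : Set G) := by
    have : (T.map (stabilizer G α).subtype).subgroupOf (stabilizer G α) = T :=
      Subgroup.comap_map_eq_self_of_injective (Subgroup.subtype_injective _) T
    have : ((T.map (stabilizer G α).subtype).subgroupOf (stabilizer G α)).Normal := by
      rw [this]; exact hTn
    exact Subgroup.le_normalizer_of_normal_subgroupOf (Subgroup.map_subtype_le T)
  have h95 := (Cfsg.Agent.S3495.result hprim hH hep N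
    ⟨⟨fun x y => Subtype.ext (hNc x x.2 y y.2)⟩⟩ p hp hNp hNt (fun ω => eq_bot_iff.2
      (fun x hx => Subtype.ext (hNreg x x.2 ω hx))) α _ hT'ne (Subgroup.map_subtype_le T) hT'n).2
  have : Nontrivial N := (Subgroup.nontrivial_iff_ne_bot _).2 hN.2.1
  have : Nontrivial (Fin d' → ZMod p) := e.symm.nontrivial
  have hρinj : Function.Injective (ρ.comp (stabilizer G α).subtype) := by
    rw [injective_iff_map_eq_one]
    intro h hh
    apply Subtype.ext
    apply eq_one_of_centralizes_transitive (Ω := Ω) N _ h.2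
    intro n hn
    have h1 := hρ h ⟨n, hn⟩
    have h2 : ρ h = 1 := hh
    rw [h2] at h1
    have h3 := congrArg Subtype.val (e.injective h1)
    simp only at h3
    rw [mul_inv_eq_iff_eq_mul] at h3
    exact h3.symm
  obtain ⟨hcyc, hi, hpow, ψ, hψ⟩ := singer_normalizer p (ρ.comp (stabilizer G α).subtype) hρinj T
    hTc (d := d) (by
      intro U hU
      let L : Subgroup N :=
        { carrier := {n | e n ∈ U}
          one_mem' := by show e 1 ∈ U; rw [he1]; exact U.zero_mem
          mul_mem' := fun {a b} ha hb => by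
            show e (a * b) ∈ U
            rw [hadd]; exact U.add_mem ha hb
          inv_mem' := fun {a} ha => by
            show e a⁻¹ ∈ U
            have h1 := hadd a a⁻¹
            rw [mul_inv_cancel, he1] at h1
            rw [← neg_eq_of_add_eq_zero_right h1.symm]
            exact U.neg_mem ha }
      have key : ∀ t ∈ T, ∀ x ∈ L.map N.subtype, (t : G) * x * (t : G)⁻¹ ∈ L.map N.subtype := by
        rintro t ht _ ⟨x, hx, rfl⟩
        refine ⟨⟨_, hNn.conj_mem x x.2 t⟩, ?_, rfl⟩
        show e _ ∈ U
        rw [hρ]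
        exact hU t ht _ hx
      rcases h95 (L.map N.subtype) (Subgroup.map_subtype_le L) (by
        rintro _ ⟨t, ht, rfl⟩
        rw [Subgroup.mem_normalizer_iff]
        intro x
        refine ⟨key t ht x, fun hx => ?_⟩
        have := key t⁻¹ (T.inv_mem ht) _ hx
        simpa [mul_assoc] using this) with h | h
      · left
        rw [eq_bot_iff]
        intro v hv
        obtain ⟨x, rfl⟩ := e.surjective v
        have : (x : G) ∈ L.map N.subtype := ⟨x, hv, rfl⟩
        rw [h, Subgroup.mem_bot] at this
        have hx : x = 1 := Subtype.ext this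
        rw [hx, he1]; exact Submodule.zero_mem _
      · right
        rw [eq_top_iff]
        intro v _
        obtain ⟨x, rfl⟩ := e.surjective v
        have : (x : G) ∈ L.map N.subtype := by rw [h]; exact x.2
        obtain ⟨y, hy, hyx⟩ := this
        have : y = x := Subtype.ext hyx
        rw [← this]; exact hy)
    (by rw [← Nat.card_congr e, hNcard])
  have := Fact.mk hq
  have hTcard : Nat.card T = q := by
    obtain ⟨g, hg⟩ := hcyc.exists_generator
    have hg1 : g ≠ 1 := by
      rintro rfl
      apply hT.2.1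
      rw [eq_bot_iff]
      intro x hx
      obtain ⟨k, hk⟩ := hg ⟨x, hx⟩
      simp only [one_zpow] at hk
      exact (congrArg Subtype.val hk).symm
    rw [← orderOf_eq_card_of_forall_mem_zpowers hg]
    exact orderOf_eq_prime (Subtype.ext (hqT g g.2)) hg1
  have horb : ∀ ω : Ω, ω ≠ α → Nat.card (orbit (stabilizer G α) ω) = q := by
    intro ω hω
    have := faithfulSMul_orbit hprim hep hω
    have := normal_isPretransitive (hep α ω) _ hT.2.1
    have : Nonempty (orbit (stabilizer G α) ω) := ⟨⟨ω, mem_orbit_self ω⟩⟩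
    rw [← hTcard]
    exact (card_eq_of_comm_transitive _ hTc).symm
  have hker : ψ.ker = T := by
    rw [hψ]
    have := faithfulSMul_orbit hprim hep hω₀
    have := normal_isPretransitive (hep α ω₀) _ hT.2.1
    have : Nonempty (orbit (stabilizer G α) ω₀) := ⟨⟨ω₀, mem_orbit_self ω₀⟩⟩
    apply le_antisymm
    · intro c hc
      exact centralizer_le_of_comm_transitive (Ω := orbit (stabilizer G α) ω₀) _ hTc
        (Subgroup.mem_centralizer_iff.1 hc)
    · intro c hc
      exact Subgroup.mem_centralizer_iff.2 (fun x hx => hTc x hx c hc)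
  refine ⟨q, hq, horb, ?_, ?_, T.map (stabilizer G α).subtype, Subgroup.map_subtype_le T, hT'n,
    ?_, ?_, ?_⟩
  · rw [← hcard]
    exact dvd_card_sub_one_of_orbits (H := stabilizer G α) (α := α) (fun h => h.2) horb
  · intro i h0 hid hdvd
    apply hi i h0 hid
    intro t ht
    obtain ⟨k, hk⟩ := hdvd
    have : p ^ i = q * k + 1 := by
      have := Nat.one_le_pow i p hp.pos
      omega
    rw [this, pow_succ, pow_mul, hqT t ht, one_pow, one_mul]
  · rw [Subgroup.card_map_of_injective (Subgroup.subtype_injective _), hTcard]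
  · obtain ⟨⟨_, h, rfl⟩, hg⟩ := IsCyclic.exists_generator (α := ψ.range)
    refine ⟨h, le_antisymm ?_ (sup_le (Subgroup.map_subtype_le T)
      ((Subgroup.zpowers_le).2 h.2))⟩
    intro x hx
    obtain ⟨k, hk⟩ := hg ⟨_, ⟨x, hx⟩, rfl⟩
    have h1 : ψ h ^ k = ψ ⟨x, hx⟩ := congrArg Subtype.val hk
    have h2 : (⟨x, hx⟩ : stabilizer G α) * (h ^ k)⁻¹ ∈ T := by
      rw [← hker, MonoidHom.mem_ker, map_mul, map_inv, map_zpow, h1, mul_inv_cancel]
    have h3 : x = (x * ((h : G) ^ k)⁻¹) * (h : G) ^ k := by group
    rw [h3]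
    exact Subgroup.mul_mem_sup ⟨_, h2, rfl⟩ (Subgroup.zpow_mem_zpowers _ _)
  · rw [← ψ.ker.card_mul_index, Subgroup.index_ker, hker, hTcard]
    apply Nat.mul_dvd_mul_left
    have := Subgroup.card_subgroup_dvd_card ψ.range
    rwa [Nat.card_congr Multiplicative.toAdd, Nat.card_zmod] at this

end Cfsg.Agent.S3496
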