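import Cfsg.Statements.S3498

set_option autoImplicit false
open Cfsg

namespace Cfsg.Agent.S3498

/-- A maximal subgroup of a finite almost simple group does not have prime order. Here G is almost simple in the sense that it has a non-abelian simple normal subgroup T with trivial centralizer. -/
theorem result {G : Type*} [Group G] [Finite G] (T : Subgroup G) [T.Normal] (hT : IsSimpleGroup T) (hTc : ¬ IsMulCommutative T)
    (hC : Subgroup.centralizer (T : Set G) = ⊥) (H : Subgroup G) (hmax : IsCoatom H) : ¬ (Nat.card H).Prime := by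
  intro hp
  set p := Nat.card H with hpdef
  have := Fact.mk hp
  have hcyc : IsCyclic H := isCyclic_of_prime_card rfl
  have hHcomm : ∀ x ∈ H, ∀ y ∈ H, x * y = y * x := by
    intro x hx y hy
    have := hcyc.isMulCommutative
    exact congrArg Subtype.val (mul_comm' (⟨x, hx⟩ : H) ⟨y, hy⟩)
  have hTsub : ∀ N : Subgroup G, N.Normal → T ≤ N ∨ Disjoint N T := by
    intro N hN
    rcases hT.eq_bot_or_eq_top_of_normal (N.subgroupOf T) inferInstance with h | h
    · right
      exact Subgroup.subgroupOf_eq_bot.1 h
    · left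
      exact Subgroup.subgroupOf_eq_top.1 h
  have hHne : H ≠ ⊥ := by
    intro h
    rw [h, Subgroup.card_bot] at hpdef
    exact hp.one_lt.ne' hpdef
  have hnorm : Subgroup.normalizer (H : Set G) = H := by
    by_contra hne
    have htop := hmax.2 _ (lt_of_le_of_ne Subgroup.le_normalizer (Ne.symm hne))
    have hN : H.Normal := Subgroup.normalizer_eq_top_iff.1 htop
    rcases hTsub H hN with h | h
    · exact hTc ⟨⟨fun x y => Subtype.ext (hHcomm _ (h x.2) _ (h y.2))⟩⟩
    · apply hHne
      rw [eq_bot_iff, ← hC]
      intro x hx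
      rw [Subgroup.mem_centralizer_iff]
      intro t ht
      exact (Subgroup.commute_of_normal_of_disjoint H T hN inferInstance h x t hx ht).symm
  have hidx : ¬ p ∣ H.index := by
    intro hd
    have h1 : p ^ (1 + 1) ∣ Nat.card G := by
      rw [← H.card_mul_index, pow_succ, pow_one]
      exact Nat.mul_dvd_mul_left _ hd
    have h2 := Sylow.prime_pow_dvd_card_normalizer h1 (H := H) (by simp [hpdef])
    rw [hnorm, ← hpdef] at h2
    have := Nat.le_of_dvd hp.pos h2
    have h3 := hp.one_lt
    rw [pow_succ, pow_one] at this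
    nlinarith
  have hHp : IsPGroup p H := IsPGroup.of_card (n := 1) (by simp [hpdef])
  let P : Sylow p G := hHp.toSylow hidx
  have hP : Subgroup.normalizer (P : Set G) ≤ Subgroup.centralizer (P : Set G) := by
    show Subgroup.normalizer (H : Set G) ≤ Subgroup.centralizer (H : Set G)
    rw [hnorm]
    intro x hx
    rw [Subgroup.mem_centralizer_iff]
    intro y hy
    exact hHcomm y hy x hx
  have hK := MonoidHom.not_dvd_card_ker_transferSylow P hP
  have hTK : T ≤ (MonoidHom.transferSylow P hP).ker := by
    rcases hTsub (MonoidHom.transferSylow P hP).ker inferInstance with h | h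
    · exact h
    · exfalso
      apply hTc
      refine ⟨⟨fun x y => ?_⟩⟩
      have h1 : (x : G) * y * (y * x : G)⁻¹ ∈ (MonoidHom.transferSylow P hP).ker := by
        rw [MonoidHom.mem_ker, map_mul, map_inv, map_mul, map_mul, mul_inv_eq_one]
        exact Subtype.ext (hHcomm _ (Subtype.prop _) _ (Subtype.prop _))
      have h2 : (x : G) * y * (y * x : G)⁻¹ ∈ T :=
        T.mul_mem (T.mul_mem x.2 y.2) (T.inv_mem (T.mul_mem y.2 x.2))
      have := Subgroup.disjoint_def.1 h h1 h2
      exact Subtype.ext (mul_inv_eq_one.1 this)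
  have hpT : ¬ p ∣ Nat.card T := fun h => hK (h.trans (Subgroup.card_dvd_of_le hTK))
  have hT1 : Nat.card T ≠ 1 := by
    have := hT.toNontrivial
    have := Finite.one_lt_card (α := T)
    omega
  obtain ⟨r, hr, hrT⟩ := Nat.exists_prime_and_dvd hT1
  have := Fact.mk hr
  let φ : H →* MulAut T := (MulAut.conjNormal (H := T)).comp H.subtype
  let inst : MulAction H (Sylow r T) := MulAction.compHom (Sylow r T) φ
  obtain ⟨R₀⟩ : Nonempty (Sylow r T) := inferInstance
  obtain ⟨R, hR⟩ := hHp.nonempty_fixed_point_of_prime_not_dvd_card (Sylow r T) (fun h =>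
    hpT (h.trans (R₀.card_dvd_index.trans (Subgroup.index_dvd_card _))))
  let R' : Subgroup G := (R : Subgroup T).map T.subtype
  have hHR : H ≤ Subgroup.normalizer (R' : Set G) := by
    have key : ∀ h ∈ H, ∀ x ∈ R', h * x * h⁻¹ ∈ R' := by
      rintro h hh _ ⟨x, hx, rfl⟩
      have h1 : φ ⟨h, hh⟩ • R = R := hR ⟨h, hh⟩
      have h2 : φ ⟨h, hh⟩ • x ∈ ((φ ⟨h, hh⟩ • R : Sylow r T) : Subgroup T) :=
        Subgroup.smul_mem_pointwise_smul x _ _ hx
      rw [h1] at h2
      exact ⟨_, h2, rfl⟩
    intro h hh
    rw [Subgroup.mem_normalizer_iff]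
    intro x
    refine ⟨key h hh x, fun hx => ?_⟩
    have := key h⁻¹ (H.inv_mem hh) _ hx
    simpa [mul_assoc] using this
  have hcardR : Nat.card R' = Nat.card R := Subgroup.card_map_of_injective T.subtype_injective
  have hrR : r ∣ Nat.card R := R.dvd_card_of_dvd_card hrT
  rcases hHR.lt_or_eq with h | h
  · have hN : R'.Normal := Subgroup.normalizer_eq_top_iff.1 (hmax.2 _ h)
    have hN' : (R : Subgroup T).Normal := by
      have := hN.comap T.subtype
      rwa [Subgroup.comap_map_eq_self_of_injective T.subtype_injective] at this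
    rcases hT.eq_bot_or_eq_top_of_normal _ hN' with h1 | h1
    · exact R.ne_bot_of_dvd_card hrT h1
    · have hTr : IsPGroup r T := by
        have := R.2
        rw [h1] at this
        exact this.of_equiv Subgroup.topEquiv
      have := hT.toNontrivial
      have h2 := hTr.bot_lt_center
      rcases hT.eq_bot_or_eq_top_of_normal (Subgroup.center T) inferInstance with h3 | h3
      · exact h2.ne' h3
      · apply hTc
        refine ⟨⟨fun x y => ?_⟩⟩
        have : y ∈ Subgroup.center T := h3 ▸ Subgroup.mem_top y
        exact Subgroup.mem_center_iff.1 this x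
  · have h1 : R' ≤ H := h ▸ Subgroup.le_normalizer
    have h2 := Subgroup.card_dvd_of_le h1
    rw [hcardR] at h2
    have h3 : r = p := (Nat.prime_dvd_prime_iff_eq hr hp).1 (hrR.trans h2)
    exact hpT (h3 ▸ hrT)

end Cfsg.Agent.S3498
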