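import Cfsg.Statements.S3504
import Cfsg.Agent.H6.PrimePerm

set_option autoImplicit false
open Cfsg

namespace Cfsg.Agent.S3504

/-- For n ≥ 5, the fixed-point-free permutations of prime order in the symmetric group of degree n form a single conjugacy class if and only if n is a prime power. -/
theorem result (n : ℕ) (hn : 5 ≤ n) :
    Nat.card {c : ConjClasses (Equiv.Perm (Fin n)) // ∃ g : Equiv.Perm (Fin n), ConjClasses.mk g = c ∧ (orderOf g).Prime ∧ ∀ i : Fin n, g i ≠ i} = 1 ↔ IsPrimePow n := by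
  have key : Nat.card {c : ConjClasses (Equiv.Perm (Fin n)) // ∃ g : Equiv.Perm (Fin n),
      ConjClasses.mk g = c ∧ (orderOf g).Prime ∧ ∀ i : Fin n, g i ≠ i} =
      Nat.card {p : ℕ // p.Prime ∧ p ∣ n} := by
    have hex : ∀ p : {p : ℕ // p.Prime ∧ p ∣ n}, ∃ g : Equiv.Perm (Fin n),
        orderOf g = p.1 ∧ ∀ i, g i ≠ i := by
      rintro ⟨p, hp, hpn⟩
      obtain ⟨g, hg, hg0⟩ := CfsgH6.exists_perm_nfix (Fin n) hp 0 (Nat.zero_le _)
        (by simpa using ((Nat.modEq_zero_iff_dvd).2 hpn).symm)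
      have h1 := CfsgH6.nfix_eq_zero_iff.1 hg0
      have := Fact.mk hp
      refine ⟨g, orderOf_eq_prime hg ?_, h1⟩
      rintro rfl
      exact h1 ⟨0, by omega⟩ rfl
    choose g hg hg' using hex
    symm
    refine Nat.card_congr (Equiv.ofBijective
      (fun p => ⟨ConjClasses.mk (g p), g p, rfl, by rw [hg]; exact p.2.1, hg' p⟩) ⟨?_, ?_⟩)
    · intro p q hpq
      have h1 : IsConj (g p) (g q) := ConjClasses.mk_eq_mk_iff_isConj.1 (congrArg Subtype.val hpq)
      obtain ⟨c, hc⟩ := isConj_iff.1 h1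
      apply Subtype.ext
      rw [← hg p, ← hg q, ← hc]
      exact ((MulAut.conj c).orderOf_eq (g p)).symm
    · rintro ⟨c, σ, rfl, hσ, hσ'⟩
      have h0 := CfsgH6.nfix_eq_zero_iff.2 hσ'
      have h1 := CfsgH6.nfix_modEq hσ (pow_orderOf_eq_one σ)
      rw [h0] at h1
      have h2 : orderOf σ ∣ n := by simpa using (Nat.modEq_zero_iff_dvd).1 h1.symm
      refine ⟨⟨orderOf σ, hσ, h2⟩, Subtype.ext ?_⟩
      refine ConjClasses.mk_eq_mk_iff_isConj.2 ?_
      refine CfsgH6.isConj_of_nfix_eq hσ ?_ (pow_orderOf_eq_one σ) ?_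
      · have := hg ⟨orderOf σ, hσ, h2⟩
        exact orderOf_dvd_iff_pow_eq_one.1 (dvd_of_eq this)
      · rw [h0]; exact CfsgH6.nfix_eq_zero_iff.2 (hg' _)
  rw [key, isPrimePow_iff_unique_prime_dvd, Nat.card_eq_one_iff_exists]
  constructor
  · rintro ⟨⟨p, hp⟩, h⟩
    exact ⟨p, hp, fun q hq => congrArg Subtype.val (h ⟨q, hq⟩)⟩
  · rintro ⟨p, hp, h⟩
    exact ⟨⟨p, hp⟩, fun q => Subtype.ext (h q.1 q.2)⟩

end Cfsg.Agent.S3504
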