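import Cfsg.Statements.S3508
-- import your own Cfsg.Agent.* helpers here

set_option autoImplicit false
open Cfsg

namespace Cfsg.Agent.S3508

theorem unip (p : ℕ) [Fact p.Prime] {W : Type*} [AddCommGroup W] [Module (ZMod p) W] [Module.Finite (ZMod p) W]
    (ψ : Module.End (ZMod p) W) (r s : ℕ) (h : ψ ^ p ^ r = 1) (hs : Module.finrank (ZMod p) W ≤ p ^ s) :
    ψ ^ p ^ s = 1 := by
  rcases subsingleton_or_nontrivial W with hW | hW
  · exact Subsingleton.elim _ _
  have : CharP (Module.End (ZMod p) W) p :=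
    charP_of_injective_algebraMap (algebraMap (ZMod p) (Module.End (ZMod p) W)).injective p
  have h1 : IsNilpotent (ψ - 1) := ⟨p ^ r, by
    rw [sub_pow_char_pow_of_commute _ _ (Commute.one_right ψ), h, one_pow, sub_self]⟩
  have h2 : (ψ - 1) ^ Module.finrank (ZMod p) W = 0 := by
    have := LinearMap.aeval_self_charpoly (ψ - 1)
    rw [h1.charpoly_eq_X_pow_finrank] at this
    simpa using this
  have h3 : (ψ - 1) ^ p ^ s = 0 := pow_eq_zero_of_le hs h2
  rw [sub_pow_char_pow_of_commute _ _ (Commute.one_right ψ), one_pow, sub_eq_zero] at h3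
  exact h3

theorem main0 {G : Type*} [Group G] [Finite G] {Ω : Type*} [MulAction G Ω] [FaithfulSMul G Ω] (p m : ℕ)
    [hp : Fact p.Prime] {V : Type*} [AddCommGroup V] [Module (ZMod p) V] [Finite V] (hV : Nat.card V = p ^ m)
    (e : V → G) (he : ∀ v w, e (v + w) = e v * e w) (ω : Ω)
    (hbij : Function.Bijective (fun v => e v • ω))
    (g : G) (φ0 : V →+ V) (hφ : ∀ v, e (φ0 v) = g * e v * g⁻¹)
    (r : ℕ) (hr : 1 ≤ r) (hg : orderOf g = p ^ r) :
    p ^ (r - 1) ≤ m := by
  by_contra hlt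
  have hfr : Module.finrank (ZMod p) V = m := by
    have h1 := Module.natCard_eq_pow_finrank (K := ZMod p) (V := V)
    rw [Nat.card_zmod, hV] at h1
    exact (Nat.pow_right_injective hp.out.two_le h1).symm
  obtain ⟨n0, hn0⟩ := hbij.2 (g • ω)
  let φ : V →ₗ[ZMod p] V := φ0.toZModLinearMap p
  let ψ : Module.End (ZMod p) (V × ZMod p) :=
    (φ.coprod (LinearMap.toSpanSingleton (ZMod p) V n0)).prod (LinearMap.snd _ _ _)
  have hψ : ∀ (k : ℕ) (v : V), ∃ w : V, (ψ ^ k) (v, 1) = (w, 1) ∧ e w • ω = g ^ k • e v • ω := by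
    intro k v
    induction k with
    | zero => exact ⟨v, by simp, by simp⟩
    | succ k ih =>
      obtain ⟨w, hw1, hw2⟩ := ih
      refine ⟨φ0 w + n0, ?_, ?_⟩
      · rw [pow_succ', Module.End.mul_apply, hw1]
        simp [ψ, φ]
      · have hn0' : e n0 • ω = g • ω := hn0
        rw [pow_succ', mul_smul, ← hw2, he, mul_smul, hn0', hφ, mul_smul, mul_smul, inv_smul_smul]
  have h1 : ψ ^ p ^ r = 1 := by
    have a : ∀ v : V, (ψ ^ p ^ r) (v, 1) = (v, 1) := by
      intro v
      obtain ⟨w, hw1, hw2⟩ := hψ (p ^ r) v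
      rw [← hg, pow_orderOf_eq_one, one_smul] at hw2
      rw [hw1, hbij.1 hw2]
    refine LinearMap.ext (fun x => ?_)
    obtain ⟨v, c⟩ := x
    have : ((v, c) : V × ZMod p) = (v, 1) + (c - 1) • (0, 1) := by
      simp
    rw [this, map_add, map_smul, a, a]
    rfl
  have h2 : ψ ^ p ^ (r - 1) = 1 := unip p ψ r (r - 1) h1 (by
    rw [Module.finrank_prod, hfr, Module.finrank_self]; omega)
  have h3 : g ^ p ^ (r - 1) = 1 := by
    apply FaithfulSMul.eq_of_smul_eq_smul (α := Ω)
    intro a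
    obtain ⟨v, rfl⟩ := hbij.2 a
    obtain ⟨w, hw1, hw2⟩ := hψ (p ^ (r - 1)) v
    rw [h2] at hw1
    have : v = w := congrArg Prod.fst hw1
    rw [one_smul]
    change g ^ p ^ (r - 1) • e v • ω = e v • ω
    rw [← hw2, this]
  have h4 := orderOf_dvd_of_pow_eq_one h3
  rw [hg, Nat.pow_dvd_pow_iff_le_right hp.out.one_lt] at h4
  omega

open scoped IsMulCommutative in
theorem main {G : Type*} [Group G] [Finite G] {Ω : Type*} [Fintype Ω] [MulAction G Ω] [FaithfulSMul G Ω] (p m : ℕ) (hp : p.Prime) (hcard : Fintype.card Ω = p ^ m)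
    (N : Subgroup G) [hN : N.Normal] (hNc : IsMulCommutative N) (hNp : ∀ n ∈ N, n ^ p = 1)
    (hNtr : MulAction.IsPretransitive N Ω) (hNreg : ∀ ω : Ω, MulAction.stabilizer N ω = ⊥)
    (g : G) (r : ℕ) (hr : 1 ≤ r) (hg : orderOf g = p ^ r) :
    p ^ (r - 1) ≤ m := by
  have := Fact.mk hp
  have hne : Nonempty Ω := by
    rw [← Fintype.card_pos_iff, hcard]; exact pow_pos hp.pos m
  obtain ⟨ω⟩ := hne
  let _j : Module (ZMod p) (Additive N) := AddCommGroup.zmodModule (fun x => by
    apply Additive.toMul.injective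
    rw [toMul_nsmul]
    exact Subtype.ext (hNp _ x.toMul.2))
  have hcardN : Nat.card N = p ^ m := by
    have h2 := MulAction.index_stabilizer_of_transitive N ω
    rw [hNreg, Subgroup.index_bot, Nat.card_eq_fintype_card (α := Ω), hcard] at h2
    exact h2
  have hinj : ∀ v w : N, (v : G) • ω = (w : G) • ω → v = w := by
    intro v w h
    have : w⁻¹ * v ∈ MulAction.stabilizer N ω := by
      rw [MulAction.mem_stabilizer_iff]
      change ((w : G)⁻¹ * v) • ω = ω
      rw [mul_smul, h, inv_smul_smul]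
    rw [hNreg, Subgroup.mem_bot, inv_mul_eq_one] at this
    exact this.symm
  refine @main0 G _ _ Ω _ _ p m _ (Additive N) _ _j _ hcardN (fun v => (v.toMul : G)) (fun v w => rfl) ω
    ⟨fun v w h => hinj _ _ h, fun a => ?_⟩ g
    (MonoidHom.toAdditive (MulAut.conjNormal g : N ≃* N).toMonoidHom) (fun v => rfl) r hr hg
  obtain ⟨v, hv⟩ := hNtr.exists_smul_eq ω a
  exact ⟨Additive.ofMul v, hv⟩

/-- Let a finite group G act faithfully on a set Ω with p ^ m points (p prime) and have an elementary abelian normal p-subgroup N acting regularly on Ω (so G is a group of affine transformations of an m-dimensional space over the field with p elements). If G contains an element of order p ^ r with r ≥ 1, then p ^ (r − 1) ≤ m. In particular an element of order p ^ m forces m ≤ 2, and m ≤ 1 when p is odd. -/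
theorem result {G : Type*} [Group G] [Finite G] {Ω : Type*} [Fintype Ω] [MulAction G Ω] [FaithfulSMul G Ω] (p m : ℕ) (hp : p.Prime) (hcard : Fintype.card Ω = p ^ m)
    (N : Subgroup G) [N.Normal] (hNc : IsMulCommutative N) (hNp : ∀ n ∈ N, n ^ p = 1)
    (hNtr : MulAction.IsPretransitive N Ω) (hNreg : ∀ ω : Ω, MulAction.stabilizer N ω = ⊥)
    (g : G) (r : ℕ) (hr : 1 ≤ r) (hg : orderOf g = p ^ r) :
    p ^ (r - 1) ≤ m ∧ (r = m → m ≤ 2 ∧ (2 < p → m ≤ 1)) := by
  have h := main p m hp hcard N hNc hNp hNtr hNreg g r hr hg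
  refine ⟨h, fun hrm => ?_⟩
  subst hrm
  have key : ∀ (b k : ℕ), 2 ≤ b → (b - 1) * k + 1 ≤ b ^ k := by
    intro b k hb
    have := one_add_mul_le_pow (a := ((b : ℤ) - 1)) (by omega) k
    have h2 : (1 : ℤ) + ((b : ℤ) - 1) = b := by ring
    rw [h2] at this
    zify [show 1 ≤ b by omega]
    linarith
  constructor
  · by_contra h3
    have h4 : 2 ^ (r - 1) ≤ p ^ (r - 1) := Nat.pow_le_pow_left hp.two_le _
    obtain ⟨k, rfl⟩ : ∃ k, r = k + 3 := ⟨r - 3, by omega⟩
    have h5 := key 2 k le_rfl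
    have h6 : k + 3 - 1 = k + 2 := by omega
    rw [h6] at h h4
    rw [pow_add] at h4
    omega
  · intro h2
    by_contra h3
    have h4 : 3 ^ (r - 1) ≤ p ^ (r - 1) := Nat.pow_le_pow_left h2 _
    have h5 := key 3 (r - 1) (by omega)
    omega

end Cfsg.Agent.S3508
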