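import Cfsg.Statements.S3511
-- import your own Cfsg.Agent.* helpers here

set_option autoImplicit false
open Cfsg

namespace Cfsg.Agent.S3511

/-- Let a finite group G act faithfully on a set Ω. If every element of G of square-free order has a regular cycle (an orbit of the cyclic group it generates with trivial stabilizer), then every element of G has a regular cycle. -/
theorem result {G : Type*} [Group G] [Finite G] {Ω : Type*} [MulAction G Ω] [FaithfulSMul G Ω]
    (h : ∀ g : G, Squarefree (orderOf g) → ∃ ω : Ω, MulAction.stabilizer (Subgroup.zpowers g) ω = ⊥) (g : G) :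
    ∃ ω : Ω, MulAction.stabilizer (Subgroup.zpowers g) ω = ⊥ := by
  -- r = radical of the order of g
  have hn : orderOf g ≠ 0 := (orderOf_pos g).ne'
  set n := orderOf g with hndef
  set r := ∏ p ∈ n.primeFactors, p with hr
  have hrd : r ∣ n := Nat.prod_primeFactors_dvd n
  have hrsq : Squarefree r := by
    rw [hr]
    apply Finset.squarefree_prod_of_pairwise_isCoprime
    · intro p hp q hq hpq
      exact Nat.coprime_iff_isRelPrime.mp
        ((Nat.coprime_primes (Nat.prime_of_mem_primeFactors hp) (Nat.prime_of_mem_primeFactors hq)).mpr hpq)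
    · intro p hp
      exact (Nat.prime_of_mem_primeFactors hp).prime.squarefree
  have hord : orderOf (g ^ (n / r)) = r := orderOf_pow_orderOf_div hn hrd
  obtain ⟨ω, hω⟩ := h (g ^ (n / r)) (by rw [hord]; exact hrsq)
  refine ⟨ω, ?_⟩
  by_contra hne
  have hcard : Nat.card (MulAction.stabilizer (Subgroup.zpowers g) ω) ≠ 1 := by
    intro h; exact hne (Subgroup.card_eq_one.mp h)
  obtain ⟨p, hp, hpd⟩ := Nat.exists_prime_and_dvd hcard
  have := Fact.mk hp
  obtain ⟨x, hx⟩ := exists_prime_orderOf_dvd_card' p hpd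
  have hxo : orderOf ((x : Subgroup.zpowers g) : G) = p := by
    rw [Subgroup.orderOf_coe, Subgroup.orderOf_coe, hx]
  obtain ⟨k, hk⟩ := (mem_powers_iff_mem_zpowers.mpr (x : Subgroup.zpowers g).2)
  simp only at hk
  -- n ∣ k * p
  have h1 : n ∣ k * p := by
    rw [hndef, orderOf_dvd_iff_pow_eq_one, pow_mul, hk, ← hxo, pow_orderOf_eq_one]
  have hpn : p ∣ n := by
    rw [← hxo, hndef]; exact orderOf_dvd_of_mem_zpowers (x : Subgroup.zpowers g).2
  have hpr : p ∣ r := Finset.dvd_prod_of_mem _ (Nat.mem_primeFactors.mpr ⟨hp, hpn, hn⟩)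
  have h2 : n / r ∣ k := by
    obtain ⟨s, hs⟩ := hpr
    obtain ⟨t, ht⟩ := hrd
    have hr0 : 0 < r := Nat.pos_of_ne_zero hrsq.ne_zero
    have : n / r = t := by rw [ht]; exact Nat.mul_div_cancel_left t hr0
    rw [this]
    have h3 : t * p ∣ k * p := by
      refine Dvd.dvd.trans ?_ h1
      rw [ht, hs]; exact ⟨s, by ring⟩
    exact Nat.dvd_of_mul_dvd_mul_right hp.pos h3
  obtain ⟨j, hj⟩ := h2
  have hmem : ((x : Subgroup.zpowers g) : G) ∈ Subgroup.zpowers (g ^ (n / r)) := by
    rw [← hk, hj, pow_mul]; exact Subgroup.npow_mem_zpowers _ _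
  have h4 : (⟨_, hmem⟩ : Subgroup.zpowers (g ^ (n / r))) ∈ MulAction.stabilizer (Subgroup.zpowers (g ^ (n / r))) ω := x.2
  rw [hω, Subgroup.mem_bot] at h4
  have h5 : ((x : Subgroup.zpowers g) : G) = 1 := congrArg Subtype.val h4
  rw [h5, orderOf_one] at hxo
  exact hp.one_lt.ne hxo

end Cfsg.Agent.S3511
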