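import Cfsg.Statements.S3514
import Cfsg.Agent.H6.Derang

set_option autoImplicit false
open Cfsg

namespace Cfsg.Agent.S3514

/-- Let p be a prime, V a finite vector space over the field with p elements, and H a group of linear transformations of V all of whose orbits on V have size coprime to p. (i) Every normal subgroup K of H has all its orbits on V of size coprime to p. (ii) If N is a group of linear transformations of V of order coprime to p that is normalized by H, then the group generated by N and H has all its orbits on V of size coprime to p. -/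
theorem result (p : ℕ) [Fact p.Prime] {V : Type*} [AddCommGroup V] [Module (ZMod p) V] [Finite V]
    (H : Subgroup (V ≃ₗ[ZMod p] V)) (hH : ∀ v : V, ¬ p ∣ Nat.card {u : V | ∃ h ∈ H, h v = u}) :
    (∀ K : Subgroup (V ≃ₗ[ZMod p] V), K ≤ H → H ≤ Subgroup.normalizer (K : Set (V ≃ₗ[ZMod p] V)) →
        ∀ v : V, ¬ p ∣ Nat.card {u : V | ∃ k ∈ K, k v = u}) ∧
    (∀ N : Subgroup (V ≃ₗ[ZMod p] V), ¬ p ∣ Nat.card N → H ≤ Subgroup.normalizer (N : Set (V ≃ₗ[ZMod p] V)) →
        ∀ v : V, ¬ p ∣ Nat.card {u : V | ∃ x ∈ N ⊔ H, x v = u}) := by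
  have hfin : Finite (V ≃ₗ[ZMod p] V) := DFunLike.finite _
  have horb : ∀ (K : Subgroup (V ≃ₗ[ZMod p] V)) (v : V),
      Nat.card {u : V | ∃ k ∈ K, k v = u} = (MulAction.stabilizer K v).index := by
    intro K v
    rw [MulAction.index_stabilizer]
    have : {u : V | ∃ k ∈ K, k v = u} = MulAction.orbit K v := by
      ext u
      constructor
      · rintro ⟨k, hk, rfl⟩; exact ⟨⟨k, hk⟩, rfl⟩
      · rintro ⟨k, rfl⟩; exact ⟨k, k.2, rfl⟩
    rw [this]; rfl
  have hp : p.Prime := Fact.out
  constructor
  · intro K hK hN v hdvd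
    apply hH v
    apply CfsgH6.dvd_ncard_of_dvd_index_stabilizer (G := K) p {u : V | ∃ h ∈ H, h v = u}
    · rintro g _ ⟨h, hh, rfl⟩
      exact ⟨g * h, H.mul_mem (hK g.2) hh, rfl⟩
    · rintro _ ⟨h, hh, rfl⟩
      rw [← horb]
      have : {u : V | ∃ k ∈ K, k (h v) = u} = h '' {u : V | ∃ k ∈ K, k v = u} := by
        ext u
        constructor
        · rintro ⟨k, hk, rfl⟩
          refine ⟨_, ⟨h⁻¹ * k * h, ?_, rfl⟩, by simp⟩
          have := (Subgroup.mem_normalizer_iff.mp (hN (H.inv_mem hh)) k).mp hk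
          simpa using this
        · rintro ⟨_, ⟨k, hk, rfl⟩, rfl⟩
          refine ⟨h * k * h⁻¹, (Subgroup.mem_normalizer_iff.mp (hN hh) k).mp hk, by simp⟩
      rw [this, Nat.card_coe_set_eq, Set.ncard_image_of_injective _ h.injective]
      exact hdvd
  · intro N hN hHN v hdvd
    have h1 := hH v
    rw [horb] at h1 hdvd
    set S := MulAction.stabilizer (V ≃ₗ[ZMod p] V) v with hS
    have e1 : ∀ K : Subgroup (V ≃ₗ[ZMod p] V), (MulAction.stabilizer K v).index = S.relIndex K := fun K => rfl
    rw [e1] at h1 hdvd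
    have e2 : N.relIndex H = N.relIndex (H ⊔ N) := by
      letI := Subgroup.normal_subgroupOf_of_le_normalizer hHN
      letI := Subgroup.normal_subgroupOf_sup_of_le_normalizer hHN
      exact Nat.card_congr (QuotientGroup.quotientInfEquivProdNormalizerQuotient H N hHN).toEquiv
    have e3 : H.relIndex (N ⊔ H) ∣ Nat.card N := by
      have a1 : Nat.card (N ⊔ H : Subgroup _) = H.relIndex (N ⊔ H) * Nat.card H := by
        rw [← Subgroup.relIndex_bot_left, ← Subgroup.relIndex_bot_left H, mul_comm,
          Subgroup.relIndex_mul_relIndex _ _ _ bot_le le_sup_right]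
      have a2 : Nat.card (N ⊔ H : Subgroup _) = Nat.card N * N.relIndex H := by
        rw [e2, sup_comm H N, ← Subgroup.relIndex_bot_left, ← Subgroup.relIndex_bot_left N,
          Subgroup.relIndex_mul_relIndex _ _ _ bot_le le_sup_left]
      have a3 : N.relIndex H ∣ Nat.card H := Subgroup.relIndex_dvd_card N H
      have a4 : H.relIndex (N ⊔ H) * Nat.card H ∣ Nat.card N * Nat.card H := by
        rw [← a1, a2]; exact Nat.mul_dvd_mul_left _ a3
      exact Nat.dvd_of_mul_dvd_mul_right Nat.card_pos a4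
    have e4 : S.relIndex (N ⊔ H) ∣ (S ⊓ H).relIndex (N ⊔ H) :=
      Subgroup.relIndex_dvd_of_le_left _ inf_le_left
    rw [← Subgroup.relIndex_mul_relIndex (S ⊓ H) H (N ⊔ H) inf_le_right le_sup_right,
      Subgroup.inf_relIndex_right] at e4
    rcases (Nat.Prime.dvd_mul hp).mp (hdvd.trans e4) with h | h
    · exact h1 h
    · exact hN (h.trans e3)

end Cfsg.Agent.S3514
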