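import Cfsg.Statements.S3516
import Cfsg.Agent.H6.Affine

set_option autoImplicit false
open Cfsg

namespace Cfsg.Agent.S3516

/-- Let p be an odd prime, d ≥ 3, and G a group of affine permutations x ↦ Ax + b of V = F_p^d containing all translations and all maps x ↦ Ax with A of determinant 1. Then the 3-closure of G is the full affine group: a permutation σ of V agrees on every triple of points with some element of G if and only if σ is an affine map. -/
theorem result (p : ℕ) [Fact p.Prime] (hp : p ≠ 2) (d : ℕ) (hd : 3 ≤ d) (G : Subgroup (Equiv.Perm (Fin d → ZMod p)))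
    (haff : (G : Set (Equiv.Perm (Fin d → ZMod p))) ⊆ {τ : Equiv.Perm (Fin d → ZMod p) | ∃ (A : (Fin d → ZMod p) ≃ₗ[ZMod p] (Fin d → ZMod p)) (b : Fin d → ZMod p), ∀ x, τ x = A x + b})
    (htrans : ∀ b : Fin d → ZMod p, ∃ g ∈ G, ∀ x, g x = x + b)
    (hsl : ∀ A : (Fin d → ZMod p) ≃ₗ[ZMod p] (Fin d → ZMod p), LinearMap.det (A : (Fin d → ZMod p) →ₗ[ZMod p] (Fin d → ZMod p)) = 1 → ∃ g ∈ G, ∀ x, g x = A x)
    (σ : Equiv.Perm (Fin d → ZMod p)) :
    (∀ t : Fin 3 → (Fin d → ZMod p), ∃ g ∈ G, ∀ i, σ (t i) = g (t i)) ↔ σ ∈ {τ : Equiv.Perm (Fin d → ZMod p) | ∃ (A : (Fin d → ZMod p) ≃ₗ[ZMod p] (Fin d → ZMod p)) (b : Fin d → ZMod p), ∀ x, τ x = A x + b} := by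
  constructor
  · intro h
    apply CfsgH6.affine_of_three_affine p hp σ
    intro t
    obtain ⟨g, hg, hgt⟩ := h t
    obtain ⟨A, b, hAb⟩ := haff hg
    exact ⟨A, b, fun i => by rw [hgt, hAb]⟩
  · rintro ⟨A, b, hAb⟩ t
    set W : Submodule (ZMod p) (Fin d → ZMod p) := Submodule.span (ZMod p) (Set.range ![t 1 - t 0, t 2 - t 0]) with hW
    have hWlt : W ≠ ⊤ := by
      intro h
      have h1 : Module.finrank (ZMod p) W ≤ 2 := by
        have := finrank_range_le_card (R := ZMod p) ![t 1 - t 0, t 2 - t 0]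
        simpa [Set.finrank] using this
      rw [h] at h1
      simp at h1
      omega
    obtain ⟨v, hv⟩ : ∃ v, v ∉ W := by
      by_contra h
      push Not at h
      exact hWlt (Submodule.eq_top_iff'.mpr h)
    obtain ⟨f, hfv, hf⟩ := Submodule.exists_le_ker_of_notMem hv
    set c : (ZMod p)ˣ := (LinearEquiv.det A)⁻¹ with hc
    have hu : IsUnit (1 + f ((((c : ZMod p) - 1) * (f v)⁻¹) • v)) := by
      rw [map_smul, smul_eq_mul, mul_assoc, inv_mul_cancel₀ hfv]
      simp
    set C := LinearEquiv.dilatransvection hu with hC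
    have hCdet : LinearMap.det (C : (Fin d → ZMod p) →ₗ[ZMod p] (Fin d → ZMod p)) = c := by
      rw [hC, LinearEquiv.dilatransvection.coe_toLinearMap, LinearMap.transvection.det,
        map_smul, smul_eq_mul, mul_assoc, inv_mul_cancel₀ hfv]
      simp
    have hCW : ∀ x ∈ W, C x = x := by
      intro x hx
      rw [hC, LinearEquiv.dilatransvection.apply, hf hx]
      simp
    obtain ⟨g, hg, hgx⟩ := hsl (C.trans A) (by
      rw [LinearEquiv.coe_trans, LinearMap.det_comp, hCdet, hc, ← LinearEquiv.coe_det]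
      exact Units.mul_inv _)
    obtain ⟨g1, hg1, hg1x⟩ := htrans (- t 0)
    obtain ⟨g2, hg2, hg2x⟩ := htrans (σ (t 0))
    refine ⟨g2 * g * g1, G.mul_mem (G.mul_mem hg2 hg) hg1, fun i => ?_⟩
    have hmem : t i - t 0 ∈ W := by
      fin_cases i
      · simp
      · exact Submodule.subset_span ⟨0, rfl⟩
      · exact Submodule.subset_span ⟨1, rfl⟩
    rw [Equiv.Perm.mul_apply, Equiv.Perm.mul_apply, hg1x, hgx, hg2x, ← sub_eq_add_neg,
      LinearEquiv.trans_apply, hCW _ hmem, hAb, hAb, map_sub]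
    abel

end Cfsg.Agent.S3516
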