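import Cfsg.Statements.S3517
import Cfsg.Agent.H6.Affine

set_option autoImplicit false
open Cfsg

namespace Cfsg.Agent.S3517

/-- For d ≥ 3, the 3-closure of the affine group AGL_d(2) acting on F_2^d is the full symmetric group: every permutation of F_2^d agrees on every ordered triple of points with some affine map (AGL_d(2) is 3-transitive). -/
theorem result (d : ℕ) (hd : 3 ≤ d) (σ : Equiv.Perm (Fin d → ZMod 2)) (t : Fin 3 → (Fin d → ZMod 2)) :
    ∃ (A : (Fin d → ZMod 2) ≃ₗ[ZMod 2] (Fin d → ZMod 2)) (b : Fin d → ZMod 2), ∀ i, σ (t i) = A (t i) + b := by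
  have key : ∀ u1 u2 w1 w2 : Fin d → ZMod 2, (u1 = 0 ↔ w1 = 0) → (u2 = 0 ↔ w2 = 0) → (u1 = u2 ↔ w1 = w2) →
      ∃ A : (Fin d → ZMod 2) ≃ₗ[ZMod 2] (Fin d → ZMod 2), A u1 = w1 ∧ A u2 = w2 := by
    intro u1 u2 w1 w2 h1 h2 h3
    have li : ∀ u1 u2 : Fin d → ZMod 2, u1 ≠ 0 → u2 ≠ 0 → u1 ≠ u2 → LinearIndependent (ZMod 2) ![u1, u2] := by
      intro u1 u2 a1 a2 a3
      rw [LinearIndependent.pair_iff]
      intro s t hst
      have hz : ∀ c : ZMod 2, c = 0 ∨ c = 1 := by decide
      rcases hz s with rfl | rfl <;> rcases hz t with rfl | rfl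
      · exact ⟨rfl, rfl⟩
      · simp at hst; exact absurd hst a2
      · simp at hst; exact absurd hst a1
      · exfalso
        apply a3
        simp only [one_smul] at hst
        ext i
        have := congrFun hst i
        simp only [Pi.add_apply, Pi.zero_apply] at this
        have hab : ∀ a b : ZMod 2, a + b = 0 → a = b := by decide
        exact hab _ _ this
    by_cases a1 : u1 = 0
    · by_cases a2 : u2 = 0
      · exact ⟨LinearEquiv.refl _ _, by simp [a1, h1.mp a1], by simp [a2, h2.mp a2]⟩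
      · obtain ⟨g, hg⟩ := CfsgH6.exists_linearEquiv_map_one (K := ZMod 2) a2 (fun h => a2 (h2.mpr h))
        exact ⟨g, by simp [a1, h1.mp a1], hg⟩
    · by_cases a2 : u2 = 0
      · obtain ⟨g, hg⟩ := CfsgH6.exists_linearEquiv_map_one (K := ZMod 2) a1 (fun h => a1 (h1.mpr h))
        exact ⟨g, hg, by simp [a2, h2.mp a2]⟩
      · by_cases a3 : u1 = u2
        · obtain ⟨g, hg⟩ := CfsgH6.exists_linearEquiv_map_one (K := ZMod 2) a1 (fun h => a1 (h1.mpr h))
          exact ⟨g, hg, by rw [← a3, ← h3.mp a3, hg]⟩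
        · obtain ⟨g, hg⟩ := CfsgH6.exists_linearEquiv_map_linearIndependent (li u1 u2 a1 a2 a3)
            (li w1 w2 (fun h => a1 (h1.mpr h)) (fun h => a2 (h2.mpr h)) (fun h => a3 (h3.mpr h)))
          exact ⟨g, hg 0, hg 1⟩
  obtain ⟨A, h1, h2⟩ := key (t 1 - t 0) (t 2 - t 0) (σ (t 1) - σ (t 0)) (σ (t 2) - σ (t 0))
    (by simp [sub_eq_zero]) (by simp [sub_eq_zero]) (by simp)
  refine ⟨A, σ (t 0) - A (t 0), fun i => ?_⟩
  rw [map_sub] at h1 h2
  fin_cases i
  · simp
  · simp only [Fin.mk_one]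
    linear_combination (exp := 1) -h1
  · simp only [Fin.reduceFinMk]
    linear_combination (exp := 1) -h2

end Cfsg.Agent.S3517
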