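import Cfsg.Statements.S3518
import Cfsg.Agent.H6.BurnsidePrime

set_option autoImplicit false
open Cfsg

namespace Cfsg.Agent.S3518

/-- Closures of subgroups of the one-dimensional affine group. Let p be a prime and G a group of permutations of F_p lying in the affine group AGL₁(p) = {x ↦ ax + b, a ≠ 0} and containing all translations. (1) If G is a proper subgroup of AGL₁(p), then G is 2-closed: a permutation of F_p agreeing on every ordered pair of points with some element of G lies in G. (2) Every permutation of F_p agrees on every ordered pair with some element of AGL₁(p) (the 2-closure of AGL₁(p) is the symmetric group). (3) AGL₁(p) is 3-closed: a permutation agreeing on every ordered triple with some affine map is affine. -/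
theorem result (p : ℕ) [Fact p.Prime] (G : Subgroup (Equiv.Perm (ZMod p))) (hG : G ≤ Cfsg.affineGroup (ZMod p))
    (htrans : ∀ b : ZMod p, ∃ g ∈ G, ∀ x, g x = x + b) :
    (G ≠ Cfsg.affineGroup (ZMod p) → ∀ σ : Equiv.Perm (ZMod p), (∀ t : Fin 2 → ZMod p, ∃ g ∈ G, ∀ i, σ (t i) = g (t i)) → σ ∈ G) ∧
    (∀ σ : Equiv.Perm (ZMod p), (∀ t : Fin 2 → ZMod p, ∃ g ∈ Cfsg.affineGroup (ZMod p), ∀ i, σ (t i) = g (t i))) ∧
    (∀ σ : Equiv.Perm (ZMod p), (∀ t : Fin 3 → ZMod p, ∃ g ∈ Cfsg.affineGroup (ZMod p), ∀ i, σ (t i) = g (t i)) → σ ∈ Cfsg.affineGroup (ZMod p)) := by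
  refine ⟨fun hne σ hσ => ?_, fun σ t => ?_, fun σ hσ => ?_⟩
  · let U : Set (ZMod p) := {a | a ≠ 0 ∧ ∃ g ∈ G, ∀ x, g x = a * x}
    have hlin : ∀ g ∈ G, ∃ a ∈ U, ∀ x, g x = a * x + g 0 := by
      intro g hg
      obtain ⟨a, b, hab⟩ := hG hg
      obtain ⟨h, hh, hhx⟩ := htrans (-b)
      refine ⟨a, ⟨a.ne_zero, h * g, G.mul_mem hh hg, fun x => ?_⟩, fun x => ?_⟩
      · rw [Equiv.Perm.mul_apply, hhx, hab]; ring
      · rw [hab, hab]; ring
    obtain ⟨a, b, hab⟩ := CfsgH6.mueller p U ⟨1, one_ne_zero, 1, G.one_mem, by simp⟩ (fun h => h.1 rfl)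
      (by
        by_contra hcon
        push Not at hcon
        apply hne
        apply le_antisymm hG
        rintro τ ⟨a, b, hab⟩
        obtain ⟨-, g, hg, hgx⟩ := hcon a a.ne_zero
        obtain ⟨h, hh, hhx⟩ := htrans b
        have : τ = h * g := Equiv.ext (fun x => by rw [Equiv.Perm.mul_apply, hhx, hgx, hab])
        rw [this]; exact G.mul_mem hh hg)
      σ σ.injective (by
        rintro i j ⟨h0, g, hg, hgx⟩
        obtain ⟨h, hh, ht⟩ := hσ ![i, j]
        obtain ⟨a, ⟨ha0, k, hk, hkx⟩, ha⟩ := hlin h hh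
        have h1 := ht 0
        have h2 := ht 1
        simp only [Matrix.cons_val_zero, Matrix.cons_val_one] at h1 h2
        have : σ i - σ j = a * (i - j) := by rw [h1, h2, ha i, ha j]; ring
        rw [this]
        refine ⟨mul_ne_zero ha0 h0, k * g, G.mul_mem hk hg, fun x => ?_⟩
        rw [Equiv.Perm.mul_apply, hgx, hkx, mul_assoc])
    obtain ⟨h, hh, ht⟩ := hσ ![0, 1]
    obtain ⟨c, -, hc⟩ := hlin h hh
    have h1 := ht 0
    have h2 := ht 1
    simp only [Matrix.cons_val_zero, Matrix.cons_val_one] at h1 h2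
    have : σ = h := by
      refine Equiv.ext (fun x => ?_)
      rw [hc 1, ← h1, hab, hab] at h2
      rw [hc x, ← h1, hab, hab]
      linear_combination x * h2
    rw [this]; exact hh
  · by_cases h : t 1 = t 0
    · refine ⟨Equiv.addRight (σ (t 0) - t 0), ⟨1, σ (t 0) - t 0, fun x => by simp⟩, fun i => ?_⟩
      fin_cases i
      · simp
      · simp [h]
    · have h1 : t 1 - t 0 ≠ 0 := sub_ne_zero.mpr h
      have h2 : σ (t 1) - σ (t 0) ≠ 0 := sub_ne_zero.mpr (fun e => h (σ.injective e))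
      set a := (σ (t 1) - σ (t 0)) / (t 1 - t 0) with ha
      have ha0 : a ≠ 0 := div_ne_zero h2 h1
      refine ⟨(Equiv.mulLeft₀ a ha0).trans (Equiv.addRight (σ (t 0) - a * t 0)),
        ⟨Units.mk0 a ha0, σ (t 0) - a * t 0, fun x => by simp⟩, fun i => ?_⟩
      fin_cases i
      · simp
      · have : a * (t 1 - t 0) = σ (t 1) - σ (t 0) := div_mul_cancel₀ _ h1
        simp only [Fin.mk_one, Equiv.trans_apply, Equiv.mulLeft₀_apply, Equiv.coe_addRight]
        linear_combination -this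
  · have h2 : σ 1 - σ 0 ≠ 0 := sub_ne_zero.mpr (fun e => one_ne_zero (σ.injective e))
    refine ⟨Units.mk0 _ h2, σ 0, fun x => ?_⟩
    obtain ⟨g, ⟨a, b, hab⟩, ht⟩ := hσ ![0, 1, x]
    have h0 := ht 0
    have h1 := ht 1
    have h3 := ht 2
    simp only [Matrix.cons_val_zero, Matrix.cons_val_one, Matrix.cons_val] at h0 h1 h3
    rw [Units.val_mk0, h0, h1, h3, hab, hab, hab]
    ring

end Cfsg.Agent.S3518
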