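import Cfsg.Statements.S3521
import Cfsg.Agent.H5.Xp2

set_option autoImplicit false
open Cfsg

namespace Cfsg.Agent.S3521

/-- Let a finite group G that is not solvable act faithfully and primitively on a finite set with p ^ d points (p prime), with a non-trivial abelian normal subgroup acting regularly (affine type) and with non-trivial point stabilizers each acting primitively on every one of its orbits (an insoluble extremely primitive group of affine type). Then p = 2; and if moreover G is not 2-transitive, then a point stabilizer is almost simple (it has a non-abelian simple normal subgroup with trivial centralizer). -/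
theorem result {G : Type*} [Group G] [Finite G] {Ω : Type*} [Fintype Ω] [MulAction G Ω] [FaithfulSMul G Ω] (p d : ℕ) (hp : p.Prime) (hcard : Fintype.card Ω = p ^ d) (hsol : ¬ Group.IsSolvable G)
    (N : Subgroup G) [N.Normal] (hN : N ≠ ⊥) (hNc : IsMulCommutative N) (hNreg : ∀ ω : Ω, MulAction.stabilizer N ω = ⊥)
    (hprim : MulAction.IsPreprimitive G Ω) (hH : ∀ α : Ω, MulAction.stabilizer G α ≠ ⊥) (hep : ∀ (α : Ω) (ω : Ω), MulAction.IsPreprimitive (MulAction.stabilizer G α) (MulAction.orbit (MulAction.stabilizer G α) ω)) (α : Ω) :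
    p = 2 ∧ (¬ MulAction.IsMultiplyPretransitive G Ω 2 → ∃ T : Subgroup (MulAction.stabilizer G α), T.Normal ∧ IsSimpleGroup T ∧ ¬ IsMulCommutative T ∧ Subgroup.centralizer (T : Set (MulAction.stabilizer G α)) = ⊥) := by
  open Subgroup CfsgH5 CfsgH6 CfsgFT CfsgH5.Xp MulAction in
  have reg : ∀ n ∈ N, n • α = α → n = 1 := fun n hn e => by
    have : (⟨n, hn⟩ : N) ∈ stabilizer N α := e
    rw [hNreg α, mem_bot] at this
    exact congrArg Subtype.val this
  have tr : ∀ U : Subgroup G, U.Normal → U ≠ ⊥ → ∀ ω : Ω, ∃ u ∈ U, u • α = ω := by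
    intro U hU h0 ω
    have : IsPretransitive U Ω := IsQuasiPreprimitive.isPretransitive_of_normal (fun e => h0
      (eq_bot_iff.2 fun x hx => mem_bot.2 (FaithfulSMul.eq_of_smul_eq_smul (α := Ω) fun a => by
        have : a ∈ fixedPoints U Ω := e ▸ Set.mem_univ a
        rw [one_smul]; exact this ⟨x, hx⟩)))
    obtain ⟨u, hu⟩ := this.exists_smul_eq α ω
    exact ⟨u, u.2, hu⟩
  have ab : Ab N := ab_iff_isMulCommutative.2 hNc
  have dec : ∀ g : G, ∃ n ∈ N, ∃ h ∈ stabilizer G α, g = n * h := fun g => by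
    obtain ⟨n, a, b⟩ := tr N inferInstance hN (g • α)
    exact ⟨n, a, n⁻¹ * g, by rw [mem_stabilizer_iff, mul_smul, ← b, inv_smul_smul], by group⟩
  have cN : Nat.card N = p ^ d := by
    rw [← hcard, ← Nat.card_eq_fintype_card]
    refine Nat.card_eq_of_bijective (fun n : N => (n : G) • α) ⟨fun a b e => ?_, fun ω => ?_⟩
    · have := reg _ (mul_mem (inv_mem b.2) a.2) (by
        rw [mul_smul, show (a : G) • α = (b : G) • α from e, inv_smul_smul])
      exact Subtype.ext (inv_mul_eq_one.1 this).symm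
    · obtain ⟨n, a, b⟩ := tr N inferInstance hN ω
      exact ⟨⟨n, a⟩, b⟩
  have st : ∀ v ∈ N, ∀ h ∈ stabilizer G α, h ∈ C1 v ↔ h • v • α = v • α := fun v hv h hh => by
    have e : h • v • α = (h * v * h⁻¹) • α := by
      rw [mul_smul, mul_smul, show h⁻¹ • α = α from inv_mem hh]
    rw [e, mem_C1_iff_conj]
    refine ⟨fun a => by rw [a], fun a => ?_⟩
    have := reg _ (mul_mem (inv_mem hv) (Normal.conj_mem inferInstance v hv h)) (by
      rw [mul_smul, a, inv_smul_smul])
    exact (inv_mul_eq_one.1 this).symm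
  have X : XP p N (stabilizer G α) := by
    refine ⟨hp, ⟨hN, Nrm.of_normal _ _, fun U a b c => le_antisymm a fun n hn => ?_⟩, ab,
      isPGroup_of_card_eq cN, eq_bot_iff.2 fun h hh => mem_bot.2 ?_, fun v hv h1 X a b => ?_,
      fun hs => hsol ?_⟩
    · have : U.Normal := ⟨fun x hx g => by
        obtain ⟨m, a1, h, a2, rfl⟩ := dec g
        have := ab.nrm a m a1 _ (c h a2 x hx)
        rwa [show m * (h * x * h⁻¹) * m⁻¹ = m * h * x * (m * h)⁻¹ by group] at this⟩
      obtain ⟨u, a1, a2⟩ := tr U this b (n • α)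
      have := reg _ (mul_mem (inv_mem (a a1)) hn) (by rw [mul_smul, ← a2, inv_smul_smul])
      exact inv_mul_eq_one.1 this ▸ a1
    · refine FaithfulSMul.eq_of_smul_eq_smul (α := Ω) fun ω => ?_
      obtain ⟨n, a, rfl⟩ := tr N inferInstance hN ω
      rw [one_smul]
      exact (st n a h hh.1).1 (C_le_C1 a hh.2)
    · haveI := hep α (v • α)
      obtain ⟨o, ho⟩ : ∃ o : orbit (stabilizer G α) (v • α), (o : Ω) = v • α :=
        ⟨⟨_, mem_orbit_self _⟩, rfl⟩
      have so : ∀ h : stabilizer G α, h ∈ stabilizer (stabilizer G α) o ↔ (h : G) ∈ C1 v :=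
        fun h => by
          rw [st v hv h h.2, mem_stabilizer_iff, Subtype.ext_iff]
          show (h : G) • (o : Ω) = o ↔ _
          rw [ho]
      rcases subsingleton_or_nontrivial (orbit (stabilizer G α) (v • α)) with c | c
      · exact .inr (le_antisymm b fun h hh =>
          a ⟨hh, (so ⟨h, hh⟩).1 (Subsingleton.elim _ _)⟩)
      · have co := IsPreprimitive.isCoatom_stabilizer_of_isPreprimitive (stabilizer G α) o
        have le : stabilizer (stabilizer G α) o ≤ X.subgroupOf (stabilizer G α) :=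
          fun h hh => a ⟨h.2, (so h).1 hh⟩
        rcases le.eq_or_lt with e | e
        · exact .inl (le_antisymm (fun x hx => ⟨b hx, (so ⟨x, b hx⟩).1 (e.ge hx)⟩) a)
        · exact .inr (le_antisymm b (subgroupOf_eq_top.1 (co.2 _ e)))
    · have : N ⊔ stabilizer G α = ⊤ := eq_top_iff.2 fun g _ => by
        obtain ⟨m, a1, h, a2, rfl⟩ := dec g
        exact mul_mem (mem_sup_left a1) (mem_sup_right a2)
      haveI : Group.IsSolvable (⊤ : Subgroup G) :=
        this ▸ solvable_sup (solvable_of_ab ab) hs (.inr (Nrm.of_normal _ _))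
      exact solvable_of_surjective (f := (⊤ : Subgroup G).subtype) fun x => ⟨⟨x, trivial⟩, rfl⟩
  refine ⟨X.two, fun _ => ?_⟩
  obtain ⟨L, a, b, c, e, f⟩ := X.main
  have eq := subgroupOfEquivOfLe a
  have sL : IsSimpleGroup L := by
    haveI := (nontrivial_iff_ne_bot L).2 c.ne_bot
    refine ⟨fun K hK => ?_⟩
    rcases c.eq_bot_or_eq (map_subtype_le K) (Nrm.map_subtype K) with q | q
    · exact Or.inl ((map_eq_bot_iff_of_injective _ L.subtype_injective).1 q)
    · refine Or.inr (eq_top_iff.2 fun x _ => ?_)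
      obtain ⟨y, hy, q'⟩ := q.ge x.2
      exact (show y = x from Subtype.ext q') ▸ hy
  refine ⟨L.subgroupOf _, b.normal_subgroupOf, eq.isSimpleGroup, fun q => e (ab_iff.2 fun x hx y hy => ?_),
    eq_bot_iff.2 fun x hx => mem_bot.2 (Subtype.ext (mem_bot.1 (f.le ⟨x.2, mem_C.2 fun y hy => ?_⟩)))⟩
  · exact congrArg (fun z : L.subgroupOf (stabilizer G α) => ((z : stabilizer G α) : G))
      (q.is_comm.comm ⟨⟨x, a hx⟩, hx⟩ ⟨⟨y, a hy⟩, hy⟩)
  · exact congrArg Subtype.val (mem_centralizer_iff.1 hx ⟨y, a hy⟩ hy)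

end Cfsg.Agent.S3521
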