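import Cfsg.Statements.S3532
import Cfsg.Agent.H7.PSL2Spec
import Cfsg.Agent.H7.FrobAff

set_option autoImplicit false
open Cfsg

namespace Cfsg.Agent.S3532

/-- Let q ≥ 4 be a prime power and L = PSL(2,q). There is a finite solvable group with the same set of element orders as L × L (so L × L is not determined by its spectrum). -/
theorem result {F : Type*} [Field F] [Fintype F] (hF : 4 ≤ Fintype.card F) :
    ∃ (H : Type) (_ : Group H) (_ : Finite H), Group.IsSolvable H ∧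
      Set.range (orderOf : H → ℕ) = Set.range (orderOf : Matrix.ProjectiveSpecialLinearGroup (Fin 2) F × Matrix.ProjectiveSpecialLinearGroup (Fin 2) F → ℕ) := by
  obtain ⟨p, hchar, n, hp, hn⟩ := FiniteField.card' F
  have hq : 1 ≤ Fintype.card F := Fintype.card_pos
  have hpq : p ∣ Fintype.card F := by rw [hn]; exact dvd_pow_self p n.ne_zero
  have hd1 : Nat.gcd 2 (Fintype.card F - 1) ∣ Fintype.card F - 1 := Nat.gcd_dvd_right _ _
  have hd2 : Nat.gcd 2 (Fintype.card F - 1) ∣ 2 := Nat.gcd_dvd_left _ _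
  have hd3 : Nat.gcd 2 (Fintype.card F - 1) ∣ Fintype.card F + 1 := by
    have : Fintype.card F + 1 = (Fintype.card F - 1) + 2 := by omega
    rw [this]
    exact dvd_add hd1 hd2
  have hb : Nat.Coprime p ((Fintype.card F - 1) / Nat.gcd 2 (Fintype.card F - 1)) := by
    apply Nat.Coprime.coprime_dvd_right (Nat.div_dvd_of_dvd hd1)
    rw [Nat.Prime.coprime_iff_not_dvd hp]
    intro h
    have h1 : p ∣ Fintype.card F - (Fintype.card F - 1) := Nat.dvd_sub hpq h
    rw [Nat.sub_sub_self hq] at h1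
    exact hp.one_lt.ne' (Nat.dvd_one.1 h1)
  have hc : Nat.Coprime p ((Fintype.card F + 1) / Nat.gcd 2 (Fintype.card F - 1)) := by
    apply Nat.Coprime.coprime_dvd_right (Nat.div_dvd_of_dvd hd3)
    rw [Nat.Prime.coprime_iff_not_dvd hp]
    intro h
    exact hp.one_lt.ne' (Nat.dvd_one.1 ((Nat.dvd_add_right hpq).1 h))
  obtain ⟨G1, _, _, hs1, hspec1, -⟩ := CfsgH7.exists_frobenius_cyclic p _ hp hb
  obtain ⟨G2, _, _, hs2, hspec2, -⟩ := CfsgH7.exists_frobenius_cyclic p _ hp hc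
  refine ⟨G1 × G2, inferInstance, inferInstance, inferInstance, ?_⟩
  ext m
  rw [CfsgH7.mem_spec_prod, CfsgH7.mem_spec_prod, hspec1, hspec2, CfsgH7.spec_psl2 p]
  simp only [Set.mem_ofPred_eq]
  constructor
  · rintro ⟨x, hx, y, hy, rfl⟩
    exact ⟨x, by tauto, y, by tauto, rfl⟩
  · rintro ⟨x, hx | hx | hx, y, hy | hy | hy, rfl⟩
    · exact ⟨x, by tauto, y, by tauto, rfl⟩
    · exact ⟨y, by tauto, x, by tauto, Nat.lcm_comm _ _⟩
    · exact ⟨x, by tauto, y, by tauto, rfl⟩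
    · exact ⟨x, by tauto, y, by tauto, rfl⟩
    · exact ⟨Nat.lcm x y, Or.inr (Nat.lcm_dvd hx hy), 1, Or.inl (one_dvd _), (Nat.lcm_one_right _).symm⟩
    · exact ⟨x, by tauto, y, by tauto, rfl⟩
    · exact ⟨y, by tauto, x, by tauto, Nat.lcm_comm _ _⟩
    · exact ⟨y, by tauto, x, by tauto, Nat.lcm_comm _ _⟩
    · exact ⟨1, Or.inl (one_dvd _), Nat.lcm x y, Or.inr (Nat.lcm_dvd hx hy), (Nat.lcm_one_left _).symm⟩

end Cfsg.Agent.S3532
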