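import Cfsg.Statements.S3547
import Cfsg.Agent.H6.Derang

set_option autoImplicit false
open Cfsg

namespace Cfsg.Agent.S3547

/-- Let G act faithfully and transitively on a finite set Ω, let D be the subgroup generated by the derangements, and let r_G and r_D be the numbers of orbits of G and of D on ordered pairs of points (the permutation ranks). Then r_D − 1 = (r_G − 1)·[G : D]. -/
theorem result {G Ω : Type*} [Group G] [Finite G] [MulAction G Ω] [FaithfulSMul G Ω] [Finite Ω]
    (htrans : MulAction.IsPretransitive G Ω) :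
    Nat.card (MulAction.orbitRel.Quotient ↥(Subgroup.closure {g : G | ∀ ω : Ω, g • ω ≠ ω}) (Ω × Ω)) - 1 =
      (Nat.card (MulAction.orbitRel.Quotient G (Ω × Ω)) - 1) * (Subgroup.closure {g : G | ∀ ω : Ω, g • ω ≠ ω}).index := by
  classical
  change Nat.card (MulAction.orbitRel.Quotient (CfsgH6.derSub G Ω) (Ω × Ω)) - 1 =
    (Nat.card (MulAction.orbitRel.Quotient G (Ω × Ω)) - 1) * (CfsgH6.derSub G Ω).index
  set D := CfsgH6.derSub G Ω with hD
  have := Fintype.ofFinite G
  have h1 := CfsgH6.burnside_nat (G := G) (Ω := Ω × Ω)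
  have h2 := CfsgH6.burnside_subgroup (Ω := Ω × Ω) D
  rw [← Finset.sum_filter_add_sum_filter_not Finset.univ (· ∈ D), h2] at h1
  have h3 : Nat.card G = Nat.card D + (Finset.univ.filter (fun g => ¬ g ∈ D)).card := by
    rw [Nat.card_eq_fintype_card, ← Finset.card_univ,
      ← Finset.card_filter_add_card_filter_not (s := Finset.univ) (· ∈ D)]
    congr 1
    rw [Nat.card_eq_fintype_card, Fintype.card_subtype]
  have h4 : ∑ g ∈ Finset.univ.filter (fun g => ¬ g ∈ D), Nat.card (MulAction.fixedBy (Ω × Ω) g) =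
      (Finset.univ.filter (fun g => ¬ g ∈ D)).card := by
    rw [Finset.card_eq_sum_ones]
    apply Finset.sum_congr rfl
    intro g hg
    rw [CfsgH6.card_fixedBy_prod, CfsgH6.card_fixedBy_of_notMem_derSub htrans (by simpa using hg)]
  rw [h4] at h1
  have h5 : Nat.card G = Nat.card D * D.index := (Subgroup.card_mul_index D).symm
  have hpos : 0 < Nat.card D := Nat.card_pos
  rcases isEmpty_or_nonempty Ω with hΩ | hΩ
  · have e1 : IsEmpty (MulAction.orbitRel.Quotient D (Ω × Ω)) := ⟨fun q => hΩ.false q.out.1⟩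
    have e2 : IsEmpty (MulAction.orbitRel.Quotient G (Ω × Ω)) := ⟨fun q => hΩ.false q.out.1⟩
    simp
  · have e1 : Nonempty (MulAction.orbitRel.Quotient D (Ω × Ω)) := ⟨Quotient.mk _ (Classical.arbitrary _)⟩
    have e2 : Nonempty (MulAction.orbitRel.Quotient G (Ω × Ω)) := ⟨Quotient.mk _ (Classical.arbitrary _)⟩
    have p1 : 0 < Nat.card (MulAction.orbitRel.Quotient D (Ω × Ω)) := Nat.card_pos
    have p2 : 0 < Nat.card (MulAction.orbitRel.Quotient G (Ω × Ω)) := Nat.card_pos
    obtain ⟨a, ha⟩ : ∃ a, Nat.card (MulAction.orbitRel.Quotient D (Ω × Ω)) = a + 1 := ⟨_, (Nat.succ_pred_eq_of_pos p1).symm⟩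
    obtain ⟨b, hb⟩ : ∃ a, Nat.card (MulAction.orbitRel.Quotient G (Ω × Ω)) = a + 1 := ⟨_, (Nat.succ_pred_eq_of_pos p2).symm⟩
    rw [ha, hb] at h1 ⊢
    simp only [Nat.add_sub_cancel]
    apply Nat.eq_of_mul_eq_mul_right hpos
    have : a * Nat.card D = b * Nat.card G := by nlinarith
    rw [this, h5]; ring

end Cfsg.Agent.S3547
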