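import Cfsg.Statements.S3548
import Cfsg.Agent.H6.Derang

set_option autoImplicit false
open Cfsg

namespace Cfsg.Agent.S3548

/-- Let G act faithfully and transitively on a finite set with n ≥ 2 points and let D be the subgroup generated by the derangements. Then the index of D in G divides n − 1, and if it equals n − 1 then n is a prime power. -/
theorem result {G Ω : Type*} [Group G] [Finite G] [MulAction G Ω] [FaithfulSMul G Ω] [Finite Ω]
    (htrans : MulAction.IsPretransitive G Ω) (hΩ : 2 ≤ Nat.card Ω) :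
    (Subgroup.closure {g : G | ∀ ω : Ω, g • ω ≠ ω}).index ∣ Nat.card Ω - 1 ∧
    ((Subgroup.closure {g : G | ∀ ω : Ω, g • ω ≠ ω}).index = Nat.card Ω - 1 → IsPrimePow (Nat.card Ω)) := by
  classical
  change (CfsgH6.derSub G Ω).index ∣ _ ∧ ((CfsgH6.derSub G Ω).index = _ → _)
  have hnt : Nontrivial Ω := Finite.one_lt_card_iff_nontrivial.mp (by omega)
  refine ⟨CfsgH6.derSub_index_dvd htrans, fun hidx => ?_⟩
  set D := CfsgH6.derSub G Ω with hD
  have hDt : MulAction.IsPretransitive D Ω := CfsgH6.derSub_transitive htrans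
  obtain ⟨a⟩ : Nonempty Ω := inferInstance
  set H := MulAction.stabilizer G a with hH
  have hcompl : ({a}ᶜ : Set Ω).ncard = Nat.card Ω - 1 := by
    rw [Set.ncard_compl, Set.ncard_singleton]
  -- every orbit of H off a is everything
  have horb : ∀ b, a ≠ b → MulAction.orbit H b = {a}ᶜ := by
    intro b hab
    have h1 := CfsgH6.derSub_index_dvd_index_stabilizer htrans hab
    rw [MulAction.index_stabilizer, hidx] at h1
    have hsub : MulAction.orbit H b ⊆ {a}ᶜ := by
      rintro _ ⟨h, rfl⟩ hh
      apply hab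
      simp only [Set.mem_singleton_iff] at hh
      have h2 : (h : G) • a = a := h.2
      have h3 : (h : G) • b = a := hh
      exact (smul_left_cancel_iff (h : G)).mp (h2.trans h3.symm)
    apply Set.eq_of_subset_of_ncard_le hsub
    rw [hcompl]
    exact Nat.le_of_dvd ((Set.ncard_pos).mpr ⟨b, MulAction.mem_orbit_self b⟩) h1
  -- the stabilizer of a in D is trivial
  have hreg : ∀ d ∈ D, d • a = a → d = 1 := by
    intro d hd hda
    apply FaithfulSMul.eq_of_smul_eq_smul (α := Ω)
    intro b
    rw [one_smul]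
    by_cases hab : a = b
    · rw [← hab, hda]
    have hle : MulAction.stabilizer H b ≤ D.subgroupOf H := by
      intro g hg
      rw [Subgroup.mem_subgroupOf]
      exact CfsgH6.mem_derSub_of_fixes_two htrans hab g.2 hg
    have hi : (MulAction.stabilizer H b).index = (D.subgroupOf H).index := by
      rw [MulAction.index_stabilizer, horb b hab, hcompl, ← hidx]
      exact CfsgH6.index_eq_relIndex_stabilizer D hDt a
    have heq : MulAction.stabilizer H b = D.subgroupOf H := by
      apply Subgroup.eq_of_le_of_card_ge hle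
      have e1 := Subgroup.card_mul_index (MulAction.stabilizer H b)
      have e2 := Subgroup.card_mul_index (D.subgroupOf H)
      rw [hi, ← e2] at e1
      exact (Nat.eq_of_mul_eq_mul_right (Nat.pos_of_ne_zero Subgroup.index_ne_zero_of_finite) e1).ge
    have : (⟨d, hda⟩ : H) ∈ MulAction.stabilizer H b := by
      rw [heq]; exact hd
    exact this
  have hcardD : Nat.card D = Nat.card Ω := by
    have h1 : MulAction.stabilizer D a = ⊥ := by
      rw [eq_bot_iff]
      intro d hd
      rw [Subgroup.mem_bot]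
      exact Subtype.ext (hreg d d.2 hd)
    have h2 := MulAction.index_stabilizer_of_transitive D a
    rw [h1, Subgroup.index_bot] at h2
    exact h2
  have hconj : ∀ d e : D, d ≠ 1 → e ≠ 1 → orderOf d = orderOf e := by
    intro d e hd he
    have hda : a ≠ (d : G) • a := fun h => hd (Subtype.ext (hreg d d.2 h.symm))
    have hea : a ≠ (e : G) • a := fun h => he (Subtype.ext (hreg e e.2 h.symm))
    have : (e : G) • a ∈ MulAction.orbit H ((d : G) • a) := by
      rw [horb _ hda]; exact fun h => hea h.symm
    obtain ⟨h, hh⟩ := this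
    have hh' : (h : G) • (d : G) • a = (e : G) • a := hh
    have h1 : (e : G)⁻¹ * (h * d * h⁻¹) = 1 := by
      apply hreg _ (D.mul_mem (D.inv_mem e.2) ((CfsgH6.derSub_normal G Ω).conj_mem _ d.2 _))
      have h2 : (h : G)⁻¹ • a = a := (H.inv_mem h.2)
      rw [mul_smul, mul_smul, mul_smul, h2, hh', inv_smul_smul]
    rw [inv_mul_eq_one] at h1
    rw [← Subgroup.orderOf_coe, ← Subgroup.orderOf_coe e, h1]
    exact ((MulAut.conj (h : G)).orderOf_eq (d : G)).symm
  rw [isPrimePow_iff_unique_prime_dvd]
  obtain ⟨p, hp, hpd⟩ := Nat.exists_prime_and_dvd (n := Nat.card Ω) (by omega)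
  refine ⟨p, ⟨hp, hpd⟩, fun q ⟨hq, hqd⟩ => ?_⟩
  have := Fact.mk hp
  have := Fact.mk hq
  obtain ⟨d, hd⟩ := exists_prime_orderOf_dvd_card' (G := D) p (hcardD ▸ hpd)
  obtain ⟨e, he⟩ := exists_prime_orderOf_dvd_card' (G := D) q (hcardD ▸ hqd)
  rw [← hd, ← he]
  apply hconj
  · rintro rfl; rw [orderOf_one] at he; exact hq.one_lt.ne he
  · rintro rfl; rw [orderOf_one] at hd; exact hp.one_lt.ne hd

end Cfsg.Agent.S3548
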