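import Cfsg.Statements.S3549
import Cfsg.Agent.H6.Derang

set_option autoImplicit false
open Cfsg

namespace Cfsg.Agent.S3549

open scoped Pointwise

/-- Let G act faithfully, transitively but imprimitively on a finite set with n points, and let D be the subgroup generated by the derangements. Then the index of D in G is at most √n − 1. -/
theorem result {G Ω : Type*} [Group G] [Finite G] [MulAction G Ω] [FaithfulSMul G Ω] [Finite Ω]
    (htrans : MulAction.IsPretransitive G Ω) (himp : ¬ MulAction.IsPreprimitive G Ω) :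
    ((Subgroup.closure {g : G | ∀ ω : Ω, g • ω ≠ ω}).index : ℝ) ≤ Real.sqrt (Nat.card Ω) - 1 := by
  classical
  change ((CfsgH6.derSub G Ω).index : ℝ) ≤ _
  obtain ⟨B, hB, hBt⟩ : ∃ B : Set Ω, MulAction.IsBlock G B ∧ ¬ MulAction.IsTrivialBlock B := by
    by_contra h
    push Not at h
    exact himp ⟨fun {B} hB => h B hB⟩
  rw [MulAction.IsTrivialBlock, not_or, Set.not_subsingleton_iff] at hBt
  obtain ⟨hB1, hB2⟩ := hBt
  obtain ⟨a, ha⟩ := hB1.nonempty
  have hmul := hB.ncard_block_mul_ncard_orbit_eq hB1.nonempty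
  have hb2 : 1 < B.ncard := Set.one_lt_ncard_iff_nontrivial.mpr hB1
  have hm2 : 1 < (MulAction.orbit G B).ncard := by
    by_contra h
    have h1 : (MulAction.orbit G B).ncard = 1 := by
      have : 0 < (MulAction.orbit G B).ncard := (Set.ncard_pos).mpr ⟨B, MulAction.mem_orbit_self B⟩
      omega
    rw [h1, mul_one] at hmul
    exact hB2 ((Set.eq_univ_iff_ncard B).mpr hmul)
  have hk1 : (CfsgH6.derSub G Ω).index ∣ B.ncard - 1 := by
    have := CfsgH6.derSub_index_dvd_ncard htrans a (B \ {a}) (by simp) (fun g hg x hx => by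
      refine ⟨?_, ?_⟩
      · have h1 : g • B = B := hB.stabilizer_le ha hg
        rw [← h1]; exact Set.smul_mem_smul_set hx.1
      · intro h
        apply hx.2
        simp only [Set.mem_singleton_iff] at h ⊢
        rw [← hg] at h
        exact (smul_left_cancel_iff g).mp h)
    rwa [Set.ncard_sdiff_singleton_of_mem ha] at this
  have hk2 : (CfsgH6.derSub G Ω).index ∣ (MulAction.orbit G B).ncard - 1 := by
    have : Nonempty (MulAction.orbit G B) := ⟨⟨B, MulAction.mem_orbit_self B⟩⟩
    have h1 := CfsgH6.derSub_index_dvd (G := G) (Ω := MulAction.orbit G B) inferInstance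
    refine Dvd.dvd.trans (Subgroup.index_dvd_of_le ?_) h1
    apply Subgroup.closure_mono
    intro g hg ω hω
    obtain ⟨h, rfl⟩ := htrans.exists_smul_eq a ω
    apply hg ⟨h • B, MulAction.mem_orbit B h⟩
    apply Subtype.ext
    exact (hB.translate h).stabilizer_le (Set.smul_mem_smul_set ha) hω
  have h1 := Nat.le_of_dvd (by omega) hk1
  have h2 := Nat.le_of_dvd (by omega) hk2
  have h3 : ((CfsgH6.derSub G Ω).index + 1) ^ 2 ≤ Nat.card Ω := by
    rw [← hmul, sq]
    exact Nat.mul_le_mul (by omega) (by omega)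
  rw [le_sub_iff_add_le]
  apply Real.le_sqrt_of_sq_le
  exact_mod_cast h3

end Cfsg.Agent.S3549
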