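import Cfsg.Statements.S3550
import Cfsg.Agent.H5.Der5

set_option autoImplicit false
open Cfsg

namespace Cfsg.Agent.S3550

/-- Let G act faithfully and primitively on a finite set with n ≥ 2 points and suppose G has no non-trivial abelian normal subgroup (G is not of affine type). Let D be the subgroup generated by the derangements. Then the index of D in G is at most √n − 1. -/
theorem result {G Ω : Type*} [Group G] [Finite G] [MulAction G Ω] [FaithfulSMul G Ω] [Finite Ω]
    (hprim : MulAction.IsPreprimitive G Ω) (hΩ : 2 ≤ Nat.card Ω) (hna : ∀ N : Subgroup G, N.Normal → IsMulCommutative ↥N → N = ⊥) :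
    ((Subgroup.closure {g : G | ∀ ω : Ω, g • ω ≠ ω}).index : ℝ) ≤ Real.sqrt (Nat.card Ω) - 1 := by
  change ((CfsgH6.derSub G Ω).index : ℝ) ≤ _
  have ht : MulAction.IsPretransitive G Ω := hprim.toIsPretransitive
  have h3 : ((CfsgH6.derSub G Ω).index + 1) ^ 2 ≤ Nat.card Ω := by
    by_cases hd : CfsgH6.derSub G Ω = ⊤
    · rw [hd, Subgroup.index_top]
      exact CfsgH5.Der.main1 ht hΩ hna
    · refine CfsgH5.Der.main2 (fun g a b hab ha hb => CfsgH6.mem_derSub_of_fixes_two ht hab ha hb)
        (fun x y => ?_) hd hΩ hna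
      obtain ⟨g, hg⟩ := (CfsgH6.derSub_transitive ht).exists_smul_eq x y
      exact ⟨g, g.2, hg⟩
  rw [le_sub_iff_add_le]
  apply Real.le_sqrt_of_sq_le
  exact_mod_cast h3

end Cfsg.Agent.S3550
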