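import Cfsg.Statements.S3559
import Cfsg.Agent.H5.SRing

set_option autoImplicit false
open Cfsg

namespace Cfsg.Agent.S3559

/-- Let G act faithfully and transitively on a finite set whose number of points n ≥ 2 is not a prime power, and suppose G has a cyclic subgroup acting regularly (transitively with trivial point stabilizers). Then G is imprimitive or doubly transitive. -/
theorem result {G Ω : Type*} [Group G] [Finite G] [MulAction G Ω] [FaithfulSMul G Ω] [Finite Ω]
    (htrans : MulAction.IsPretransitive G Ω) (hn : 2 ≤ Nat.card Ω) (hnp : ¬ IsPrimePow (Nat.card Ω))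
    (C : Subgroup G) (hcyc : IsCyclic ↥C) (hC : MulAction.IsPretransitive ↥C Ω ∧ ∀ a : Ω, MulAction.stabilizer ↥C a = ⊥) :
    ¬ MulAction.IsPreprimitive G Ω ∨ MulAction.IsMultiplyPretransitive G Ω 2 := by
  classical
  by_cases hprim : MulAction.IsPreprimitive G Ω
  swap
  · exact Or.inl hprim
  right
  haveI : Nonempty Ω := (Nat.card_pos_iff.1 (by omega)).1
  obtain ⟨a⟩ := ‹Nonempty Ω›
  letI : Fintype C := Fintype.ofFinite C
  have hb := CfsgH5.SRing.bij_of_regular C (MulEquiv.refl C) hC a
  have hcard : Fintype.card C = Nat.card Ω := by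
    rw [← Nat.card_eq_fintype_card]
    exact Nat.card_eq_of_bijective _ hb
  obtain ⟨p, hp, hpd⟩ := Nat.exists_prime_and_dvd (n := Nat.card Ω) (by omega)
  obtain ⟨l, hl, hld, hpl⟩ : ∃ l : ℕ, l.Prime ∧ l ∣ Nat.card Ω ∧ p ≠ l := by
    by_contra hc
    push Not at hc
    apply hnp
    have h1 := Nat.eq_prime_pow_of_unique_prime_dvd (p := p) (by omega : Nat.card Ω ≠ 0)
      (fun {d} hd hdd => (hc d hd hdd).symm)
    rw [isPrimePow_nat_iff]
    refine ⟨p, _, hp, ?_, h1.symm⟩
    by_contra h0
    rw [Nat.eq_zero_of_not_pos h0, pow_zero] at h1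
    omega
  letI : CommGroup C := IsCyclic.commGroup
  exact CfsgH5.SRing.two_trans _ a hb hprim (fun S x y hx hy =>
    CfsgH5.SRing.cyclic S hp hl hpl (hcard ▸ hpd) (hcard ▸ hld) x y hx hy)

end Cfsg.Agent.S3559
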