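import Cfsg.Statements.S3560

set_option autoImplicit false
open Cfsg

namespace CfsgH9.ProdAct

open Equiv

variable {ι : Type*} [Fintype ι] {Y : Type*} [DecidableEq Y]

/-- Permutations preserving the Hamming distance. -/
def hamGroup (ι : Type*) [Fintype ι] (Y : Type*) [DecidableEq Y] : Subgroup (Perm (ι → Y)) where
  carrier := {P | ∀ u v, hammingDist (P u) (P v) = hammingDist u v}
  one_mem' := fun _ _ => rfl
  mul_mem' := by
    intro P Q hP hQ u v
    rw [Perm.mul_apply, Perm.mul_apply, hP, hQ]
  inv_mem' := by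
    intro P hP u v
    rw [← hP]; simp

theorem base_mem (σ : ι → Perm Y) : (Equiv.piCongrRight σ : Perm (ι → Y)) ∈ hamGroup ι Y := by
  intro u v
  simp [hammingDist]

theorem top_mem (τ : Perm ι) :
    (Equiv.arrowCongr τ (Equiv.refl Y) : Perm (ι → Y)) ∈ hamGroup ι Y := by
  intro u v
  simp only [hammingDist]
  apply Finset.card_bij (fun i _ => τ.symm i)
  · intro i hi
    simpa using hi
  · intro i _ j _ h
    exact τ.symm.injective h
  · intro j hj
    refine ⟨τ j, ?_, by simp⟩
    simpa using hj

theorem exists_perm_two {a b c d : Y} (hab : a ≠ b) (hcd : c ≠ d) :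
    ∃ σ : Perm Y, σ a = c ∧ σ b = d := by
  refine ⟨swap (swap a c b) d * swap a c, ?_, by simp⟩
  rw [Perm.mul_apply, swap_apply_left, swap_apply_of_ne_of_ne _ hcd]
  intro h
  apply hab
  apply (swap a c).injective
  rw [swap_apply_left]; exact h

theorem edge_trans [DecidableEq ι] (u v : ι → Y) (i j : ι) (c d : Y) (hc : u i ≠ c)
    (hd : v j ≠ d) : ∃ P ∈ hamGroup ι Y, P u = v ∧ P (Function.update u i c) =
      Function.update v j d := by
  obtain ⟨σ, h1, h2⟩ := exists_perm_two hc hd
  let τ : Perm ι := swap i j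
  let s : ι → Perm Y := fun k => if k = j then σ else swap (u (τ k)) (v k)
  refine ⟨Equiv.piCongrRight s * Equiv.arrowCongr τ (Equiv.refl Y),
    mul_mem (base_mem s) (top_mem τ), ?_, ?_⟩
  · ext k
    by_cases hk : k = j
    · subst hk; simp [s, τ, h1]
    · simp [s, τ, hk]
  · ext k
    by_cases hk : k = j
    · subst hk; simp [s, τ, h2]
    · have : swap i j k ≠ i := by
        intro h
        apply hk
        apply (swap i j).injective
        rw [h, swap_apply_right]
      simp [s, τ, hk, Function.update_of_ne this]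

theorem trans_ham (u v : ι → Y) : ∃ P ∈ hamGroup ι Y, P u = v :=
  ⟨_, base_mem (fun k => swap (u k) (v k)), by ext k; simp⟩

theorem block_trivial [Fintype Y] (hY : 3 ≤ Fintype.card Y) (B : Set (ι → Y))
    (hB : ∀ P ∈ hamGroup ι Y, ∀ a ∈ B, P a ∈ B → ∀ b ∈ B, P b ∈ B) :
    B.Subsingleton ∨ B = Set.univ := by
  classical
  by_cases hs : B.Subsingleton
  · exact Or.inl hs
  right
  rw [Set.not_subsingleton_iff] at hs
  obtain ⟨a, ha, b, hb, hab⟩ := hs
  obtain ⟨i, hi⟩ := Function.ne_iff.1 hab
  obtain ⟨c, hca, hcb⟩ : ∃ c, c ≠ a i ∧ c ≠ b i := by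
    by_contra! h
    have : (Finset.univ : Finset Y) ⊆ {a i, b i} := by
      intro c _
      by_cases hc : c = a i
      · simp [hc]
      · simp [h c hc]
    have h1 := Finset.card_le_card this
    have h2 : ({a i, b i} : Finset Y).card ≤ 2 := Finset.card_le_two
    rw [Finset.card_univ] at h1
    omega
  have hb' : Function.update b i c ∈ B := by
    let s : ι → Perm Y := fun k => if k = i then swap (b i) c else 1
    have h1 : Equiv.piCongrRight s a = a := by
      ext k
      by_cases hk : k = i
      · subst hk; simp [s, swap_apply_of_ne_of_ne hi hca.symm]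
      · simp [s, hk]
    have h2 : Equiv.piCongrRight s b = Function.update b i c := by
      ext k
      by_cases hk : k = i
      · subst hk; simp [s]
      · simp [s, hk]
    rw [← h2]
    exact hB _ (base_mem s) a ha (h1.symm ▸ ha) b hb
  have step : ∀ v ∈ B, ∀ j d, Function.update v j d ∈ B := by
    intro v hv j d
    by_cases hd : v j = d
    · subst hd; simpa using hv
    obtain ⟨P, hP, h1, h2⟩ := edge_trans b v i j c d hcb.symm hd
    rw [← h2]
    exact hB P hP b hb (h1.symm ▸ hv) _ hb'
  rw [Set.eq_univ_iff_forall]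
  intro w
  have : ∀ S : Finset ι, (fun k => if k ∈ S then w k else a k) ∈ B := by
    intro S
    induction S using Finset.induction_on with
    | empty => simpa using ha
    | insert j S hj ih =>
      have := step _ ih j (w j)
      convert this using 1
      ext k
      by_cases hk : k = j
      · subst hk; simp
      · simp [hk]
  simpa using this Finset.univ

theorem not_two [Fintype Y] (hY : 3 ≤ Fintype.card Y) (hι : 2 ≤ Fintype.card ι) :
    ∃ a b c d : ι → Y, a ≠ b ∧ c ≠ d ∧ hammingDist a b ≠ hammingDist c d := by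
  classical
  obtain ⟨y, z, hyz⟩ := Fintype.exists_pair_of_one_lt_card (by omega : 1 < Fintype.card Y)
  obtain ⟨i, j, hij⟩ := Fintype.exists_pair_of_one_lt_card (by omega : 1 < Fintype.card ι)
  refine ⟨fun _ => y, Function.update (fun _ => y) i z, fun _ => y, fun _ => z, ?_, ?_, ?_⟩
  · intro h
    have := congrFun h i
    simp at this
    exact hyz this
  · intro h
    exact hyz (congrFun h i)
  · have h1 : hammingDist (fun _ : ι => y) (Function.update (fun _ => y) i z) = 1 := by
      unfold hammingDist
      rw [Finset.card_eq_one]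
      refine ⟨i, ?_⟩
      ext k
      by_cases hk : k = i
      · subst hk; simp [hyz]
      · simp [hk]
    have h2 : hammingDist (fun _ : ι => y) (fun _ => z) = Fintype.card ι := by
      unfold hammingDist
      simp [hyz]
    omega

end CfsgH9.ProdAct

namespace Cfsg.Agent.S3560

open CfsgH9.ProdAct

/-- Let K be a finite group isomorphic to a direct product of r ≥ 2 groups all of the same order m ≥ 3. Then K is not a B-group: there is a primitive but not doubly transitive permutation group (on some finite set) containing a regular subgroup isomorphic to K. -/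
theorem result {K : Type*} [Group K] [Finite K] {ι : Type*} [Fintype ι] (F : ι → Type*) [∀ i, Group (F i)]
    (hr : 2 ≤ Fintype.card ι) (m : ℕ) (hm : 3 ≤ m) (hcard : ∀ i, Nat.card (F i) = m) (e : K ≃* (∀ i, F i)) :
    ∃ (n : ℕ) (G R : Subgroup (Equiv.Perm (Fin n))), R ≤ G ∧ Nonempty (↥R ≃* K) ∧
      MulAction.IsPretransitive ↥R (Fin n) ∧ (∀ a : Fin n, MulAction.stabilizer ↥R a = ⊥) ∧
      MulAction.IsPreprimitive ↥G (Fin n) ∧ ¬ MulAction.IsMultiplyPretransitive ↥G (Fin n) 2 := by
  classical
  have hfin : ∀ i, Finite (F i) := fun i => Nat.finite_of_card_ne_zero (by rw [hcard]; omega)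
  let b : ∀ i, F i ≃ Fin m := fun i => Finite.equivFinOfCardEq (hcard i)
  let n := Nat.card (ι → Fin m)
  let d : (ι → Fin m) ≃ Fin n := Finite.equivFin _
  let c : K ≃ (ι → Fin m) := e.toEquiv.trans (Equiv.piCongrRight b)
  let G : Subgroup (Equiv.Perm (Fin n)) := (hamGroup ι (Fin m)).map d.permCongrHom.toMonoidHom
  let ρ : K →* Equiv.Perm (Fin n) :=
    (c.trans d).permCongrHom.toMonoidHom.comp (MulAction.toPermHom K K)
  have hρ : ∀ (k : K) (x : Fin n), ρ k x = d (c (k * c.symm (d.symm x))) := fun k x => rfl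
  have hρinj : Function.Injective ρ :=
    (c.trans d).permCongrHom.injective.comp MulAction.toPerm_injective
  have hG : ∀ P ∈ hamGroup ι (Fin m), d.permCongr P ∈ G := fun P hP => ⟨P, hP, rfl⟩
  have hY : 3 ≤ Fintype.card (Fin m) := by simpa using hm
  refine ⟨n, G, ρ.range, ?_, ⟨(MonoidHom.ofInjective hρinj).symm⟩, ⟨fun x y => ?_⟩, fun a => ?_,
    ?_, ?_⟩
  · rintro _ ⟨k, rfl⟩
    refine ⟨_, base_mem (fun i => (b i).permCongr (Equiv.mulLeft (e k i))), ?_⟩
    ext x
    rw [hρ]
    simp only [MulEquiv.toMonoidHom_eq_coe, MonoidHom.coe_coe, Equiv.permCongrHom_coe,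
      Equiv.permCongr_apply]
    congr 2
    ext i
    simp [c]
  · refine ⟨⟨ρ (c.symm (d.symm y) * (c.symm (d.symm x))⁻¹), ⟨_, rfl⟩⟩, ?_⟩
    change ρ _ x = y
    rw [hρ]; simp
  · rw [eq_bot_iff]
    rintro ⟨_, k, rfl⟩ hk
    have : ρ k a = a := hk
    rw [hρ, ← Equiv.eq_symm_apply, ← Equiv.eq_symm_apply, mul_eq_right] at this
    subst this
    simp [Subgroup.mem_bot]
  · have : MulAction.IsPretransitive G (Fin n) := ⟨fun x y => by
      obtain ⟨P, hP, h⟩ := trans_ham (d.symm x) (d.symm y)
      refine ⟨⟨_, hG P hP⟩, ?_⟩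
      change d (P (d.symm x)) = y
      rw [h]; simp⟩
    refine ⟨fun {B} hB => ?_⟩
    have h := block_trivial hY (d ⁻¹' B) (by
      intro P hP a ha hPa b hb
      have h1 : (⟨_, hG P hP⟩ : G) • d a ∈ B := by
        change d (P (d.symm (d a))) ∈ B
        simpa using hPa
      have h2 := MulAction.isBlock_iff_smul_eq_of_mem.1 hB ha h1
      have h3 : (⟨_, hG P hP⟩ : G) • d b ∈ B := by
        rw [← h2]; exact Set.smul_mem_smul_set hb
      change d (P (d.symm (d b))) ∈ B at h3
      simpa using h3)
    rcases h with h | h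
    · left
      intro x hx y hy
      have := @h (d.symm x) (by simpa using hx) (d.symm y) (by simpa using hy)
      exact d.symm.injective this
    · right
      rw [Set.eq_univ_iff_forall] at h ⊢
      intro x
      simpa using h (d.symm x)
  · intro h2
    rw [MulAction.is_two_pretransitive_iff] at h2
    obtain ⟨u, v, w, z, huv, hwz, hne⟩ := not_two (ι := ι) hY hr
    obtain ⟨⟨_, P, hP, rfl⟩, h1, h2⟩ := h2 (d.injective.ne huv) (d.injective.ne hwz)
    apply hne
    change d (P (d.symm (d u))) = d w at h1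
    change d (P (d.symm (d v))) = d z at h2
    simp only [Equiv.symm_apply_apply, EmbeddingLike.apply_eq_iff_eq] at h1 h2
    rw [← h1, ← h2, hP]

end Cfsg.Agent.S3560
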