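import Cfsg.Statements.S3571
import Cfsg.Agent.H5.AltDer

set_option autoImplicit false
open Cfsg

namespace Cfsg.Agent.S3571

/-- Let G be an almost simple group whose socle is an alternating group of degree m ≥ 5 (G has a normal subgroup T isomorphic to that alternating group with trivial centralizer), acting faithfully and primitively on a finite set Ω with at least two points, and let r be the largest prime divisor of the number of points. Then G contains an element of order r fixing no point. -/
theorem result {G Ω : Type*} [Group G] [Finite G] [MulAction G Ω] [FaithfulSMul G Ω] [Finite Ω]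
    (T : Subgroup G) (hT : T.Normal) (hTc : Subgroup.centralizer (T : Set G) = ⊥) (m : ℕ) (hm : 5 ≤ m)
    (eT : ↥T ≃* ↥(alternatingGroup (Fin m))) (hprim : MulAction.IsPreprimitive G Ω) (hΩ : 2 ≤ Nat.card Ω)
    (r : ℕ) (hr : r.Prime) (hrd : r ∣ Nat.card Ω) (hmax : ∀ s : ℕ, s.Prime → s ∣ Nat.card Ω → s ≤ r) :
    ∃ g : G, orderOf g = r ∧ ∀ ω : Ω, g • ω ≠ ω := by
  haveI : Nonempty Ω := (Nat.card_pos_iff.1 (by omega)).1
  obtain ⟨a⟩ := ‹Nonempty Ω›
  haveI : Nontrivial (Fin m) := Fin.nontrivial_iff_two_le.2 (by omega)
  haveI : MulAction.IsPretransitive T Ω := by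
    apply MulAction.IsQuasiPreprimitive.isPretransitive_of_normal
    intro h
    haveI : Nontrivial (alternatingGroup (Fin m)) :=
      alternatingGroup.nontrivial_of_three_le_card (by simp; omega)
    obtain ⟨x, hx⟩ := exists_ne (1 : alternatingGroup (Fin m))
    apply hx
    rw [← eT.symm.map_eq_one_iff]
    apply Subtype.ext
    apply eq_of_smul_eq_smul (α := Ω)
    intro ω
    have : ω ∈ MulAction.fixedPoints T Ω := h ▸ Set.mem_univ _
    simpa [Subgroup.smul_def] using this (eT.symm x)
  obtain ⟨g, h1, h2⟩ := CfsgH5.AltDer.exists_derangement hm eT hr hrd hmax a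
  exact ⟨g, by simpa using h1, h2⟩

end Cfsg.Agent.S3571
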