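import Cfsg.Statements.S3573
import Cfsg.Agent.H6.PrimePerm

set_option autoImplicit false
open Cfsg

namespace Cfsg.Agent.S3573

theorem fixes_iff (n k : ℕ) (r : ℕ) (hr : r.Prime) (σ : Equiv.Perm (Fin n)) (hσ : σ ^ r = 1)
    (hkn : k ≤ n) :
    (∃ s : Finset (Fin n), s.card = k ∧ s.image σ = s) ↔
      ∃ f, f ≤ k ∧ f ≡ k [MOD r] ∧ f ≤ CfsgH6.nfix σ ∧ CfsgH6.nfix σ - f ≤ n - k := by
  constructor
  · rintro ⟨s, hs, hsσ⟩
    have hinv : ∀ x, σ x ∈ s ↔ x ∈ s := by
      intro x
      conv_lhs => rw [← hsσ]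
      simp
    have h1 := CfsgH6.card_fixed_modEq_of_invariant hr hσ (fun x => x ∈ s) hinv
    have h2 : Nat.card {x // x ∈ s} = k := by simp [hs]
    have h3 : Nat.card {x // x ∈ s ∧ σ x = x} = (s.filter (fun x => σ x = x)).card := by
      rw [Nat.subtype_card (s.filter (fun x => σ x = x))]; simp
    have h4 : CfsgH6.nfix σ = (Finset.univ.filter (fun x => σ x = x)).card := by
      unfold CfsgH6.nfix
      rw [Nat.subtype_card (Finset.univ.filter (fun x => σ x = x))]; simp
    rw [h2, h3] at h1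
    refine ⟨_, ?_, h1, ?_, ?_⟩
    · rw [← hs]; exact Finset.card_filter_le _ _
    · rw [h4]; exact Finset.card_le_card (Finset.filter_subset_filter _ (Finset.subset_univ _))
    · rw [h4]
      have h5 : (Finset.univ.filter (fun x => σ x = x)) ⊆ s.filter (fun x => σ x = x) ∪ sᶜ := by
        intro x hx
        by_cases hxs : x ∈ s <;> simp_all
      have h6 := (Finset.card_le_card h5).trans (Finset.card_union_le _ _)
      rw [Finset.card_compl, hs, Fintype.card_fin] at h6
      omega
  · rintro ⟨f, hfk, hf, hfF, hF⟩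
    obtain ⟨τ₁, h1, h1'⟩ := CfsgH6.exists_perm_nfix (Fin k) hr f (by simpa) (by simpa)
    have hm := CfsgH6.nfix_modEq hr hσ
    simp only [Nat.card_eq_fintype_card, Fintype.card_fin] at hm
    obtain ⟨τ₂, h2, h2'⟩ := CfsgH6.exists_perm_nfix (Fin (n - k)) hr (CfsgH6.nfix σ - f)
      (by simpa only [Nat.card_eq_fintype_card, Fintype.card_fin] using hF) (by
        simp only [Nat.card_eq_fintype_card, Fintype.card_fin]
        refine Nat.ModEq.add_right_cancel hf ?_
        rw [Nat.sub_add_cancel hfF, Nat.sub_add_cancel hkn]; exact hm)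
    obtain ⟨e, he⟩ := CfsgH6.exists_equiv_of_nfix_eq hr (σ := Equiv.Perm.sumCongr τ₁ τ₂) (τ := σ)
      (by
        have : Equiv.Perm.sumCongr τ₁ τ₂ = Equiv.Perm.sumCongrHom _ _ (τ₁, τ₂) := rfl
        rw [this, ← map_pow, Prod.pow_mk, h1, h2]; exact map_one _) hσ
      (by simp; omega) (by rw [CfsgH6.nfix_sumCongr, h1', h2']; omega)
    refine ⟨Finset.univ.image (fun x : Fin k => e (Sum.inl x)), ?_, ?_⟩
    · rw [Finset.card_image_of_injective _
        (f := fun x : Fin k => e (Sum.inl x)) (e.injective.comp Sum.inl_injective)]; simp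
    · ext y
      simp only [Finset.mem_image, Finset.mem_univ, true_and]
      constructor
      · rintro ⟨_, ⟨x, rfl⟩, rfl⟩
        exact ⟨τ₁ x, by rw [← he]; simp⟩
      · rintro ⟨x, rfl⟩
        exact ⟨_, ⟨τ₁.symm x, rfl⟩, by rw [← he]; simp⟩

theorem crit (n k : ℕ) (hkn : k ≤ n) (r : ℕ) (hr : r.Prime) (hrn : r ≤ n) :
    (∀ σ : Equiv.Perm (Fin n), orderOf σ = r → ∃ s : Finset (Fin n), s.card = k ∧ s.image σ = s) ↔
      k % r ≤ n % r := by
  have := Fact.mk hr
  have hpos := hr.pos
  constructor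
  · intro h
    obtain ⟨σ, h1, h2⟩ := CfsgH6.exists_perm_nfix (Fin n) hr (n % r) (by simpa using Nat.mod_le _ _)
      (by simpa using Nat.mod_modEq n r)
    have hne : σ ≠ 1 := by
      intro h0
      have := CfsgH6.nfix_eq_card_iff.2 h0
      have h3 := Nat.mod_lt n hpos
      simp at this; omega
    obtain ⟨f, -, hf, hf2, -⟩ := (fixes_iff n k r hr σ h1 hkn).1 (h σ (orderOf_eq_prime h1 hne))
    rw [h2] at hf2
    have : k % r = f % r := hf.symm
    have := Nat.mod_le f r
    omega
  · intro h σ hσ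
    have h1 : σ ^ r = 1 := hσ ▸ pow_orderOf_eq_one σ
    rw [fixes_iff n k r hr σ h1 hkn]
    have hm := CfsgH6.nfix_modEq hr h1
    have hle := CfsgH6.nfix_le σ
    simp only [Nat.card_eq_fintype_card, Fintype.card_fin] at hm hle
    generalize CfsgH6.nfix σ = F at hm hle
    by_cases hkF : k ≤ F
    · exact ⟨k, le_rfl, Nat.ModEq.refl _, hkF, by omega⟩
    · have e1 := Nat.div_add_mod F r
      have e2 := Nat.div_add_mod n r
      have e3 := Nat.div_add_mod k r
      have e4 : F % r = n % r := hm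
      have l1 : k / r ≤ n / r := Nat.div_le_div_right hkn
      have l2 := Nat.mul_le_mul_left r l1
      refine ⟨r * (F / r) + k % r, by omega, ?_, by omega, by omega⟩
      unfold Nat.ModEq
      rw [Nat.mul_add_mod, Nat.mod_mod]


/-- Let 1 ≤ k with 2k < n and consider the symmetric group of degree n acting on the k-subsets of an n-set. Let r be a prime dividing the number C(n,k) of k-subsets. If r is odd, then every permutation of order r fixes some k-subset if and only if r ≤ k and the remainder of k modulo r is at most the remainder of n modulo r. If r = 2, then every involution fixes some k-subset if and only if k is even or n is odd. -/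
theorem result (n k : ℕ) (hk : 1 ≤ k) (hkn : 2 * k < n) (r : ℕ) (hr : r.Prime) (hrd : r ∣ Nat.choose n k) :
    (r ≠ 2 → ((∀ σ : Equiv.Perm (Fin n), orderOf σ = r → ∃ s : Finset (Fin n), s.card = k ∧ s.image σ = s) ↔
      (r ≤ k ∧ k % r ≤ n % r))) ∧
    (r = 2 → ((∀ σ : Equiv.Perm (Fin n), orderOf σ = 2 → ∃ s : Finset (Fin n), s.card = k ∧ s.image σ = s) ↔
      (Even k ∨ Odd n))) := by
  have hrn : r ≤ n := by
    have h1 : r ∣ n.factorial :=
      hrd.trans (Dvd.intro _ (by
        rw [← mul_assoc]; exact Nat.choose_mul_factorial_mul_factorial (by omega : k ≤ n)))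
    exact hr.dvd_factorial.1 h1
  have key := crit n k (by omega) r hr hrn
  refine ⟨fun _ => ?_, ?_⟩
  · rw [key]
    refine ⟨fun h => ⟨?_, h⟩, fun h => h.2⟩
    by_contra hlt
    push Not at hlt
    have := Fact.mk hr
    have h1 := Choose.choose_modEq_choose_mod_mul_choose_div_nat (n := n) (k := k) (p := r)
    rw [Nat.div_eq_of_lt hlt, Nat.choose_zero_right, mul_one] at h1
    have h2 : r ∣ (n % r).choose (k % r) :=
      (Nat.modEq_zero_iff_dvd).1 (h1.symm.trans ((Nat.modEq_zero_iff_dvd).2 hrd))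
    have h3 : r ∣ (n % r).factorial :=
      h2.trans (Dvd.intro _ (by
        rw [← mul_assoc]; exact Nat.choose_mul_factorial_mul_factorial h))
    have h4 := hr.dvd_factorial.1 h3
    have := Nat.mod_lt n hr.pos
    omega
  · rintro rfl
    rw [key, Nat.even_iff, Nat.odd_iff]
    omega

end Cfsg.Agent.S3573
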