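import Cfsg.Statements.S3575
import Cfsg.Agent.H6.PrimePerm

set_option autoImplicit false
open Cfsg

namespace Cfsg.Agent.S3575

theorem exists_dist (a r : ℕ) : ∀ (u F : ℕ), u * (a % r) ≤ F → F ≤ u * a → F ≡ u * a [MOD r] →
    ∃ f : Fin u → ℕ, (∀ i, f i ≤ a ∧ f i ≡ a [MOD r]) ∧ ∑ i, f i = F := by
  intro u
  induction u with
  | zero => intro F _ h _; exact ⟨fun _ => 0, fun i => i.elim0, by simp at h ⊢; omega⟩
  | succ u ih =>
    intro F h1 h2 h3
    rw [Nat.succ_mul] at h1 h2 h3
    have hle : u * (a % r) ≤ u * a := Nat.mul_le_mul_left _ (Nat.mod_le _ _)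
    have hm : u * (a % r) ≡ u * a [MOD r] := (Nat.mod_modEq a r).mul_left u
    by_cases h : a + u * (a % r) ≤ F
    · obtain ⟨f, hf, hs⟩ := ih (F - a) (by omega) (by omega)
        (Nat.ModEq.add_right_cancel' a (by rw [Nat.sub_add_cancel (by omega)]; exact h3))
      refine ⟨Fin.cons a f, fun i => ?_, by rw [Fin.sum_cons, hs]; omega⟩
      refine Fin.cases ?_ (fun i => ?_) i
      · exact ⟨le_rfl, Nat.ModEq.refl _⟩
      · exact hf i
    · obtain ⟨f, hf, hs⟩ := ih (u * (a % r)) le_rfl hle hm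
      refine ⟨Fin.cons (F - u * (a % r)) f, fun i => ?_, by rw [Fin.sum_cons, hs]; omega⟩
      refine Fin.cases ?_ (fun i => ?_) i
      · refine ⟨by simp only [Fin.cons_zero]; omega, ?_⟩
        simp only [Fin.cons_zero]
        refine Nat.ModEq.add_right_cancel hm ?_
        rw [Nat.sub_add_cancel (by omega), add_comm a]; exact h3
      · exact hf i

theorem part_iff (a b : ℕ) (ha : 1 ≤ a) (r : ℕ) (hr : r.Prime) (σ : Equiv.Perm (Fin (a * b)))
    (hσ : σ ^ r = 1) :
    (∃ f : Fin (a * b) → Fin b, (∀ j : Fin b, Nat.card {x : Fin (a * b) // f x = j} = a) ∧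
          ∃ π : Equiv.Perm (Fin b), ∀ x : Fin (a * b), f (σ x) = π (f x)) ↔
      ∃ u, u ≤ b ∧ u ≡ b [MOD r] ∧ u * (a % r) ≤ CfsgH6.nfix σ ∧ CfsgH6.nfix σ ≤ u * a := by
  classical
  constructor
  · rintro ⟨f, hf, π, hπ⟩
    have hsurj : ∀ j, ∃ x, f x = j := by
      intro j
      have : Nonempty {x : Fin (a * b) // f x = j} := by
        have h := hf j
        exact (Nat.card_pos_iff.1 (by omega)).1
      obtain ⟨x, hx⟩ := this
      exact ⟨x, hx⟩
    have hpow : ∀ k : ℕ, ∀ x, f ((σ ^ k) x) = (π ^ k) (f x) := by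
      intro k
      induction k with
      | zero => simp
      | succ k ih => intro x; rw [pow_succ', pow_succ', Equiv.Perm.mul_apply, hπ, ih]; rfl
    have hπr : π ^ r = 1 := by
      ext j
      obtain ⟨x, rfl⟩ := hsurj j
      rw [← hpow, hσ]; simp
    have hsum : CfsgH6.nfix σ =
        ∑ j : {j // π j = j}, Nat.card {x // f x = j.1 ∧ σ x = x} := by
      rw [← Nat.card_sigma]
      unfold CfsgH6.nfix
      refine Nat.card_congr ⟨fun x => ⟨⟨f x.1, by rw [← hπ, x.2]⟩, x.1, rfl, x.2⟩,
        fun y => ⟨y.2.1, y.2.2.2⟩, fun _ => rfl, ?_⟩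
      rintro ⟨⟨j, hj⟩, x, hxj, hx⟩
      dsimp only at hxj
      subst hxj
      rfl
    have hu : CfsgH6.nfix π = (Finset.univ : Finset {j // π j = j}).card := by
      unfold CfsgH6.nfix; simp
    have hterm : ∀ j : {j // π j = j}, a % r ≤ Nat.card {x // f x = j.1 ∧ σ x = x} ∧
        Nat.card {x // f x = j.1 ∧ σ x = x} ≤ a := by
      rintro ⟨j, hj⟩
      constructor
      · have h1 := CfsgH6.card_fixed_modEq_of_invariant hr hσ (fun x => f x = j) (by
          intro x
          rw [hπ]
          conv_lhs => rw [← hj]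
          exact π.injective.eq_iff)
        rw [hf j] at h1
        rw [← (h1 : _ = _)]
        exact Nat.mod_le _ _
      · refine le_trans ?_ (hf j).le
        exact Nat.card_le_card_of_injective (fun x => ⟨x.1, x.2.1⟩)
          (fun x y h => Subtype.ext (by simpa using h))
    refine ⟨CfsgH6.nfix π, by simpa using CfsgH6.nfix_le π, by simpa using CfsgH6.nfix_modEq hr hπr,
      ?_, ?_⟩
    · rw [hsum, hu, ← smul_eq_mul]
      exact Finset.card_nsmul_le_sum _ _ _ (fun j _ => (hterm j).1)
    · rw [hsum, hu]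
      exact Finset.sum_le_card_nsmul _ _ _ (fun j _ => (hterm j).2)
  · rintro ⟨u, hub, hu, h1, h2⟩
    have hm := CfsgH6.nfix_modEq hr hσ
    simp only [Nat.card_eq_fintype_card, Fintype.card_fin] at hm
    obtain ⟨g, hg, hgs⟩ := exists_dist a r u _ h1 h2
      (hm.trans (by rw [mul_comm a b]; exact (hu.mul_right a).symm))
    have hτ : ∀ i, ∃ τ : Equiv.Perm (Fin a), τ ^ r = 1 ∧ CfsgH6.nfix τ = g i := fun i =>
      CfsgH6.exists_perm_nfix (Fin a) hr (g i) (by simpa using (hg i).1) (by simpa using (hg i).2)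
    choose τ hτ1 hτ2 using hτ
    obtain ⟨ρ, hρ1, hρ2⟩ := CfsgH6.exists_perm_nfix (Fin (b - u)) hr 0 (Nat.zero_le _) (by
      simp only [Nat.card_eq_fintype_card, Fintype.card_fin]
      refine Nat.ModEq.add_right_cancel' u ?_
      rw [Nat.sub_add_cancel hub, zero_add]; exact hu)
    let s₁ : Equiv.Perm (Fin u × Fin a) := Equiv.prodCongrRight τ
    let s₂ : Equiv.Perm (Fin (b - u) × Fin a) := Equiv.prodCongr ρ (Equiv.refl _)
    have hs₁ : ∀ k : ℕ, ∀ x, (s₁ ^ k) x = (x.1, (τ x.1 ^ k) x.2) := by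
      intro k
      induction k with
      | zero => simp
      | succ k ih => intro x; rw [pow_succ', pow_succ', Equiv.Perm.mul_apply, ih]; rfl
    have hs₂ : ∀ k : ℕ, ∀ x, (s₂ ^ k) x = ((ρ ^ k) x.1, x.2) := by
      intro k
      induction k with
      | zero => simp
      | succ k ih => intro x; rw [pow_succ', pow_succ', Equiv.Perm.mul_apply, ih]; rfl
    have hs₁' : s₁ ^ r = 1 := by
      refine Equiv.ext fun x => ?_
      rw [hs₁, hτ1]; rfl
    have hs₂' : s₂ ^ r = 1 := by
      refine Equiv.ext fun x => ?_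
      rw [hs₂, hρ1]; rfl
    have hn₂ : CfsgH6.nfix s₂ = 0 := by
      rw [CfsgH6.nfix_eq_zero_iff] at hρ2 ⊢
      intro x hx
      exact hρ2 x.1 (congrArg Prod.fst hx)
    obtain ⟨e, he⟩ := CfsgH6.exists_equiv_of_nfix_eq hr (τ := Equiv.Perm.sumCongr s₁ s₂) (σ := σ) hσ
      (by
        have : Equiv.Perm.sumCongr s₁ s₂ = Equiv.Perm.sumCongrHom _ _ (s₁, s₂) := rfl
        rw [this, ← map_pow, Prod.pow_mk, hs₁', hs₂']; exact map_one _)
      (by
        simp only [Nat.card_eq_fintype_card, Fintype.card_fin, Fintype.card_sum, Fintype.card_prod]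
        rw [← add_mul, Nat.add_sub_cancel' hub, mul_comm])
      (by
        rw [CfsgH6.nfix_sumCongr, hn₂, add_zero, CfsgH6.nfix_prodCongrRight, ← hgs]
        exact Finset.sum_congr rfl fun i _ => (hτ2 i).symm)
    obtain ⟨e0⟩ : Nonempty (Fin u ⊕ Fin (b - u) ≃ Fin b) := Finite.card_eq.1 (by simp; omega)
    let e1 := (Equiv.sumProdDistrib (Fin u) (Fin (b - u)) (Fin a)).symm
    refine ⟨fun x => e0 (e1 (e x)).1, fun j => ?_,
      e0.permCongr (Equiv.Perm.sumCongr 1 ρ), fun x => ?_⟩
    · have : Nat.card {y : (Fin u ⊕ Fin (b - u)) × Fin a // y.1 = e0.symm j} = a := by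
        rw [Nat.card_congr (β := Fin a) ⟨fun y => y.1.2, fun x => ⟨(e0.symm j, x), rfl⟩, ?_,
          fun _ => rfl⟩]
        · simp
        · rintro ⟨⟨y, x⟩, hy⟩
          dsimp only at hy
          subst hy
          rfl
      refine Eq.trans ?_ this
      refine Nat.card_congr (Equiv.subtypeEquiv (e.trans e1) fun x => ?_)
      simp [Equiv.eq_symm_apply]
    · simp only [he, Equiv.permCongr_apply, Equiv.symm_apply_apply]
      congr 1
      rcases e x with y | y <;> rfl

theorem arith (a b : ℕ) (ha : 2 ≤ a) (hb : 2 ≤ b) (r : ℕ) (hr : r.Prime) (hrn : r ≤ a * b) :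
    (∀ F, F + r ≤ a * b → F ≡ a * b [MOD r] →
      ∃ u, u ≤ b ∧ u ≡ b [MOD r] ∧ u * (a % r) ≤ F ∧ F ≤ u * a) ↔
      (r ≤ a ∧ (a % r = 0 ∨ (b % r = 0 ∧ a % r = 1) ∨
        (a % r ≠ 0 ∧ b % r ≠ 0 ∧ (b % r) * (a % r) < r ∧
          (b < r ∨ (b % r + r) * (a % r) ≤ (b % r) * a + r)))) := by
  have hpos := hr.pos
  have hge : ∀ u, u ≡ b [MOD r] → b % r ≤ u := fun u hu => by
    rw [← (hu : _ = _)]; exact Nat.mod_le _ _
  have hge' : ∀ u, u ≡ b [MOD r] → b % r < u → b % r + r ≤ u := fun u hu hlt => by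
    have h1 : b % r ≡ u [MOD r] := (Nat.mod_modEq b r).trans hu.symm
    have := Nat.le_of_dvd (by omega) ((Nat.modEq_iff_dvd' hlt.le).1 h1)
    omega
  constructor
  · intro h
    have hra : r ≤ a := by
      by_contra hlt
      push Not at hlt
      obtain ⟨u, -, -, h1, h2⟩ := h (a * b - r) (by omega)
        (((Nat.modEq_iff_dvd' (Nat.sub_le _ _)).2 (by rw [Nat.sub_sub_self hrn])))
      rw [Nat.mod_eq_of_lt hlt] at h1
      have h3 : a ∣ r := by
        have : r = a * b - u * a := by omega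
        rw [this]
        exact Nat.dvd_sub (dvd_mul_right _ _) (dvd_mul_left _ _)
      rcases (Nat.dvd_prime hr).1 h3 with h4 | h4 <;> omega
    have h2r : 2 * r ≤ a * b := by nlinarith
    refine ⟨hra, ?_⟩
    by_cases ha0 : a % r = 0
    · exact Or.inl ha0
    right
    by_cases hb0 : b % r = 0
    · left
      refine ⟨hb0, ?_⟩
      obtain ⟨u, -, hu, h1, h2⟩ := h r (by omega) (by
        have : r ∣ a * b := Dvd.dvd.mul_left (Nat.dvd_of_mod_eq_zero hb0) a
        exact (Nat.modEq_zero_iff_dvd.2 dvd_rfl).trans (Nat.modEq_zero_iff_dvd.2 this).symm)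
      have hu0 : 0 < u := by
        rcases Nat.eq_zero_or_pos u with rfl | h
        · omega
        · exact h
      have h3 := hge' u hu (by omega)
      rw [hb0, zero_add] at h3
      have h4 : r * (a % r) ≤ r * 1 := by nlinarith
      have := Nat.le_of_mul_le_mul_left h4 hpos
      omega
    · right
      refine ⟨ha0, hb0, ?_, ?_⟩
      · have hlt := Nat.mod_lt (a * b) hpos
        obtain ⟨u, -, hu, h1, -⟩ := h ((a * b) % r) (by omega) (Nat.mod_modEq _ _)
        have := Nat.mul_le_mul_right (a % r) (hge u hu)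
        omega
      · by_cases hbr : b < r
        · exact Or.inl hbr
        right
        have h3 := hge' b (Nat.ModEq.refl _) (by have := Nat.mod_lt b hpos; omega)
        obtain ⟨u, -, hu, h1, h2⟩ := h ((b % r) * a + r) (by nlinarith) (by
          refine (show _ + r ≡ _ [MOD r] from Nat.add_mod_right _ _).trans ?_
          rw [mul_comm a b]; exact (Nat.mod_modEq b r).mul_right a)
        have h4 : b % r < u := by
          by_contra h5
          push Not at h5
          have := Nat.mul_le_mul_right a h5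
          omega
        have := Nat.mul_le_mul_right (a % r) (hge' u hu h4)
        omega
  · rintro ⟨hra, h⟩ F hF hFm
    rcases h with h | ⟨h1, h2⟩ | ⟨h1, h2, h3, h4⟩
    · exact ⟨b, le_rfl, Nat.ModEq.refl _, by simp [h], by rw [mul_comm]; omega⟩
    · have hb' : r ∣ b := Nat.dvd_of_mod_eq_zero h1
      have hF' : r ∣ F := Nat.modEq_zero_iff_dvd.1
        (hFm.trans (Nat.modEq_zero_iff_dvd.2 (Dvd.dvd.mul_left hb' a)))
      by_cases hFb : F ≤ b
      · refine ⟨F, hFb, (Nat.modEq_zero_iff_dvd.2 hF').trans (Nat.modEq_zero_iff_dvd.2 hb').symm,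
          by simp [h2], Nat.le_mul_of_pos_right _ (by omega)⟩
      · exact ⟨b, le_rfl, Nat.ModEq.refl _, by rw [h2]; omega, by rw [mul_comm]; omega⟩
    · have hm : ∀ u, u ≡ b [MOD r] → u * (a % r) ≡ F [MOD r] := fun u hu => by
        refine Nat.ModEq.trans ?_ hFm.symm
        rw [mul_comm a b]
        exact hu.mul (Nat.mod_modEq a r)
      have h0 : (b % r) * (a % r) ≤ F := by
        have h5 := hm (b % r) (Nat.mod_modEq b r)
        have h6 : (b % r) * (a % r) = F % r := by
          rw [← (h5 : _ = _), Nat.mod_eq_of_lt h3]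
        rw [h6]; exact Nat.mod_le _ _
      classical
      let P : ℕ → Prop := fun u => u ≡ b [MOD r] ∧ u * (a % r) ≤ F
      have hP : P (Nat.findGreatest P b) :=
        Nat.findGreatest_spec (m := b % r) (Nat.mod_le _ _) ⟨Nat.mod_modEq b r, h0⟩
      have hle : Nat.findGreatest P b ≤ b := Nat.findGreatest_le b
      have hmax : ∀ k, Nat.findGreatest P b < k → k ≤ b → ¬ P k :=
        fun k h h' => Nat.findGreatest_is_greatest h h'
      generalize Nat.findGreatest P b = u at hP hle hmax
      refine ⟨u, hle, hP.1, hP.2, ?_⟩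
      rcases hle.eq_or_lt with rfl | hlt
      · rw [mul_comm]; omega
      have h5 : u + r ≤ b := by
        have := Nat.le_of_dvd (by omega) ((Nat.modEq_iff_dvd' hlt.le).1 hP.1)
        omega
      have h6 : u + r ≡ b [MOD r] := by
        refine (show _ + r ≡ _ [MOD r] from Nat.add_mod_right _ _).trans ?_; exact hP.1
      have h7 : F < (u + r) * (a % r) := by
        by_contra h8
        exact hmax (u + r) (by omega) h5 ⟨h6, by omega⟩
      have h8 : F + r ≤ (u + r) * (a % r) := by
        have := Nat.le_of_dvd (by omega) ((Nat.modEq_iff_dvd' h7.le).1 (hm _ h6).symm)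
        omega
      have h9 := hge u hP.1
      have h10 : (b % r + r) * (a % r) ≤ (b % r) * a + r := by
        rcases h4 with h4 | h4
        · omega
        · exact h4
      obtain ⟨d, rfl⟩ := Nat.exists_eq_add_of_le h9
      have h11 : d * (a % r) ≤ d * a := Nat.mul_le_mul_left _ (Nat.mod_le _ _)
      nlinarith


/-- Let a, b ≥ 2 and consider the symmetric group of degree a·b acting on the partitions of an (a·b)-set into b parts of size a (encoded as maps onto a b-element set all of whose fibres have a elements; a permutation fixes such a partition when it permutes the fibres). Let r be a prime dividing the number (ab)!/((a!)^b·b!) of such partitions, and let ℓ and k be the remainders of a and b modulo r. Then every permutation of order r fixes some such partition if and only if r ≤ a and one of the following holds: ℓ = 0; or k = 0 and ℓ = 1; or ℓ and k are non-zero, k·ℓ < r, and either b < r or (k + r)·ℓ ≤ k·a + r. -/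
theorem result (a b : ℕ) (ha : 2 ≤ a) (hb : 2 ≤ b) (r : ℕ) (hr : r.Prime)
    (hrd : r ∣ (a * b).factorial / (a.factorial ^ b * b.factorial)) :
    (∀ σ : Equiv.Perm (Fin (a * b)), orderOf σ = r →
        ∃ f : Fin (a * b) → Fin b, (∀ j : Fin b, Nat.card {x : Fin (a * b) // f x = j} = a) ∧
          ∃ π : Equiv.Perm (Fin b), ∀ x : Fin (a * b), f (σ x) = π (f x)) ↔
      (r ≤ a ∧ (a % r = 0 ∨ (b % r = 0 ∧ a % r = 1) ∨
        (a % r ≠ 0 ∧ b % r ≠ 0 ∧ (b % r) * (a % r) < r ∧ (b < r ∨ (b % r + r) * (a % r) ≤ (b % r) * a + r)))) := by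
  have := Fact.mk hr
  have hpos := hr.pos
  have hrn : r ≤ a * b := by
    refine hr.dvd_factorial.1 (hrd.trans ?_)
    refine Nat.div_dvd_of_dvd ?_
    have h := Nat.uniformBell_mul_eq b (n := a) (by omega)
    rw [mul_comm b a] at h
    exact Dvd.intro_left _ (by rw [← mul_assoc]; exact h)
  rw [← arith a b ha hb r hr hrn]
  constructor
  · intro h F hF hFm
    obtain ⟨σ, h1, h2⟩ := CfsgH6.exists_perm_nfix (Fin (a * b)) hr F (by simp; omega)
      (by simpa using hFm)
    have hne : σ ≠ 1 := by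
      intro h0
      have := CfsgH6.nfix_eq_card_iff.2 h0
      simp at this; omega
    rw [← h2]
    exact (part_iff a b (by omega) r hr σ h1).1 (h σ (orderOf_eq_prime h1 hne))
  · intro h σ hσ
    have h1 : σ ^ r = 1 := hσ ▸ pow_orderOf_eq_one σ
    have hne : σ ≠ 1 := by
      rintro rfl
      rw [orderOf_one] at hσ
      exact hr.one_lt.ne hσ
    refine (part_iff a b (by omega) r hr σ h1).2 (h _ ?_ ?_)
    · simpa using CfsgH6.nfix_add_le hr h1 hne
    · simpa using CfsgH6.nfix_modEq hr h1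

end Cfsg.Agent.S3575
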