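import Cfsg.Statements.S3580
import Cfsg.Agent.H9.SyE

set_option autoImplicit false
open Cfsg

namespace Cfsg.Agent.S3580

/-- Let G act faithfully and transitively on a finite set Ω, let p be an odd prime dividing the order of G and P a Sylow p-subgroup of G. Then the number of orbits of P on Ω is at most (p/(2p − 1))·(number of points). -/
theorem result {G Ω : Type*} [Group G] [Finite G] [MulAction G Ω] [FaithfulSMul G Ω] [Finite Ω]
    (htrans : MulAction.IsPretransitive G Ω) (p : ℕ) [Fact p.Prime] (hp2 : p ≠ 2) (hpG : p ∣ Nat.card G)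
    (P : Sylow p G) :
    (2 * p - 1) * Nat.card (MulAction.orbitRel.Quotient ↥(P : Subgroup G) Ω) ≤ p * Nat.card Ω := by
  open CfsgH9.Sy in
  have hp : p.Prime := Fact.out
  obtain ⟨t, ht⟩ : ∃ t, t ∉ Fx P.1 Ω := by
    by_contra! h
    exact P.ne_bot_of_dvd_card hpG (eq_bot_iff.2 fun g hg =>
      eq_of_smul_eq_smul (α := Ω) fun t => (h t g hg).trans (one_smul G t).symm)
  have e : Orb (⊤ : Subgroup G) t = Set.univ := Set.eq_univ_of_forall fun s =>
    let ⟨g, h⟩ := htrans.exists_smul_eq t s; ⟨g, trivial, h⟩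
  have h := fix_le (X := ⊤) (Q := P) (t := t) hp2 le_top
    (Set.ncard_ne_zero_of_mem (a := t) ⟨mem_Orb, ht⟩)
  rw [e, Set.univ_inter, ← Set.compl_eq_univ_sdiff] at h
  let π : Ω → MulAction.orbitRel.Quotient P.1 Ω := Quotient.mk''
  have h1 : (π '' (Fx P.1 Ω)ᶜ).ncard * p ≤ (Fx P.1 Ω)ᶜ.ncard * 1 := by
    refine CfsgH5.Der.dc _ _ (fun a b => π b = a) ?_ fun b _ => ?_
    · rintro _ ⟨s, hs, rfl⟩
      refine (le_orb hs).2.trans (Set.ncard_le_ncard fun u hu => ⟨fun k => (le_orb hs).1.le ⟨hu, k⟩, ?_⟩)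
      obtain ⟨g, hg, rfl⟩ := hu
      exact Quotient.sound' ⟨⟨g, hg⟩, rfl⟩
    · exact (Set.ncard_le_one (Set.toFinite _)).2 fun _ a _ b => a.2.symm.trans b.2
  have h2 := Set.ncard_union_le (π '' Fx P.1 Ω) (π '' (Fx P.1 Ω)ᶜ)
  rw [← Set.image_union, Set.union_compl_self, Set.image_univ, Quotient.mk''_surjective.range_eq,
    Set.ncard_univ] at h2
  have h3 := Set.ncard_image_le (s := Fx P.1 Ω) (f := π)
  rw [← Set.ncard_add_ncard_compl (Fx P.1 Ω)]
  obtain ⟨k, rfl⟩ : ∃ k, p = k + 1 := ⟨_, (Nat.succ_pred_eq_of_pos hp.pos).symm⟩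
  rw [show 2 * (k + 1) - 1 = 2 * k + 1 from rfl]
  rw [Nat.add_sub_cancel] at h
  refine Nat.le_of_mul_le_mul_left ?_ hp.pos
  nlinarith [Nat.mul_le_mul_left ((2 * k + 1) * (k + 1)) (h2.trans (Nat.add_le_add_right h3 _)),
    Nat.mul_le_mul_left k h, Nat.mul_le_mul_left (2 * k + 1) h1]

end Cfsg.Agent.S3580
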