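import Cfsg.Statements.S3583
import Cfsg.Agent.H5.ClassSz2

set_option autoImplicit false
open Cfsg

namespace Cfsg.Agent.S3583

/-- Let F be a finite field with q elements, where either q is even and q > 2, or q is odd and q ≥ 7, and let G be a finite group whose set of conjugacy class sizes equals that of PSL(2,F). Then G is the direct product of a normal subgroup isomorphic to PSL(2,F) and a central (hence abelian) subgroup: there are subgroups N and A of G with N normal and isomorphic to PSL(2,F), A contained in the centre, N ∩ A = 1 and NA = G. -/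
theorem result {F : Type*} [Field F] [Fintype F]
    (hq : (2 ∣ Fintype.card F ∧ 2 < Fintype.card F) ∨ (¬ 2 ∣ Fintype.card F ∧ 7 ≤ Fintype.card F))
    {G : Type*} [Group G] [Finite G]
    (h : Set.range (fun g : G => (Subgroup.centralizer ({g} : Set G)).index) = Set.range (fun g : (Matrix.ProjectiveSpecialLinearGroup (Fin 2) F) => (Subgroup.centralizer ({g} : Set (Matrix.ProjectiveSpecialLinearGroup (Fin 2) F))).index)) :
    ∃ N A : Subgroup G, N.Normal ∧ A ≤ Subgroup.center G ∧ N ⊓ A = ⊥ ∧ N ⊔ A = ⊤ ∧
      Nonempty (N ≃* Matrix.ProjectiveSpecialLinearGroup (Fin 2) F) := by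
  obtain ⟨hs, ⟨e⟩, hb⟩ := CfsgH5.classSz_main hq h
  let f : commutator G →* G ⧸ Subgroup.center G :=
    (QuotientGroup.mk' (Subgroup.center G)).comp (commutator G).subtype
  have hinj : Function.Injective f := by
    rw [← MonoidHom.ker_eq_bot_iff, eq_bot_iff]
    intro x hx
    have : (x : G) ∈ commutator G ⊓ Subgroup.center G := ⟨x.2, (QuotientGroup.eq_one_iff _).mp hx⟩
    rw [hb] at this
    exact Subtype.ext this
  have hm : (commutator G).map (QuotientGroup.mk' (Subgroup.center G)) = ⊤ := by
    rw [map_commutator_eq, MonoidHom.range_eq_top.mpr (QuotientGroup.mk'_surjective _)]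
    refine (hs.eq_bot_or_eq_top_of_normal _ inferInstance).resolve_left (fun c => ?_)
    obtain ⟨x, x1⟩ := exists_ne (1 : G ⧸ Subgroup.center G)
    have hc : ∀ a b : G ⧸ Subgroup.center G, a * b = b * a := fun a b =>
      commutatorElement_eq_one_iff_mul_comm.mp (Subgroup.mem_bot.mp
        (c ▸ Subgroup.commutator_mem_commutator (Subgroup.mem_top a) (Subgroup.mem_top b)))
    have key : ∀ y : Matrix.ProjectiveSpecialLinearGroup (Fin 2) F, CfsgH5.cidx y = 1 := fun y =>
      CfsgH5.cidx_eq_one.mpr (Subgroup.mem_center_iff.mpr (fun g => e.symm.injective (by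
        rw [map_mul, map_mul, hc])))
    obtain ⟨x, rfl⟩ := QuotientGroup.mk_surjective x
    obtain ⟨y, hy⟩ : CfsgH5.cidx x ∈ Set.range (fun g : (Matrix.ProjectiveSpecialLinearGroup (Fin 2) F) =>
      (Subgroup.centralizer ({g} : Set (Matrix.ProjectiveSpecialLinearGroup (Fin 2) F))).index) :=
      h ▸ ⟨x, rfl⟩
    exact x1 ((QuotientGroup.eq_one_iff x).mpr (CfsgH5.cidx_eq_one.mp (hy.symm.trans (key y))))
  have hsurj : Function.Surjective f := fun y => by
    obtain ⟨x, hx, rfl⟩ : y ∈ (commutator G).map (QuotientGroup.mk' (Subgroup.center G)) :=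
      hm ▸ Subgroup.mem_top y
    exact ⟨⟨x, hx⟩, rfl⟩
  refine ⟨commutator G, Subgroup.center G, inferInstance, le_rfl, hb, ?_,
    ⟨(MulEquiv.ofBijective f ⟨hinj, hsurj⟩).trans e⟩⟩
  have := congrArg (Subgroup.comap (QuotientGroup.mk' (Subgroup.center G))) hm
  rwa [Subgroup.comap_map_eq, QuotientGroup.ker_mk', Subgroup.comap_top] at this

end Cfsg.Agent.S3583
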