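import Cfsg.Statements.S3598
import Cfsg.Agent.H2.DegB
import Cfsg.Agent.H7.PSL2Spec
import Cfsg.Agent.H6.PSLSmall

set_option autoImplicit false
open Cfsg

namespace Cfsg.Agent.S3598

/-- Let p be a prime and F a field with p² elements. If a finite group G has, for every d, the same number of irreducible complex characters of degree d as PSL(2,F) (the same first column of the character table, with multiplicities), then G is isomorphic to PSL(2,F). -/
theorem result {F : Type*} [Field F] [Fintype F] (p : ℕ) (hp : p.Prime)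
    (hF : Fintype.card F = p ^ 2) {G : Type*} [Group G] [Finite G]
    (h : ∀ d : ℕ, Nat.card {χ : Cfsg.IrrCharacter G // (χ : G → ℂ) 1 = (d : ℂ)} =
      Nat.card {χ : Cfsg.IrrCharacter (Matrix.ProjectiveSpecialLinearGroup (Fin 2) F) // (χ : Matrix.ProjectiveSpecialLinearGroup (Fin 2) F → ℂ) 1 = (d : ℂ)}) :
    Nonempty (G ≃* Matrix.ProjectiveSpecialLinearGroup (Fin 2) F) := by
  have := Fact.mk hp
  have := CfsgH6.charP_of_card hp hF
  have h3 : 3 < Fintype.card F := by have := hp.two_le; nlinarith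
  suffices ∃ c e g, CfsgH2.SpecData (Matrix.ProjectiveSpecialLinearGroup (Fin 2) F) p
      (Fintype.card F) c e g by
    obtain ⟨c, e, g, S⟩ := this
    obtain ⟨F', i1, i2, e1, ⟨e2⟩⟩ := (S.of_deg hF h).psl2
    obtain ⟨e3⟩ := CfsgH6.nonempty_psl_congr (n := 2) e1
    exact ⟨e2.trans e3⟩
  have hs : ∀ x : Matrix.ProjectiveSpecialLinearGroup (Fin 2) F, x ^ p = 1 ∨
      x ^ ((Fintype.card F - 1) / Nat.gcd 2 (Fintype.card F - 1)) = 1 ∨
      x ^ ((Fintype.card F + 1) / Nat.gcd 2 (Fintype.card F - 1)) = 1 := fun x => by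
    have : orderOf x ∈ Set.range (orderOf : _ → ℕ) := ⟨x, rfl⟩
    rw [CfsgH7.spec_psl2 p] at this
    simpa only [Set.mem_setOf_eq, orderOf_dvd_iff_pow_eq_one] using this
  rcases Nat.even_or_odd (Fintype.card F) with he | ho
  · have hp2 : p = 2 := ((Nat.prime_dvd_prime_iff_eq Nat.prime_two hp).1
      (Nat.prime_two.dvd_of_dvd_pow (hF ▸ even_iff_two_dvd.1 he))).symm
    subst hp2
    have h2 := CfsgH6.card_psl2_char_two F
    rw [hF] at hs h2 ⊢
    exact ⟨3, 5, 1, ⟨_, rfl⟩, by decide, Or.inl rfl, rfl, rfl, by decide, h2, hs⟩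
  · have h4 := CfsgH6.two_mul_card_psl2_odd F ho
    obtain ⟨m, hm⟩ := ho
    have e1 : Fintype.card F - 1 = 2 * m := by omega
    have hg : Nat.gcd 2 (Fintype.card F - 1) = 2 := by rw [e1]; simp
    rw [hg, show (Fintype.card F - 1) / 2 = m by omega,
      show (Fintype.card F + 1) / 2 = m + 1 by omega] at hs
    refine ⟨_, _, 2, ⟨_, hF⟩, h3, Or.inr rfl, by omega, by omega, by simp, ?_, hs⟩
    have : (2 * m + 1) ^ 2 - 1 = 2 * ((2 * m + 2) * m) := Nat.sub_eq_of_eq_add (by ring)
    rw [hm, this] at h4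
    rw [hm]
    nlinarith

end Cfsg.Agent.S3598
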