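import Cfsg.Statements.S3599
import Cfsg.Agent.H7.FrobAff

set_option autoImplicit false
open Cfsg

namespace Cfsg.Agent.S3599

open CfsgH7 in
/-- `G` has a normal subgroup of exponent `p` whose quotient has exponent prime to `p`. -/
def ClosedPrime (G : Type*) [Group G] (p : ℕ) : Prop := ∃ n, Nat.Coprime p n ∧ ClosedExp G p n

theorem closedPrime_subgroup {G : Type*} [Group G] {p : ℕ} (h : ClosedPrime G p) (H : Subgroup G) :
    ClosedPrime H p := by
  obtain ⟨n, hn, V, hV, h1, h2⟩ := h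
  refine ⟨n, hn, V.comap H.subtype, inferInstance, fun v hv => Subtype.ext (h1 v hv), fun g => h2 g⟩

theorem closedPrime_surj {G G' : Type*} [Group G] [Group G'] {p : ℕ} (h : ClosedPrime G p)
    (f : G →* G') (hf : Function.Surjective f) : ClosedPrime G' p := by
  obtain ⟨n, hn, V, hV, h1, h2⟩ := h
  refine ⟨n, hn, V.map f, hV.map f hf, ?_, fun g => ?_⟩
  · rintro _ ⟨v, hv, rfl⟩
    rw [← map_pow, h1 v hv, map_one]
  · obtain ⟨g, rfl⟩ := hf g
    exact ⟨g ^ n, h2 g, map_pow f g n⟩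

theorem mem_of_pow_mem_coprime {G : Type*} [Group G] (V : Subgroup G) (x : G) (p n : ℕ)
    (hn : Nat.Coprime p n) (hx : x ^ p = 1) (h : x ^ n ∈ V) : x ∈ V := by
  have h1 : (n : ℕ).Coprime (orderOf x) := (hn.coprime_dvd_left (orderOf_dvd_of_pow_eq_one hx)).symm
  obtain ⟨m, hm⟩ := exists_pow_eq_self_of_coprime h1
  rw [← hm]
  exact V.pow_mem h m

theorem exists_orderOf_mul_of_closedPrime {G : Type*} [Group G] {p q : ℕ} (hp : p.Prime) (hq : q.Prime)
    (hpq : p ≠ q) (h1 : ClosedPrime G p) (h2 : ClosedPrime G q) (x y : G) (hx : orderOf x = p)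
    (hy : orderOf y = q) : orderOf (x * y) = p * q := by
  obtain ⟨n, hn, V, hV, hV1, hV2⟩ := h1
  obtain ⟨m, hm, W, hW, hW1, hW2⟩ := h2
  have hxV : x ∈ V := mem_of_pow_mem_coprime V x p n hn (hx ▸ pow_orderOf_eq_one x) (hV2 x)
  have hyW : y ∈ W := mem_of_pow_mem_coprime W y q m hm (hy ▸ pow_orderOf_eq_one y) (hW2 y)
  have hcop : Nat.Coprime p q := (Nat.coprime_primes hp hq).2 hpq
  have hdis : Disjoint V W := by
    rw [Subgroup.disjoint_def]
    intro z hzV hzW
    have := mem_of_pow_mem_coprime ⊥ z p q hcop (hV1 z hzV) (by rw [hW1 z hzW]; exact Subgroup.one_mem _)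
    simpa using this
  have hc : Commute x y := Subgroup.commute_of_normal_of_disjoint V W hV hW hdis x y hxV hyW
  rw [hc.orderOf_mul_eq_mul_orderOf_of_coprime (by rw [hx, hy]; exact hcop), hx, hy]

theorem exists_critical (Ω : Set ℕ) (P : ∀ (G : Type) [Group G], Prop)
    (hsec : ∀ (G : Type) [Group G] (H : Subgroup G) (N : Subgroup H) [N.Normal], P G → P (H ⧸ N)) :
    ∀ (n : ℕ) (G : Type) [Group G] [Finite G], Nat.card G = n →
      Set.range (orderOf : G → ℕ) = Ω → P G →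
      ∃ (C : Type) (_ : Group C) (_ : Fintype C), P C ∧ Set.range (orderOf : C → ℕ) = Ω ∧
        ∀ (H : Subgroup C) (N : Subgroup ↥H) [N.Normal], (H ≠ ⊤ ∨ N ≠ ⊥) →
          Set.range (orderOf : (↥H ⧸ N) → ℕ) ≠ Ω := by
  intro n
  induction n using Nat.strong_induction_on with
  | _ n ih =>
    intro G _ _ hn hspec hP
    by_cases hcrit : ∀ (H : Subgroup G) (N : Subgroup ↥H) [N.Normal], (H ≠ ⊤ ∨ N ≠ ⊥) →
          Set.range (orderOf : (↥H ⧸ N) → ℕ) ≠ Ω
    · exact ⟨G, inferInstance, Fintype.ofFinite G, hP, hspec, hcrit⟩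
    · push Not at hcrit
      obtain ⟨H, N, hN, hne, hs⟩ := hcrit
      refine ih (Nat.card (H ⧸ N)) ?_ (H ⧸ N) rfl hs (hsec G H N hP)
      rw [← hn]
      have h1 : Nat.card H = Nat.card (H ⧸ N) * Nat.card N := Subgroup.card_eq_card_quotient_mul_card_subgroup N
      have h2 : Nat.card H ≤ Nat.card G := Subgroup.card_le_card_group H
      have h3 : 0 < Nat.card N := Nat.card_pos
      have h4 : 0 < Nat.card (H ⧸ N) := Nat.card_pos
      rcases hne with hne | hne
      · have h5 : Nat.card H ≠ Nat.card G := fun h => hne ((Subgroup.card_eq_iff_eq_top H).1 h)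
        have : Nat.card (H ⧸ N) ≤ Nat.card H := by rw [h1]; exact Nat.le_mul_of_pos_right _ h3
        omega
      · have h5 : 1 < Nat.card N := (Subgroup.one_lt_card_iff_ne_bot N).2 hne
        have : Nat.card (H ⧸ N) < Nat.card H := by rw [h1]; nlinarith
        omega


/-- A finite group is critical with respect to a set Ω of natural numbers when its set of element orders is Ω while no proper section H/N (H a subgroup, N normal in H, (H, N) ≠ (whole group, 1)) has Ω as its set of element orders. Let s ≥ 1 and let p(j,0), p(j,1) (j < s) be 2s pairwise distinct primes, and let Ω be the set of all products c(0)·…·c(s−1) with each c(j) ∈ {1, p(j,0), p(j,1)}. Then there are 2^s pairwise non-isomorphic finite groups critical with respect to Ω. -/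
theorem result (s : ℕ) (hs : 1 ≤ s) (p : Fin s → Fin 2 → ℕ)
    (hp : ∀ j i, (p j i).Prime) (hinj : ∀ j i j' i', p j i = p j' i' → j = j' ∧ i = i') :
    ∃ (G : Fin (2 ^ s) → Type) (_ : ∀ a, Group (G a)) (_ : ∀ a, Fintype (G a)),
      (∀ a b, a ≠ b → ¬ Nonempty (G a ≃* G b)) ∧
      ∀ a, Set.range (orderOf : (G a) → ℕ) = {m : ℕ | ∃ c : Fin s → ℕ, (∀ j, c j = 1 ∨ c j = p j 0 ∨ c j = p j 1) ∧ m = ∏ j, c j} ∧
      ∀ (H : Subgroup (G a)) (N : Subgroup ↥H) [N.Normal], (H ≠ ⊤ ∨ N ≠ ⊥) → Set.range (orderOf : (↥H ⧸ N) → ℕ) ≠ {m : ℕ | ∃ c : Fin s → ℕ, (∀ j, c j = 1 ∨ c j = p j 0 ∨ c j = p j 1) ∧ m = ∏ j, c j} := by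
  classical
  set Ω : Set ℕ := {m : ℕ | ∃ c : Fin s → ℕ, (∀ j, c j = 1 ∨ c j = p j 0 ∨ c j = p j 1) ∧ m = ∏ j, c j}
    with hΩ
  have hcop : ∀ j i j' i', (j ≠ j' ∨ i ≠ i') → Nat.Coprime (p j i) (p j' i') := by
    intro j i j' i' h
    rw [Nat.coprime_primes (hp j i) (hp j' i')]
    intro he
    obtain ⟨h1, h2⟩ := hinj _ _ _ _ he
    tauto
  have hrev : ∀ i : Fin 2, i ≠ i.rev := by decide
  -- the factors
  have hF : ∀ (j : Fin s) (i : Fin 2), ∃ (G : Type) (_ : Group G) (_ : Finite G), Group.IsSolvable G ∧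
      Set.range (orderOf : G → ℕ) = {d | d ∣ p j i ∨ d ∣ p j i.rev} ∧
      CfsgH7.ClosedExp G (p j i) (p j i.rev) := fun j i =>
    CfsgH7.exists_frobenius_cyclic _ _ (hp j i) (hcop _ _ _ _ (Or.inr (hrev i)))
  choose F instG instF _ hspecF hclF using hF
  have hspecF' : ∀ j i d, d ∈ Set.range (orderOf : F j i → ℕ) ↔ d = 1 ∨ d = p j 0 ∨ d = p j 1 := by
    intro j i d
    rw [hspecF]
    simp only [Set.mem_ofPred_eq, Nat.dvd_prime (hp _ _)]
    fin_cases i <;> simp <;> tauto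
  have hpair : ∀ c : Fin s → ℕ, (∀ j, c j = 1 ∨ c j = p j 0 ∨ c j = p j 1) →
      Set.Pairwise ((Finset.univ : Finset (Fin s)) : Set (Fin s)) (Function.onFun Nat.Coprime c) := by
    intro c hc j _ j' _ hjj
    change Nat.Coprime (c j) (c j')
    rcases hc j with h | h | h <;> rcases hc j' with h' | h' | h' <;> rw [h, h'] <;>
      first | simp | exact hcop _ _ _ _ (Or.inl hjj)
  have hbig : ∀ a : Fin s → Fin 2, Set.range (orderOf : (∀ j, F j (a j)) → ℕ) = Ω := by
    intro a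
    ext m
    constructor
    · rintro ⟨x, rfl⟩
      have hc : ∀ j, orderOf (x j) = 1 ∨ orderOf (x j) = p j 0 ∨ orderOf (x j) = p j 1 :=
        fun j => (hspecF' j (a j) _).1 ⟨x j, rfl⟩
      refine ⟨fun j => orderOf (x j), hc, ?_⟩
      rw [Pi.orderOf, Finset.lcm_eq_prod (hpair _ hc)]
    · rintro ⟨c, hc, rfl⟩
      choose x hx using fun j => (hspecF' j (a j) (c j)).2 (hc j)
      refine ⟨x, ?_⟩
      rw [Pi.orderOf]
      simp only [hx]
      rw [Finset.lcm_eq_prod (hpair _ hc)]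
  have hcl : ∀ (a : Fin s → Fin 2) (j : Fin s), ClosedPrime (∀ j, F j (a j)) (p j (a j)) := by
    intro a j
    obtain ⟨V, hV, hV1, hV2⟩ := hclF j (a j)
    refine ⟨p j (a j).rev * ∏ k ∈ Finset.univ.erase j, (p k 0 * p k 1), ?_,
      V.comap (Pi.evalMonoidHom (fun j => F j (a j)) j) ⊓
        ⨅ k ∈ Finset.univ.erase j, (Pi.evalMonoidHom (fun j => F j (a j)) k).ker, ?_, ?_, ?_⟩
    · apply Nat.Coprime.mul_right (hcop _ _ _ _ (Or.inr (hrev _)))
      apply Nat.Coprime.prod_right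
      intro k hk
      have hk' : j ≠ k := (Finset.ne_of_mem_erase hk).symm
      exact Nat.Coprime.mul_right (hcop _ _ _ _ (Or.inl hk')) (hcop _ _ _ _ (Or.inl hk'))
    · have : (⨅ k ∈ Finset.univ.erase j, (Pi.evalMonoidHom (fun j => F j (a j)) k).ker).Normal :=
        Subgroup.normal_iInf_normal fun k => Subgroup.normal_iInf_normal fun _ => inferInstance
      infer_instance
    · intro v hv
      rw [Subgroup.mem_inf] at hv
      simp only [Subgroup.mem_iInf, MonoidHom.mem_ker, Subgroup.mem_comap, Pi.evalMonoidHom_apply] at hv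
      funext k
      by_cases hk : k = j
      · subst hk
        exact hV1 _ hv.1
      · rw [Pi.pow_apply, hv.2 k (by simp [hk]), one_pow]; rfl
    · intro g
      rw [Subgroup.mem_inf]
      simp only [Subgroup.mem_iInf, MonoidHom.mem_ker, Subgroup.mem_comap, Pi.evalMonoidHom_apply,
        Pi.pow_apply]
      refine ⟨by rw [pow_mul]; exact V.pow_mem (hV2 _) _, fun k hk => ?_⟩
      apply orderOf_dvd_iff_pow_eq_one.1
      apply Dvd.dvd.mul_left
      refine dvd_trans ?_ (Finset.dvd_prod_of_mem (fun k => p k 0 * p k 1) hk)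
      rcases (hspecF' k (a k) _).1 ⟨g k, rfl⟩ with h | h | h <;> rw [h] <;> simp
  have hcrit : ∀ a : Fin s → Fin 2, ∃ (C : Type) (_ : Group C) (_ : Fintype C),
      (∀ j, ClosedPrime C (p j (a j))) ∧ Set.range (orderOf : C → ℕ) = Ω ∧
        ∀ (H : Subgroup C) (N : Subgroup ↥H) [N.Normal], (H ≠ ⊤ ∨ N ≠ ⊥) →
          Set.range (orderOf : (↥H ⧸ N) → ℕ) ≠ Ω := fun a =>
    exists_critical Ω (fun G _ => ∀ j, ClosedPrime G (p j (a j)))
      (fun G _ H N _ h j => closedPrime_surj (closedPrime_subgroup (h j) H) (QuotientGroup.mk' N)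
        (QuotientGroup.mk'_surjective N)) _ (∀ j, F j (a j)) rfl (hbig a) (hcl a)
  choose C instC instC' hC1 hC2 hC3 using hcrit
  refine ⟨fun a => C (finFunctionFinEquiv.symm a), fun a => instC _, fun a => instC' _, ?_,
    fun a => ⟨hC2 _, hC3 _⟩⟩
  rintro a b hab ⟨e⟩
  set a' := finFunctionFinEquiv.symm a
  set b' := finFunctionFinEquiv.symm b
  have hab' : a' ≠ b' := fun h => hab (finFunctionFinEquiv.symm.injective h)
  obtain ⟨j, hj⟩ := Function.ne_iff.1 hab'
  have h1 : ClosedPrime (C b') (p j (a' j)) := closedPrime_surj (hC1 a' j) e.toMonoidHom e.surjective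
  have h2 : ClosedPrime (C b') (p j (b' j)) := hC1 b' j
  have hmem : ∀ i, p j i ∈ Ω := by
    intro i
    refine ⟨Function.update 1 j (p j i), fun k => ?_, ?_⟩
    · by_cases hk : k = j
      · subst hk
        fin_cases i <;> simp
      · simp [hk]
    · rw [Finset.prod_update_of_mem (Finset.mem_univ j)]
      simp
  obtain ⟨x, hx⟩ := (hC2 b').symm ▸ hmem (a' j)
  obtain ⟨y, hy⟩ := (hC2 b').symm ▸ hmem (b' j)
  have hne : p j (a' j) ≠ p j (b' j) := fun h => hj (hinj _ _ _ _ h).2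
  have h3 := exists_orderOf_mul_of_closedPrime (hp _ _) (hp _ _) hne h1 h2 x y hx hy
  have h4 : p j (a' j) * p j (b' j) ∈ Ω := (hC2 b') ▸ ⟨x * y, h3⟩
  obtain ⟨c, hc, hprod⟩ := h4
  have key : ∀ i, p j i ∣ ∏ k, c k → c j = p j i := by
    intro i hi
    obtain ⟨k, -, hk⟩ := (Prime.dvd_finsetProd_iff (hp j i).prime _).1 hi
    rcases hc k with h | h | h <;> rw [h] at hk
    · exact absurd (Nat.dvd_one.1 hk) (hp j i).one_lt.ne'
    · have h5 := (Nat.prime_dvd_prime_iff_eq (hp _ _) (hp _ _)).1 hk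
      obtain ⟨rfl, rfl⟩ := hinj _ _ _ _ h5
      exact h
    · have h5 := (Nat.prime_dvd_prime_iff_eq (hp _ _) (hp _ _)).1 hk
      obtain ⟨rfl, rfl⟩ := hinj _ _ _ _ h5
      exact h
  exact hne ((key _ (hprod ▸ Dvd.intro _ rfl)).symm.trans (key _ (hprod ▸ Dvd.intro_left _ rfl)))

end Cfsg.Agent.S3599
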