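import Cfsg.Statements.S3619
import Cfsg.Agent.H4.QuasiPrim

set_option autoImplicit false
open Cfsg

namespace Cfsg.Agent.S3619

/-- Let G act faithfully on a finite set in such a way that every non-trivial normal subgroup of G is transitive (G is quasiprimitive). Let Γ be a subset with more than one point and not the whole set, such that the pointwise stabilizer of the complement of Γ acts transitively on Γ (a Jordan set). If that pointwise stabilizer acts primitively on Γ, then G is k-fold transitive where k is one more than the number of points outside Γ (the Jordan set is a trivial one). -/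
theorem result {G Ω : Type*} [Group G] [Finite G] [MulAction G Ω] [FaithfulSMul G Ω] [Finite Ω]
    (hqp : ∀ N : Subgroup G, N.Normal → N ≠ ⊥ → MulAction.IsPretransitive ↥N Ω)
    (Γ : Set Ω) (hΓ1 : 1 < Γ.ncard) (hΓ2 : Γ.ncard < Nat.card Ω)
    (hJ : MulAction.IsPretransitive ↥(fixingSubgroup G Γᶜ) ↥(SubMulAction.ofFixingSubgroup G Γᶜ))
    (hJp : MulAction.IsPreprimitive ↥(fixingSubgroup G Γᶜ) ↥(SubMulAction.ofFixingSubgroup G Γᶜ)) :
    MulAction.IsMultiplyPretransitive G Ω (Nat.card Ω - Γ.ncard + 1) := by
  classical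
  open MulAction CfsgH4 Pointwise in
  have hJ' := jordan_of_isPretransitive hJ
  have hΓ : Γ.Nontrivial := Set.one_lt_ncard_iff_nontrivial.1 hΓ1
  have htr : IsPretransitive G Ω := by
    obtain ⟨x, hx, y, hy, hxy⟩ := hΓ
    obtain ⟨u, -, hux⟩ := hJ' x hx y hy
    apply isPretransitive_of_quasiprimitive hqp (g := u)
    rintro rfl
    exact hxy (by simpa using hux)
  have hprim : IsPreprimitive G Ω := by
    obtain ⟨x, hx, -⟩ := id hΓ
    apply IsPreprimitive.of_isTrivialBlock_base x
    intro B hxB hB
    by_contra hnt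
    rw [IsTrivialBlock, not_or, Set.not_subsingleton_iff] at hnt
    have hns := block_subset_jordan hqp hB hnt.2 hΓ hJ'
    have hBΓ : B ⊆ Γ := by
      intro q hq
      by_contra hqΓ
      exact hns (subset_block_of_jordan hB hJ' hxB hx hq hqΓ)
    have hB' : IsBlock (fixingSubgroup G Γᶜ)
        (Subtype.val ⁻¹' B : Set (SubMulAction.ofFixingSubgroup G Γᶜ)) :=
      IsBlock.subtype_val_preimage (hB.subgroup (H := fixingSubgroup G Γᶜ))
    rcases hJp.isTrivialBlock_of_isBlock hB' with h | h
    · obtain ⟨a, ha, b, hb, hab⟩ := hnt.1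
      exact hab (congrArg Subtype.val (h (x := ⟨a, fun h => h (hBΓ ha)⟩) ha
        (y := ⟨b, fun h => h (hBΓ hb)⟩) hb))
    · apply hns
      intro y hy
      have : (⟨y, fun h => h hy⟩ : SubMulAction.ofFixingSubgroup G Γᶜ) ∈
        (Subtype.val ⁻¹' B : Set (SubMulAction.ofFixingSubgroup G Γᶜ)) := h ▸ Set.mem_univ _
      exact this
  have hc := Set.ncard_add_ncard_compl Γ
  have := hprim.isMultiplyPreprimitive (s := Γᶜ) (n := Nat.card Ω - Γ.ncard - 1) (by omega)
    (by omega) hJp
  rw [show Nat.card Ω - Γ.ncard + 1 = Nat.card Ω - Γ.ncard - 1 + 2 by omega]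
  exact this.isMultiplyPretransitive

end Cfsg.Agent.S3619
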