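import Cfsg.Statements.S3626
import Cfsg.Agent.H7.ReeSpec
import Cfsg.Agent.H7.ReeAff

set_option autoImplicit false
open Cfsg

namespace Cfsg.Agent.S3626

theorem spec_cube {R X : Type*} [Group R] [Group X] (A B : ℕ)
    (h1 : Set.range (orderOf : X → ℕ) ⊆ Set.range (orderOf : R → ℕ))
    (h2 : ∀ a ∈ Set.range (orderOf : R → ℕ), a ∈ Set.range (orderOf : X → ℕ) ∨ a ∣ A ∨ a ∣ B)
    (hA : ∀ a, a ∣ A ∨ a ∣ B → a ∈ Set.range (orderOf : R → ℕ)) :
    Set.range (orderOf : R × R × X → ℕ) = Set.range (orderOf : R × R × R → ℕ) := by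
  have h0 : 1 ∈ Set.range (orderOf : X → ℕ) := ⟨1, orderOf_one⟩
  ext n
  simp only [CfsgH7.mem_spec_prod]
  constructor
  · rintro ⟨a, ha, _, ⟨b, hb, c, hc, rfl⟩, rfl⟩
    exact ⟨a, ha, _, ⟨b, hb, c, h1 hc, rfl⟩, rfl⟩
  · rintro ⟨a, ha, _, ⟨b, hb, c, hc, rfl⟩, rfl⟩
    have key : ∀ x y z : ℕ, x ∈ Set.range (orderOf : R → ℕ) → y ∈ Set.range (orderOf : R → ℕ) →
        z ∈ Set.range (orderOf : X → ℕ) → a.lcm (b.lcm c) = x.lcm (y.lcm z) →
        ∃ a' ∈ Set.range (orderOf : R → ℕ), ∃ b', (∃ a ∈ Set.range (orderOf : R → ℕ),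
          ∃ b ∈ Set.range (orderOf : X → ℕ), b' = a.lcm b) ∧ a.lcm (b.lcm c) = a'.lcm b' :=
      fun x y z hx hy hz e => ⟨x, hx, _, ⟨y, hy, z, hz, rfl⟩, e⟩
    have e1 : a.lcm (b.lcm c) = (a.lcm b).lcm (c.lcm 1) := by rw [Nat.lcm_one_right, Nat.lcm_assoc]
    have e2 : a.lcm (b.lcm c) = (a.lcm c).lcm (b.lcm 1) := by
      rw [Nat.lcm_one_right, Nat.lcm_assoc, Nat.lcm_comm c b]
    have e3 : a.lcm (b.lcm c) = (b.lcm c).lcm (a.lcm 1) := by rw [Nat.lcm_one_right, Nat.lcm_comm]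
    rcases h2 c hc with hc' | hc'
    · exact key a b c ha hb hc' rfl
    rcases h2 b hb with hb' | hb'
    · exact key a c b ha hc hb' (by rw [Nat.lcm_comm b c])
    rcases h2 a ha with ha' | ha'
    · exact key b c a hb hc ha' (by rw [Nat.lcm_comm, Nat.lcm_assoc])
    rcases ha' with ha' | ha' <;> rcases hb' with hb' | hb' <;> rcases hc' with hc' | hc'
    · exact key _ _ _ (hA _ (Or.inl (Nat.lcm_dvd ha' hb'))) hc h0 e1
    · exact key _ _ _ (hA _ (Or.inl (Nat.lcm_dvd ha' hb'))) hc h0 e1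
    · exact key _ _ _ (hA _ (Or.inl (Nat.lcm_dvd ha' hc'))) hb h0 e2
    · exact key _ _ _ (hA _ (Or.inr (Nat.lcm_dvd hb' hc'))) ha h0 e3
    · exact key _ _ _ (hA _ (Or.inl (Nat.lcm_dvd hb' hc'))) ha h0 e3
    · exact key _ _ _ (hA _ (Or.inr (Nat.lcm_dvd ha' hc'))) hb h0 e2
    · exact key _ _ _ (hA _ (Or.inr (Nat.lcm_dvd ha' hb'))) hc h0 e1
    · exact key _ _ _ (hA _ (Or.inr (Nat.lcm_dvd ha' hb'))) hc h0 e1

theorem large_cube {R H V : Type*} [Group R] [Finite R] [Group H] [AddCommGroup V]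
    [DistribMulAction H V] [Finite H] [Finite V] [Nontrivial V] (N : ℕ) :
    ∃ (G : Type) (_ : Group G) (_ : Fintype G), N < Fintype.card G ∧
      Set.range (orderOf : G → ℕ) = Set.range (orderOf : R × R × CfsgH7.Aff H V → ℕ) := by
  let f : Multiplicative V →* R × R × CfsgH7.Aff H V :=
    (MonoidHom.inr _ _).comp ((MonoidHom.inr _ _).comp SemidirectProduct.inl)
  have hn : f.range.Normal := by
    refine ⟨?_⟩
    rintro _ ⟨v, rfl⟩ ⟨a, b, x⟩
    have h1 : x * SemidirectProduct.inl v * x⁻¹ ∈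
        (SemidirectProduct.inl : Multiplicative V →* CfsgH7.Aff H V).range := by
      rw [SemidirectProduct.range_inl_eq_ker_rightHom]
      simp
    obtain ⟨w, hw⟩ := h1
    exact ⟨w, by simp [f, hw]⟩
  apply CfsgH7.exists_large_isospectral f.range
  · obtain ⟨v, hv⟩ := exists_ne (1 : Multiplicative V)
    intro h
    have h1 : f v ∈ f.range := ⟨v, rfl⟩
    rw [h, Subgroup.mem_bot] at h1
    exact hv (SemidirectProduct.inl_injective ((congrArg (fun x => x.2.2) h1).trans (map_one _).symm))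
  · exact Group.isSolvable_of_surjective f.rangeRestrict_surjective


/-- Let R be the small Ree group over the field with q = 3^(2m+1) ≥ 27 elements. Then there are finite groups of arbitrarily large order with exactly the same set of element orders as R × R × R. -/
theorem result {K : Type*} [Field K] [Fintype K] {m : ℕ} (hm : 1 ≤ m) (hK : Fintype.card K = 3 ^ (2 * m + 1)) (N : ℕ) :
    ∃ (H : Type) (_ : Group H) (_ : Fintype H), N < Fintype.card H ∧
      Set.range (orderOf : H → ℕ) = Set.range (orderOf : ↥(Cfsg.Lie.twistedG2 K (3 ^ m)) × ↥(Cfsg.Lie.twistedG2 K (3 ^ m)) × ↥(Cfsg.Lie.twistedG2 K (3 ^ m)) → ℕ) := by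
  have h3 : CharP K 3 := by
    obtain ⟨p, hp, n, hpp, hn⟩ := FiniteField.card' K
    have h1 : p ∣ 3 ^ (2 * m + 1) := by rw [← hK, hn]; exact dvd_pow_self _ n.ne_zero
    rwa [(Nat.prime_dvd_prime_iff_eq hpp Nat.prime_three).1 (hpp.dvd_of_dvd_pow h1)] at hp
  obtain ⟨r, hr⟩ : ∃ r, 3 ^ (2 * m + 1) = 24 * r + 3 := by
    have h1 : 9 ^ m % 8 = 1 := by rw [Nat.pow_mod]; simp
    exact ⟨9 ^ m / 8, by rw [pow_succ, pow_mul, show 3 ^ 2 = 9 from rfl]; omega⟩
  have hX := CfsgH7.spec_negGrp (K := K) r (hK.trans hr)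
  have hR := CfsgH7.Ree.spec_ree hK
  have e1 : 3 ^ (2 * m + 1) - 1 = 24 * r + 2 := by omega
  have e2 : (3 ^ (2 * m + 1) + 1) / 2 = 12 * r + 2 := by omega
  rw [e1, e2] at hR
  rw [← spec_cube (X := CfsgH7.Aff (CfsgH7.negGrp K) (CfsgH7.ColMod (Fin 2 × Fin 2) K))
    (3 ^ (2 * m + 1) + 3 ^ (m + 1) + 1) (3 ^ (2 * m + 1) + 1 - 3 ^ (m + 1))]
  · exact large_cube N
  · rw [hX, hR]
    intro d hd
    simp only [Set.mem_ofPred_eq] at hd ⊢
    tauto
  · rw [hX, hR]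
    intro d hd
    simp only [Set.mem_ofPred_eq] at hd ⊢
    tauto
  · rw [hR]
    intro d hd
    simp only [Set.mem_ofPred_eq]
    tauto

end Cfsg.Agent.S3626
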