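import Cfsg.Statements.S3627
import Cfsg.Agent.H9.J1Spec
import Cfsg.Agent.H7.FrobAff

set_option autoImplicit false
open Cfsg

namespace CfsgH9.J1C

theorem spec_J1 : Set.range (orderOf : Spor.J1 → ℕ) =
    {d | d ∈ ([1, 2, 3, 5, 6, 7, 10, 11, 15, 19] : List ℕ)} := by
  rw [CfsgH7.spec_eq_of_maximal (G := Spor.J1) {k | k ∈ ([6, 10, 15, 7, 11, 19] : List ℕ)}
    (by simp) pow_eq_one]
  · ext d
    simp only [Set.mem_ofPred_eq]
    constructor
    · rintro ⟨a, ha, hd⟩
      have h1 : d ≤ 19 := by
        have := Nat.le_of_dvd (by revert ha; simp; omega) hd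
        revert ha; simp; omega
      revert a
      interval_cases d <;> simp
    · revert d
      decide
  · intro a ha
    simp only [Set.mem_ofPred_eq, List.mem_cons, List.not_mem_nil, or_false] at ha
    rcases ha with rfl | rfl | rfl | rfl | rfl | rfl
    exacts [exists_order_6, exists_order_10, exists_order_15, exists_order_7, exists_order_11,
      exists_order_19]

def lcmList : List ℕ := [1, 2, 3, 5, 6, 7, 10, 11, 14, 15, 19, 21, 22, 30, 33, 35, 38, 42, 55, 57, 66, 70, 77, 95, 105, 110, 114, 133, 154, 165, 190, 209, 210, 231, 266, 285, 330, 385, 399, 418, 462, 570, 627, 665, 770, 798, 1045, 1155, 1254, 1330, 1463, 1995, 2090, 2310, 2926, 3135, 3990, 4389, 6270, 7315, 8778, 14630, 21945]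

def lcmList2 : List ℕ := [1, 2, 3, 5, 6, 7, 10, 11, 14, 15, 19, 21, 22, 30, 33, 35, 38, 42, 55, 57, 66, 70, 77, 95, 105, 110, 114, 133, 165, 190, 209, 285]

def lcmList3 : List ℕ := [1, 2, 3, 5, 6, 7, 10, 11, 14, 15, 19, 21, 22, 30, 33, 35, 38, 42, 55, 57, 66, 70, 77, 95, 105, 110, 114, 133, 154, 165, 190, 209, 210, 231, 266, 285, 330, 385, 399, 418, 462, 570, 627, 665, 770, 798, 1045, 1155, 1254, 1330, 1463, 1995, 2090, 3135]

theorem lcm_aux12 : ∀ a ∈ ([1, 2, 3, 5, 6, 7, 10, 11, 15, 19] : List ℕ),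
    ∀ b ∈ ([1, 2, 3, 5, 6, 7, 10, 11, 15, 19] : List ℕ), Nat.lcm a b ∈ lcmList2 := by
  decide +kernel

theorem lcm_aux13 : ∀ a ∈ ([1, 2, 3, 5, 6, 7, 10, 11, 15, 19] : List ℕ),
    ∀ b ∈ lcmList2, Nat.lcm a b ∈ lcmList3 := by
  decide +kernel

theorem lcm_aux14 : ∀ a ∈ ([1, 2, 3, 5, 6, 7, 10, 11, 15, 19] : List ℕ),
    ∀ b ∈ lcmList3, Nat.lcm a b ∈ lcmList := by
  decide +kernel

theorem lcm_aux1 : ∀ a ∈ ([1, 2, 3, 5, 6, 7, 10, 11, 15, 19] : List ℕ),
    ∀ b ∈ ([1, 2, 3, 5, 6, 7, 10, 11, 15, 19] : List ℕ),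
    ∀ c ∈ ([1, 2, 3, 5, 6, 7, 10, 11, 15, 19] : List ℕ),
    ∀ d ∈ ([1, 2, 3, 5, 6, 7, 10, 11, 15, 19] : List ℕ),
      Nat.lcm a (Nat.lcm b (Nat.lcm c d)) ∈ lcmList :=
  fun a ha b hb c hc d hd => lcm_aux14 a ha _ (lcm_aux13 b hb _ (lcm_aux12 c hc d hd))

theorem lcm_aux2 : ∀ n ∈ lcmList,
    ∃ a ∈ ([1, 2, 3, 5, 6, 7, 10, 11, 15, 19] : List ℕ),
    ∃ b ∈ ([1, 2, 3, 5, 6, 7, 10, 11, 15, 19] : List ℕ),
    ∃ c ∈ ([1, 2, 3, 5, 6, 7, 10, 11, 15, 19] : List ℕ),
    ∃ d ∈ ([1, 3, 7] : List ℕ), n = Nat.lcm a (Nat.lcm b (Nat.lcm c d)) := by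
  intro n hn
  simp only [lcmList, List.mem_cons, List.not_mem_nil, or_false] at hn
  rcases hn with rfl | rfl | rfl | rfl | rfl | rfl | rfl | rfl | rfl | rfl | rfl | rfl | rfl | rfl | rfl | rfl | rfl | rfl | rfl | rfl | rfl | rfl | rfl | rfl | rfl | rfl | rfl | rfl | rfl | rfl | rfl | rfl | rfl | rfl | rfl | rfl | rfl | rfl | rfl | rfl | rfl | rfl | rfl | rfl | rfl | rfl | rfl | rfl | rfl | rfl | rfl | rfl | rfl | rfl | rfl | rfl | rfl | rfl | rfl | rfl | rfl | rfl | rfl
  · exact ⟨1, by decide, 1, by decide, 1, by decide, 1, by decide, by decide +kernel⟩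
  · exact ⟨1, by decide, 1, by decide, 2, by decide, 1, by decide, by decide +kernel⟩
  · exact ⟨1, by decide, 1, by decide, 1, by decide, 3, by decide, by decide +kernel⟩
  · exact ⟨1, by decide, 1, by decide, 5, by decide, 1, by decide, by decide +kernel⟩
  · exact ⟨1, by decide, 1, by decide, 2, by decide, 3, by decide, by decide +kernel⟩
  · exact ⟨1, by decide, 1, by decide, 1, by decide, 7, by decide, by decide +kernel⟩
  · exact ⟨1, by decide, 1, by decide, 10, by decide, 1, by decide, by decide +kernel⟩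
  · exact ⟨1, by decide, 1, by decide, 11, by decide, 1, by decide, by decide +kernel⟩
  · exact ⟨1, by decide, 1, by decide, 2, by decide, 7, by decide, by decide +kernel⟩
  · exact ⟨1, by decide, 1, by decide, 5, by decide, 3, by decide, by decide +kernel⟩
  · exact ⟨1, by decide, 1, by decide, 19, by decide, 1, by decide, by decide +kernel⟩
  · exact ⟨1, by decide, 1, by decide, 3, by decide, 7, by decide, by decide +kernel⟩
  · exact ⟨1, by decide, 2, by decide, 11, by decide, 1, by decide, by decide +kernel⟩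
  · exact ⟨1, by decide, 1, by decide, 10, by decide, 3, by decide, by decide +kernel⟩
  · exact ⟨1, by decide, 1, by decide, 11, by decide, 3, by decide, by decide +kernel⟩
  · exact ⟨1, by decide, 1, by decide, 5, by decide, 7, by decide, by decide +kernel⟩
  · exact ⟨1, by decide, 2, by decide, 19, by decide, 1, by decide, by decide +kernel⟩
  · exact ⟨1, by decide, 1, by decide, 6, by decide, 7, by decide, by decide +kernel⟩
  · exact ⟨1, by decide, 5, by decide, 11, by decide, 1, by decide, by decide +kernel⟩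
  · exact ⟨1, by decide, 1, by decide, 19, by decide, 3, by decide, by decide +kernel⟩
  · exact ⟨1, by decide, 2, by decide, 11, by decide, 3, by decide, by decide +kernel⟩
  · exact ⟨1, by decide, 1, by decide, 10, by decide, 7, by decide, by decide +kernel⟩
  · exact ⟨1, by decide, 1, by decide, 11, by decide, 7, by decide, by decide +kernel⟩
  · exact ⟨1, by decide, 5, by decide, 19, by decide, 1, by decide, by decide +kernel⟩
  · exact ⟨1, by decide, 1, by decide, 15, by decide, 7, by decide, by decide +kernel⟩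
  · exact ⟨1, by decide, 10, by decide, 11, by decide, 1, by decide, by decide +kernel⟩
  · exact ⟨1, by decide, 2, by decide, 19, by decide, 3, by decide, by decide +kernel⟩
  · exact ⟨1, by decide, 1, by decide, 19, by decide, 7, by decide, by decide +kernel⟩
  · exact ⟨1, by decide, 2, by decide, 11, by decide, 7, by decide, by decide +kernel⟩
  · exact ⟨1, by decide, 5, by decide, 11, by decide, 3, by decide, by decide +kernel⟩
  · exact ⟨1, by decide, 10, by decide, 19, by decide, 1, by decide, by decide +kernel⟩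
  · exact ⟨1, by decide, 11, by decide, 19, by decide, 1, by decide, by decide +kernel⟩
  · exact ⟨1, by decide, 2, by decide, 15, by decide, 7, by decide, by decide +kernel⟩
  · exact ⟨1, by decide, 3, by decide, 11, by decide, 7, by decide, by decide +kernel⟩
  · exact ⟨1, by decide, 2, by decide, 19, by decide, 7, by decide, by decide +kernel⟩
  · exact ⟨1, by decide, 5, by decide, 19, by decide, 3, by decide, by decide +kernel⟩
  · exact ⟨1, by decide, 10, by decide, 11, by decide, 3, by decide, by decide +kernel⟩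
  · exact ⟨1, by decide, 5, by decide, 11, by decide, 7, by decide, by decide +kernel⟩
  · exact ⟨1, by decide, 3, by decide, 19, by decide, 7, by decide, by decide +kernel⟩
  · exact ⟨2, by decide, 11, by decide, 19, by decide, 1, by decide, by decide +kernel⟩
  · exact ⟨1, by decide, 6, by decide, 11, by decide, 7, by decide, by decide +kernel⟩
  · exact ⟨1, by decide, 10, by decide, 19, by decide, 3, by decide, by decide +kernel⟩
  · exact ⟨1, by decide, 11, by decide, 19, by decide, 3, by decide, by decide +kernel⟩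
  · exact ⟨1, by decide, 5, by decide, 19, by decide, 7, by decide, by decide +kernel⟩
  · exact ⟨1, by decide, 10, by decide, 11, by decide, 7, by decide, by decide +kernel⟩
  · exact ⟨1, by decide, 6, by decide, 19, by decide, 7, by decide, by decide +kernel⟩
  · exact ⟨5, by decide, 11, by decide, 19, by decide, 1, by decide, by decide +kernel⟩
  · exact ⟨1, by decide, 11, by decide, 15, by decide, 7, by decide, by decide +kernel⟩
  · exact ⟨2, by decide, 11, by decide, 19, by decide, 3, by decide, by decide +kernel⟩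
  · exact ⟨1, by decide, 10, by decide, 19, by decide, 7, by decide, by decide +kernel⟩
  · exact ⟨1, by decide, 11, by decide, 19, by decide, 7, by decide, by decide +kernel⟩
  · exact ⟨1, by decide, 15, by decide, 19, by decide, 7, by decide, by decide +kernel⟩
  · exact ⟨10, by decide, 11, by decide, 19, by decide, 1, by decide, by decide +kernel⟩
  · exact ⟨2, by decide, 11, by decide, 15, by decide, 7, by decide, by decide +kernel⟩
  · exact ⟨2, by decide, 11, by decide, 19, by decide, 7, by decide, by decide +kernel⟩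
  · exact ⟨5, by decide, 11, by decide, 19, by decide, 3, by decide, by decide +kernel⟩
  · exact ⟨2, by decide, 15, by decide, 19, by decide, 7, by decide, by decide +kernel⟩
  · exact ⟨3, by decide, 11, by decide, 19, by decide, 7, by decide, by decide +kernel⟩
  · exact ⟨10, by decide, 11, by decide, 19, by decide, 3, by decide, by decide +kernel⟩
  · exact ⟨5, by decide, 11, by decide, 19, by decide, 7, by decide, by decide +kernel⟩
  · exact ⟨6, by decide, 11, by decide, 19, by decide, 7, by decide, by decide +kernel⟩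
  · exact ⟨10, by decide, 11, by decide, 19, by decide, 7, by decide, by decide +kernel⟩
  · exact ⟨11, by decide, 15, by decide, 19, by decide, 7, by decide, by decide +kernel⟩

end CfsgH9.J1C

namespace Cfsg.Agent.S3627

open CfsgH9.J1C CfsgH7

/-- Let J be the first Janko group. Then there are finite groups of arbitrarily large order with exactly the same set of element orders as J × J × J × J. -/
theorem result (N : ℕ) : ∃ (H : Type) (_ : Group H) (_ : Fintype H), N < Fintype.card H ∧
      Set.range (orderOf : H → ℕ) = Set.range (orderOf : ↥Cfsg.Spor.J1 × ↥Cfsg.Spor.J1 × ↥Cfsg.Spor.J1 × ↥Cfsg.Spor.J1 → ℕ) := by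
  obtain ⟨F, _, _, hs, hF, -⟩ := exists_frobenius_cyclic 7 3 (by norm_num) (by norm_num)
  have hF' : Set.range (orderOf : F → ℕ) = {d | d ∈ ([1, 3, 7] : List ℕ)} := by
    rw [hF]
    ext d
    simp only [Set.mem_ofPred_eq, Nat.dvd_prime (by norm_num : Nat.Prime 7),
      Nat.dvd_prime Nat.prime_three, List.mem_cons, List.not_mem_nil, or_false]
    tauto
  let f : Spor.J1 × Spor.J1 × Spor.J1 × F →* Spor.J1 × Spor.J1 × Spor.J1 :=
    (MonoidHom.id _).prodMap ((MonoidHom.id _).prodMap (MonoidHom.fst _ _))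
  have hK : f.ker ≠ ⊥ := by
    have : 7 ∈ Set.range (orderOf : F → ℕ) := by rw [hF']; simp
    obtain ⟨x, hx⟩ := this
    intro h
    have h1 : ((1, 1, 1, x) : Spor.J1 × Spor.J1 × Spor.J1 × F) ∈ f.ker := by
      rw [MonoidHom.mem_ker]; rfl
    rw [h, Subgroup.mem_bot] at h1
    have : x = 1 := congrArg (fun y => y.2.2.2) h1
    rw [this, orderOf_one] at hx
    omega
  have hsol : Group.IsSolvable f.ker := by
    let j : f.ker →* F := ((MonoidHom.snd _ _).comp ((MonoidHom.snd _ _).comp
      (MonoidHom.snd _ _))).comp f.ker.subtype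
    apply Group.isSolvable_of_isSolvable_injective (f := j)
    rw [injective_iff_map_eq_one]
    rintro ⟨⟨a, b, c, d⟩, h⟩ h2
    rw [MonoidHom.mem_ker] at h
    have ha : a = 1 := congrArg (fun y => y.1) h
    have hb : b = 1 := congrArg (fun y => y.2.1) h
    have hc : c = 1 := congrArg (fun y => y.2.2) h
    have hd : d = 1 := h2
    subst ha hb hc hd
    rfl
  obtain ⟨H, _, _, hN, hH⟩ := exists_large_isospectral f.ker hK hsol N
  refine ⟨H, inferInstance, inferInstance, hN, hH.trans ?_⟩
  ext n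
  simp only [mem_spec_prod, spec_J1, hF', Set.mem_ofPred_eq]
  constructor
  · rintro ⟨a, ha, _, ⟨b, hb, _, ⟨c, hc, d, hd, rfl⟩, rfl⟩, rfl⟩
    refine ⟨a, ha, _, ⟨b, hb, _, ⟨c, hc, d, ?_, rfl⟩, rfl⟩, rfl⟩
    revert hd; simp; tauto
  · rintro ⟨a, ha, _, ⟨b, hb, _, ⟨c, hc, d, hd, rfl⟩, rfl⟩, rfl⟩
    obtain ⟨a', ha', b', hb', c', hc', d', hd', e⟩ := lcm_aux2 _ (lcm_aux1 a ha b hb c hc d hd)
    exact ⟨a', ha', _, ⟨b', hb', _, ⟨c', hc', d', hd', rfl⟩, rfl⟩, e⟩

end Cfsg.Agent.S3627
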