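import Cfsg.Statements.S3633
import Cfsg.Agent.H7.ThreePrimes

set_option autoImplicit false
open Cfsg

namespace Cfsg.Agent.S3633

/-- Let G be a finite group and ρ a set of at least three prime divisors of the order of G that are pairwise non-adjacent in the prime graph (no element of order rs for distinct r, s ∈ ρ). Then at most one prime of ρ divides the order of any given solvable normal subgroup of G; in particular G is not solvable. -/
theorem result {G : Type*} [Group G] [Finite G] (ρ : Finset ℕ) (hρ : 3 ≤ ρ.card) (hc : ((∀ r ∈ ρ, r.Prime ∧ r ∣ Nat.card G) ∧ (∀ r ∈ ρ, ∀ s ∈ ρ, r ≠ s → ¬ ∃ x : G, orderOf x = r * s)))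
    (K : Subgroup G) [K.Normal] (hK : Group.IsSolvable ↥K) :
    (∀ r ∈ ρ, ∀ s ∈ ρ, r ∣ Nat.card ↥K → s ∣ Nat.card ↥K → r = s) ∧ ¬ Group.IsSolvable G := by
  have main : ∀ (K : Subgroup G) [K.Normal], Group.IsSolvable ↥K →
      ∀ r ∈ ρ, ∀ s ∈ ρ, r ∣ Nat.card ↥K → s ∣ Nat.card ↥K → r = s := by
    intro K _ hK r hr s hs h1 h2
    by_contra hrs
    obtain ⟨t, ht, ht'⟩ : ∃ t ∈ ρ, t ∉ ({r, s} : Finset ℕ) := by
      apply Finset.exists_mem_notMem_of_card_lt_card
      exact lt_of_le_of_lt Finset.card_le_two hρ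
    simp only [Finset.mem_insert, Finset.mem_singleton, not_or] at ht'
    rcases CfsgH7.not_two_dvd_solvable_normal K hK r s t (hc.1 r hr).1 (hc.1 s hs).1 (hc.1 t ht).1 hrs
      (Ne.symm ht'.1) (Ne.symm ht'.2) h1 h2 (hc.1 t ht).2 with h | h | h
    · exact hc.2 r hr s hs hrs h
    · exact hc.2 r hr t ht (Ne.symm ht'.1) h
    · exact hc.2 s hs t ht (Ne.symm ht'.2) h
  refine ⟨main K hK, fun hG => ?_⟩
  obtain ⟨r, hr, s, hs, hrs⟩ := Finset.one_lt_card.1 (lt_of_lt_of_le (by norm_num) hρ)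
  exact hrs (main ⊤ inferInstance r hr s hs (by rw [Subgroup.card_top]; exact (hc.1 r hr).2)
    (by rw [Subgroup.card_top]; exact (hc.1 s hs).2))

end Cfsg.Agent.S3633
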