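import Cfsg.Statements.S3639
import Cfsg.Agent.H2.SzModule
import Cfsg.Agent.H2.SzIso
import Cfsg.Agent.H2.PrimeGraphAff

set_option autoImplicit false
open Cfsg

namespace Cfsg.Agent.S3639

/-- Let S be the Suzuki group over the field with q = 2^(2m+1) ≥ 8 elements. Then there are finite groups of arbitrarily large order with the same prime graph as S. -/
theorem result {F : Type*} [Field F] [Fintype F] {m : ℕ} (hm : 1 ≤ m) (hF : Fintype.card F = 2 ^ (2 * m + 1)) (N : ℕ) :
    ∃ (H : Type) (_ : Group H) (_ : Fintype H), N < Fintype.card H ∧ ((∀ r : ℕ, r.Prime → (r ∣ Nat.card ↥(Cfsg.Lie.Sz F (2 ^ (m + 1))) ↔ r ∣ Nat.card H)) ∧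
      (∀ r s : ℕ, r.Prime → s.Prime → r ≠ s → ((∃ x : ↥(Cfsg.Lie.Sz F (2 ^ (m + 1))), orderOf x = r * s) ↔ (∃ y : H, orderOf y = r * s)))) := by
  have hS := CfsgH2.szField_of_card hm hF
  have := hS.charP
  obtain ⟨G, _, _, hN, h1, h2⟩ := CfsgH2.exists_large_primeGraph_self (H := Cfsg.Sz F m)
    (V := Fin 4 → F) Nat.prime_two
    (fun v => by
      ext i
      simp [CharTwo.two_eq_zero])
    (by
      rw [CfsgH2.card_Sz, mul_assoc]
      exact Dvd.dvd.mul_right (Dvd.dvd.pow (CfsgH2.two_dvd_card (m := m)) (by norm_num)) _)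
    (fun h v hp h2 hv hfix => by
      exfalso
      apply hv
      apply CfsgH2.eq_zero_of_smul_vec_eq _ hfix
      intro h4
      rw [← orderOf_dvd_iff_pow_eq_one] at h4
      exact h2 ((Nat.prime_dvd_prime_iff_eq hp Nat.prime_two).mp
        (hp.dvd_of_dvd_pow (n := 2) (by simpa using h4)))) N
  let e := CfsgH2.szEquivLie F m
  obtain ⟨e1, e2⟩ := CfsgH7.primeGraph_of_spec_eq (CfsgH7.spec_congr e)
  exact ⟨G, inferInstance, inferInstance, hN, fun p hp => (e1 p hp).symm.trans (h1 p hp),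
    fun p q hp hq hpq => (e2 p q hp hq hpq).symm.trans (h2 p q hp hq hpq)⟩

end Cfsg.Agent.S3639
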