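import Cfsg.Statements.S3660
import Cfsg.Agent.H7.ASL2

set_option autoImplicit false
open Cfsg

namespace Cfsg.Agent.S3660

/-- The prime graph of a finite group has the prime divisors of its order as vertices, two distinct primes p, q being joined when the group has an element of order pq; two groups have the same prime graph when they have the same prime divisors and the same joined pairs. Let F be a finite field of characteristic 2 with at least 4 elements. Then there are finite groups of arbitrarily large order with the same prime graph as PSL(2,F); in particular PSL(2,F) is not determined by its prime graph. -/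
theorem result {F : Type*} [Field F] [Fintype F] [CharP F 2] (hF : 4 ≤ Fintype.card F) (N : ℕ) :
    ∃ (H : Type) (_ : Group H) (_ : Finite H), N < Nat.card H ∧
      ((∀ p : ℕ, p.Prime → (p ∣ Nat.card (Matrix.ProjectiveSpecialLinearGroup (Fin 2) F) ↔ p ∣ Nat.card H)) ∧
      (∀ p q : ℕ, p.Prime → q.Prime → p ≠ q → ((∃ g : (Matrix.ProjectiveSpecialLinearGroup (Fin 2) F), orderOf g = p * q) ↔ (∃ g : H, orderOf g = p * q)))) := by
  obtain ⟨G, _, _, hN, hspec⟩ := CfsgH7.exists_large_spec_psl2_char_two F N
  refine ⟨G, inferInstance, inferInstance, by rwa [Nat.card_eq_fintype_card], ?_, ?_⟩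
  · intro p hp
    rw [CfsgH7.prime_dvd_card_iff_mem_spec hp, CfsgH7.prime_dvd_card_iff_mem_spec hp, hspec,
      CfsgH7.spec_psl2 2, CfsgH7.card_even_of_char_two.1]
    simp only [Set.mem_ofPred_eq, Nat.div_one]
    have : p ∣ 2 ↔ p ∣ 4 := ⟨fun h => h.trans (by norm_num), fun h =>
      hp.dvd_of_dvd_pow (n := 2) (by simpa using h)⟩
    rw [this]
  · intro p q hp hq hpq
    change p * q ∈ Set.range (orderOf : _ → ℕ) ↔ p * q ∈ Set.range (orderOf : G → ℕ)
    rw [hspec, CfsgH7.spec_psl2 2, CfsgH7.card_even_of_char_two.1]
    simp only [Set.mem_ofPred_eq, Nat.div_one]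
    have h4 : ¬ p * q ∣ 4 := by
      intro h
      have h1 : p ∣ 2 := hp.dvd_of_dvd_pow (n := 2) (by simpa using (Dvd.intro _ rfl).trans h)
      have h2 : q ∣ 2 := hq.dvd_of_dvd_pow (n := 2) (by simpa using (Dvd.intro_left _ rfl).trans h)
      exact hpq (((Nat.prime_dvd_prime_iff_eq hp Nat.prime_two).1 h1).trans
        ((Nat.prime_dvd_prime_iff_eq hq Nat.prime_two).1 h2).symm)
    have h2 : ¬ p * q ∣ 2 := fun h => h4 (h.trans (by norm_num))
    simp [h4, h2]

end Cfsg.Agent.S3660
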