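import Cfsg.Statements.S3662
import Cfsg.Agent.H9.G24Chain
import Cfsg.Agent.H2.PrimeGraphAff

set_option autoImplicit false
open Cfsg

namespace Cfsg.Agent.S3662

/-- The prime graph of a finite group has the prime divisors of its order as vertices, two distinct primes p, q being joined when the group has an element of order pq; two groups have the same prime graph when they have the same prime divisors and the same joined pairs. Let F be the field with 4 elements and L the Chevalley group of type G₂ over F. There are finite groups of arbitrarily large order with the same prime graph as L. -/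
theorem result {F : Type*} [Field F] [Fintype F] (hF : Fintype.card F = 4) (N : ℕ) :
    ∃ (H : Type) (_ : Group H) (_ : Finite H), N < Nat.card H ∧
      ((∀ p : ℕ, p.Prime → (p ∣ Nat.card ↥(Cfsg.Lie.chevG2.group F) ↔ p ∣ Nat.card H)) ∧
      (∀ p q : ℕ, p.Prime → q.Prime → p ≠ q → ((∃ g : ↥(Cfsg.Lie.chevG2.group F), orderOf g = p * q) ↔ (∃ g : H, orderOf g = p * q)))) := by
  open CfsgH9 CfsgH9.G24 in
  obtain ⟨e⟩ : Nonempty (MM.gen 2 c_s0 ≃* Cfsg.Lie.chevG2.group F) := gen_eq ▸ nonempty_equiv_ys hF
  open CfsgH9 CfsgH9.G24 in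
  obtain ⟨G, _, _, h1, h2, h3⟩ := CfsgH2.exists_large_primeGraph_self (H := MM.gen 2 c_s0)
    (V := NatV PP.n 2) Nat.prime_two NatV.nsmul_eq_zero (by rw [ex0.1, card_stab]; norm_num) (by
      intro h v hp h2 hv hfix
      obtain ⟨g, hg, hgv⟩ := transitive v hv
      have hmem : g⁻¹ * h * g ∈ MM.gen 2 c_s1 := by
        rw [← ex0.2]
        refine Subgroup.mem_inf.2 ⟨mul_mem (mul_mem (inv_mem hg) h.2) hg, fun i => ?_⟩
        have e1 : ∀ j, ((h : GL (Fin PP.n) (ZMod 2)) * g).1 j b0 = g.1 j b0 := by
          intro j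
          rw [Units.val_mul, Matrix.mul_apply, hgv j]
          simp only [hgv]
          exact congrFun hfix j
        rw [mul_assoc, Units.val_mul, Matrix.mul_apply]
        simp only [e1]
        rw [← Matrix.mul_apply, Units.inv_mul]
      have hd : orderOf h ∣ 61440 := by
        rw [← card_stab, ← Subgroup.orderOf_coe]
        have := orderOf_dvd_natCard (⟨_, hmem⟩ : MM.gen 2 c_s1)
        rw [Subgroup.orderOf_mk] at this
        rwa [← (MulAut.conj g⁻¹).orderOf_eq, MulAut.conj_apply, inv_inv]
      rw [show 61440 = 2 ^ 12 * (3 * 5) by norm_num, hp.dvd_mul, hp.dvd_mul] at hd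
      rcases hd with hd | hd | hd
      · exact absurd ((Nat.prime_dvd_prime_iff_eq hp Nat.prime_two).1 (hp.dvd_of_dvd_pow hd)) h2
      · rw [(Nat.prime_dvd_prime_iff_eq hp Nat.prime_three).1 hd]
        exact exists_order_6
      · rw [(Nat.prime_dvd_prime_iff_eq hp Nat.prime_five).1 hd]
        exact exists_order_10) N
  refine ⟨G, inferInstance, inferInstance, by rwa [Nat.card_eq_fintype_card], fun p hp => ?_,
    fun p q hp hq hpq => ?_⟩
  · rw [← h2 p hp, Nat.card_congr e.toEquiv]
  · rw [← h3 p q hp hq hpq]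
    constructor
    · rintro ⟨g, hg⟩
      exact ⟨e.symm g, by rw [e.symm.orderOf_eq, hg]⟩
    · rintro ⟨g, hg⟩
      exact ⟨e g, by rw [e.orderOf_eq, hg]⟩

end Cfsg.Agent.S3662
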