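import Cfsg.Statements.S3663
import Cfsg.Agent.H7.PSU34
import Cfsg.Agent.H7.U34Mod5
import Cfsg.Agent.H7.AffNorm

set_option autoImplicit false
open Cfsg

namespace Cfsg.Agent.S3663

open CfsgH7 CfsgH7.U34

/-- The module. -/
abbrev V : Type := Matrix (Fin 12) (Fin 12) (ZMod 5)

theorem five_smul (v : V) : 5 • v = 0 := by
  ext i j
  exact (by decide : ∀ a : ZMod 5, 5 • a = 0) _

theorem aff_orders (x : Aff H V) :
    orderOf x ∣ 20 ∨ orderOf x ∣ 50 ∨ orderOf x ∣ 13 ∨ orderOf x ∣ 75 := by
  simp only [orderOf_dvd_iff_pow_eq_one]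
  rcases cases_H x.right x.right.2 with h | h | h | h
  · exact Or.inl (aff_pow_mul_eq_one x 4 5 (Subtype.ext h) (five_smul _))
  · exact Or.inr (Or.inl (aff_pow_mul_eq_one x 10 5 (Subtype.ext h) (five_smul _)))
  · exact Or.inr (Or.inr (Or.inr (aff_pow_mul_eq_one x 15 5 (Subtype.ext h) (five_smul _))))
  · refine Or.inr (Or.inr (Or.inl (aff_pow_eq_one_of_norm x 13 (Subtype.ext (Units.ext (by
      simpa using pow_eq_one_of_geom_sum _ _ h))) ?_)))
    have : ∑ i ∈ Finset.range 13, x.right ^ i • x.left.toAdd =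
        (∑ i ∈ Finset.range 13, ((x.right : GL (Fin 12) (ZMod 5)) : V) ^ i) * x.left.toAdd := by
      rw [Finset.sum_mul]
      refine Finset.sum_congr rfl fun i _ => ?_
      rw [← Units.val_pow_eq_pow_val]
      rfl
    rw [this, h, zero_mul]


/-- The prime graph of a finite group has the prime divisors of its order as vertices, two distinct primes p, q being joined when the group has an element of order pq; two groups have the same prime graph when they have the same prime divisors and the same joined pairs. Let F be the field with 16 elements and L = PSU(3,4) realised over F. There are finite groups of arbitrarily large order with the same prime graph as L. -/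
theorem result {F : Type*} [Field F] [Fintype F] (hF : Fintype.card F = 16) (N : ℕ) :
    ∃ (H : Type) (_ : Group H) (_ : Finite H), N < Nat.card H ∧
      ((∀ p : ℕ, p.Prime → (p ∣ Nat.card (Cfsg.PSU 3 F 4) ↔ p ∣ Nat.card H)) ∧
      (∀ p q : ℕ, p.Prime → q.Prime → p ≠ q → ((∃ g : (Cfsg.PSU 3 F 4), orderOf g = p * q) ↔ (∃ g : H, orderOf g = p * q)))) := by
  have : Fact (1 < 5) := ⟨by norm_num⟩
  have : Nontrivial V := inferInstanceAs (Nontrivial (Fin 12 → Fin 12 → ZMod 5))
  obtain ⟨G, _, _, hN, hspec⟩ := exists_large_isospectral_aff (H := H) (V := V) N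
  have hr : ∀ n, (∃ g : H, orderOf g = n) → ∃ x : Aff H V, orderOf x = n := by
    rintro n ⟨g, rfl⟩
    exact exists_aff_orderOf_right g
  obtain ⟨a1, a2⟩ := primeGraph_u34 aff_orders (hr _ exists_order_10) (hr _ exists_order_13)
    (hr _ exists_order_15)
  obtain ⟨h1, h10, h13, h15⟩ := psu3_four_orders hF
  obtain ⟨b1, b2⟩ := primeGraph_u34 (G := Cfsg.PSU 3 F 4) (fun g => by
    rcases h1 g with h | h | h | h
    · exact Or.inl ((orderOf_dvd_of_pow_eq_one h).trans (by norm_num))
    · exact Or.inr (Or.inl ((orderOf_dvd_of_pow_eq_one h).trans (by norm_num)))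
    · exact Or.inr (Or.inr (Or.inl (orderOf_dvd_of_pow_eq_one h)))
    · exact Or.inr (Or.inr (Or.inr ((orderOf_dvd_of_pow_eq_one h).trans (by norm_num))))) h10 h13 h15
  refine ⟨G, inferInstance, inferInstance, by rwa [Nat.card_eq_fintype_card], fun p hp => ?_,
    fun p q hp hq hpq => ?_⟩
  · rw [prime_dvd_card_iff_mem_spec hp, prime_dvd_card_iff_mem_spec hp, hspec, a1 p hp, b1 p hp]
  · change p * q ∈ Set.range (orderOf : Cfsg.PSU 3 F 4 → ℕ) ↔ p * q ∈ Set.range (orderOf : G → ℕ)
    rw [hspec, a2 p q hp hq hpq, b2 p q hp hq hpq]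

end Cfsg.Agent.S3663
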