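import Cfsg.Statements.S3670
import Cfsg.Agent.H9.U33Link
import Cfsg.Agent.H9.Sol6048

set_option autoImplicit false
open Cfsg

namespace Cfsg.Agent.S3670

theorem transfer {G K : Type*} [Group G] [Group K] (e : Nonempty (G ≃* K))
    (h : Nat.card K = 6048 ∧ Subgroup.center K = ⊥ ∧ 6 ∈ charDegrees K ∧ 14 ∈ charDegrees K ∧
      21 ∈ charDegrees K) :
    Nat.card (G ⧸ Subgroup.center G) = 6048 ∧ True ∧ 6 ∈ charDegrees (G ⧸ Subgroup.center G) ∧
      14 ∈ charDegrees (G ⧸ Subgroup.center G) ∧ 21 ∈ charDegrees (G ⧸ Subgroup.center G) := by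
  obtain ⟨e⟩ := e
  obtain ⟨h1, h2, h3⟩ := h
  have : Finite K := Nat.finite_of_card_ne_zero (by rw [h1]; norm_num)
  have hc : Subgroup.center G = ⊥ := by
    rw [eq_bot_iff]
    intro g hg
    have : e g ∈ Subgroup.center K := by
      rw [Subgroup.mem_center_iff]
      intro x
      obtain ⟨y, rfl⟩ := e.surjective x
      rw [← map_mul, ← map_mul, Subgroup.mem_center_iff.1 hg]
    rw [h2, Subgroup.mem_bot] at this
    exact e.injective (this.trans (map_one e).symm)
  let e' : K ≃* G ⧸ Subgroup.center G :=
    e.symm.trans ((QuotientGroup.quotientMulEquivOfEq hc).trans QuotientGroup.quotientBot).symm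
  rw [← CfsgH9.charDegrees_congr e', ← Nat.card_congr e'.toEquiv]
  exact ⟨h1, trivial, h3⟩

/-- The character degree graph of a finite group has as vertices the primes dividing some irreducible complex character degree, two distinct primes being joined when their product divides some irreducible character degree; two groups have the same character degree graph when they have the same vertices and the same joined pairs. Let F be the field with 9 elements and L = PSU(3,3) realised over F (order 6048). There is a finite solvable group of order 6048 with the same character degree graph as L; so L is not determined by its order together with its character degree graph. -/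
theorem result {F : Type*} [Field F] [Fintype F] (hF : Fintype.card F = 9) :
    ∃ (H : Type) (_ : Group H) (_ : Fintype H), Group.IsSolvable H ∧ Nat.card H = 6048 ∧ Cfsg.degreePrimes H = Cfsg.degreePrimes (Cfsg.PSU 3 F 3) ∧ Cfsg.degreeGraph H = Cfsg.degreeGraph (Cfsg.PSU 3 F 3) := by
  obtain ⟨H, _, _, h1, h2, h3⟩ := CfsgH9.Sol6048.exists_group
  obtain ⟨c1, c2, c3, c4, c5⟩ := transfer (CfsgH9.U33.nonempty_equiv hF) CfsgH9.U33.facts
  have : Finite (Cfsg.PSU 3 F 3) := Nat.finite_of_card_ne_zero (by rw [c1]; norm_num)
  exact ⟨H, inferInstance, inferInstance, h1, h2, CfsgH9.degreeGraph_eq_237 h2 c1 h3 h3 h3 c3 c4 c5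
    (by norm_num) (by norm_num)⟩

end Cfsg.Agent.S3670
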