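import Cfsg.Statements.S3678
import Cfsg.Agent.H7.ASL2

set_option autoImplicit false
open Cfsg

namespace Cfsg.Agent.S3678

/-- The prime graph of a finite group has the prime divisors of its order as vertices, two distinct primes p, q being joined when the group has an element of order pq; two groups have the same prime graph when they have the same prime divisors and the same joined pairs. Let F be the field with 7 elements. There are finite groups of arbitrarily large order with the same prime graph as PSL(2,F) (the graph on {2, 3, 7} with no edges, which is also the prime graph of PSL(2,8)). -/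
theorem result {F : Type*} [Field F] [Fintype F] (hF : Fintype.card F = 7) (N : ℕ) :
    ∃ (H : Type) (_ : Group H) (_ : Finite H), N < Nat.card H ∧
      ((∀ p : ℕ, p.Prime → (p ∣ Nat.card (Matrix.ProjectiveSpecialLinearGroup (Fin 2) F) ↔ p ∣ Nat.card H)) ∧
      (∀ p q : ℕ, p.Prime → q.Prime → p ≠ q → ((∃ g : (Matrix.ProjectiveSpecialLinearGroup (Fin 2) F), orderOf g = p * q) ↔ (∃ g : H, orderOf g = p * q)))) := by
  have : Fact (Nat.Prime 2) := ⟨Nat.prime_two⟩
  have : Fact (Nat.Prime 7) := ⟨by norm_num⟩
  have : CharP F 7 := charP_of_card_eq_prime hF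
  letI : Fintype (GaloisField 2 3) := Fintype.ofFinite _
  have h8 : Fintype.card (GaloisField 2 3) = 8 := by
    rw [← Nat.card_eq_fintype_card, GaloisField.card 2 3 (by norm_num)]; norm_num
  obtain ⟨G, _, _, hN, hspec⟩ := CfsgH7.exists_large_spec_psl2_char_two (GaloisField 2 3) N
  refine ⟨G, inferInstance, inferInstance, by rwa [Nat.card_eq_fintype_card], ?_, ?_⟩
  · intro p hp
    rw [CfsgH7.prime_dvd_card_iff_mem_spec hp, CfsgH7.prime_dvd_card_iff_mem_spec hp, hspec,
      CfsgH7.spec_psl2 7, hF, h8]
    simp only [Set.mem_ofPred_eq]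
    norm_num
    have : p ∣ 3 ↔ p ∣ 9 := ⟨fun h => h.trans (by norm_num), fun h =>
      hp.dvd_of_dvd_pow (n := 2) (by simpa using h)⟩
    rw [this]
    tauto
  · intro p q hp hq hpq
    change p * q ∈ Set.range (orderOf : _ → ℕ) ↔ p * q ∈ Set.range (orderOf : G → ℕ)
    rw [hspec, CfsgH7.spec_psl2 7, hF, h8]
    simp only [Set.mem_ofPred_eq]
    norm_num
    have key : ∀ r : ℕ, r.Prime → ¬ p * q ∣ r ^ 2 := by
      intro r hr h
      have h1 : p ∣ r := hp.dvd_of_dvd_pow ((Dvd.intro _ rfl).trans h)
      have h2 : q ∣ r := hq.dvd_of_dvd_pow ((Dvd.intro_left _ rfl).trans h)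
      exact hpq (((Nat.prime_dvd_prime_iff_eq hp hr).1 h1).trans
        ((Nat.prime_dvd_prime_iff_eq hq hr).1 h2).symm)
    have h4 : ¬ p * q ∣ 4 := key 2 Nat.prime_two
    have h9 : ¬ p * q ∣ 9 := key 3 Nat.prime_three
    have h3 : ¬ p * q ∣ 3 := fun h => h9 (h.trans (by norm_num))
    have h7 : ¬ p * q ∣ 7 := fun h => key 7 (by norm_num) (h.trans (by norm_num))
    simp [h4, h9, h3, h7]

end Cfsg.Agent.S3678
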