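import Cfsg.Statements.S3680
import Cfsg.Agent.H4.ElemAb

set_option autoImplicit false
open Cfsg

namespace Cfsg.Agent.S3680

/-- The socle of a finite primitive permutation group. Let a finite group G act faithfully and primitively on a set Ω, and let N be the subgroup generated by the minimal normal subgroups of G. Then either N is an elementary abelian p-group for some prime p and acts regularly on Ω (transitively with trivial point stabilizers), or N is isomorphic to a direct product of m ≥ 1 copies of a non-abelian simple group. -/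
theorem result {G Ω : Type*} [Group G] [Finite G] [MulAction G Ω] [FaithfulSMul G Ω] [Finite Ω]
    (hprim : MulAction.IsPreprimitive G Ω) (N : Subgroup G)
    (hN : N = sSup {V : Subgroup G | V.Normal ∧ V ≠ ⊥ ∧ ∀ M : Subgroup G, M.Normal → M ≤ V → M = ⊥ ∨ M = V}) :
    (∃ p : ℕ, p.Prime ∧ IsMulCommutative N ∧ (∀ x : N, x ^ p = 1) ∧
      MulAction.IsPretransitive N Ω ∧ ∀ ω : Ω, MulAction.stabilizer N ω = ⊥) ∨
    (∃ (T : Type) (_ : Group T) (m : ℕ), 1 ≤ m ∧ IsSimpleGroup T ∧ ¬ IsMulCommutative T ∧ Nonempty (N ≃* (Fin m → T))) := by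
  open MulAction CfsgH4 in
  have hN' : N = sSup {V : Subgroup G | IsMinNormal V} := hN
  by_cases hG : (⊤ : Subgroup G) = ⊥
  · left
    have hNb : N = ⊥ := le_bot_iff.1 (hG ▸ le_top)
    have hNt : N = ⊤ := hNb.trans hG.symm
    have hs : ∀ x : N, x = 1 := fun x => Subtype.ext (by
      have := x.2
      rw [Subgroup.coe_one, ← Subgroup.mem_bot, ← hNb]; exact this)
    refine ⟨2, Nat.prime_two, ⟨⟨fun x y => by rw [hs x, hs y]⟩⟩, fun x => hs _, ?_, fun ω => ?_⟩
    · apply isPretransitive_of_forall_exists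
      intro a b
      obtain ⟨g, hg⟩ := hprim.exists_smul_eq a b
      exact ⟨g, hNt ▸ Subgroup.mem_top g, hg⟩
    · rw [eq_bot_iff]
      intro x _
      exact hs x
  obtain ⟨V, hV, -⟩ := exists_isMinNormal_le (⊤ : Subgroup G) inferInstance hG
  have : Nonempty Ω := by
    by_contra h
    rw [not_nonempty_iff] at h
    exact hG (eq_bot_of_forall_smul_eq (Ω := Ω) _ (fun _ _ x => h.elim x))
  have hVn := hV.1
  have hVt := normal_isPretransitive hprim V hV.2.1
  have hVN : V ≤ N := hN' ▸ le_sSup hV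
  by_cases hc : ∀ x ∈ V, ∀ y ∈ V, x * y = y * x
  · left
    have hNV : N = V := by
      apply le_antisymm _ hVN
      rw [hN']
      apply sSup_le
      intro W hW
      by_cases h : V = W
      · exact h.ge
      · intro x hx
        exact centralizer_le_of_comm_transitive (Ω := Ω) V hc
          (fun n hn => hV.commute_of_ne hW h hn hx)
    subst hNV
    obtain ⟨p, hp, hpV⟩ := hV.exists_prime_pow_eq_one hc
    refine ⟨p, hp, ⟨⟨fun x y => Subtype.ext (hc x x.2 y y.2)⟩⟩, fun x => Subtype.ext (hpV x x.2),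
      hVt, fun ω => ?_⟩
    rw [eq_bot_iff]
    intro x hx
    exact Subtype.ext (eq_one_of_centralizes_transitive (Ω := Ω) N
      (fun n hn => hc n hn x x.2) hx)
  right
  obtain ⟨T, -, hTs, hTc, m, hm, ⟨e⟩⟩ := hV.exists_pi_simple hc
  suffices h : ∃ k : ℕ, 1 ≤ k ∧ Nonempty (N ≃* (Fin k → T)) by
    obtain ⟨k, hk, ⟨e'⟩⟩ := h
    let f : Shrink.{0} T ≃* T := Shrink.mulEquiv
    refine ⟨Shrink.{0} T, inferInstance, k, hk, f.isSimpleGroup, fun h => hTc ⟨⟨fun x y => ?_⟩⟩,
      ⟨e'.trans (MulEquiv.arrowCongr (Equiv.refl _) f.symm)⟩⟩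
    apply f.symm.injective
    rw [map_mul, map_mul, mul_comm']
  let C := Subgroup.centralizer (V : Set G)
  have hNle : ∀ W, IsMinNormal W → W ≠ V → W ≤ C := by
    intro W hW h x hx
    exact Subgroup.mem_centralizer_iff.2 (fun n hn => hV.commute_of_ne hW h.symm hn hx)
  by_cases hex : ∃ W, IsMinNormal W ∧ W ≠ V
  · obtain ⟨W, hW, hWV⟩ := hex
    have hWn := hW.1
    have hWt := normal_isPretransitive hprim W hW.2.1
    have hCW : C ≤ W := by
      intro c hc
      obtain ⟨a⟩ := ‹Nonempty Ω›
      obtain ⟨w, hw, hwa⟩ := exists_mem_smul_eq W a (c • a)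
      have : w⁻¹ * c = 1 := by
        apply eq_one_of_centralizes_transitive (Ω := Ω) V (a := a)
        · exact Subgroup.mem_centralizer_iff.1 (C.mul_mem (C.inv_mem (hNle W hW hWV hw)) hc)
        · rw [mul_smul, ← hwa, inv_smul_smul]
      rw [inv_mul_eq_one] at this
      exact this ▸ hw
    have hNVW : N = V ⊔ W := by
      apply le_antisymm
      · rw [hN']
        apply sSup_le
        intro X hX
        by_cases h : X = V
        · rw [h]; exact le_sup_left
        · exact ((hNle X hX h).trans hCW).trans le_sup_right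
      · exact sup_le hVN (hN' ▸ le_sSup hW)
    have hcomm : ∀ v ∈ V, ∀ w ∈ W, v * w = w * v :=
      fun v hv w hw => hV.commute_of_ne hW hWV.symm hv hw
    obtain ⟨e1⟩ := nonempty_sup_mulEquiv_prod V W (hV.disjoint_of_ne hW hWV.symm) hcomm
    obtain ⟨e2⟩ := nonempty_mulEquiv_of_commuting_transitive (Ω := Ω) V W hcomm
    exact ⟨m + m, by omega, ⟨((MulEquiv.subgroupCongr hNVW).trans e1).trans
      ((e.prodCongr (e2.symm.trans e)).trans (piFinAddEquiv T m m))⟩⟩
  · push Not at hex
    have hNV : N = V := by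
      apply le_antisymm _ hVN
      rw [hN']
      exact sSup_le (fun W hW => (hex W hW).le)
    exact ⟨m, hm, ⟨(MulEquiv.subgroupCongr hNV).trans e⟩⟩

end Cfsg.Agent.S3680
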