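import Cfsg.Statements.S3681
import Cfsg.Agent.H4.Jordan

set_option autoImplicit false
open Cfsg

namespace Cfsg.Agent.S3681

/-- Bochert's bound for primitive groups. Let a finite group G act faithfully and primitively on a finite set Ω with n elements, and suppose the image of G in the symmetric group of Ω does not contain the alternating group of Ω. Then |G| · ⌊(n + 1)/2⌋! ≤ n!, that is, the index of G in the symmetric group is at least ⌊(n + 1)/2⌋!. -/
theorem result {G Ω : Type*} [Group G] [Finite G] [MulAction G Ω] [FaithfulSMul G Ω] [Fintype Ω] [DecidableEq Ω]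
    (hprim : MulAction.IsPreprimitive G Ω) (hA : ¬ alternatingGroup Ω ≤ (MulAction.toPermHom G Ω).range) :
    Nat.card G * Nat.factorial ((Fintype.card Ω + 1) / 2) ≤ Nat.factorial (Fintype.card Ω) := by
  classical
  open Finset MulAction in
  -- a base of minimal size
  obtain ⟨B, hB, hmin⟩ := exists_min_image
    (univ.filter (fun B : Finset Ω => ∀ g : G, (∀ z ∈ B, g • z = z) → g = 1)) card
    ⟨univ, by
      simp only [mem_filter, mem_univ, true_and, forall_true_left]
      exact fun g hg => CfsgH4.eq_one_of_forall_smul_eq g hg⟩
  simp only [mem_filter, mem_univ, true_and] at hB hmin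
  have hb : 2 * B.card ≤ Fintype.card Ω := by
    by_contra hcon
    have h1 : ¬ ∀ g : G, (∀ z ∈ Bᶜ, g • z = z) → g = 1 := by
      intro h
      have := hmin _ h
      rw [card_compl] at this
      omega
    push Not at h1
    obtain ⟨u, hu, hu1⟩ := h1
    obtain ⟨x, hx⟩ : ∃ x : Ω, u • x ≠ x := by
      by_contra h
      push Not at h
      exact hu1 (CfsgH4.eq_one_of_forall_smul_eq u h)
    have hxB : x ∈ B := by
      by_contra h
      exact hx (hu x (mem_compl.2 h))
    have h2 : ¬ ∀ g : G, (∀ z ∈ B.erase x, g • z = z) → g = 1 := by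
      intro h
      have := hmin _ h
      rw [card_erase_of_mem hxB] at this
      have := card_pos.2 ⟨x, hxB⟩
      omega
    push Not at h2
    obtain ⟨v, hv, hv1⟩ := h2
    have hvx : v • x ≠ x := by
      intro h
      apply hv1
      apply hB
      intro z hz
      by_cases hzx : z = x
      · rw [hzx, h]
      · exact hv z (mem_erase.2 ⟨hzx, hz⟩)
    apply hA
    apply CfsgH4.alternatingGroup_le_of_support_inter hprim u v x hx hvx
    intro y hy
    by_cases hyB : y ∈ B
    · exact Or.inr (hv y (mem_erase.2 ⟨hy, hyB⟩))
    · exact Or.inl (hu y (mem_compl.2 hyB))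
  have hle : Nat.card G ≤ (Fintype.card Ω).descFactorial B.card := by
    let φ : G → (B ↪ Ω) := fun g => ⟨fun z => g • (z : Ω), fun a b h =>
      Subtype.ext (MulAction.injective g h)⟩
    have hφ : Function.Injective φ := by
      intro g h hgh
      have : h⁻¹ * g = 1 := by
        apply hB
        intro z hz
        have := congrArg (fun e : B ↪ Ω => e ⟨z, hz⟩) hgh
        rw [mul_smul, inv_smul_eq_iff]
        exact this
      exact (inv_mul_eq_one.1 this).symm
    have := Nat.card_le_card_of_injective φ hφ
    rwa [Nat.card_eq_fintype_card (α := B ↪ Ω), Fintype.card_embedding_eq, Fintype.card_coe] at this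
  have h3 := Nat.factorial_mul_descFactorial (n := Fintype.card Ω) (k := B.card) (by omega)
  rw [← h3, mul_comm]
  exact Nat.mul_le_mul (Nat.factorial_le (by omega)) hle

end Cfsg.Agent.S3681
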