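import Cfsg.Statements.S3682
import Cfsg.Agent.H5.TW

set_option autoImplicit false
open Cfsg

namespace Cfsg.Agent.S3682

/-- Wielandt's bound toward the Sims conjecture. Let a finite group G act faithfully and primitively on a set Ω, let a and b be points, and suppose the orbit of b under the stabilizer of a has length d ≥ 2. Then there are a prime p and a normal p-subgroup P of the stabilizer of a, all of whose elements fix b, such that the index of P in the stabilizer of a divides d! · ((d - 1)!)^d. -/
theorem result {G Ω : Type*} [Group G] [Finite G] [MulAction G Ω] [FaithfulSMul G Ω] [Finite Ω]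
    (hprim : MulAction.IsPreprimitive G Ω) (a b : Ω) (d : ℕ) (hd : Nat.card (MulAction.orbit (MulAction.stabilizer G a) b) = d) (h2 : 2 ≤ d) :
    ∃ p : ℕ, p.Prime ∧ ∃ P : Subgroup (MulAction.stabilizer G a), P.Normal ∧ IsPGroup p P ∧ (∀ g : P, ((g : MulAction.stabilizer G a) : G) • b = b) ∧
      P.index ∣ Nat.factorial d * (Nat.factorial (d - 1)) ^ d := by
  have hd' := (CfsgH5.relIndex_stabilizer (G := G) a b).trans hd
  have hne := CfsgH5.stabilizer_ne_of_two_le (G := G) (a := a) (b := b) (hd ▸ h2)
  have : Nontrivial Ω := ⟨a, b, fun e => hne (e ▸ rfl)⟩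
  have h1 := CfsgH5.primSub_stabilizer hprim a
  have h2 := CfsgH5.primSub_stabilizer hprim b
  have hc := CfsgH4.card_stabilizer_eq (G := G) a b
  obtain ⟨p, hp, hP⟩ := CfsgH5.exists_relIndex_Op_dvd h1 h2 hne hd' hc
  have := Fact.mk hp
  refine ⟨p, hp, (CfsgH5.Op p (CfsgH5.Kc (MulAction.stabilizer G a)
    (MulAction.stabilizer G b))).subgroupOf _, ?_, ?_, ?_, hP⟩
  · exact ((CfsgH5.nrm_Kc _ _).Op p).normal_subgroupOf
  · exact (CfsgH5.isPGroup_Op p _).comap_subtype
  · intro g
    exact CfsgH5.Kc_le_right _ _ (CfsgH5.Op_le p _ g.2)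

end Cfsg.Agent.S3682
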