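import Cfsg.Statements.S3684
import Cfsg.Agent.H4.Prim
import Cfsg.Agent.H4.Dihedral

set_option autoImplicit false
open Cfsg

namespace Cfsg.Agent.S3684

/-- Let a finite group G act faithfully and primitively on a set Ω, and suppose the stabilizer of a point a has an orbit of length 2. Then the stabilizer of a has order 2 and G is isomorphic to the dihedral group of order 2p for some prime p. -/
theorem result {G Ω : Type*} [Group G] [Finite G] [MulAction G Ω] [FaithfulSMul G Ω] [Finite Ω]
    (hprim : MulAction.IsPreprimitive G Ω) (a b : Ω) (h2 : Nat.card (MulAction.orbit (MulAction.stabilizer G a) b) = 2) :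
    Nat.card (MulAction.stabilizer G a) = 2 ∧ ∃ p : ℕ, p.Prime ∧ Nonempty (G ≃* DihedralGroup p) := by
  classical
  open MulAction CfsgH4 in
  have hab : a ≠ b := by
    rintro rfl
    have : orbit (stabilizer G a) a = {a} := by
      ext x
      constructor
      · rintro ⟨g, rfl⟩; exact g.2
      · rintro rfl; exact mem_orbit_self _
    rw [this] at h2
    simp at h2
  let U : Subgroup G := stabilizer G a ⊓ stabilizer G b
  have hidx : (U.subgroupOf (stabilizer G a)).index = 2 := by
    have h1 : U.subgroupOf (stabilizer G a) = stabilizer (stabilizer G a) b := by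
      ext g
      simp only [U, Subgroup.mem_subgroupOf, Subgroup.mem_inf, mem_stabilizer_iff]
      exact ⟨fun h => h.2, fun h => ⟨g.2, h⟩⟩
    rw [h1, index_stabilizer, ← Nat.card_coe_set_eq]
    exact h2
  have hcardU : ∀ x : Ω, U ≤ stabilizer G x →
      (U.subgroupOf (stabilizer G x)).index * Nat.card U = Nat.card (stabilizer G x) := by
    intro x hx
    rw [← (U.subgroupOf (stabilizer G x)).index_mul_card,
      Nat.card_congr (Subgroup.subgroupOfEquivOfLe hx).toEquiv]
  have hidx' : (U.subgroupOf (stabilizer G b)).index = 2 := by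
    have h1 := hcardU a inf_le_left
    have h2 := hcardU b inf_le_right
    rw [hidx, card_stabilizer_eq a b, ← h2] at h1
    exact (Nat.eq_of_mul_eq_mul_right Nat.card_pos h1).symm
  have hna : stabilizer G a ≠ ⊥ := by
    intro h
    have h1 := hcardU a inf_le_left
    rw [hidx, h, Subgroup.card_bot] at h1
    omega
  have hsup := sup_stabilizer_eq_top hprim hab hna
  have hUn : U.Normal := by
    rw [← Subgroup.normalizer_eq_top_iff, eq_top_iff, ← hsup]
    apply sup_le
    · have := Subgroup.normal_of_index_eq_two hidx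
      exact Subgroup.le_normalizer_of_normal_subgroupOf inf_le_left
    · have := Subgroup.normal_of_index_eq_two hidx'
      exact Subgroup.le_normalizer_of_normal_subgroupOf inf_le_right
  have hU : U = ⊥ := normal_eq_bot_of_le_stabilizer (Ω := Ω) U inf_le_left
  have hca : Nat.card (stabilizer G a) = 2 := by
    have h1 := hcardU a inf_le_left
    rw [hidx, hU, Subgroup.card_bot] at h1
    omega
  have hcb : Nat.card (stabilizer G b) = 2 := by rw [← card_stabilizer_eq a b, hca]
  refine ⟨hca, ?_⟩
  have hinv : ∀ H : Subgroup G, Nat.card H = 2 →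
      ∃ s ∈ H, s ≠ 1 ∧ s * s = 1 ∧ ∀ x ∈ H, x = 1 ∨ x = s := by
    intro H hH
    obtain ⟨s, hs1, hs⟩ := (Nat.card_eq_two_iff' (1 : H)).1 hH
    have hx : ∀ x ∈ H, x = 1 ∨ x = s := by
      intro x hx
      by_cases h : (⟨x, hx⟩ : H) = 1
      · exact Or.inl (congrArg Subtype.val h)
      · exact Or.inr (congrArg Subtype.val (hs ⟨x, hx⟩ h))
    refine ⟨s, s.2, fun h => hs1 (Subtype.ext h), ?_, hx⟩
    rcases hx (s * s) (H.mul_mem s.2 s.2) with h | h
    · exact h
    · exact absurd (Subtype.ext (mul_eq_left.1 h)) hs1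
  obtain ⟨s, hsa, hs1, hss, hs⟩ := hinv _ hca
  obtain ⟨t, htb, ht1, htt, ht⟩ := hinv _ hcb
  have hsi : s⁻¹ = s := inv_eq_of_mul_eq_one_right hss
  have hti : t⁻¹ = t := inv_eq_of_mul_eq_one_right htt
  have hst : s * t ≠ 1 := by
    intro h
    have : t = s := by rw [← hsi]; exact (eq_inv_of_mul_eq_one_right h)
    have hmem : s ∈ U := ⟨hsa, this ▸ htb⟩
    rw [hU] at hmem
    exact hs1 hmem
  set c := s * t with hc
  have hsc : s * c * s = c⁻¹ := by
    rw [hc, mul_inv_rev, hsi, hti, ← mul_assoc, hss, one_mul]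
  have htc : t * c * t = c⁻¹ := by
    rw [hc, mul_inv_rev, hsi, hti, mul_assoc, mul_assoc, htt, mul_one]
  have hnorm : ∀ d : ℕ, (Subgroup.zpowers (c ^ d)).Normal := by
    intro d
    have key : ∀ x : G, x * x = 1 → x * c * x = c⁻¹ →
        x ∈ Subgroup.normalizer ((Subgroup.zpowers (c ^ d) : Subgroup G) : Set G) := by
      intro x hxx hxc
      have hxi : x⁻¹ = x := inv_eq_of_mul_eq_one_right hxx
      have h1 : ∀ h ∈ Subgroup.zpowers (c ^ d), x * h * x⁻¹ ∈ Subgroup.zpowers (c ^ d) := by
        rintro _ ⟨k, rfl⟩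
        refine ⟨-k, ?_⟩
        simp only
        rw [← conj_zpow, ← conj_pow, hxi, hxc, inv_pow, inv_zpow, zpow_neg]
      rw [Subgroup.mem_normalizer_iff]
      intro h
      refine ⟨h1 h, fun hh => ?_⟩
      have := h1 _ hh
      rwa [hxi, ← mul_assoc, ← mul_assoc, hxx, one_mul, mul_assoc, hxx, mul_one] at this
    rw [← Subgroup.normalizer_eq_top_iff, eq_top_iff, ← hsup]
    apply sup_le
    · intro x hx
      rcases hs x hx with rfl | rfl
      · exact Subgroup.one_mem _
      · exact key _ hss hsc
    · intro x hx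
      rcases ht x hx with rfl | rfl
      · exact Subgroup.one_mem _
      · exact key _ htt htc
  have : Nonempty Ω := ⟨a⟩
  have hcomm : ∀ y : G, ∀ u ∈ Subgroup.zpowers y, ∀ v ∈ Subgroup.zpowers y, u * v = v * u := by
    rintro y _ ⟨i, rfl⟩ _ ⟨j, rfl⟩
    exact zpow_mul_comm y i j
  have hcard : ∀ d : ℕ, c ^ d ≠ 1 → orderOf (c ^ d) = Nat.card Ω := by
    intro d hd
    have := hnorm d
    have := normal_isPretransitive hprim (Subgroup.zpowers (c ^ d))
      (fun h => hd (Subgroup.zpowers_eq_bot.1 h))
    rw [← Nat.card_zpowers]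
    exact card_eq_of_comm_transitive _ (hcomm _)
  have hoc : orderOf c = Nat.card Ω := by simpa using hcard 1 (by simpa using hst)
  have hprime : (orderOf c).Prime := by
    have h1 : orderOf c ≠ 1 := fun h => hst (orderOf_eq_one_iff.1 h)
    obtain ⟨p, hp, hpd⟩ := Nat.exists_prime_and_dvd h1
    have ho : orderOf (c ^ (orderOf c / p)) = p := orderOf_pow_orderOf_div (orderOf_pos c).ne' hpd
    have := hcard (orderOf c / p) (by
      intro h
      rw [h, orderOf_one] at ho
      exact hp.one_lt.ne ho)
    rw [hoc, ← this, ho]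
    exact hp
  refine ⟨orderOf c, hprime, nonempty_mulEquiv_dihedral c s hss hsc ?_ ?_⟩
  · intro hsz
    have := hnorm 1
    rw [pow_one] at this
    have := normal_isPretransitive hprim (Subgroup.zpowers c)
      (fun h => hst (Subgroup.zpowers_eq_bot.1 h))
    exact hs1 (eq_one_of_centralizes_transitive (Ω := Ω) (Subgroup.zpowers c)
      (fun n hn => hcomm c n hn s hsz) hsa)
  · rw [eq_top_iff, ← hsup]
    have h1 : s ∈ Subgroup.closure ({c, s} : Set G) := Subgroup.subset_closure (by simp)
    have h2 : c ∈ Subgroup.closure ({c, s} : Set G) := Subgroup.subset_closure (by simp)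
    apply sup_le
    · intro x hx
      rcases hs x hx with rfl | rfl
      · exact Subgroup.one_mem _
      · exact h1
    · intro x hx
      rcases ht x hx with rfl | rfl
      · exact Subgroup.one_mem _
      · have : x = s * c := by rw [hc, ← mul_assoc, hss, one_mul]
        rw [this]
        exact Subgroup.mul_mem _ h1 h2

end Cfsg.Agent.S3684
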