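import Cfsg.Statements.S3687
import Cfsg.Agent.H5.AltSub

set_option autoImplicit false
open Cfsg

namespace Cfsg.Agent.S3687

open MulAction in
theorem exists_rho {G Ω : Type*} [Group G] [MulAction G Ω] [Finite Ω] (a b : Ω) {n : ℕ}
    (hd : Nat.card (orbit (stabilizer G a) b) = n + 1) :
    ∃ ρ : stabilizer G a →* Equiv.Perm (Fin (n + 1)),
      (∀ x, ρ x = 1 ↔ (x : G) ∈ CfsgH5.Kc (stabilizer G a) (stabilizer G b)) ∧
      (∀ x, ρ x 0 = 0 ↔ (x : G) ∈ stabilizer G b) ∧
      ρ.range.index = (toPermHom (stabilizer G a) (orbit (stabilizer G a) b)).range.index := by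
  let e₀ := Finite.equivFinOfCardEq hd
  let b₀ : orbit (stabilizer G a) b := ⟨b, mem_orbit_self b⟩
  let e := e₀.trans (Equiv.swap (e₀ b₀) 0)
  have he : e b₀ = 0 := by simp [e]
  refine ⟨e.permCongrHom.toMonoidHom.comp (toPermHom _ _), fun x => ?_, fun x => ?_, ?_⟩
  · rw [CfsgH5.mem_Kc_iff_toPermHom]
    exact map_eq_one_iff _ e.permCongrHom.injective
  · rw [← he]
    change e (x • e.symm (e b₀)) = e b₀ ↔ _
    rw [e.symm_apply_apply, e.injective.eq_iff, Subtype.ext_iff]
    rfl
  · rw [MonoidHom.range_comp]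
    exact Subgroup.index_map_equiv _ e.permCongrHom


/-- Let a finite group G act faithfully and primitively on a set Ω, let a and b be points such that the orbit Δ of b under the stabilizer H of a has d ≥ 6 elements, and suppose that the permutation group induced by H on Δ contains the alternating group of Δ (the image of H in the symmetric group of Δ has index at most 2) while H does not act faithfully on Δ. Then either H induces exactly the alternating group of Δ and H is isomorphic to the direct product of the alternating groups of degrees d and d - 1; or H induces the full symmetric group of Δ and H is isomorphic to one of: the direct product of the symmetric groups of degrees d and d - 1, the direct product of the symmetric group of degree d with the alternating group of degree d - 1, or the subgroup of the direct product of the symmetric groups of degrees d and d - 1 consisting of the pairs of permutations with equal signs. -/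
theorem result {G Ω : Type*} [Group G] [Finite G] [MulAction G Ω] [FaithfulSMul G Ω] [Finite Ω]
    (hprim : MulAction.IsPreprimitive G Ω) (a b : Ω) (d : ℕ) (hd : Nat.card (MulAction.orbit (MulAction.stabilizer G a) b) = d) (h6 : 6 ≤ d)
    (halt : (MulAction.toPermHom (MulAction.stabilizer G a) (MulAction.orbit (MulAction.stabilizer G a) b)).range.index ≤ 2)
    (hunf : ¬ Function.Injective (MulAction.toPermHom (MulAction.stabilizer G a) (MulAction.orbit (MulAction.stabilizer G a) b))) :
    ((MulAction.toPermHom (MulAction.stabilizer G a) (MulAction.orbit (MulAction.stabilizer G a) b)).range.index = 2 ∧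
      Nonempty (MulAction.stabilizer G a ≃* alternatingGroup (Fin d) × alternatingGroup (Fin (d - 1)))) ∨
    ((MulAction.toPermHom (MulAction.stabilizer G a) (MulAction.orbit (MulAction.stabilizer G a) b)).range = ⊤ ∧
      (Nonempty (MulAction.stabilizer G a ≃* Equiv.Perm (Fin d) × Equiv.Perm (Fin (d - 1))) ∨
       Nonempty (MulAction.stabilizer G a ≃* Equiv.Perm (Fin d) × alternatingGroup (Fin (d - 1))) ∨
       Nonempty (MulAction.stabilizer G a ≃* ((Equiv.Perm.sign.comp (MonoidHom.fst (Equiv.Perm (Fin d)) (Equiv.Perm (Fin (d - 1))))) *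
         (Equiv.Perm.sign.comp (MonoidHom.snd (Equiv.Perm (Fin d)) (Equiv.Perm (Fin (d - 1)))))).ker))) := by
  classical
  obtain ⟨n, rfl⟩ : ∃ n, d = n + 1 := ⟨d - 1, by omega⟩
  have hd' := (CfsgH5.relIndex_stabilizer (G := G) a b).trans hd
  have hne := CfsgH5.stabilizer_ne_of_two_le (G := G) (a := a) (b := b) (by omega)
  have : Nontrivial Ω := ⟨a, b, fun e => hne (e ▸ rfl)⟩
  have h1 := CfsgH5.primSub_stabilizer hprim a
  have h2 := CfsgH5.primSub_stabilizer hprim b
  have hc := CfsgH4.card_stabilizer_eq (G := G) a b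
  have hd2 : Nat.card (MulAction.orbit (MulAction.stabilizer G b) a) = n + 1 := by
    rw [← CfsgH5.relIndex_stabilizer, CfsgH5.relIndex_symm_of_card_eq hc, hd']
  obtain ⟨ρ₁, hK1, h01, hi1⟩ := exists_rho a b hd
  obtain ⟨ρ₂, hK2, h02, -⟩ := exists_rho b a hd2
  obtain ⟨g, hg⟩ := MulAction.exists_smul_eq G a b
  have hA1 : alternatingGroup _ ≤ ρ₁.range :=
    Equiv.Perm.alternatingGroup_le_of_index_le_two (hi1 ▸ halt)
  have hK : CfsgH5.Kc (MulAction.stabilizer G a) (MulAction.stabilizer G b) ≠ ⊥ := by
    intro e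
    apply hunf
    rw [injective_iff_map_eq_one]
    intro x hx
    have := CfsgH5.mem_Kc_iff_toPermHom.mpr hx
    rw [e, Subgroup.mem_bot] at this
    exact Subtype.ext this
  obtain ⟨τ, hinj, hle, hτ⟩ := CfsgH5.exists_prod_embedding h1 h2 hne
    (g := g) (by rw [CfsgH5.cj_stabilizer, hg]) (n := n) (by omega) hd' ρ₁ ρ₂ hK1 hK2 h01 h02 hA1 hK
  set Φ := ρ₁.prod τ with hΦ
  have hiso := MonoidHom.ofInjective hinj
  have hmem : ∀ (x : MulAction.stabilizer G a) (u : Equiv.Perm (Fin (n + 1)))
      (v : Equiv.Perm (Fin n)), Equiv.Perm.sign u = Equiv.Perm.sign (ρ₁ x) →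
      Equiv.Perm.sign v = Equiv.Perm.sign (τ x) → (u, v) ∈ Φ.range := by
    intro x u v hu hv
    have h3 : (u * (ρ₁ x)⁻¹, v * (τ x)⁻¹) ∈ Φ.range := hle ⟨by
      change _ ∈ alternatingGroup _
      simp [hu], by
      change _ ∈ alternatingGroup _
      simp [hv]⟩
    have h4 := mul_mem h3 (⟨x, rfl⟩ : Φ x ∈ Φ.range)
    simpa [hΦ] using h4
  have : Nontrivial (Fin (n + 1)) := Fin.nontrivial_iff_two_le.mpr (by omega)
  rw [← hi1, ← Subgroup.index_eq_one, ← hi1]
  by_cases hr : ρ₁.range ≤ alternatingGroup _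
  · left
    have e : Φ.range = (alternatingGroup _).prod (alternatingGroup _) := by
      refine le_antisymm ?_ hle
      rintro _ ⟨x, rfl⟩
      exact ⟨hr ⟨x, rfl⟩, hτ hr ⟨x, rfl⟩⟩
    refine ⟨by rw [le_antisymm hr hA1]; exact alternatingGroup.index_eq_two, ⟨?_⟩⟩
    exact hiso.trans ((MulEquiv.subgroupCongr e).trans (Subgroup.prodEquiv _ _))
  right
  obtain ⟨x, hx⟩ : ∃ x, Equiv.Perm.sign (ρ₁ x) = -1 := by
    by_contra hcon
    push Not at hcon
    apply hr
    rintro _ ⟨x, rfl⟩
    exact (Int.units_eq_one_or _).resolve_right (hcon x)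
  have hone : ∀ (u : Equiv.Perm (Fin (n + 1))) (v : Equiv.Perm (Fin n)),
      Equiv.Perm.sign u = 1 → Equiv.Perm.sign v = 1 → (u, v) ∈ Φ.range :=
    fun u v hu hv => hle ⟨hu, hv⟩
  refine ⟨?_, ?_⟩
  · rw [Subgroup.index_eq_one, eq_top_iff]
    intro u _
    rcases Int.units_eq_one_or (Equiv.Perm.sign u) with hu | hu
    · exact hA1 hu
    · obtain ⟨y, hy⟩ := hmem x u (τ x) (hu.trans hx.symm) rfl
      exact ⟨y, congrArg Prod.fst hy⟩
  by_cases hy : ∃ y, Equiv.Perm.sign (ρ₁ y) = 1 ∧ Equiv.Perm.sign (τ y) = -1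
  · left
    obtain ⟨y, hy1, hy2⟩ := hy
    have e : Φ.range = ⊤ := by
      rw [eq_top_iff]
      rintro ⟨u, v⟩ -
      rcases Int.units_eq_one_or (Equiv.Perm.sign u) with hu | hu <;>
        rcases Int.units_eq_one_or (Equiv.Perm.sign v) with hv | hv
      · exact hone u v hu hv
      · exact hmem y u v (hu.trans hy1.symm) (hv.trans hy2.symm)
      · rcases Int.units_eq_one_or (Equiv.Perm.sign (τ x)) with h | h
        · exact hmem x u v (hu.trans hx.symm) (hv.trans h.symm)
        · exact hmem (x * y) u v (by simp [hu, hx, hy1]) (by simp [hv, h, hy2])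
      · rcases Int.units_eq_one_or (Equiv.Perm.sign (τ x)) with h | h
        · exact hmem (x * y) u v (by simp [hu, hx, hy1]) (by simp [hv, h, hy2])
        · exact hmem x u v (hu.trans hx.symm) (hv.trans h.symm)
    exact ⟨hiso.trans ((MulEquiv.subgroupCongr e).trans Subgroup.topEquiv)⟩
  right
  push Not at hy
  have hy' : ∀ y, Equiv.Perm.sign (ρ₁ y) = 1 → Equiv.Perm.sign (τ y) = 1 :=
    fun y h => (Int.units_eq_one_or _).resolve_right (hy y h)
  have hy'' : ∀ y, Equiv.Perm.sign (ρ₁ y) = -1 → Equiv.Perm.sign (τ y) = Equiv.Perm.sign (τ x) := by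
    intro y h
    have := hy' (y * x⁻¹) (by simp [h, hx])
    rw [map_mul, map_mul, map_inv, map_inv, mul_inv_eq_one] at this
    exact this
  rcases Int.units_eq_one_or (Equiv.Perm.sign (τ x)) with h | h
  · left
    have e : Φ.range = (⊤ : Subgroup _).prod (alternatingGroup _) := by
      apply le_antisymm
      · rintro _ ⟨y, rfl⟩
        refine ⟨trivial, ?_⟩
        rcases Int.units_eq_one_or (Equiv.Perm.sign (ρ₁ y)) with h' | h'
        · exact hy' y h'
        · exact (hy'' y h').trans h
      · rintro ⟨u, v⟩ ⟨-, hv⟩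
        rcases Int.units_eq_one_or (Equiv.Perm.sign u) with hu | hu
        · exact hone u v hu hv
        · exact hmem x u v (hu.trans hx.symm) (Eq.trans hv h.symm)
    exact ⟨hiso.trans ((MulEquiv.subgroupCongr e).trans ((Subgroup.prodEquiv _ _).trans
      (Subgroup.topEquiv.prodCongr (MulEquiv.refl _))))⟩
  · right
    refine ⟨hiso.trans (MulEquiv.subgroupCongr ?_)⟩
    apply le_antisymm
    · rintro _ ⟨y, rfl⟩
      change Equiv.Perm.sign (ρ₁ y) * Equiv.Perm.sign (τ y) = 1
      rcases Int.units_eq_one_or (Equiv.Perm.sign (ρ₁ y)) with h' | h'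
      · rw [h', hy' y h', mul_one]
      · rw [h', hy'' y h', h]; simp
    · rintro ⟨u, v⟩ huv
      change Equiv.Perm.sign u * Equiv.Perm.sign v = 1 at huv
      rcases Int.units_eq_one_or (Equiv.Perm.sign u) with hu | hu
      · exact hone u v hu (by simpa [hu] using huv)
      · refine hmem x u v (hu.trans hx.symm) ?_
        rw [h]
        rw [hu, neg_mul, one_mul, neg_eq_iff_eq_neg] at huv
        exact huv

end Cfsg.Agent.S3687
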