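import Cfsg.Statements.S3693
import Cfsg.Agent.H5.TW2

set_option autoImplicit false
open Cfsg

namespace Cfsg.Agent.S3693

/-- Let a finite group G act faithfully and primitively on a set Ω, let a and b be points such that the orbit Δ of b under the stabilizer H of a has length d ≥ 2, and consider the permutation group induced on Δ by the elements of H fixing b. If that induced group has trivial Fitting subgroup (no non-trivial nilpotent normal subgroup), then the two-point stabilizer of a and b has trivial Fitting subgroup and the order of H divides d! · ((d - 1)!)^d. -/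
theorem result {G Ω : Type*} [Group G] [Finite G] [MulAction G Ω] [FaithfulSMul G Ω] [Finite Ω]
    (hprim : MulAction.IsPreprimitive G Ω) (a b : Ω) (d : ℕ) (hd : Nat.card (MulAction.orbit (MulAction.stabilizer G a) b) = d) (h2 : 2 ≤ d)
    (hF : Cfsg.fittingSubgroup ↥(((MulAction.stabilizer G b).subgroupOf (MulAction.stabilizer G a)).map (MulAction.toPermHom (MulAction.stabilizer G a) (MulAction.orbit (MulAction.stabilizer G a) b))) = ⊥) :
    Cfsg.fittingSubgroup ↥(MulAction.stabilizer G a ⊓ MulAction.stabilizer G b) = ⊥ ∧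
      Nat.card (MulAction.stabilizer G a) ∣ Nat.factorial d * (Nat.factorial (d - 1)) ^ d := by
  have hd' := (CfsgH5.relIndex_stabilizer (G := G) a b).trans hd
  have hne := CfsgH5.stabilizer_ne_of_two_le (G := G) (a := a) (b := b) (hd ▸ h2)
  have : Nontrivial Ω := ⟨a, b, fun e => hne (e ▸ rfl)⟩
  have h1 := CfsgH5.primSub_stabilizer hprim a
  have h2 := CfsgH5.primSub_stabilizer hprim b
  have hc := CfsgH4.card_stabilizer_eq (G := G) a b
  have hO : ∀ p : ℕ, p.Prime →
      CfsgH5.Op p (MulAction.stabilizer G a ⊓ MulAction.stabilizer G b) = ⊥ := by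
    intro p hp
    have := Fact.mk hp
    exact CfsgH5.Op_inf_stabilizer_eq_bot hprim hne (CfsgH5.fitting_eq_bot_iff.mp hF p hp)
  exact ⟨CfsgH5.fitting_eq_bot_iff.mpr (fun p hp => CfsgH5.Op_eq_bot_iff.mp (hO p hp)),
    CfsgH5.card_dvd_of_Lc_eq_bot hd' hc (CfsgH5.Lc_eq_bot_of_Op_inf h1 h2 hne hO)⟩

end Cfsg.Agent.S3693
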