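import Cfsg.Statements.S3696
-- import your own Cfsg.Agent.* helpers here

set_option autoImplicit false
open Cfsg

namespace Cfsg.Agent.S3696

theorem small (e N : ℕ) (h : 2 ^ (e + 1) ≤ N) : N * (e + 1) ^ (e + 1) ≤ N ^ (e + 1) := by
  have h1 : e + 1 ≤ 2 ^ e := Nat.lt_two_pow_self
  have h2 : (e + 1) ^ (e + 1) ≤ N ^ e := by
    calc (e + 1) ^ (e + 1) ≤ (2 ^ e) ^ (e + 1) := Nat.pow_le_pow_left h1 _
      _ = (2 ^ (e + 1)) ^ e := by rw [← pow_mul, ← pow_mul, mul_comm]
      _ ≤ N ^ e := Nat.pow_le_pow_left h _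
  rw [pow_succ' N]
  exact Nat.mul_le_mul_left _ h2

theorem amgm (x y a b d e : ℕ) (h1 : x * d ^ d ≤ a ^ d) (h2 : y * (e + 1) ^ (e + 1) ≤ b ^ (e + 1)) :
    x * y * (d + (e + 1)) ^ (d + (e + 1)) ≤ (a + b) ^ (d + (e + 1)) := by
  rcases Nat.eq_zero_or_pos d with rfl | hd
  · simp only [pow_zero, mul_one, zero_add] at h1 ⊢
    calc x * y * (e + 1) ^ (e + 1) = x * (y * (e + 1) ^ (e + 1)) := by ring
      _ ≤ 1 * b ^ (e + 1) := Nat.mul_le_mul h1 h2
      _ ≤ (a + b) ^ (e + 1) := by rw [one_mul]; exact Nat.pow_le_pow_left (by omega) _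
  generalize hE : e + 1 = E at h2 ⊢
  have hE0 : 0 < E := by omega
  have hd' : (0 : ℝ) < d := by exact_mod_cast hd
  have hE' : (0 : ℝ) < E := by exact_mod_cast hE0
  have hx : (x : ℝ) ≤ (a / d) ^ d := by
    rw [div_pow, le_div_iff₀ (by positivity)]; exact_mod_cast h1
  have hy : (y : ℝ) ≤ (b / E) ^ E := by
    rw [div_pow, le_div_iff₀ (by positivity)]; exact_mod_cast h2
  have h3 := Real.geom_mean_le_arith_mean2_weighted (w₁ := d / (d + E)) (w₂ := E / (d + E))
    (p₁ := a / d) (p₂ := b / E) (by positivity) (by positivity) (by positivity) (by positivity)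
    (by field_simp)
  have h4 : (d / (d + E) * (a / d) + E / (d + E) * (b / E) : ℝ) = (a + b) / (d + E) := by
    field_simp
  rw [h4] at h3
  have h5 := pow_le_pow_left₀ (by positivity) h3 (d + E)
  rw [mul_pow, ← Real.rpow_natCast, ← Real.rpow_natCast (_ ^ (_ : ℝ)),
    ← Real.rpow_mul (by positivity), ← Real.rpow_mul (by positivity)] at h5
  push_cast at h5
  rw [div_mul_cancel₀ _ (by positivity), div_mul_cancel₀ _ (by positivity), Real.rpow_natCast,
    Real.rpow_natCast, div_pow (_ + _ : ℝ), le_div_iff₀ (by positivity)] at h5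
  have h6 : (x : ℝ) * y * (d + E) ^ (d + E) ≤ (a + b) ^ (d + E) :=
    le_trans (mul_le_mul_of_nonneg_right (mul_le_mul hx hy (by positivity) (by positivity))
      (by positivity)) h5
  exact_mod_cast h6


/-- Let p be a prime, Ω a finite set with n ≥ p elements, and A an abelian p-subgroup of the symmetric group on Ω whose elements of order dividing p number p^k (so k is the rank of A). Then |A| · k^k ≤ n^k, that is, |A| ≤ (n/k)^k. -/
theorem result {Ω : Type*} [Fintype Ω] [DecidableEq Ω]
    (p : ℕ) (hp : p.Prime) (hn : p ≤ Fintype.card Ω) (A : Subgroup (Equiv.Perm Ω)) (hA : IsPGroup p A) (hab : IsMulCommutative A)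
    (k : ℕ) (hk : Nat.card {x : A // x ^ p = 1} = p ^ k) :
    Nat.card A * k ^ k ≤ Fintype.card Ω ^ k := by
  classical
  have := Fact.mk hp
  let : CommGroup A := { (inferInstance : Group A) with mul_comm := fun a b => hab.is_comm.comm a b }
  let V : Subgroup A := (powMonoidHom p : A →* A).ker
  have hV : Nat.card V = p ^ k := by
    rw [← hk]; exact Nat.card_congr (Equiv.subtypeEquivRight fun x => Iff.rfl)
  have main : ∀ c : ℕ, ∀ (S : Finset Ω) (K : Subgroup A) (d : ℕ), d + c = k →
      (∀ a : A, ∀ x, x ∈ S → a.1 x ∈ S) → (∀ a ∈ K, ∀ x ∈ S, a.1 x = x) →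
      Nat.card ↥(V ⊓ K) = p ^ c → K.index * d ^ d ≤ S.card ^ d →
      Nat.card A * k ^ k ≤ Fintype.card Ω ^ k := by
    intro c
    induction c using Nat.strong_induction_on with
    | _ c ih =>
    intro S K d hdc hS hK hc hle
    rcases Nat.eq_zero_or_pos c with rfl | hcpos
    · have hKbot : K = ⊥ := by
        by_contra hne
        obtain ⟨⟨x, hxK⟩, hx1⟩ := Subgroup.ne_bot_iff_exists_ne_one.1 hne
        have hx1' : x ≠ 1 := fun h => hx1 (Subtype.ext h)
        obtain ⟨n, hn⟩ := (IsPGroup.iff_orderOf.1 hA) x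
        have hn0 : n ≠ 0 := by
          rintro rfl
          exact hx1' (orderOf_eq_one_iff.1 (by simpa using hn))
        obtain ⟨m, rfl⟩ := Nat.exists_eq_succ_of_ne_zero hn0
        have h1 : x ^ p ^ m ∈ V ⊓ K := by
          refine ⟨?_, K.pow_mem hxK _⟩
          change (x ^ p ^ m) ^ p = 1
          rw [← pow_mul, ← pow_succ, ← hn, pow_orderOf_eq_one]
        rw [pow_zero, Subgroup.card_eq_one] at hc
        rw [hc, Subgroup.mem_bot, ← orderOf_dvd_iff_pow_eq_one, hn,
          Nat.pow_dvd_pow_iff_le_right hp.one_lt] at h1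
        omega
      rw [hKbot, Subgroup.index_bot] at hle
      rw [add_zero] at hdc
      subst hdc
      exact hle.trans (Nat.pow_le_pow_left (Finset.card_le_univ S) _)
    · have hne : V ⊓ K ≠ ⊥ := by
        intro h
        rw [h, Subgroup.card_bot] at hc
        have := Nat.one_lt_pow hcpos.ne' hp.one_lt
        omega
      obtain ⟨⟨v, hv⟩, hv1⟩ := Subgroup.ne_bot_iff_exists_ne_one.1 hne
      have hv1' : v.1 ≠ 1 := fun h => hv1 (Subtype.ext (Subtype.ext h))
      obtain ⟨ω, hω⟩ : ∃ ω, v.1 ω ≠ ω := by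
        by_contra h
        push Not at h
        exact hv1' (Equiv.ext h)
      have hωS : ω ∉ S := fun h => hω (hK v hv.2 ω h)
      let H : Subgroup A := MulAction.stabilizer A ω
      let O : Finset Ω := (MulAction.orbit A ω).toFinset
      have hO : O.card = H.index := by
        rw [MulAction.index_stabilizer, Set.ncard_eq_toFinset_card']
      have hdisj : Disjoint S O := by
        rw [Finset.disjoint_left]
        intro x hx hxO
        obtain ⟨a, rfl⟩ := Set.mem_toFinset.1 hxO
        have := hS a⁻¹ _ hx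
        apply hωS
        simpa [Subgroup.smul_def] using this
      obtain ⟨c', hc'⟩ := IsPGroup.iff_card.1 (hA.to_subgroup (V ⊓ (K ⊓ H)))
      have hlt : V ⊓ (K ⊓ H) < V ⊓ K := by
        refine lt_of_le_of_ne (inf_le_inf_left _ inf_le_left) fun h => ?_
        rw [← h] at hv
        exact hω hv.2.2
      have hcc : c' < c := by
        have h1 : Nat.card ↥(V ⊓ (K ⊓ H)) < Nat.card ↥(V ⊓ K) := by
          refine lt_of_le_of_ne (Subgroup.card_le_of_le hlt.le) fun h => ?_
          exact hlt.ne (Subgroup.eq_of_le_of_card_ge hlt.le h.ge)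
        rw [hc', hc] at h1
        exact (Nat.pow_lt_pow_iff_right hp.one_lt).1 h1
      obtain ⟨e, rfl⟩ := Nat.exists_eq_add_of_lt hcc
      have hpe : p ^ (e + 1) ≤ O.card := by
        have h1 : H.relIndex (V ⊓ K) * Nat.card ↥(H ⊓ (V ⊓ K)) = Nat.card ↥(V ⊓ K) := by
          rw [← Subgroup.relIndex_bot_left, ← Subgroup.relIndex_bot_left,
            ← Subgroup.inf_relIndex_right H, mul_comm]
          exact Subgroup.relIndex_mul_relIndex _ _ _ bot_le inf_le_right
        rw [hc, show H ⊓ (V ⊓ K) = V ⊓ (K ⊓ H) by rw [inf_comm, inf_assoc], hc', add_assoc,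
          pow_add p c', mul_comm] at h1
        have h2 := Nat.eq_of_mul_eq_mul_left (pow_pos hp.pos _) h1
        rw [← h2, hO]
        exact Nat.le_of_dvd (Nat.pos_of_ne_zero Subgroup.index_ne_zero_of_finite)
          (Subgroup.relIndex_dvd_index_of_normal _ _)
      refine ih c' (by omega) (S ∪ O) (K ⊓ H) (d + (e + 1)) (by omega) ?_ ?_ hc' ?_
      · intro a x hx
        rcases Finset.mem_union.1 hx with hx | hx
        · exact Finset.mem_union_left _ (hS a x hx)
        · obtain ⟨b, rfl⟩ := Set.mem_toFinset.1 hx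
          exact Finset.mem_union_right _ (Set.mem_toFinset.2 ⟨a * b, mul_smul a b ω⟩)
      · intro a ha x hx
        rcases Finset.mem_union.1 hx with hx | hx
        · exact hK a ha.1 x hx
        · obtain ⟨b, rfl⟩ := Set.mem_toFinset.1 hx
          have h1 : a • ω = ω := ha.2
          change a • b • ω = b • ω
          rw [← mul_smul, mul_comm, mul_smul, h1]
      · rw [Finset.card_union_of_disjoint hdisj]
        refine le_trans (Nat.mul_le_mul_right _ Subgroup.index_inf_le) ?_
        rw [← hO]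
        exact amgm _ _ _ _ _ _ hle (small _ _ ((Nat.pow_le_pow_left hp.two_le _).trans hpe))
  refine main k ∅ ⊤ 0 (by simp) (by simp) (by simp) (by simpa using hV) (by simp)

end Cfsg.Agent.S3696
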