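import Cfsg.Statements.S3702
import Cfsg.Agent.H3.N9Main

set_option autoImplicit false
open Cfsg

namespace Cfsg.Agent.S3702

/-- Let K ≤ Sym(9) be generated by (1 2 3), (1 4 7)(2 5 8)(3 6 9), (1 2)(4 5) and (1 4)(2 5)(3 6)(7 8) (the normalizer in Alt(9) of the elementary abelian group generated by (1 2 3), (4 5 6), (7 8 9)). Let G be a finite group with a subgroup H ≅ K and J = O₃(H). If C_G(j) ≤ H for every j ≠ 1 in J and J is strongly closed in H with respect to G (a G-conjugate of an element of J lying in H lies in J), then G = H. -/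
theorem result {G : Type*} [Group G] [Finite G] (H : Subgroup G)
    (hH : Nonempty (↥H ≃* ↥(Subgroup.closure ({Equiv.swap (0 : Fin 9) 1 * Equiv.swap 1 2,
        Equiv.swap (0 : Fin 9) 3 * Equiv.swap 3 6 * (Equiv.swap (1 : Fin 9) 4 * Equiv.swap 4 7) * (Equiv.swap (2 : Fin 9) 5 * Equiv.swap 5 8),
        Equiv.swap (0 : Fin 9) 1 * Equiv.swap 3 4, Equiv.swap (0 : Fin 9) 3 * Equiv.swap 1 4 * Equiv.swap 2 5 * Equiv.swap 6 7} : Set (Equiv.Perm (Fin 9))))))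
    (J : Subgroup G) (hJ : J = (Cfsg.pCore 3 ↥H).map H.subtype)
    (hC : ∀ j ∈ J, j ≠ 1 → Subgroup.centralizer ({j} : Set G) ≤ H) (hsc : Cfsg.IsStronglyClosed J H) : H = ⊤ := by
  obtain ⟨e⟩ := hH
  obtain ⟨f, hf, rfl⟩ := CfsgH8.exists_model_hom e CfsgH3.N9.F CfsgH3.N9.F_inj CfsgH3.N9.range_F
  have : Fact (Nat.Prime 3) := ⟨Nat.prime_three⟩
  have hJ' : J = CfsgH5.Op 3 f.range := hJ
  have h1 : ∀ m : CfsgH3.N9.M, m.w = 0 → f m ∈ J := by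
    intro m hm
    rw [hJ']
    refine CfsgH5.le_Op (X := CfsgH3.N9.pr.ker.map f) (Subgroup.map_le_range _ _) ?_ ?_
      ⟨m, CfsgH3.N9.pr_eq_one.2 hm, rfl⟩
    · rintro _ ⟨x, rfl⟩ _ ⟨y, hy, rfl⟩
      exact ⟨x * y * x⁻¹, (MonoidHom.normal_ker _).conj_mem y hy x, by simp⟩
    · rintro ⟨_, y, hy, rfl⟩
      exact ⟨1, Subtype.ext (by
        simp [← map_pow, CfsgH3.N9.fT3 y (CfsgH3.N9.pr_eq_one.1 hy)])⟩
  have h3 : ∀ m : CfsgH3.N9.M, f m ∈ J → CfsgH3.N9.pr m ^ 3 = 1 := by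
    intro m hm
    rw [hJ'] at hm
    obtain ⟨k, hk⟩ := CfsgH5.isPGroup_Op 3 f.range ⟨_, hm⟩
    have e1 : m ^ 3 ^ k = 1 := hf (by rw [map_pow, map_one]; exact congrArg Subtype.val hk)
    have e2 : CfsgH3.N9.pr m ^ 3 ^ k = 1 := by rw [← map_pow, e1, map_one]
    have e3 : CfsgH3.N9.pr m ^ 12 = 1 := (CfsgH3.N9.fO m.w).1
    have e4 : (CfsgH3.N9.pr m ^ 3) ^ 4 = 1 := by rw [← pow_mul]; exact e3
    have e5 : (CfsgH3.N9.pr m ^ 3) ^ 3 ^ k = 1 := by rw [← pow_mul, mul_comm, pow_mul, e2, one_pow]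
    have := Nat.dvd_gcd (orderOf_dvd_of_pow_eq_one e4) (orderOf_dvd_of_pow_eq_one e5)
    rwa [(Nat.Coprime.pow_right k (by norm_num) : Nat.Coprime 4 (3 ^ k)), Nat.dvd_one,
      orderOf_eq_one_iff] at this
  have h2 : ∀ m : CfsgH3.N9.M, f m ∈ J → m.w = 0 := by
    intro m hm
    by_contra e
    rcases (CfsgH3.N9.fO m.w).2 e with e1 | e1
    · exact e1 (h3 m hm)
    · have e2 : CfsgH3.N9.pr (m⁻¹ * (CfsgH3.N9.tt 0 * m * (CfsgH3.N9.tt 0)⁻¹)) =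
          (⟨0, m.w⟩ : CfsgH3.N9.M)⁻¹ * (CfsgH3.N9.tt 0 * ⟨0, m.w⟩ * (CfsgH3.N9.tt 0)⁻¹) := by
        rw [map_mul, map_mul, map_mul, map_inv, map_inv]; rfl
      refine e1 (e2 ▸ h3 _ ?_)
      rw [map_mul, map_mul, map_mul, map_inv, map_inv]
      refine mul_mem (inv_mem hm) ?_
      rw [hJ'] at hm ⊢
      exact CfsgH5.nrm_Op_self 3 f.range _ ⟨_, rfl⟩ _ hm
  exact CfsgH3.N9.Hyp.main ⟨hf, fun j hj j1 => hC _ (h1 j hj) (by simpa [map_eq_one_iff f hf]),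
    fun j hj g m e => h2 m (e ▸ hsc.2 _ (h1 j hj) g (e ▸ ⟨m, rfl⟩))⟩

end Cfsg.Agent.S3702
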