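import Cfsg.Statements.S3703
import Cfsg.Agent.H7.Mazurov

set_option autoImplicit false
open Cfsg

namespace Cfsg.Agent.S3703

/-- Let N be a normal subgroup of the finite group G such that G/N is a Frobenius group with kernel F and cyclic complement H, where the order of F is coprime to that of N and F is not contained in the image of C_G(N) in G/N. Then G has an element of order p·#H for some prime p dividing the order of N. (A standard tool in recognising groups by their element orders.) -/
theorem result {G : Type*} [Group G] [Finite G] (N : Subgroup G) [N.Normal]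
    (Fb Hb : Subgroup (G ⧸ N)) [Fb.Normal] (hHb : Cfsg.IsFrobeniusComplement Hb) (hker : Cfsg.frobeniusKernel Hb = (Fb : Set (G ⧸ N)))
    (hcyc : IsCyclic Hb) (hcop : (Nat.card Fb).Coprime (Nat.card N))
    (hnot : ¬ Fb ≤ (Subgroup.centralizer (N : Set G)).map (QuotientGroup.mk' N)) :
    ∃ p : ℕ, p.Prime ∧ p ∣ Nat.card N ∧ ∃ g : G, orderOf g = p * Nat.card Hb := by
  obtain ⟨h, hh⟩ := IsCyclic.exists_ofOrder_eq_natCard (α := Hb)
  have ho : orderOf (h : G ⧸ N) = Nat.card Hb := by rw [Subgroup.orderOf_coe, hh]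
  have h1 : (h : G ⧸ N) ≠ 1 := by
    intro e
    rw [e, orderOf_one] at ho
    exact hHb.1 (Subgroup.card_eq_one.1 ho.symm)
  rw [← ho]
  refine CfsgH7.mazurov_lemma N Fb (h : G ⧸ N) h1 ?_ hcop hnot
  intro i hi0 hi
  exact CfsgH7.frobenius_fpf Fb Hb hHb hker _ (Hb.pow_mem h.2 i)
    (pow_ne_one_of_lt_orderOf hi0.ne' hi)

end Cfsg.Agent.S3703
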