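import Cfsg.Statements.S3708
import Cfsg.Agent.H4.PhanPair

set_option autoImplicit false
open Cfsg

namespace Cfsg.Agent.S3708

/-- Phan's recognition of unitary groups. Let F be a finite field with q² elements, q > 4, and n ≥ 2. Let G be a group generated by subgroups U_0, …, U_{n−1}, each isomorphic to the special unitary group SU(2, q²) (determinant-one isometries of the standard Hermitian form in two variables over F), and let D_i ≤ U_i be cyclic subgroups of order q + 1. Suppose that U_i and U_j commute elementwise whenever the indices differ by at least 2, that the subgroup generated by U_i and U_{i+1} is isomorphic to SU(3, q²) for each i, and that D_i and D_j commute elementwise for all i, j. Then G is a homomorphic image of SU(n+1, q²). (Generation of G by the U_i is part of the hypothesis; G is not assumed finite.) -/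
theorem result {G : Type*} [Group G] (n : ℕ) (hn : 2 ≤ n)
    (F : Type*) [Field F] [Fintype F] (q : ℕ) (hq : 4 < q) (hF : Fintype.card F = q ^ 2)
    (U : Fin n → Subgroup G) (e : ∀ i, ↥(Cfsg.SU 2 F q) ≃* ↥(U i)) (hgen : ⨆ i, U i = ⊤)
    (D : Fin n → Subgroup G) (hD : ∀ i, D i ≤ U i ∧ IsCyclic ↥(D i) ∧ Nat.card ↥(D i) = q + 1)
    (h1 : ∀ i j : Fin n, (i : ℕ) + 2 ≤ j → ∀ x ∈ U i, ∀ y ∈ U j, x * y = y * x)
    (h2 : ∀ i j : Fin n, (i : ℕ) + 1 = j → Nonempty (↥(U i ⊔ U j) ≃* ↥(Cfsg.SU 3 F q)))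
    (h3 : ∀ i j : Fin n, i ≠ j → ∀ x ∈ D i, ∀ y ∈ D j, x * y = y * x) :
    ∃ f : ↥(Cfsg.SU (n + 1) F q) →* G, Function.Surjective f := by
  open CfsgH4 in
  classical
  rcases hn.eq_or_lt with rfl | hn
  · obtain ⟨E⟩ := h2 0 1 rfl
    refine ⟨(U 0 ⊔ U 1).subtype.comp E.symm.toMonoidHom, ?_⟩
    have : U 0 ⊔ U 1 = ⊤ := by
      rw [eq_top_iff, ← hgen]
      refine iSup_le fun i => ?_
      fin_cases i
      · exact le_sup_left
      · exact le_sup_right
    intro g
    exact ⟨E ⟨g, this ▸ Subgroup.mem_top g⟩, by simp⟩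
  letI : StarRing F := starOf F q hF
  have hs : ∀ x : F, star x = x ^ q := fun x => rfl
  haveI : HermFin F := hermFin_of hF hs
  obtain ⟨p, hp, m, hpp, hm⟩ := FiniteField.card' F
  haveI : Fact p.Prime := ⟨hpp⟩
  have hpq : p ≤ q := by
    apply Nat.le_of_dvd (by omega)
    apply hpp.dvd_of_dvd_pow (n := 2)
    rw [← hF, hm]
    exact dvd_pow_self p m.ne_zero
  have hd : ∀ i, ∃ d ∈ D i, d ^ p ≠ 1 := by
    intro i
    obtain ⟨-, hc, hcard⟩ := hD i
    obtain ⟨g, hg⟩ := IsCyclic.exists_ofOrder_eq_natCard (α := D i)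
    refine ⟨g, g.2, fun h => ?_⟩
    have h' : g ^ p = 1 := Subtype.ext h
    have := Nat.le_of_dvd hpp.pos (orderOf_dvd_of_pow_eq_one h')
    omega
  choose d hd hd' using hd
  have hψ : ∀ (i j : Fin n) (h : (i : ℕ) + 1 = j), ∃ ψ : SUg (Fin 3) F →* G,
      StdPair ψ (U i) (U j) := by
    intro i j h
    obtain ⟨E⟩ := h2 i j h
    exact stdPair_of_sup p (U i) (U j) ((suEquiv hs 2).symm.trans (e i))
      ((suEquiv hs 2).symm.trans (e j)) (E.trans (suEquiv hs 3)) ((hD i).1 (hd i))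
      ((hD j).1 (hd j)) (h3 i j (by rintro rfl; omega) _ (hd i) _ (hd j)) (hd' i) (hd' j)
  choose ψ hψ using hψ
  obtain ⟨Θ, hΘ⟩ := phan_big (G := G) (big3_of hF hs (by omega)) n hn
    (fun a => if h : a < n then U ⟨a, h⟩ else ⊥)
    (fun a => if h : a + 1 < n then ψ ⟨a, by omega⟩ ⟨a + 1, h⟩ rfl else 1)
    (fun j hj => by
      simp only [dif_pos hj, dif_pos (show j < n by omega)]
      exact hψ _ _ _)
    (fun a b hab hb x hx y hy => by
      simp only [dif_pos hb, dif_pos (show a < n by omega)] at hx hy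
      exact h1 ⟨a, by omega⟩ ⟨b, hb⟩ hab x hx y hy)
  have hV : ∀ (i j : Fin n) (h : (i : ℕ) + 1 = j), (ψ i j h).range ≤ Θ.range := by
    rintro ⟨i, hi⟩ ⟨j, hj⟩ h
    simp only at h
    subst h
    have := hΘ i hj
    rwa [dif_pos hj] at this
  suffices h : Function.Surjective Θ from
    ⟨Θ.comp (suEquiv hs (n + 1)).toMonoidHom, h.comp (suEquiv hs (n + 1)).surjective⟩
  rw [← MonoidHom.range_eq_top, eq_top_iff, ← hgen]
  refine iSup_le fun i => ?_
  by_cases hi : (i : ℕ) + 1 < n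
  · refine le_trans ?_ (hV i ⟨i + 1, hi⟩ rfl)
    rw [← (hψ i ⟨i + 1, hi⟩ rfl).im0]
    rintro _ ⟨A, rfl⟩
    exact ⟨_, rfl⟩
  · have h : ((⟨i - 1, by omega⟩ : Fin n) : ℕ) + 1 = i := by simp only; omega
    refine le_trans ?_ (hV _ i h)
    rw [← (hψ _ i h).im1]
    rintro _ ⟨A, rfl⟩
    exact ⟨_, rfl⟩

end Cfsg.Agent.S3708
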