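import Cfsg.Statements.S3709
import Cfsg.Agent.H4.PhanWeak

set_option autoImplicit false
open Cfsg

namespace Cfsg.Agent.S3709

/-- Recognition of unitary groups from a weak Phan system. Let F be a finite field with q² elements, q > 3, and n ≥ 3. Let G be a group with subgroups U_0, …, U_{n−1}, each isomorphic to SU(2, q²), and, for each pair of consecutive indices, a subgroup V_{i,i+1} in which U_i and U_{i+1} form a standard pair (some isomorphism from SU(3, q²), or from its central quotient PSU(3, q²), onto V_{i,i+1} carries the two block-diagonal SU(2, q²) subgroups, or their images, onto U_i and U_{i+1}). Suppose that U_i and U_j commute elementwise whenever the indices differ by at least 2, and that G is generated by the U_i together with the V_{i,i+1}. Then G is a homomorphic image of SU(n+1, q²). (G is not assumed finite.) -/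
theorem result {G : Type*} [Group G] (n : ℕ) (hn : 3 ≤ n)
    (F : Type*) [Field F] [Fintype F] (q : ℕ) (hq : 3 < q) (hF : Fintype.card F = q ^ 2)
    (U : Fin n → Subgroup G) (e : ∀ i, ↥(Cfsg.SU 2 F q) ≃* ↥(U i))
    (V : Fin n → Fin n → Subgroup G)
    (h1 : ∀ i j : Fin n, (i : ℕ) + 2 ≤ j → ∀ x ∈ U i, ∀ y ∈ U j, x * y = y * x)
    (h2 : ∀ i j : Fin n, (i : ℕ) + 1 = j → Cfsg.IsStandardUnitaryPair (V i j) (U i) (U j) F q)
    (hgen : (⨆ i, U i) ⊔ (⨆ (i : Fin n) (j : Fin n) (_ : (i : ℕ) + 1 = j), V i j) = ⊤) :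
    ∃ f : ↥(Cfsg.SU (n + 1) F q) →* G, Function.Surjective f := by
  open CfsgH4 in
  classical
  letI : StarRing F := starOf F q hF
  have hs : ∀ x : F, star x = x ^ q := fun x => rfl
  haveI : HermFin F := hermFin_of hF hs
  choose ψ hψ hψ' using fun (i j : Fin n) (h : (i : ℕ) + 1 = j) => stdPair_of hs (h2 i j h)
  obtain ⟨Θ, hΘ⟩ := phan_big (G := G) (big3_of hF hs hq) n hn
    (fun a => if h : a < n then U ⟨a, h⟩ else ⊥)
    (fun a => if h : a + 1 < n then ψ ⟨a, by omega⟩ ⟨a + 1, h⟩ rfl else 1)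
    (fun j hj => by
      simp only [dif_pos hj, dif_pos (show j < n by omega)]
      exact hψ _ _ _)
    (fun a b hab hb x hx y hy => by
      simp only [dif_pos hb, dif_pos (show a < n by omega)] at hx hy
      exact h1 ⟨a, by omega⟩ ⟨b, hb⟩ hab x hx y hy)
  have hV : ∀ (i j : Fin n) (h : (i : ℕ) + 1 = j), (ψ i j h).range ≤ Θ.range := by
    rintro ⟨i, hi⟩ ⟨j, hj⟩ h
    simp only at h
    subst h
    have := hΘ i hj
    rwa [dif_pos hj] at this
  suffices h : Function.Surjective Θ from
    ⟨Θ.comp (suEquiv hs (n + 1)).toMonoidHom, h.comp (suEquiv hs (n + 1)).surjective⟩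
  rw [← MonoidHom.range_eq_top, eq_top_iff, ← hgen]
  refine sup_le (iSup_le fun i => ?_) (iSup_le fun i => iSup_le fun j => iSup_le fun h => ?_)
  · by_cases hi : (i : ℕ) + 1 < n
    · refine le_trans ?_ (hV i ⟨i + 1, hi⟩ rfl)
      rw [← (hψ i ⟨i + 1, hi⟩ rfl).im0]
      rintro _ ⟨A, rfl⟩
      exact ⟨_, rfl⟩
    · have h : ((⟨i - 1, by omega⟩ : Fin n) : ℕ) + 1 = i := by simp only; omega
      refine le_trans ?_ (hV _ i h)
      rw [← (hψ _ i h).im1]
      rintro _ ⟨A, rfl⟩
      exact ⟨_, rfl⟩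
  · rw [← hψ' i j h]; exact hV i j h

end Cfsg.Agent.S3709
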