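import Cfsg.Statements.S3710
import Cfsg.Agent.H4.PhanQ3b

set_option autoImplicit false
open Cfsg

namespace Cfsg.Agent.S3710

/-- Recognition of unitary groups over the field with 9 elements from a weak Phan system. Let F be a field with 9 elements and n ≥ 4. Let G be a group with subgroups U_0, …, U_{n−1}, each isomorphic to SU(2, 9), and, for consecutive indices, subgroups V_{i,i+1} in which U_i and U_{i+1} form a standard pair (via an isomorphism from SU(3, 9) or PSU(3, 9) carrying the block-diagonal subgroups, or their images, onto U_i and U_{i+1}); suppose U_i and U_j commute elementwise whenever the indices differ by at least 2, that G is generated by the U_i and the V_{i,i+1}, and moreover that for each i the subgroup generated by V_{i,i+1} and V_{i+1,i+2} is a homomorphic image of SU(4, 9). Then G is a homomorphic image of SU(n+1, 9). (G is not assumed finite.) -/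
theorem result {G : Type*} [Group G] (n : ℕ) (hn : 4 ≤ n)
    (F : Type*) [Field F] [Fintype F] (hF : Fintype.card F = 9)
    (U : Fin n → Subgroup G) (e : ∀ i, ↥(Cfsg.SU 2 F 3) ≃* ↥(U i))
    (V : Fin n → Fin n → Subgroup G)
    (h1 : ∀ i j : Fin n, (i : ℕ) + 2 ≤ j → ∀ x ∈ U i, ∀ y ∈ U j, x * y = y * x)
    (h2 : ∀ i j : Fin n, (i : ℕ) + 1 = j → Cfsg.IsStandardUnitaryPair (V i j) (U i) (U j) F 3)
    (hgen : (⨆ i, U i) ⊔ (⨆ (i : Fin n) (j : Fin n) (_ : (i : ℕ) + 1 = j), V i j) = ⊤)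
    (h4 : ∀ i j k : Fin n, (i : ℕ) + 1 = j → (j : ℕ) + 1 = k →
      ∃ g : ↥(Cfsg.SU 4 F 3) →* ↥(V i j ⊔ V j k), Function.Surjective g) :
    ∃ f : ↥(Cfsg.SU (n + 1) F 3) →* G, Function.Surjective f := by
  open CfsgH4 in
  classical
  have hF' : Fintype.card F = 3 ^ 2 := hF
  letI : StarRing F := starOf F 3 hF'
  have hs : ∀ x : F, star x = x ^ 3 := fun x => rfl
  haveI : HermFin F := hermFin_of hF' hs
  haveI : Fact (Nat.Prime 3) := ⟨Nat.prime_three⟩
  haveI : CharP F 3 := charP_of_card_eq_prime_pow hF'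
  have hB : Big2 F := big2_of hF' hs le_rfl
  have hK : ∀ a : F, star a = a → a = 0 ∨ a = 1 ∨ a = -1 := by
    intro a ha
    rw [hs] at ha
    have : a * ((a - 1) * (a + 1)) = 0 := by linear_combination ha
    simpa [sub_eq_zero, add_eq_zero_iff_eq_neg] using this
  choose ψ hψ hψ' using fun (i j : Fin n) (h : (i : ℕ) + 1 = j) => stdPair_of hs (h2 i j h)
  let U' : ℕ → Subgroup G := fun a => if h : a < n then U ⟨a, h⟩ else ⊥
  let Ψ : ℕ → SUg (Fin 3) F →* G :=
    fun a => if h : a + 1 < n then ψ ⟨a, by omega⟩ ⟨a + 1, h⟩ rfl else 1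
  have hΨ : ∀ j, j + 1 < n → StdPair (Ψ j) (U' j) (U' (j + 1)) := fun j hj => by
    simp only [U', Ψ, dif_pos hj, dif_pos (show j < n by omega)]
    exact hψ _ _ _
  have huu : ∀ a b, a + 2 ≤ b → b < n → ∀ x ∈ U' a, ∀ y ∈ U' b, Commute x y :=
    fun a b hab hb x hx y hy => by
      simp only [U', dif_pos hb, dif_pos (show a < n by omega)] at hx hy
      exact h1 ⟨a, by omega⟩ ⟨b, hb⟩ hab x hx y hy
  have hΨV : ∀ j (hj : j + 1 < n), (Ψ j).range = V ⟨j, by omega⟩ ⟨j + 1, hj⟩ := fun j hj => by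
    simp only [Ψ, dif_pos hj]
    exact hψ' _ _ _
  obtain ⟨v, hv, hco⟩ := exists_coherent n U' Ψ hΨ (fun j hj => huu j (j + 2) le_rfl hj)
  let P := phanSysOf2 hB n (by omega) U' v (fun j hj => (hv j hj).1) hco huu
  have H4 : ∀ a, a + 4 ≤ n + 1 → ∃ Θ, P.Ext a 4 Θ := by
    intro a ha
    obtain ⟨g, hg⟩ := h4 ⟨a, by omega⟩ ⟨a + 1, by omega⟩ ⟨a + 1 + 1, by omega⟩ rfl rfl
    have hr : ((Subgroup.subtype _).comp (g.comp (suEquiv hs 4).symm.toMonoidHom)).range =
        V ⟨a, by omega⟩ ⟨a + 1, by omega⟩ ⊔ V ⟨a + 1, by omega⟩ ⟨a + 1 + 1, by omega⟩ := by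
      have : Function.Surjective (g.comp (suEquiv hs 4).symm.toMonoidHom) :=
        hg.comp (suEquiv hs 4).symm.surjective
      rw [MonoidHom.range_comp, MonoidHom.range_eq_top.2 this,
        ← MonoidHom.range_eq_map, Subgroup.range_subtype]
    obtain ⟨Θ, e0, e1⟩ := q3_glue hK hB (hv a (by omega)).1 (hv (a + 1) (by omega)).1
      (hco a (by omega)) (huu a (a + 2) le_rfl (by omega)) _
      (by rw [hr, (hv a (by omega)).2, hΨV a (by omega)]; exact le_sup_left)
      (by rw [hr, (hv (a + 1) (by omega)).2, hΨV (a + 1) (by omega)]; exact le_sup_right)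
    exact ⟨Θ, P.ext4_of a ha Θ e0 e1⟩
  obtain ⟨k, rfl⟩ : ∃ k, n = k + 3 := ⟨n - 3, by omega⟩
  obtain ⟨Θ, hΘ⟩ := P.ext_all H4 k 0 (by omega)
  have hV : ∀ (i j : Fin (k + 3)) (h : (i : ℕ) + 1 = j), (ψ i j h).range ≤ Θ.range := by
    rintro ⟨i, hi⟩ ⟨j, hj⟩ h
    simp only at h
    subst h
    rw [hψ', ← hΨV i hj, ← (hv i hj).2]
    rintro _ ⟨A, rfl⟩
    exact ⟨_, (hΘ.2 i (by omega) A).trans (by rw [zero_add]; rfl)⟩
  suffices h : Function.Surjective Θ from
    ⟨Θ.comp (suEquiv hs (k + 3 + 1)).toMonoidHom, h.comp (suEquiv hs (k + 3 + 1)).surjective⟩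
  rw [← MonoidHom.range_eq_top, eq_top_iff, ← hgen]
  refine sup_le (iSup_le fun i => ?_) (iSup_le fun i => iSup_le fun j => iSup_le fun h => ?_)
  · by_cases hi : (i : ℕ) + 1 < k + 3
    · refine le_trans ?_ (hV i ⟨i + 1, hi⟩ rfl)
      rw [← (hψ i ⟨i + 1, hi⟩ rfl).im0]
      rintro _ ⟨A, rfl⟩
      exact ⟨_, rfl⟩
    · have h : ((⟨i - 1, by omega⟩ : Fin (k + 3)) : ℕ) + 1 = i := by simp only; omega
      refine le_trans ?_ (hV _ i h)
      rw [← (hψ _ i h).im1]
      rintro _ ⟨A, rfl⟩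
      exact ⟨_, rfl⟩
  · rw [← hψ' i j h]; exact hV i j h

end Cfsg.Agent.S3710
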