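import Cfsg.Statements.S3713
import Cfsg.Agent.H1.SpAmalg3

set_option autoImplicit false
open Cfsg

namespace Cfsg.Agent.S3713

/-- A presentation of the symplectic group as the universal completion of an amalgam of small subgroups. Let F be a field with more than two elements, n ≥ 2, and Sp the group of 2n × 2n matrices over F preserving the standard alternating form, acting on column vectors; write e_k, f_k for the standard basis vectors of the two halves (a hyperbolic basis). For each k let S_k be the subgroup of Sp fixing e_l and f_l for all l ≠ k (a copy of SL(2, F) on the plane of e_k, f_k), and for each i with i + 1 < n let M_i be the subgroup fixing every e_l and fixing f_l for all l other than i, i+1 (an abelian group isomorphic to the additive group of F³). Then Sp is the universal completion of the amalgam formed by the S_k, the M_i and the subgroups generated by two of them: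 for every group H and homomorphisms σ_k : S_k → H, μ_i : M_i → H such that for each pair of these subgroups some homomorphism on the subgroup they generate restricts to the given ones, there is exactly one homomorphism Sp → H restricting to every σ_k and μ_i. -/
theorem result
    (F : Type*) [Field F] (hF : ∃ a : F, a ≠ 0 ∧ a ≠ 1) (n : ℕ) (hn : 2 ≤ n)
    (S M : Fin n → Subgroup ↥(Matrix.symplecticGroup (Fin n) F))
    (hS : ∀ j : Fin n, S j = Subgroup.closure {A : ↥(Matrix.symplecticGroup (Fin n) F) | ∀ k : Fin n, k ≠ j →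
      ((A : ↥(Matrix.symplecticGroup (Fin n) F)) : Matrix (Fin n ⊕ Fin n) (Fin n ⊕ Fin n) F).mulVec (Pi.single (Sum.inl k) (1 : F)) = (Pi.single (Sum.inl k) (1 : F)) ∧ ((A : ↥(Matrix.symplecticGroup (Fin n) F)) : Matrix (Fin n ⊕ Fin n) (Fin n ⊕ Fin n) F).mulVec (Pi.single (Sum.inr k) (1 : F)) = (Pi.single (Sum.inr k) (1 : F))})
    (hM : ∀ i : Fin n, (i : ℕ) + 1 < n → M i = Subgroup.closure {A : ↥(Matrix.symplecticGroup (Fin n) F) |
      (∀ k : Fin n, ((A : ↥(Matrix.symplecticGroup (Fin n) F)) : Matrix (Fin n ⊕ Fin n) (Fin n ⊕ Fin n) F).mulVec (Pi.single (Sum.inl k) (1 : F)) = (Pi.single (Sum.inl k) (1 : F))) ∧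
        ∀ k : Fin n, (k : ℕ) ≠ i → (k : ℕ) ≠ (i : ℕ) + 1 → ((A : ↥(Matrix.symplecticGroup (Fin n) F)) : Matrix (Fin n ⊕ Fin n) (Fin n ⊕ Fin n) F).mulVec (Pi.single (Sum.inr k) (1 : F)) = (Pi.single (Sum.inr k) (1 : F))})
    {H : Type*} [Group H] (σ : ∀ j : Fin n, ↥(S j) →* H) (μ : ∀ i : Fin n, ↥(M i) →* H)
    (hSS : ∀ j l : Fin n, j ≠ l → ∃ Ψ : ↥(S j ⊔ S l) →* H,
      (∀ (g : ↥(Matrix.symplecticGroup (Fin n) F)) (hg : g ∈ S j), Ψ ⟨g, Subgroup.mem_sup_left hg⟩ = σ j ⟨g, hg⟩) ∧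
        (∀ (g : ↥(Matrix.symplecticGroup (Fin n) F)) (hg : g ∈ S l), Ψ ⟨g, Subgroup.mem_sup_right hg⟩ = σ l ⟨g, hg⟩))
    (hMM : ∀ i i' : Fin n, i ≠ i' → (i : ℕ) + 1 < n → (i' : ℕ) + 1 < n → ∃ Ψ : ↥(M i ⊔ M i') →* H,
      (∀ (g : ↥(Matrix.symplecticGroup (Fin n) F)) (hg : g ∈ M i), Ψ ⟨g, Subgroup.mem_sup_left hg⟩ = μ i ⟨g, hg⟩) ∧
        (∀ (g : ↥(Matrix.symplecticGroup (Fin n) F)) (hg : g ∈ M i'), Ψ ⟨g, Subgroup.mem_sup_right hg⟩ = μ i' ⟨g, hg⟩))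
    (hMS : ∀ i j : Fin n, (i : ℕ) + 1 < n → ∃ Ψ : ↥(M i ⊔ S j) →* H,
      (∀ (g : ↥(Matrix.symplecticGroup (Fin n) F)) (hg : g ∈ M i), Ψ ⟨g, Subgroup.mem_sup_left hg⟩ = μ i ⟨g, hg⟩) ∧
        (∀ (g : ↥(Matrix.symplecticGroup (Fin n) F)) (hg : g ∈ S j), Ψ ⟨g, Subgroup.mem_sup_right hg⟩ = σ j ⟨g, hg⟩)) :
    ∃! Φ : ↥(Matrix.symplecticGroup (Fin n) F) →* H,
      (∀ (j : Fin n) (g : ↥(Matrix.symplecticGroup (Fin n) F)) (hg : g ∈ S j), Φ g = σ j ⟨g, hg⟩) ∧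
        (∀ (i : Fin n), (i : ℕ) + 1 < n → ∀ (g : ↥(Matrix.symplecticGroup (Fin n) F)) (hg : g ∈ M i), Φ g = μ i ⟨g, hg⟩) := by
  have hS' : ∀ k, S k = CfsgH1.FxS F {c | CfsgH1.ix c ∉ ({k} : Set (Fin n))} := fun k => by
    rw [hS, ← Subgroup.closure_eq (CfsgH1.FxS _ _)]
    congr 1
    ext A
    refine ⟨fun h => CfsgH1.mem_FxS.2 ?_, fun h l hl =>
      ⟨CfsgH1.mem_FxS.1 h _ hl, CfsgH1.mem_FxS.1 h _ hl⟩⟩
    rintro (c | c) hc
    · exact (h c hc).1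
    · exact (h c hc).2
  have hM' : ∀ i i' : Fin n, i'.val = i + 1 →
      M i = CfsgH1.FxS F {c | c ≠ Sum.inr i ∧ c ≠ Sum.inr i'} := fun i i' e => by
    rw [hM i (by omega), ← Subgroup.closure_eq (CfsgH1.FxS _ _)]
    congr 1
    ext A
    refine ⟨fun h => CfsgH1.mem_FxS.2 ?_, fun h => ⟨fun l => CfsgH1.mem_FxS.1 h _ (by simp),
      fun l h1 h2 => CfsgH1.mem_FxS.1 h _ (by simp [Fin.ext_iff]; omega)⟩⟩
    rintro (c | c) hc
    · exact h.1 c
    · simp [Fin.ext_iff] at hc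
      exact h.2 c hc.1 (by omega)
  obtain ⟨G, g1, g2, g3, g4, g5, -⟩ := CfsgH1.sp_amalgam hF (MonoidHom.fst _ H)
    (fun j => CfsgH1.graphOf (S j) (σ j)) (fun i => CfsgH1.graphOf (M i) (μ i))
    (fun k => by rw [CfsgH1.map_graphOf, hS']) (fun i i' e => by rw [CfsgH1.map_graphOf, hM' i i' e])
    (fun j => CfsgH1.injK_graphOf _ _) (fun j l e => CfsgH1.injK_sup (hSS j l e))
    (fun i i' e h h' => CfsgH1.injK_sup (hMM i i' e h h'))
    (fun i j h => CfsgH1.injK_sup (hMS i j h)) (n - 1) (by omega)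
  have hsurj : ∀ g, ∃ x ∈ G, x.1 = g := fun g =>
    g5.ge (CfsgH1.mem_FxS.2 fun c hc => absurd (by have := (CfsgH1.ix c).2; simp; omega) hc)
  let ε := MulEquiv.ofBijective ((MonoidHom.fst _ H).comp G.subtype)
    ⟨(injective_iff_map_eq_one _).2 fun x e => Subtype.ext (g4 _ x.2 e),
      fun g => let ⟨x, hx, e⟩ := hsurj g; ⟨⟨x, hx⟩, e⟩⟩
  have hε : ∀ x ∈ G, (ε.symm x.1).1.2 = x.2 := fun x hx => by
    rw [(ε.symm_apply_eq.2 rfl : ε.symm x.1 = ⟨x, hx⟩)]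
  have key : ∀ Φ : ↥(Matrix.symplecticGroup (Fin n) F) →* H,
      ((∀ (j : Fin n) g (hg : g ∈ S j), Φ g = σ j ⟨g, hg⟩) ∧ (∀ (i : Fin n), (i : ℕ) + 1 < n →
        ∀ g (hg : g ∈ M i), Φ g = μ i ⟨g, hg⟩)) → ∀ x ∈ G, Φ x.1 = x.2 := fun Φ h x hx => by
    refine g1 ((Φ.comp (MonoidHom.fst _ H)).eqLocus (MonoidHom.snd _ H)) ?_ ?_ hx
    · rintro j - _ ⟨y, rfl⟩
      exact h.1 j y y.2
    · rintro i hi _ ⟨y, rfl⟩
      exact h.2 i (by omega) y y.2
  refine ⟨((MonoidHom.snd _ H).comp G.subtype).comp ε.symm.toMonoidHom,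
    ⟨fun j g hg => hε (g, σ j ⟨g, hg⟩) (g2 j (by omega) ⟨⟨g, hg⟩, rfl⟩),
      fun i hi g hg => hε (g, μ i ⟨g, hg⟩) (g3 i (by omega) ⟨⟨g, hg⟩, rfl⟩)⟩, fun Φ h => ?_⟩
  refine MonoidHom.ext fun g => ?_
  obtain ⟨x, hx, rfl⟩ := hsurj g
  exact (key Φ h x hx).trans (hε x hx).symm

end Cfsg.Agent.S3713
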