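import Cfsg.Statements.S3716
import Cfsg.Agent.H8.NineNorm

set_option autoImplicit false
open Cfsg

namespace Cfsg.Agent.S3716

/-- Let G be a finite group with an elementary abelian Sylow 3-subgroup M of order 9 which is self-centralizing (C_G(M) = M), let N = N_G(M), and suppose C_G(g) ≤ N for every nonidentity g ∈ M. If the Sylow 2-subgroups of N are dihedral of order 8, then G is not simple. -/
theorem result {G : Type*} [Group G] [Finite G] (M : Sylow 3 G) (hM9 : Nat.card ↥(M : Subgroup G) = 9)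
    (hMel : ∀ m ∈ (M : Subgroup G), m ^ 3 = 1)
    (hCM : Subgroup.centralizer ((M : Subgroup G) : Set G) = (M : Subgroup G))
    (N : Subgroup G) (hN : N = Subgroup.normalizer ((M : Subgroup G) : Set G))
    (hCg : ∀ g ∈ (M : Subgroup G), g ≠ 1 → Subgroup.centralizer ({g} : Set G) ≤ N)
    (hS : ∀ S : Sylow 2 ↥N, Nonempty (↥(S : Subgroup ↥N) ≃* DihedralGroup 4)) :
    ¬ IsSimpleGroup G := by
  subst hN
  intro hsimple
  have hc : ∀ a ∈ (M : Subgroup G), ∀ b ∈ (M : Subgroup G), a * b = b * a := fun a ha b hb =>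
    (Subgroup.mem_centralizer_iff.mp (hCM.ge hb)) a ha
  obtain ⟨S⟩ : Nonempty (Sylow 2 (Subgroup.normalizer ((M : Subgroup G) : Set G))) := inferInstance
  obtain ⟨e⟩ := hS S
  have hN72 : Nat.card (Subgroup.normalizer ((M : Subgroup G) : Set G)) = 72 := by
    refine CfsgH8.card_normalizer_nine M hM9 hMel hCM S (n := 8) ?_
    rw [Nat.card_congr e.toEquiv, DihedralGroup.nat_card]
  let φ : DihedralGroup 4 →* G := (Subgroup.subtype _).comp ((Subgroup.subtype _).comp
    e.symm.toMonoidHom)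
  have hφ : Function.Injective φ :=
    Subtype.val_injective.comp (Subtype.val_injective.comp e.symm.injective)
  obtain ⟨f, hf, hfr, hfS, k, hk⟩ := CfsgH8.D8.main M hM9 hCM hN72 hCg
    (r := φ (DihedralGroup.r 1)) (s := φ (DihedralGroup.sr 0)) (Subtype.prop _) (Subtype.prop _)
    (by rw [← map_pow, map_eq_one_iff φ hφ]; decide) (by rw [← map_mul, map_eq_one_iff φ hφ]; decide)
    (by rw [← map_mul, ← map_mul, ← map_inv]; congr 1)
    (by rw [← map_pow, Ne, map_eq_one_iff φ hφ]; decide) (by rw [Ne, map_eq_one_iff φ hφ]; decide)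
  rcases hsimple.eq_bot_or_eq_top_of_normal k.ker inferInstance with h | h
  · have h1 : f CfsgH8.D8.g1 ∈ k.ker := by
      rw [MonoidHom.mem_ker, hk, show CfsgH8.D8.lr CfsgH8.D8.g1 = 1 by decide, Int.cast_one]
    rw [h, Subgroup.mem_bot, map_eq_one_iff f hf] at h1
    exact absurd h1 (by decide)
  · have h1 : f CfsgH8.D8.gS ∈ k.ker := h ▸ Subgroup.mem_top _
    rw [MonoidHom.mem_ker, hk, show CfsgH8.D8.lr CfsgH8.D8.gS = -1 by decide] at h1
    norm_num at h1

end Cfsg.Agent.S3716
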