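import Cfsg.Statements.S3726
import Cfsg.Agent.H1.Fixity
import Cfsg.Agent.L.Zass4
import Cfsg.Agent.H2.SzRec

set_option autoImplicit false
open Cfsg

namespace Cfsg.Agent.S3726

/-- Let a finite group G act faithfully and 2-transitively on a finite set Ω, and suppose there is an involution t of G, fixing exactly i points, such that every non-identity element of the centralizer of t also fixes exactly i points. Then G is isomorphic to PSL₂(q) for some finite field of order q, or to a Suzuki group Sz(q) (q = 2^(2m+1) ≥ 8), or G has a normal subgroup acting regularly on Ω. -/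
theorem result {G Ω : Type*} [Group G] [Finite G] [Fintype Ω] [MulAction G Ω] [FaithfulSMul G Ω]
    (h2 : MulAction.IsMultiplyPretransitive G Ω 2) (i : ℕ) (t : G) (ht : orderOf t = 2)
    (hti : Nat.card {x : Ω // t • x = x} = i)
    (hC : ∀ g : G, Commute g t → g ≠ 1 → Nat.card {x : Ω // g • x = x} = i) :
    (∃ (F : Type) (_ : Field F) (_ : Fintype F), Nonempty (G ≃* Matrix.ProjectiveSpecialLinearGroup (Fin 2) F)) ∨
    Cfsg.Lie.IsoSuzuki G ∨
    (∃ R : Subgroup G, R.Normal ∧ (∀ x y : Ω, ∃ r ∈ R, r • x = y) ∧ ∀ x : Ω, ∀ r ∈ R, r • x = x → r = 1) := by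
  have h : CfsgH1.FX G Ω i t := ⟨fun g hg => FaithfulSMul.eq_of_smul_eq_smul (α := Ω) (by simpa using hg),
    MulAction.is_two_pretransitive_iff.1 h2, by rw [← pow_two, ← ht, pow_orderOf_eq_one],
    by rintro rfl; simp at ht, fun g a b => hC g a b⟩
  by_cases h1 : ∃ g : G, g ≠ 1 ∧ ∃ a b : Ω, a ≠ b ∧ g • a = a ∧ g • b = b
  swap
  · obtain ⟨K, a, b⟩ := CfsgH3.frobenius_perm (G := G) (Ω := Ω) ⊤ Set.univ
      (fun a _ b _ => let ⟨g, e⟩ := h.zt.trans a b; ⟨g, trivial, e⟩) (fun _ _ _ _ => trivial)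
      fun g _ a _ b _ n f1 f2 => by
        by_contra e
        exact h1 ⟨g, e, a, b, n, f1, f2⟩
    refine .inr (.inr ⟨K, ⟨fun n hn g => (a _).2 ⟨trivial, ((a n).1 hn).2.imp (fun e => by simp [e])
      fun e x _ f => e (g⁻¹ • x) trivial ?_⟩⟩, fun x y => b x trivial y trivial,
      fun x r hr e => ((a r).1 hr).2.resolve_right fun f => f x trivial e⟩)
    rw [eq_inv_smul_iff, ← mul_smul, ← mul_smul, f]
  by_cases h3 : ∀ N : Subgroup G, N.Normal → MulAction.IsPretransitive N Ω →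
    ∃ a : Ω, MulAction.stabilizer N a ≠ ⊥
  swap
  · push Not at h3
    obtain ⟨N, a, b, c⟩ := h3
    refine .inr (.inr ⟨N, a, fun x y => let ⟨g, e⟩ := b.exists_smul_eq x y; ⟨g, g.2, e⟩,
      fun x r hr e => ?_⟩)
    have : (⟨r, hr⟩ : N) ∈ MulAction.stabilizer N x := e
    rw [c x] at this
    exact congrArg Subtype.val (Subgroup.mem_bot.1 this)
  have hZ : Cfsg.IsZassenhausGroup G Ω := ⟨inferInstance, h2, h.zt.three, h1, h3⟩
  have := h.simple hZ
  obtain ⟨g, -, a, b, hab, -⟩ := h1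
  rcases CfsgL.zass_cases hZ hab with e | e
  · obtain ⟨F, _, _, -, h1⟩ := CfsgH3.zass_psl2_of_card hZ hab e
    exact Or.inl ⟨F, _, inferInstance, h1⟩
  · obtain ⟨m, hm, -, f⟩ := CfsgH2.equiv_Sz_of_card_K hZ hab e.1 e.2
    have : Fact (Nat.Prime 2) := ⟨Nat.prime_two⟩
    have := Fintype.ofFinite (GaloisField 2 (2 * m + 1))
    have c : Fintype.card (GaloisField 2 (2 * m + 1)) = 2 ^ (2 * m + 1) := by
      rw [← Nat.card_eq_fintype_card, GaloisField.card 2 _ (by omega)]
    exact .inr (.inl ⟨_, _, _, m, hm, c, f _ c⟩)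

end Cfsg.Agent.S3726
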