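import Cfsg.Statements.S3727
import Cfsg.Agent.H4.L3h

set_option autoImplicit false
open Cfsg

namespace Cfsg.Agent.S3727

/-- Let a finite group G act faithfully and 2-transitively on a finite set Ω of even size, and suppose the stabilizer of a point a has a normal subgroup N isomorphic to PSL₃(q) with q = 2ⁿ, n ≥ 1. Then N is transitive on the remaining points, and either G has a normal subgroup of order q³ acting regularly on Ω and n is odd, or Ω has 22 points, q = 4, and G is isomorphic to the Mathieu group M₂₂ or has a subgroup of index 2 isomorphic to M₂₂. -/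
theorem result {G Ω : Type*} [Group G] [Finite G] [Fintype Ω] [MulAction G Ω] [FaithfulSMul G Ω]
    (h2 : MulAction.IsMultiplyPretransitive G Ω 2) (hev : Even (Fintype.card Ω)) (a : Ω) (N : Subgroup G)
    (hNle : N ≤ MulAction.stabilizer G a) (hNnormal : ∀ g ∈ MulAction.stabilizer G a, ∀ x ∈ N, g * x * g⁻¹ ∈ N)
    (n : ℕ) (hn : 1 ≤ n)
    (hN : ∃ (F : Type) (_ : Field F) (_ : Fintype F), Fintype.card F = 2 ^ n ∧
      Nonempty (↥N ≃* Matrix.ProjectiveSpecialLinearGroup (Fin 3) F)) :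
    (∀ x y : Ω, x ≠ a → y ≠ a → ∃ g ∈ N, g • x = y) ∧
    ((Odd n ∧ ∃ E : Subgroup G, E.Normal ∧ Nat.card E = (2 ^ n) ^ 3 ∧ (∀ x y : Ω, ∃ r ∈ E, r • x = y) ∧
        ∀ x : Ω, ∀ r ∈ E, r • x = x → r = 1) ∨
     (Fintype.card Ω = 22 ∧ n = 2 ∧ (Cfsg.Spor.IsoM22 G ∨ ∃ H : Subgroup G, H.index = 2 ∧ Cfsg.Spor.IsoM22 ↥H))) := by
  obtain ⟨F, _, _, hF, ⟨e⟩⟩ := hN
  have := CfsgH6.charP_of_card Nat.prime_two hF
  obtain ⟨S, rfl, hq⟩ := CfsgL3.exists_sit h2 (Nat.card_eq_fintype_card (α := Ω) ▸ hev) hNle hNnormal e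
  rw [hF] at hq
  have : Nonempty Ω := ⟨a⟩
  obtain ⟨m, hm0, hm⟩ := S.exists_s
  by_cases h : m + 1 = S.q
  · exact ⟨fun x y hx hy => CfsgL3.Sit.trans_M hm h hx.symm hy.symm, .inl ⟨CfsgL3.odd_of_card hF
      (hq ▸ Nat.card_congr e.toEquiv ▸ CfsgL3.Sit.card_M_ge hm h a), hq ▸ CfsgL3.Sit.exists_reg hm h a⟩⟩
  obtain rfl := (CfsgL3.Sit.dich hm0 hm a).resolve_right h
  have h1 := CfsgL3.Sit.dvd_twelve hm a rfl
  have h3 : n = 2 := by
    have h4 := Nat.le_of_dvd (by omega) h1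
    rw [hq] at h h1 h4
    have : n < 4 := (Nat.pow_lt_pow_iff_right one_lt_two).1 (by omega)
    interval_cases n <;> simp_all
  subst h3
  exact ⟨fun x y hx hy => CfsgL3.Sit.trans_one hm hx.symm hy.symm, .inr ⟨by
    rw [← Nat.card_eq_fintype_card, CfsgL3.Sit.card_Ω hm a, hq]; rfl, rfl, CfsgL3.Sit.m22 hm hq a
      (e.trans (CfsgH6.nonempty_psl_congr (hF.trans CfsgH9.card_GF4.symm)).some)⟩⟩

end Cfsg.Agent.S3727
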