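import Cfsg.Statements.S3730
import Cfsg.Agent.H5.NCTop
import Cfsg.Agent.FT.Main

set_option autoImplicit false
open Cfsg

namespace Cfsg.Agent.S3730

/-- Let G be a nontrivial finite group with no nontrivial solvable normal subgroup, such that for every cyclic subgroup X of even order and every nontrivial subgroup Y of X one has N_G(X) = N_G(Y) (every nontrivial subgroup of a cyclic subgroup of even order has the same normalizer as the whole cyclic subgroup). Then G is isomorphic to PSL(2, q) or to PGL(2, q) for some prime power q > 3. -/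
theorem result
    {G : Type*} [Group G] [Finite G] [Nontrivial G]
    (hss : ∀ N : Subgroup G, N.Normal → Group.IsSolvable ↥N → N = ⊥)
    (hii : ∀ X : Subgroup G, IsCyclic ↥X → Even (Nat.card ↥X) → ∀ Y : Subgroup G, Y ≤ X → Y ≠ ⊥ →
      Subgroup.normalizer (X : Set G) = Subgroup.normalizer (Y : Set G)) :
    ∃ (F : Type) (_ : Field F) (_ : Fintype F), 3 < Fintype.card F ∧
      (Nonempty (G ≃* Matrix.ProjectiveSpecialLinearGroup (Fin 2) F) ∨
        Nonempty (G ≃* Matrix.ProjGenLinGroup (Fin 2) F)) := by
  refine CfsgH5.nc_top (fun T => CfsgSZ.two_dvd_of_not_solvable) hss (fun x y g h1 h2 h3 h4 => ?_)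
  have e := hii (Subgroup.zpowers x) inferInstance (by rwa [Nat.card_zpowers, even_iff_two_dvd])
    (Subgroup.zpowers y) (Subgroup.zpowers_le.mpr h2) (by simpa using h3)
  have : g ∈ Subgroup.normalizer (Subgroup.zpowers y : Set G) :=
    CfsgH5.mem_normalizer_of_conj_mem fun a ha => Subgroup.zpowers_le.mpr ha (h4.of_mem ha)
  rw [← e] at this
  exact (Subgroup.mem_normalizer_iff.mp this x).mp (Subgroup.mem_zpowers x)

end Cfsg.Agent.S3730
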